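import Mathlib
import Cfsg.Prelude.Def_GeometricClasses
import Cfsg.Prelude.Def_Classical
import Cfsg.Agent.Helper13.TIDefs2
import Cfsg.Agent.Helper43.PrimeOrdO3
import Cfsg.Agent.Helper42.BCc
import Cfsg.Agent.Helper31.C3OOMODD
import Cfsg.Agent.Helper4.C3OZDEC
import Cfsg.Agent.Helper11.C3OFIXDIM
import Cfsg.Agent.Helper45.PSO

set_option autoImplicit false

/-!
# S5972 (helper95): `Ω_{2d+1}(q)` on totally singular `m`-spaces -- definitions and hub

This file imports the S5955 pieces (via `Helper13.TIDefs2`), helper43's prime-order machinery for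
orthogonal groups, helper42's transport lemmas (`BCc`) and helper45's spinor norm API.
-/

namespace Cfsg.Agent.Helper95.OTS

open Module Cfsg.Agent.Helper13.TIsp Cfsg.Agent.Helper42.SpGroup

/-- The polar form of `Cfsg.quadFormOdd d F`. -/
noncomputable def oB (d : ℕ) (F : Type*) [Field F] :
    LinearMap.BilinForm F (Unit ⊕ (Fin d ⊕ Fin d) → F) :=
  QuadraticMap.polarBilin (Cfsg.Agent.Helper43.oddQF d F)

theorem oB_apply (d : ℕ) (F : Type*) [Field F] (u v : Unit ⊕ (Fin d ⊕ Fin d) → F) :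
    oB d F u v = Cfsg.quadFormOdd d F (u + v) - Cfsg.quadFormOdd d F u - Cfsg.quadFormOdd d F v :=
  rfl

theorem oB_polar (d : ℕ) (F : Type*) [Field F] (u v : Unit ⊕ (Fin d ⊕ Fin d) → F) :
    oB d F u v = QuadraticMap.polar (Cfsg.quadFormOdd d F) u v :=
  rfl

theorem oB_symm (d : ℕ) (F : Type*) [Field F] (u v : Unit ⊕ (Fin d ⊕ Fin d) → F) :
    oB d F u v = oB d F v u := by
  rw [oB_apply, oB_apply, add_comm u v]
  ring

theorem oB_self (d : ℕ) (F : Type*) [Field F] (v : Unit ⊕ (Fin d ⊕ Fin d) → F) :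
    oB d F v v = 2 * Cfsg.quadFormOdd d F v := by
  have h := QuadraticMap.polar_self (Cfsg.Agent.Helper43.oddQF d F) v
  rw [two_nsmul] at h
  rw [oB_polar, two_mul]
  exact h

theorem oB_nondeg (d : ℕ) (F : Type*) [Field F] (h2 : (2 : F) ≠ 0)
    (v : Unit ⊕ (Fin d ⊕ Fin d) → F) (hv : ∀ w, oB d F v w = 0) : v = 0 := by
  have h := Cfsg.Agent.Helper43.PrimeOrdO.oddQF_nondeg (F := F) h2 d
  exact h.1 v hv

/-- Totally singular for `quadFormOdd` = totally isotropic for its polar form (char ≠ 2). -/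
theorem ots_iff_ti (d : ℕ) (F : Type*) [Field F] (h2 : (2 : F) ≠ 0)
    (W : Submodule F (Unit ⊕ (Fin d ⊕ Fin d) → F)) :
    (∀ w ∈ W, Cfsg.quadFormOdd d F w = 0) ↔ TI (oB d F) W := by
  constructor
  · intro h u hu v hv
    rw [oB_apply, h _ (W.add_mem hu hv), h u hu, h v hv]
    ring
  · intro h w hw
    have h1 := h w hw w hw
    rw [oB_self] at h1
    exact (mul_eq_zero.mp h1).resolve_left h2

/-- Linearly independent totally singular `m`-families of the standard odd orthogonal space. -/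
def OTSFam (F : Type*) [Field F] (d m : ℕ) : Type _ :=
  {v : Fin m → (Unit ⊕ (Fin d ⊕ Fin d) → F) // LinearIndependent F v ∧
    (∀ a, Cfsg.quadFormOdd d F (v a) = 0) ∧ ∀ a b, oB d F (v a) (v b) = 0}

/-- The endomorphism of an element of the isometry group. -/
noncomputable abbrev oEnd {d : ℕ} {F : Type*} [Field F]
    (g : ↥(Cfsg.isometryGroup F (Cfsg.quadFormOdd d F))) :
    Module.End F (Unit ⊕ (Fin d ⊕ Fin d) → F) :=
  Matrix.toLin' ((g : GL (Unit ⊕ (Fin d ⊕ Fin d)) F) :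
    Matrix (Unit ⊕ (Fin d ⊕ Fin d)) (Unit ⊕ (Fin d ⊕ Fin d)) F)

theorem oEnd_quad {d : ℕ} {F : Type*} [Field F]
    (g : ↥(Cfsg.isometryGroup F (Cfsg.quadFormOdd d F))) (v : Unit ⊕ (Fin d ⊕ Fin d) → F) :
    Cfsg.quadFormOdd d F (oEnd g v) = Cfsg.quadFormOdd d F v := by
  have h := g.2 v v
  simpa [oEnd, Matrix.toLin'_apply] using h

theorem oEnd_pres {d : ℕ} {F : Type*} [Field F]
    (g : ↥(Cfsg.isometryGroup F (Cfsg.quadFormOdd d F))) : Preserves (oB d F) (oEnd g) := by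
  intro u v
  rw [oB_apply, oB_apply, ← map_add, oEnd_quad, oEnd_quad, oEnd_quad]

theorem oEnd_pow {d : ℕ} {F : Type*} [Field F]
    (g : ↥(Cfsg.isometryGroup F (Cfsg.quadFormOdd d F))) (k : ℕ) :
    oEnd (g ^ k) = oEnd g ^ k := by
  show Matrix.toLin' (((g ^ k : ↥(Cfsg.isometryGroup F (Cfsg.quadFormOdd d F))) :
    GL (Unit ⊕ (Fin d ⊕ Fin d)) F) :
    Matrix (Unit ⊕ (Fin d ⊕ Fin d)) (Unit ⊕ (Fin d ⊕ Fin d)) F) = _
  rw [Subgroup.coe_pow, Units.val_pow_eq_pow_val]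
  exact map_pow (Matrix.toLinAlgEquiv' (R := F) (n := Unit ⊕ (Fin d ⊕ Fin d))) _ k

theorem oEnd_one {d : ℕ} {F : Type*} [Field F] :
    oEnd (1 : ↥(Cfsg.isometryGroup F (Cfsg.quadFormOdd d F))) = 1 := by
  show Matrix.toLin' (1 : Matrix (Unit ⊕ (Fin d ⊕ Fin d)) (Unit ⊕ (Fin d ⊕ Fin d)) F) = 1
  exact Matrix.toLin'_one

theorem oEnd_injective {d : ℕ} {F : Type*} [Field F] :
    Function.Injective (oEnd : ↥(Cfsg.isometryGroup F (Cfsg.quadFormOdd d F)) → _) := by
  intro g h hgh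
  apply Subtype.ext
  apply Units.ext
  exact Matrix.toLin'.injective hgh

theorem finrank_oV (d : ℕ) (F : Type*) [Field F] :
    finrank F (Unit ⊕ (Fin d ⊕ Fin d) → F) = 2 * d + 1 := by
  rw [Module.finrank_fintype_fun_eq_card, Fintype.card_sum, Fintype.card_sum, Fintype.card_fin,
    Fintype.card_unit]
  ring

end Cfsg.Agent.Helper95.OTS
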