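import Mathlib
import Cfsg.Prelude.Def_G2

/-!
# Helper95: explicit subgroups of `Cfsg.Lie.G2 F` (CALL S4632)

Zorn coordinates on `F⁸`: `x = (α, a₁, a₂, a₃, b₁, b₂, b₃, β)` (indices `0 … 7`).

* `m3 A B` : the block matrix `1 ⊕ A ⊕ B ⊕ 1`.
* `phi3 F : SL₃(F) →* GL₈(F)`, `A ↦ m3 A A⁻ᵀ` (`a ↦ A a`, `b ↦ A⁻ᵀ b`).
* `hat F : GL₂(F) →* GL₈(F)`, `h ↦ m3 (diag((det h)⁻¹, h)) (diag(det h, h⁻ᵀ))`.
* `phi2 F : SL₂(F) →* GL₈(F)`, `c ↦ mphi p q r s` : conjugation by `c` on the quaternion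
  subalgebra `H = {(α, a₁, b₁, β)} ≅ M₂(F)`, and `c⁻ᵀ ⊗ 1` on `H^⊥`.
* `gdiag x y : GL₂(F)`, `gweyl : GL₂(F)`, `sdiag t : SL₂(F)`, `sweyl : SL₂(F)`,
  `tw δ c : SL₂(F)` (conjugate of `c` by `diag(1, δ)`).
* `e0`, `one8`, `idem F` : the idempotent `e = (1,0,…,0)`, the unit, the set of idempotents `≠ 0, 1`.
-/

set_option autoImplicit false

namespace Cfsg.Agent.Helper95.G2Syl

open Matrix

variable {F : Type*} [Field F]

/-- the block matrix `1 ⊕ A ⊕ B ⊕ 1` in Zorn coordinates `(α, a, b, β)` -/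
def m3 (A B : Matrix (Fin 3) (Fin 3) F) : Matrix (Fin 8) (Fin 8) F :=
  !![1, 0, 0, 0, 0, 0, 0, 0;
     0, A 0 0, A 0 1, A 0 2, 0, 0, 0, 0;
     0, A 1 0, A 1 1, A 1 2, 0, 0, 0, 0;
     0, A 2 0, A 2 1, A 2 2, 0, 0, 0, 0;
     0, 0, 0, 0, B 0 0, B 0 1, B 0 2, 0;
     0, 0, 0, 0, B 1 0, B 1 1, B 1 2, 0;
     0, 0, 0, 0, B 2 0, B 2 1, B 2 2, 0;
     0, 0, 0, 0, 0, 0, 0, 1]

theorem mul8 (M N : Matrix (Fin 8) (Fin 8) F) (i j : Fin 8) :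
    (M * N) i j = M i 0 * N 0 j + M i 1 * N 1 j + M i 2 * N 2 j + M i 3 * N 3 j + M i 4 * N 4 j +
      M i 5 * N 5 j + M i 6 * N 6 j + M i 7 * N 7 j := by
  simp [Matrix.mul_apply, Fin.sum_univ_eight]

theorem mul3 (M N : Matrix (Fin 3) (Fin 3) F) (i j : Fin 3) :
    (M * N) i j = M i 0 * N 0 j + M i 1 * N 1 j + M i 2 * N 2 j := by
  simp [Matrix.mul_apply, Fin.sum_univ_three]

theorem mulVec8 (M : Matrix (Fin 8) (Fin 8) F) (x : Fin 8 → F) (i : Fin 8) :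
    (M *ᵥ x) i = M i 0 * x 0 + M i 1 * x 1 + M i 2 * x 2 + M i 3 * x 3 + M i 4 * x 4 +
      M i 5 * x 5 + M i 6 * x 6 + M i 7 * x 7 := by
  simp [Matrix.mulVec, dotProduct, Fin.sum_univ_eight]

theorem m3_one : m3 (1 : Matrix (Fin 3) (Fin 3) F) 1 = 1 := by
  ext i j
  fin_cases i <;> fin_cases j <;> simp [m3]

set_option maxHeartbeats 1600000 in
theorem m3_mul (A B A' B' : Matrix (Fin 3) (Fin 3) F) :
    m3 A B * m3 A' B' = m3 (A * A') (B * B') := by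
  ext i j
  rw [mul8]
  fin_cases i <;> fin_cases j <;> simp [m3, mul3]

theorem m3_mulVec (A B : Matrix (Fin 3) (Fin 3) F) (x : Fin 8 → F) :
    m3 A B *ᵥ x =
      ![x 0,
        A 0 0 * x 1 + A 0 1 * x 2 + A 0 2 * x 3,
        A 1 0 * x 1 + A 1 1 * x 2 + A 1 2 * x 3,
        A 2 0 * x 1 + A 2 1 * x 2 + A 2 2 * x 3,
        B 0 0 * x 4 + B 0 1 * x 5 + B 0 2 * x 6,
        B 1 0 * x 4 + B 1 1 * x 5 + B 1 2 * x 6,
        B 2 0 * x 4 + B 2 1 * x 5 + B 2 2 * x 6,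
        x 7] := by
  ext i
  rw [mulVec8]
  fin_cases i <;> simp [m3]

/-- the matrix of `phi2 c`, `c = !![p, q; r, s]` -/
def mphi (p q r s : F) : Matrix (Fin 8) (Fin 8) F :=
  !![p * s, -(p * r), 0, 0, q * s, 0, 0, -(q * r);
     -(p * q), p * p, 0, 0, -(q * q), 0, 0, p * q;
     0, 0, s, 0, 0, 0, -r, 0;
     0, 0, 0, s, 0, r, 0, 0;
     r * s, -(r * r), 0, 0, s * s, 0, 0, -(r * s);
     0, 0, 0, q, 0, p, 0, 0;
     0, 0, -q, 0, 0, 0, p, 0;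
     -(q * r), p * r, 0, 0, -(q * s), 0, 0, p * s]

theorem mphi_one : mphi (1 : F) 0 0 1 = 1 := by
  ext i j
  fin_cases i <;> fin_cases j <;> simp [mphi]

set_option maxHeartbeats 1600000 in
theorem mphi_mul (p q r s p' q' r' s' : F) :
    mphi p q r s * mphi p' q' r' s' =
      mphi (p * p' + q * r') (p * q' + q * s') (r * p' + s * r') (r * q' + s * s') := by
  ext i j
  rw [mul8]
  fin_cases i <;> fin_cases j <;> simp [mphi] <;> ring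

theorem mphi_mulVec (p q r s : F) (x : Fin 8 → F) :
    mphi p q r s *ᵥ x =
      ![p * s * x 0 - p * r * x 1 + q * s * x 4 - q * r * x 7,
        -(p * q * x 0) + p * p * x 1 - q * q * x 4 + p * q * x 7,
        s * x 2 - r * x 6,
        s * x 3 + r * x 5,
        r * s * x 0 - r * r * x 1 + s * s * x 4 - r * s * x 7,
        q * x 3 + p * x 5,
        -(q * x 2) + p * x 6,
        -(q * r * x 0) + p * r * x 1 - q * s * x 4 + p * s * x 7] := by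
  ext i
  rw [mulVec8]
  fin_cases i <;> simp [mphi] <;> ring

/-- the `a`-block of `hat h` -/
def hA (h : Matrix (Fin 2) (Fin 2) F) : Matrix (Fin 3) (Fin 3) F :=
  !![(h 0 0 * h 1 1 - h 0 1 * h 1 0)⁻¹, 0, 0;
     0, h 0 0, h 0 1;
     0, h 1 0, h 1 1]

/-- the `b`-block of `hat h` -/
def hB (h : Matrix (Fin 2) (Fin 2) F) : Matrix (Fin 3) (Fin 3) F :=
  !![h 0 0 * h 1 1 - h 0 1 * h 1 0, 0, 0;
     0, (h 0 0 * h 1 1 - h 0 1 * h 1 0)⁻¹ * h 1 1, -((h 0 0 * h 1 1 - h 0 1 * h 1 0)⁻¹ * h 1 0);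
     0, -((h 0 0 * h 1 1 - h 0 1 * h 1 0)⁻¹ * h 0 1), (h 0 0 * h 1 1 - h 0 1 * h 1 0)⁻¹ * h 0 0]

theorem hA_one : hA (1 : Matrix (Fin 2) (Fin 2) F) = 1 := by
  ext i j
  fin_cases i <;> fin_cases j <;> simp [hA]

theorem hB_one : hB (1 : Matrix (Fin 2) (Fin 2) F) = 1 := by
  ext i j
  fin_cases i <;> fin_cases j <;> simp [hB]

theorem det2_mul (h h' : Matrix (Fin 2) (Fin 2) F) :
    (h * h') 0 0 * (h * h') 1 1 - (h * h') 0 1 * (h * h') 1 0 =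
      (h 0 0 * h 1 1 - h 0 1 * h 1 0) * (h' 0 0 * h' 1 1 - h' 0 1 * h' 1 0) := by
  simp [Matrix.mul_apply, Fin.sum_univ_succ]; ring

theorem hA_mul (h h' : Matrix (Fin 2) (Fin 2) F) :
    hA (h * h') = hA h * hA h' := by
  ext i j
  rw [mul3]
  fin_cases i <;> fin_cases j <;>
    simp only [hA, det2_mul, mul_inv] <;>
    simp [Matrix.mul_apply, Fin.sum_univ_succ]

theorem hB_mul (h h' : Matrix (Fin 2) (Fin 2) F) :
    hB (h * h') = hB h * hB h' := by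
  ext i j
  rw [mul3]
  fin_cases i <;> fin_cases j <;>
    simp only [hB, det2_mul, mul_inv] <;>
    simp [Matrix.mul_apply, Fin.sum_univ_succ] <;> ring

/-- `φ₃ : SL₃(F) → GL₈(F)` : `a ↦ A a`, `b ↦ A⁻ᵀ b` -/
def phi3 (F : Type*) [Field F] : Matrix.SpecialLinearGroup (Fin 3) F →* GL (Fin 8) F :=
  MonoidHom.toHomUnits
    { toFun := fun A => m3 (A : Matrix (Fin 3) (Fin 3) F)
        ((A⁻¹ : Matrix.SpecialLinearGroup (Fin 3) F) : Matrix (Fin 3) (Fin 3) F)ᵀ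
      map_one' := by
        simp [m3_one]
      map_mul' := fun A B => by
        have h1 : ((A * B : Matrix.SpecialLinearGroup (Fin 3) F) : Matrix (Fin 3) (Fin 3) F) =
            (A : Matrix (Fin 3) (Fin 3) F) * (B : Matrix (Fin 3) (Fin 3) F) :=
          Matrix.SpecialLinearGroup.coe_mul A B
        have h2 : (((A * B)⁻¹ : Matrix.SpecialLinearGroup (Fin 3) F) : Matrix (Fin 3) (Fin 3) F) =
            ((B⁻¹ : Matrix.SpecialLinearGroup (Fin 3) F) : Matrix (Fin 3) (Fin 3) F) *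
              ((A⁻¹ : Matrix.SpecialLinearGroup (Fin 3) F) : Matrix (Fin 3) (Fin 3) F) := by
          rw [_root_.mul_inv_rev]
          exact Matrix.SpecialLinearGroup.coe_mul _ _
        rw [m3_mul, h1, h2, Matrix.transpose_mul] }

theorem phi3_coe (A : Matrix.SpecialLinearGroup (Fin 3) F) :
    ((phi3 F A : GL (Fin 8) F) : Matrix (Fin 8) (Fin 8) F) =
      m3 (A : Matrix (Fin 3) (Fin 3) F)
        ((A⁻¹ : Matrix.SpecialLinearGroup (Fin 3) F) : Matrix (Fin 3) (Fin 3) F)ᵀ := rfl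

/-- `hat : GL₂(F) → GL₈(F)`, `h ↦ φ₃(diag((det h)⁻¹, h))` -/
def hat (F : Type*) [Field F] : GL (Fin 2) F →* GL (Fin 8) F :=
  MonoidHom.toHomUnits
    { toFun := fun h => m3 (hA (h : Matrix (Fin 2) (Fin 2) F)) (hB (h : Matrix (Fin 2) (Fin 2) F))
      map_one' := by
        simp [hA_one, hB_one, m3_one]
      map_mul' := fun h h' => by
        rw [m3_mul, Units.val_mul, hA_mul, hB_mul] }

theorem hat_coe (h : GL (Fin 2) F) :
    ((hat F h : GL (Fin 8) F) : Matrix (Fin 8) (Fin 8) F) =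
      m3 (hA (h : Matrix (Fin 2) (Fin 2) F)) (hB (h : Matrix (Fin 2) (Fin 2) F)) := rfl

/-- `φ₂ : SL₂(F) → GL₈(F)` : conjugation by `c` on `H = {(α, a₁, b₁, β)} ≅ M₂(F)`,
`c⁻ᵀ ⊗ 1` on `H^⊥` -/
def phi2 (F : Type*) [Field F] : Matrix.SpecialLinearGroup (Fin 2) F →* GL (Fin 8) F :=
  MonoidHom.toHomUnits
    { toFun := fun c => mphi ((c : Matrix (Fin 2) (Fin 2) F) 0 0) ((c : Matrix (Fin 2) (Fin 2) F) 0 1)
        ((c : Matrix (Fin 2) (Fin 2) F) 1 0) ((c : Matrix (Fin 2) (Fin 2) F) 1 1)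
      map_one' := by
        simp [mphi_one]
      map_mul' := fun c c' => by
        rw [mphi_mul]
        simp [Matrix.mul_apply, Fin.sum_univ_succ] }

theorem phi2_coe (c : Matrix.SpecialLinearGroup (Fin 2) F) :
    ((phi2 F c : GL (Fin 8) F) : Matrix (Fin 8) (Fin 8) F) =
      mphi ((c : Matrix (Fin 2) (Fin 2) F) 0 0) ((c : Matrix (Fin 2) (Fin 2) F) 0 1)
        ((c : Matrix (Fin 2) (Fin 2) F) 1 0) ((c : Matrix (Fin 2) (Fin 2) F) 1 1) := rfl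

/-- `diag(x, y) ∈ GL₂(F)` -/
def gdiag (x y : Fˣ) : GL (Fin 2) F :=
  ⟨!![(x : F), 0; 0, (y : F)], !![((x⁻¹ : Fˣ) : F), 0; 0, ((y⁻¹ : Fˣ) : F)],
    by ext i j; fin_cases i <;> fin_cases j <;> simp [Matrix.mul_apply, Fin.sum_univ_succ],
    by ext i j; fin_cases i <;> fin_cases j <;> simp [Matrix.mul_apply, Fin.sum_univ_succ]⟩

theorem gdiag_coe (x y : Fˣ) :
    ((gdiag x y : GL (Fin 2) F) : Matrix (Fin 2) (Fin 2) F) = !![(x : F), 0; 0, (y : F)] := rfl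

/-- `!![0, 1; -1, 0] ∈ GL₂(F)` -/
def gweyl (F : Type*) [Field F] : GL (Fin 2) F :=
  ⟨!![0, 1; -1, 0], !![0, -1; 1, 0],
    by ext i j; fin_cases i <;> fin_cases j <;> simp [Matrix.mul_apply, Fin.sum_univ_succ],
    by ext i j; fin_cases i <;> fin_cases j <;> simp [Matrix.mul_apply, Fin.sum_univ_succ]⟩

theorem gweyl_coe : ((gweyl F : GL (Fin 2) F) : Matrix (Fin 2) (Fin 2) F) = !![0, 1; -1, 0] := rfl

/-- `diag(t, t⁻¹) ∈ SL₂(F)` -/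
def sdiag (t : Fˣ) : Matrix.SpecialLinearGroup (Fin 2) F :=
  ⟨!![(t : F), 0; 0, ((t⁻¹ : Fˣ) : F)], by simp [Matrix.det_fin_two]⟩

theorem sdiag_coe (t : Fˣ) :
    ((sdiag t : Matrix.SpecialLinearGroup (Fin 2) F) : Matrix (Fin 2) (Fin 2) F) =
      !![(t : F), 0; 0, ((t⁻¹ : Fˣ) : F)] := rfl

/-- `!![0, 1; -1, 0] ∈ SL₂(F)` -/
def sweyl (F : Type*) [Field F] : Matrix.SpecialLinearGroup (Fin 2) F :=
  ⟨!![0, 1; -1, 0], by simp [Matrix.det_fin_two]⟩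

theorem sweyl_coe :
    ((sweyl F : Matrix.SpecialLinearGroup (Fin 2) F) : Matrix (Fin 2) (Fin 2) F) = !![0, 1; -1, 0] := rfl

/-- the conjugate of `c ∈ SL₂(F)` by `diag(1, δ)` -/
def tw (δ : Fˣ) (c : Matrix.SpecialLinearGroup (Fin 2) F) : Matrix.SpecialLinearGroup (Fin 2) F :=
  ⟨!![(c : Matrix (Fin 2) (Fin 2) F) 0 0, (c : Matrix (Fin 2) (Fin 2) F) 0 1 * ((δ⁻¹ : Fˣ) : F);
      (c : Matrix (Fin 2) (Fin 2) F) 1 0 * (δ : F), (c : Matrix (Fin 2) (Fin 2) F) 1 1], by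
    have h := c.2
    rw [Matrix.det_fin_two] at h
    rw [Matrix.det_fin_two]
    simp only [Matrix.of_apply, Matrix.cons_val', Matrix.cons_val_zero, Matrix.cons_val_one,
      Matrix.cons_val_fin_one]
    have hδ : ((δ⁻¹ : Fˣ) : F) * (δ : F) = 1 := by
      rw [← Units.val_mul, inv_mul_cancel, Units.val_one]
    linear_combination h - (c : Matrix (Fin 2) (Fin 2) F) 0 1 * (c : Matrix (Fin 2) (Fin 2) F) 1 0 * hδ⟩

theorem tw_coe (δ : Fˣ) (c : Matrix.SpecialLinearGroup (Fin 2) F) :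
    ((tw δ c : Matrix.SpecialLinearGroup (Fin 2) F) : Matrix (Fin 2) (Fin 2) F) =
      !![(c : Matrix (Fin 2) (Fin 2) F) 0 0, (c : Matrix (Fin 2) (Fin 2) F) 0 1 * ((δ⁻¹ : Fˣ) : F);
        (c : Matrix (Fin 2) (Fin 2) F) 1 0 * (δ : F), (c : Matrix (Fin 2) (Fin 2) F) 1 1] := rfl

/-- the idempotent `e = (1, 0, …, 0)` -/
def e0 (F : Type*) [Field F] : Fin 8 → F := ![1, 0, 0, 0, 0, 0, 0, 0]

/-- the unit of the Zorn algebra -/
def one8 (F : Type*) [Field F] : Fin 8 → F := ![1, 0, 0, 0, 0, 0, 0, 1]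

/-- the idempotents different from `0` and `1` -/
def idem (F : Type*) [Field F] : Set (Fin 8 → F) :=
  {x | Cfsg.Lie.zornMul x x = x ∧ x ≠ 0 ∧ x ≠ one8 F}

theorem mem_G2_iff (g : GL (Fin 8) F) :
    g ∈ Cfsg.Lie.G2 F ↔ ∀ x y : Fin 8 → F,
      (g : Matrix (Fin 8) (Fin 8) F) *ᵥ Cfsg.Lie.zornMul x y =
        Cfsg.Lie.zornMul ((g : Matrix (Fin 8) (Fin 8) F) *ᵥ x)
          ((g : Matrix (Fin 8) (Fin 8) F) *ᵥ y) := Iff.rfl

theorem zornMul_apply (x y : Fin 8 → F) :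
    Cfsg.Lie.zornMul x y =
      ![x 0 * y 0 + (x 1 * y 4 + x 2 * y 5 + x 3 * y 6),
        x 0 * y 1 + y 7 * x 1 - (x 5 * y 6 - x 6 * y 5),
        x 0 * y 2 + y 7 * x 2 - (x 6 * y 4 - x 4 * y 6),
        x 0 * y 3 + y 7 * x 3 - (x 4 * y 5 - x 5 * y 4),
        y 0 * x 4 + x 7 * y 4 + (x 2 * y 3 - x 3 * y 2),
        y 0 * x 5 + x 7 * y 5 + (x 3 * y 1 - x 1 * y 3),
        y 0 * x 6 + x 7 * y 6 + (x 1 * y 2 - x 2 * y 1),
        x 4 * y 1 + x 5 * y 2 + x 6 * y 3 + x 7 * y 7] := by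
  ext i
  fin_cases i <;> simp [Cfsg.Lie.zornMul, Cfsg.Lie.dot3, Cfsg.Lie.cross3]

end Cfsg.Agent.Helper95.G2Syl
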