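import Mathlib
import Cfsg.Agent.Helper45.Spinor
import Cfsg.Agent.Helper37.Sp2C
set_option autoImplicit false

/-!
# Sylow 2-subgroups of orthogonal groups in odd characteristic: the model

The model quadratic form is `∑ x² + ∑ c_l y_l²` on `k` planes and `r` lines. `Phi`, `Psi`, `Eps` are
the block diagonal, block permutation and sign embeddings into its isometry group.
-/

namespace Cfsg.Agent.Helper95.OSyl
open Matrix Cfsg
universe u
variable {F : Type u} [Field F] {k r : ℕ}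
abbrev MI (k r : ℕ) : Type := (Fin 2 × Fin k) ⊕ Fin r
def mW (k : ℕ) (c : Fin r → F) : MI k r → F := Sum.elim (fun _ => 1) c
noncomputable def mQ (k : ℕ) (c : Fin r → F) : QuadraticForm F (MI k r → F) :=
  QuadraticMap.weightedSumSquares F (mW k c)

theorem mQ_apply (c : Fin r → F) (v : MI k r → F) :
    mQ k c v = ∑ x : MI k r, mW k c x * (v x * v x) := by
  unfold mQ
  rw [QuadraticMap.weightedSumSquares_apply]
  rfl

theorem mQ_eq_dot (c : Fin r → F) (v : MI k r → F) :
    mQ k c v = v ⬝ᵥ (Matrix.diagonal (mW k c) *ᵥ v) := by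
  rw [mQ_apply]
  unfold dotProduct
  refine Finset.sum_congr rfl fun x _ => ?_
  rw [Matrix.mulVec_diagonal]
  ring

theorem mem_iso_of (c : Fin r → F) (M : GL (MI k r) F)
    (h : (M : Matrix (MI k r) (MI k r) F)ᵀ * Matrix.diagonal (mW k c) * (M : Matrix (MI k r) (MI k r) F)
      = Matrix.diagonal (mW k c)) : M ∈ isometryGroup F ⇑(mQ k c) := by
  rw [Cfsg.Agent.Helper45.mem_iso_iff]
  intro v
  rw [mQ_eq_dot, mQ_eq_dot]
  conv_rhs => rw [← h, ← Matrix.mulVec_mulVec, ← Matrix.mulVec_mulVec, Matrix.dotProduct_mulVec,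
    Matrix.vecMul_transpose]

theorem mW_diag (c : Fin r → F) :
    Matrix.diagonal (mW k c) = Matrix.fromBlocks 1 0 0 (Matrix.diagonal c) := by
  unfold mW
  rw [← Matrix.fromBlocks_diagonal, Matrix.diagonal_one]

/-- the orthogonal group of `x² + y²` -/
def O2 (F : Type u) [Field F] : Subgroup (GL (Fin 2) F) where
  carrier := {g | (g : Matrix (Fin 2) (Fin 2) F)ᵀ * (g : Matrix (Fin 2) (Fin 2) F) = 1}
  mul_mem' := by
    intro a b ha hb
    simp only [Set.mem_ofPred_eq, Units.val_mul, Matrix.transpose_mul] at *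
    calc (b : Matrix (Fin 2) (Fin 2) F)ᵀ * (a : Matrix (Fin 2) (Fin 2) F)ᵀ
          * ((a : Matrix (Fin 2) (Fin 2) F) * (b : Matrix (Fin 2) (Fin 2) F))
        = (b : Matrix (Fin 2) (Fin 2) F)ᵀ * ((a : Matrix (Fin 2) (Fin 2) F)ᵀ * (a : Matrix (Fin 2) (Fin 2) F))
          * (b : Matrix (Fin 2) (Fin 2) F) := by simp only [Matrix.mul_assoc]
      _ = 1 := by rw [ha, Matrix.mul_one, hb]
  one_mem' := by simp
  inv_mem' := by
    intro a ha
    simp only [Set.mem_ofPred_eq] at *
    have h1 : ((a⁻¹ : GL (Fin 2) F) : Matrix (Fin 2) (Fin 2) F) = (a : Matrix (Fin 2) (Fin 2) F)ᵀ := by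
      have h2 : (a : Matrix (Fin 2) (Fin 2) F)ᵀ * (a : Matrix (Fin 2) (Fin 2) F)
          * ((a⁻¹ : GL (Fin 2) F) : Matrix (Fin 2) (Fin 2) F) = ((a⁻¹ : GL (Fin 2) F) : Matrix (Fin 2) (Fin 2) F) := by
        rw [ha, Matrix.one_mul]
      rw [← h2, Matrix.mul_assoc, ← Units.val_mul, mul_inv_cancel, Units.val_one, Matrix.mul_one]
    rw [h1, Matrix.transpose_transpose]
    exact mul_eq_one_comm.mp ha

theorem mem_O2 (g : GL (Fin 2) F) :
    g ∈ O2 F ↔ (g : Matrix (Fin 2) (Fin 2) F)ᵀ * (g : Matrix (Fin 2) (Fin 2) F) = 1 := Iff.rfl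

/-- block diagonal matrices -/
def phiHom (k r : ℕ) (F : Type u) [Field F] :
    (Fin k → Matrix (Fin 2) (Fin 2) F) →* Matrix (MI k r) (MI k r) F where
  toFun g := Matrix.fromBlocks (Matrix.blockDiagonal g) 0 0 1
  map_one' := by
    rw [Matrix.blockDiagonal_one, Matrix.fromBlocks_one]
  map_mul' g h := by
    rw [Matrix.fromBlocks_multiply]
    have : Matrix.blockDiagonal (g * h) = Matrix.blockDiagonal g * Matrix.blockDiagonal h :=
      Matrix.blockDiagonal_mul g h
    rw [this]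
    simp

/-- the permutation of the index set `Fin 2 × Fin k` induced by a permutation of the planes -/
def pmE (σ : Equiv.Perm (Fin k)) : Equiv.Perm (Fin 2 × Fin k) :=
  Equiv.prodCongr (Equiv.refl (Fin 2)) σ⁻¹

/-- block permutation matrices -/
def psiHom (k r : ℕ) (F : Type u) [Field F] :
    Equiv.Perm (Fin k) →* Matrix (MI k r) (MI k r) F where
  toFun σ := Matrix.fromBlocks (pmE σ).toPEquiv.toMatrix 0 0 1
  map_one' := by
    have : pmE (1 : Equiv.Perm (Fin k)) = Equiv.refl _ := by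
      ext x <;> simp [pmE]
    rw [this, Equiv.toPEquiv_refl, PEquiv.toMatrix_refl, Matrix.fromBlocks_one]
  map_mul' σ τ := by
    rw [Matrix.fromBlocks_multiply, ← PEquiv.toMatrix_trans, ← Equiv.toPEquiv_trans]
    have : pmE (σ * τ) = (pmE σ).trans (pmE τ) := by
      ext x <;> simp [pmE]
    rw [this]
    simp

/-- diagonal sign matrices on the lines -/
def epsHom (k r : ℕ) (F : Type u) [Field F] :
    (Fin r → ℤˣ) →* Matrix (MI k r) (MI k r) F where
  toFun e := Matrix.fromBlocks 1 0 0 (Matrix.diagonal fun l => (((e l : ℤˣ) : ℤ) : F))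
  map_one' := by
    simp [Matrix.fromBlocks_one]
  map_mul' e e' := by
    rw [Matrix.fromBlocks_multiply]
    simp [Matrix.diagonal_mul_diagonal]


/-- `phiHom` on invertible matrices -/
def PhiGL (k r : ℕ) (F : Type u) [Field F] : (Fin k → GL (Fin 2) F) →* GL (MI k r) F :=
  (Units.map (phiHom k r F)).comp
    (MulEquiv.piUnits (M := fun _ : Fin k => Matrix (Fin 2) (Fin 2) F)).symm.toMonoidHom

theorem PhiGL_coe (g : Fin k → GL (Fin 2) F) :
    ((PhiGL k r F g : GL (MI k r) F) : Matrix (MI k r) (MI k r) F) =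
      Matrix.fromBlocks (Matrix.blockDiagonal fun i => (g i : Matrix (Fin 2) (Fin 2) F)) 0 0 1 := rfl

/-- `psiHom` as invertible matrices -/
def PsiGL (k r : ℕ) (F : Type u) [Field F] : Equiv.Perm (Fin k) →* GL (MI k r) F :=
  (psiHom k r F).toHomUnits

theorem PsiGL_coe (σ : Equiv.Perm (Fin k)) :
    ((PsiGL k r F σ : GL (MI k r) F) : Matrix (MI k r) (MI k r) F) =
      Matrix.fromBlocks (pmE σ).toPEquiv.toMatrix 0 0 1 := rfl

/-- `epsHom` as invertible matrices -/
def EpsGL (k r : ℕ) (F : Type u) [Field F] : (Fin r → ℤˣ) →* GL (MI k r) F :=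
  (epsHom k r F).toHomUnits

theorem EpsGL_coe (e : Fin r → ℤˣ) :
    ((EpsGL k r F e : GL (MI k r) F) : Matrix (MI k r) (MI k r) F) =
      Matrix.fromBlocks 1 0 0 (Matrix.diagonal fun l => (((e l : ℤˣ) : ℤ) : F)) := rfl

theorem PhiGL_mem (c : Fin r → F) (g : Fin k → GL (Fin 2) F) (hg : ∀ i, g i ∈ O2 F) :
    PhiGL k r F g ∈ isometryGroup F ⇑(mQ k c) := by
  apply mem_iso_of
  rw [PhiGL_coe, mW_diag, Matrix.fromBlocks_transpose, Matrix.fromBlocks_multiply,
    Matrix.fromBlocks_multiply, Matrix.blockDiagonal_transpose]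
  have h1 : (Matrix.blockDiagonal fun i => (g i : Matrix (Fin 2) (Fin 2) F)ᵀ)
      * (Matrix.blockDiagonal fun i => (g i : Matrix (Fin 2) (Fin 2) F)) = 1 := by
    rw [← Matrix.blockDiagonal_mul, ← Matrix.blockDiagonal_one]
    congr 1
    funext i
    exact hg i
  simp [h1]

theorem PsiGL_mem (c : Fin r → F) (σ : Equiv.Perm (Fin k)) :
    PsiGL k r F σ ∈ isometryGroup F ⇑(mQ k c) := by
  apply mem_iso_of
  rw [PsiGL_coe, mW_diag, Matrix.fromBlocks_transpose, Matrix.fromBlocks_multiply,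
    Matrix.fromBlocks_multiply]
  have h1 : ((pmE σ).toPEquiv.toMatrix : Matrix (Fin 2 × Fin k) (Fin 2 × Fin k) F)ᵀ
      * (pmE σ).toPEquiv.toMatrix = 1 := by
    rw [← PEquiv.toMatrix_symm, ← PEquiv.toMatrix_trans, ← Equiv.toPEquiv_symm, ← Equiv.toPEquiv_trans,
      Equiv.symm_trans_self, Equiv.toPEquiv_refl, PEquiv.toMatrix_refl]
  simp only [Matrix.mul_zero, Matrix.zero_mul, add_zero, zero_add, Matrix.mul_one, Matrix.one_mul,
    Matrix.transpose_zero, Matrix.transpose_one, h1]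

theorem EpsGL_mem (c : Fin r → F) (e : Fin r → ℤˣ) :
    EpsGL k r F e ∈ isometryGroup F ⇑(mQ k c) := by
  apply mem_iso_of
  rw [EpsGL_coe, mW_diag, Matrix.fromBlocks_transpose, Matrix.fromBlocks_multiply,
    Matrix.fromBlocks_multiply]
  have h1 : (Matrix.diagonal fun l => (((e l : ℤˣ) : ℤ) : F))ᵀ * Matrix.diagonal c
      * (Matrix.diagonal fun l => (((e l : ℤˣ) : ℤ) : F)) = Matrix.diagonal c := by
    rw [Matrix.diagonal_transpose, Matrix.diagonal_mul_diagonal, Matrix.diagonal_mul_diagonal]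
    congr 1
    funext l
    rcases Int.units_eq_one_or (e l) with h | h <;> rw [h] <;> simp
  simp only [Matrix.mul_zero, Matrix.zero_mul, add_zero, zero_add, Matrix.mul_one, Matrix.one_mul,
    Matrix.transpose_zero, Matrix.transpose_one, h1]

/-- the block diagonal embedding of `O_2(F)^k` into the isometry group of the model form -/
noncomputable def Phi (k : ℕ) (c : Fin r → F) : (Fin k → ↥(O2 F)) →* ↥(isometryGroup F ⇑(mQ k c)) :=
  ((PhiGL k r F).comp (MonoidHom.pi fun i =>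
    (O2 F).subtype.comp (Pi.evalMonoidHom (fun _ : Fin k => ↥(O2 F)) i))).codRestrict _
    (fun g => PhiGL_mem c _ (fun i => (g i).2))

theorem Phi_coe (c : Fin r → F) (g : Fin k → ↥(O2 F)) :
    (((Phi k c g : ↥(isometryGroup F ⇑(mQ k c))) : GL (MI k r) F) : Matrix (MI k r) (MI k r) F) =
      Matrix.fromBlocks
        (Matrix.blockDiagonal fun i => (((g i : ↥(O2 F)) : GL (Fin 2) F) : Matrix (Fin 2) (Fin 2) F))
        0 0 1 := rfl

/-- the block permutation embedding of `Perm (Fin k)` into the isometry group of the model form -/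
noncomputable def Psi (k : ℕ) (c : Fin r → F) : Equiv.Perm (Fin k) →* ↥(isometryGroup F ⇑(mQ k c)) :=
  (PsiGL k r F).codRestrict _ (PsiGL_mem c)

theorem Psi_coe (c : Fin r → F) (σ : Equiv.Perm (Fin k)) :
    (((Psi k c σ : ↥(isometryGroup F ⇑(mQ k c))) : GL (MI k r) F) : Matrix (MI k r) (MI k r) F) =
      Matrix.fromBlocks (pmE σ).toPEquiv.toMatrix 0 0 1 := rfl

/-- the sign embedding of `{±1}^r` into the isometry group of the model form -/
noncomputable def Eps (k : ℕ) (c : Fin r → F) : (Fin r → ℤˣ) →* ↥(isometryGroup F ⇑(mQ k c)) :=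
  (EpsGL k r F).codRestrict _ (EpsGL_mem c)

theorem Eps_coe (c : Fin r → F) (e : Fin r → ℤˣ) :
    (((Eps k c e : ↥(isometryGroup F ⇑(mQ k c))) : GL (MI k r) F) : Matrix (MI k r) (MI k r) F) =
      Matrix.fromBlocks 1 0 0 (Matrix.diagonal fun l => (((e l : ℤˣ) : ℤ) : F)) := rfl

end Cfsg.Agent.Helper95.OSyl
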