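import Mathlib
import Cfsg.Agent.S0678
import Cfsg.Agent.Helper65.G42Base

set_option autoImplicit false

namespace Cfsg.Agent.Helper95

/-- Degree 7 piece with the order-168 recognition as a hypothesis. -/
theorem g42_deg7_of_rec {G : Type*} [Group G] [Finite G] {α : Type*} [Fintype α] [DecidableEq α]
    (h168 : ∀ (R : Subgroup (Equiv.Perm α)), IsSimpleGroup R → Nat.card R = 168 →
      Nonempty (R ≃* GL (Fin 3) (ZMod 2)))
    (hα : Fintype.card α = 7) (σ : G →* Equiv.Perm α) (hσ : Function.Injective σ)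
    (hsign : ∀ g, Equiv.Perm.sign (σ g) = 1)
    (htr : ∀ x y : α, ∃ g : G, σ g x = y) (hns : ¬ Group.IsSolvable G) :
    Nonempty (G ≃* alternatingGroup (Fin 7)) ∨ Nonempty (G ≃* GL (Fin 3) (ZMod 2)) := by
  classical
  set R : Subgroup (Equiv.Perm α) := σ.range with hR
  have e : G ≃* R := MonoidHom.ofInjective hσ
  have : MulAction.IsPretransitive R α := by
    refine ⟨fun x y => ?_⟩
    obtain ⟨g, hg⟩ := htr x y
    exact ⟨⟨σ g, ⟨g, rfl⟩⟩, hg⟩
  have hnsR : ¬ Group.IsSolvable R := by
    intro hs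
    exact hns (Group.isSolvable_of_isSolvable_injective (f := e.toMonoidHom) e.injective)
  by_cases hA : alternatingGroup α ≤ R
  · left
    have hle : R ≤ alternatingGroup α := by
      rintro x ⟨g, rfl⟩
      exact Equiv.Perm.mem_alternatingGroup.mpr (hsign g)
    have hEq : R = alternatingGroup α := le_antisymm hle hA
    have e2 : R ≃* alternatingGroup α := MulEquiv.subgroupCongr hEq
    have e3 : α ≃ Fin 7 := Fintype.equivFinOfCardEq hα
    exact ⟨(e.trans e2).trans (Equiv.altCongrHom e3)⟩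
  · right
    obtain ⟨hc, hsimp⟩ := Cfsg.Agent.S0678.result hα R hnsR hA
    obtain ⟨e2⟩ := h168 R hsimp hc
    exact ⟨e.trans e2⟩

/-- PIECE B7 of CALL S2553: a non-solvable transitive group of even permutations of 7 points
is `A₇` or `GL₃(2)`. -/
theorem g42_deg7 {G : Type*} [Group G] [Finite G] {α : Type*} [Fintype α] [DecidableEq α]
    (hα : Fintype.card α = 7) (σ : G →* Equiv.Perm α) (hσ : Function.Injective σ)
    (hsign : ∀ g, Equiv.Perm.sign (σ g) = 1)
    (htr : ∀ x y : α, ∃ g : G, σ g x = y) (hns : ¬ Group.IsSolvable G) :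
    Nonempty (G ≃* alternatingGroup (Fin 7)) ∨ Nonempty (G ≃* GL (Fin 3) (ZMod 2)) :=
  g42_deg7_of_rec (fun R hs hc => by
    have := hs
    exact Cfsg.Agent.Helper65.g42_simple168 hc) hα σ hσ hsign htr hns

end Cfsg.Agent.Helper95
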