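import Cfsg.Agent.Helper95.SylThree
import Cfsg.Agent.Helper22.Bender

/-!
# Subgroups of `Sym(n)` with quasisimple `F*` containing a Sylow 3-subgroup of `Sym(n)`

`fstar_alt`: if `H ≤ Perm (Fin n)` has `F*(H)` quasisimple and contains a Sylow 3-subgroup of
`Perm (Fin n)`, then `F*(H) ≅ Alt(m)` with `n - 2 ≤ m ≤ n`.
-/

set_option autoImplicit false
set_option linter.unusedSectionVars false

namespace Cfsg.Agent.Helper95

open Equiv Equiv.Perm

section perm

variable {α : Type*} [DecidableEq α] [Fintype α]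

theorem comm_apply_of_commute_cycle {c m1 m2 : Perm α} (hc : c.IsCycle) {x : α} (hx : c x ≠ x)
    (h1 : Commute m1 c) (h2 : Commute m2 c) : m1 (m2 x) = m2 (m1 x) := by
  have hm : ∀ m : Perm α, Commute m c → ∃ i : ℤ, (c ^ i) x = m x := by
    intro m hm
    apply hc.exists_zpow_eq hx
    have e : c (m x) = m (c x) := by
      have := congrArg (fun f : Perm α => f x) hm.eq
      simpa using this.symm
    rw [e]
    exact fun h => hx (m.injective h)
  obtain ⟨i, hi⟩ := hm m2 h2
  obtain ⟨j, hj⟩ := hm m1 h1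
  have e1 : m1 ((c ^ i) x) = (c ^ i) (m1 x) := by
    have := congrArg (fun f : Perm α => f x) (h1.zpow_right i).eq
    simpa using this
  have e2 : m2 ((c ^ j) x) = (c ^ j) (m2 x) := by
    have := congrArg (fun f : Perm α => f x) (h2.zpow_right j).eq
    simpa using this
  rw [← hi, e1, ← hj, e2, ← hi]
  have := congrArg (fun f : Perm α => f x) ((Commute.refl c).zpow_zpow i j).eq
  simpa using this

theorem fixes_of_perfect_commute {L : Subgroup (Perm α)} (hperf : ⁅L, L⁆ = L) {c : Perm α}
    (hc : c.IsCycle) {x : α} (hx : c x ≠ x) (hcomm : ∀ l ∈ L, Commute l c) :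
    ∀ l ∈ L, l x = x := by
  have hle : ⁅L, L⁆ ≤ MulAction.stabilizer (Perm α) x := by
    rw [Subgroup.commutator_le]
    intro g₁ h₁ g₂ h₂
    rw [MulAction.mem_stabilizer_iff, commutatorElement_def]
    have h := comm_apply_of_commute_cycle hc hx (hcomm _ (L.inv_mem h₁)) (hcomm _ (L.inv_mem h₂))
    show g₁ (g₂ (g₁⁻¹ (g₂⁻¹ x))) = x
    rw [h]
    simp
  intro l hl
  rw [← hperf] at hl
  exact MulAction.mem_stabilizer_iff.mp (hle hl)

theorem sign_eq_one_of_perfect {L : Subgroup (Perm α)} (hperf : ⁅L, L⁆ = L) :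
    ∀ l ∈ L, sign l = 1 := by
  have hle : ⁅L, L⁆ ≤ alternatingGroup α := by
    rw [Subgroup.commutator_le]
    intro g₁ _ g₂ _
    rw [mem_alternatingGroup, commutatorElement_def]
    simp only [map_mul, map_inv]
    rw [mul_comm (sign g₁) (sign g₂), mul_inv_cancel_right, mul_inv_cancel]
  intro l hl
  rw [← hperf] at hl
  exact mem_alternatingGroup.mp (hle hl)

end perm

theorem eq_one_of_fixes {n : ℕ} {l : Perm (Fin n)} (hsign : sign l = 1) (π : Perm (Fin n))
    (hfix : ∀ x : Fin n, x.val < 3 * (n / 3) → l (π x) = π x) : l = 1 := by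
  have hsub : l.support ⊆ (Finset.univ.filter fun x : Fin n => 3 * (n / 3) ≤ x.val).image π := by
    intro y hy
    rw [mem_support] at hy
    rw [Finset.mem_image]
    refine ⟨π⁻¹ y, ?_, by simp⟩
    rw [Finset.mem_filter]
    refine ⟨Finset.mem_univ _, ?_⟩
    by_contra h
    push Not at h
    apply hy
    have := hfix _ h
    simpa using this
  have hcard : (Finset.univ.filter fun x : Fin n => 3 * (n / 3) ≤ x.val).card ≤ 2 := by
    have : (Finset.univ.filter fun x : Fin n => 3 * (n / 3) ≤ x.val).card ≤ (Finset.range 2).card := by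
      apply Finset.card_le_card_of_injOn (fun x => x.val - 3 * (n / 3))
      · intro x hx
        have hx' := (Finset.mem_filter.mp hx).2
        have := x.2
        simp only [Finset.coe_range, Set.mem_Iio]
        omega
      · intro x hx y hy hxy
        have hx' := (Finset.mem_filter.mp hx).2
        have hy' := (Finset.mem_filter.mp hy).2
        apply Fin.ext
        simp only at hxy
        omega
    simpa using this
  have h2 : l.support.card ≤ 2 :=
    (Finset.card_le_card hsub).trans (Finset.card_image_le.trans hcard)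
  by_cases h1 : l.support.card ≤ 1
  · exact card_support_le_one.mp h1
  · exfalso
    have h3 : l.support.card = 2 := by omega
    have := (card_support_eq_two.mp h3).sign_eq
    rw [hsign] at this
    exact absurd this (by decide)

/-- Main theorem. -/
theorem fstar_alt (n : ℕ) (H : Subgroup (Perm (Fin n)))
    (hF : Cfsg.IsQuasisimple ↥(Cfsg.generalizedFittingSubgroup ↥H))
    (hS : ∃ P : Sylow 3 (Perm (Fin n)), (P : Subgroup (Perm (Fin n))) ≤ H) :
    ∃ m : ℕ, n - 2 ≤ m ∧ m ≤ n ∧
      Nonempty (↥(Cfsg.generalizedFittingSubgroup ↥H) ≃* ↥(alternatingGroup (Fin m))) := by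
  classical
  set L := Cfsg.generalizedFittingSubgroup ↥H with hLdef
  have hLn : L.Normal := Helper22.generalizedFittingSubgroup_normal ↥H
  have hLc : Cfsg.IsComponent L := ⟨hLn.isSubnormal, hF⟩
  set L' : Subgroup (Perm (Fin n)) := L.map H.subtype with hL'def
  have hperf : ⁅L', L'⁆ = L' := by
    rw [hL'def, ← Subgroup.map_commutator, Helper22.quasisimple_commutator_eq hF]
  have hL'ne : L' ≠ ⊥ := by
    rw [hL'def, Ne, Subgroup.map_eq_bot_iff_of_injective _ H.subtype_injective]
    exact Helper22.quasisimple_ne_bot hF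
  have hL'H : L' ≤ H := Subgroup.map_subtype_le L
  have hL'norm : ∀ h ∈ H, ∀ l ∈ L', h * l * h⁻¹ ∈ L' := by
    rintro h hh _ ⟨l, hl, rfl⟩
    exact ⟨⟨h, hh⟩ * l * ⟨h, hh⟩⁻¹, hLn.conj_mem l hl ⟨h, hh⟩, rfl⟩
  obtain ⟨π, hπ⟩ := exists_threeCycles_of_sylow n H hS
  -- the dichotomy for each class
  have hdich : ∀ a : Fin n, L' ≤ altOn (cls3 H a) ∨
      ∀ l ∈ L', ∀ g ∈ altOn (cls3 H a), Commute l g := by
    intro a
    rcases Helper22.component_le_or_commutator_eq_bot hLc (altOn_cls3_isSubnormal H a) with h | h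
    · left
      rintro _ ⟨l, hl, rfl⟩
      have := h hl
      rwa [Subgroup.mem_subgroupOf] at this
    · right
      rintro _ ⟨l, hl, rfl⟩ g hg
      rw [Subgroup.commutator_eq_bot_iff_le_centralizer] at h
      have hgH : g ∈ H := altOn_cls3_le H a hg
      have h2 := Subgroup.mem_centralizer_iff.mp (h hl) ⟨g, hgH⟩
        (by rw [SetLike.mem_coe, Subgroup.mem_subgroupOf]; exact hg)
      have := congrArg Subtype.val h2
      exact this.symm
  -- some class contains `L'`
  have hex : ∃ x : Fin n, x.val < 3 * (n / 3) ∧ L' ≤ altOn (cls3 H (π x)) := by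
    by_contra hne
    push Not at hne
    apply hL'ne
    rw [eq_bot_iff]
    intro l hl
    rw [Subgroup.mem_bot]
    apply eq_one_of_fixes (sign_eq_one_of_perfect hperf l hl) π
    intro x hx
    obtain ⟨y, z, hyz⟩ := hπ x hx
    have hcomm := (hdich (π x)).resolve_left (hne x hx)
    have hcm : cyc3 (π x) y z ∈ altOn (cls3 H (π x)) :=
      cyc3_mem_altOn (self_mem_cls3 _ _) (mem_cls3_of_has3 hyz (self_mem_cls3 _ _))
        (mem_cls3_of_has3' hyz (self_mem_cls3 _ _)) hyz.1 hyz.2.1 hyz.2.2.1
    refine fixes_of_perfect_commute hperf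
      (isThreeCycle_cyc3 hyz.1 hyz.2.1 hyz.2.2.1).isCycle ?_ (fun l hl => hcomm l hl _ hcm) l hl
    rw [cyc3_apply_left hyz.1 hyz.2.1]
    exact hyz.1.symm
  obtain ⟨x0, hx0, hLA⟩ := hex
  set C := cls3 H (π x0) with hCdef
  -- `C` has at least 5 points
  have hC5 : 5 ≤ C.card := by
    by_contra h
    push Not at h
    have hsol : Group.IsSolvable (altOn C) := altOn_isSolvable (by omega)
    have hsol' : Group.IsSolvable L' :=
      Group.isSolvable_of_isSolvable_injective (Subgroup.inclusion_injective hLA)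
    have : Nontrivial L' := (Subgroup.nontrivial_iff_ne_bot L').mpr hL'ne
    have : Group.IsPerfect L' := Subgroup.isPerfect_iff.mpr hperf
    exact Group.IsPerfect.not_isSolvable L' hsol'
  -- `altOn C ≤ L'` by simplicity
  have hAL : altOn C ≤ L' := by
    let f : alternatingGroup {x // x ∈ C} →* Perm (Fin n) :=
      (ofSubtype : Perm {x // x ∈ C} →* Perm (Fin n)).comp (Subgroup.subtype _)
    have hfA : ∀ σ, f σ ∈ altOn C := fun σ => ⟨σ.1, σ.2, rfl⟩
    let M : Subgroup (alternatingGroup {x // x ∈ C}) := L'.comap f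
    have hMn : M.Normal := by
      constructor
      intro m hm σ
      show f (σ * m * σ⁻¹) ∈ L'
      rw [map_mul, map_mul, map_inv]
      exact hL'norm _ (altOn_cls3_le H _ (hfA σ)) _ hm
    have := alternatingGroup_coe_isSimple hC5
    rcases hMn.eq_bot_or_eq_top with h | h
    · exfalso
      apply hL'ne
      rw [eq_bot_iff]
      intro l hl
      obtain ⟨σ, hσ, rfl⟩ := hLA hl
      have : (⟨σ, hσ⟩ : alternatingGroup {x // x ∈ C}) ∈ M := hl
      rw [h, Subgroup.mem_bot] at this
      have e : σ = 1 := congrArg Subtype.val this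
      rw [e, map_one]
      exact Subgroup.one_mem _
    · rintro _ ⟨σ, hσ, rfl⟩
      have : (⟨σ, hσ⟩ : alternatingGroup {x // x ∈ C}) ∈ M := by rw [h]; exact Subgroup.mem_top _
      exact this
  have hEq : L' = altOn C := le_antisymm hLA hAL
  -- every 3-cycle of the family lies in `C`
  have hcover : ∀ x : Fin n, x.val < 3 * (n / 3) → π x ∈ C := by
    intro x hx
    obtain ⟨y, z, hyz⟩ := hπ x hx
    rcases has3_mem_altOn_or_commute (π x0) hyz with ⟨h1, -⟩ | ⟨h1, hcomm⟩
    · exact h1
    · exfalso
      have hcH : cyc3 (π x) y z ∈ H := hyz.2.2.2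
      have hcen : (⟨cyc3 (π x) y z, hcH⟩ : H) ∈ Subgroup.centralizer (L : Set H) := by
        rw [Subgroup.mem_centralizer_iff]
        intro l hl
        have hl' : (l : Perm (Fin n)) ∈ altOn C := by
          rw [← hEq]; exact ⟨l, hl, rfl⟩
        apply Subtype.ext
        exact (hcomm _ hl').eq.symm
      have hmem := Helper22.centralizer_generalizedFittingSubgroup_le ↥H hcen
      have hmem' : cyc3 (π x) y z ∈ altOn C := by
        rw [← hEq]; exact ⟨_, hmem, rfl⟩
      have := altOn_apply_of_not_mem hmem' h1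
      rw [cyc3_apply_left hyz.1 hyz.2.1] at this
      exact hyz.1 this.symm
  have hcard : n - 2 ≤ C.card := by
    have h3 : 3 * (n / 3) ≤ n := Nat.mul_div_le n 3
    have hsub : (Finset.univ : Finset (Fin (3 * (n / 3)))).image (fun j => π (Fin.castLE h3 j)) ⊆ C := by
      intro y hy
      obtain ⟨j, -, rfl⟩ := Finset.mem_image.mp hy
      exact hcover _ (by simp)
    have hc := Finset.card_le_card hsub
    have hinj : Function.Injective (fun j : Fin (3 * (n / 3)) => π (Fin.castLE h3 j)) :=
      fun a b h => Fin.castLE_injective h3 (π.injective h)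
    rw [Finset.card_image_of_injective _ hinj, Finset.card_univ, Fintype.card_fin] at hc
    omega
  have hcard' : C.card ≤ n := by
    have := Finset.card_le_univ C
    simpa using this
  refine ⟨C.card, hcard, hcard', ⟨?_⟩⟩
  exact (L.equivMapOfInjective H.subtype H.subtype_injective).trans
    ((MulEquiv.subgroupCongr hEq).trans (altOnEquiv C))

end Cfsg.Agent.Helper95
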