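import Mathlib
import Cfsg.Agent.Helper95.G2SylDefs

/-!
# Helper95: own pieces of CALL S4632 (TR, SQA)
-/

set_option autoImplicit false

namespace Cfsg.Agent.Helper95.G2SylOwn

open Matrix Cfsg.Agent.Helper95.G2Syl

open scoped commutatorElement

variable {F : Type*} [Field F]

/-- PIECE TR -/
theorem g2_trans
    (hK : (phi3 F).range ⊔ (phi2 F).range ≤ Cfsg.Lie.G2 F)
    (hst : ∀ g : GL (Fin 8) F, g ∈ Cfsg.Lie.G2 F → ∀ x : Fin 8 → F, x ∈ idem F →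
      (g : Matrix (Fin 8) (Fin 8) F) *ᵥ x ∈ idem F)
    (hT1 : ∀ x : Fin 8 → F, x ∈ idem F → x 2 = 0 → x 3 = 0 → x 5 = 0 → x 6 = 0 →
      ∃ c : Matrix.SpecialLinearGroup (Fin 2) F,
        ((phi2 F c : GL (Fin 8) F) : Matrix (Fin 8) (Fin 8) F) *ᵥ e0 F = x)
    (hN1 : ∀ x : Fin 8 → F, x ∈ idem F → x 0 ≠ 0 → x 0 ≠ 1 →
      ∃ A : Matrix.SpecialLinearGroup (Fin 3) F,
        (((phi3 F A : GL (Fin 8) F) : Matrix (Fin 8) (Fin 8) F) *ᵥ x) 2 = 0 ∧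
        (((phi3 F A : GL (Fin 8) F) : Matrix (Fin 8) (Fin 8) F) *ᵥ x) 3 = 0 ∧
        (((phi3 F A : GL (Fin 8) F) : Matrix (Fin 8) (Fin 8) F) *ᵥ x) 5 = 0 ∧
        (((phi3 F A : GL (Fin 8) F) : Matrix (Fin 8) (Fin 8) F) *ᵥ x) 6 = 0)
    (hN2 : ∀ x : Fin 8 → F, ∃ g ∈ (phi3 F).range ⊔ (phi2 F).range,
      (((g : GL (Fin 8) F) : Matrix (Fin 8) (Fin 8) F) *ᵥ x) 0 ≠ 0 ∧
        (((g : GL (Fin 8) F) : Matrix (Fin 8) (Fin 8) F) *ᵥ x) 0 ≠ 1 ∨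
      (((g : GL (Fin 8) F) : Matrix (Fin 8) (Fin 8) F) *ᵥ x) 2 = 0 ∧
        (((g : GL (Fin 8) F) : Matrix (Fin 8) (Fin 8) F) *ᵥ x) 3 = 0 ∧
        (((g : GL (Fin 8) F) : Matrix (Fin 8) (Fin 8) F) *ᵥ x) 5 = 0 ∧
        (((g : GL (Fin 8) F) : Matrix (Fin 8) (Fin 8) F) *ᵥ x) 6 = 0) :
    ∀ x : Fin 8 → F, x ∈ idem F →
      ∃ g : GL (Fin 8) F, g ∈ Cfsg.Lie.G2 F ∧ (g : Matrix (Fin 8) (Fin 8) F) *ᵥ e0 F = x := by
  intro x hx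
  have hinv : ∀ (g : GL (Fin 8) F) (v : Fin 8 → F),
      ((g⁻¹ : GL (Fin 8) F) : Matrix (Fin 8) (Fin 8) F) *ᵥ
        ((g : Matrix (Fin 8) (Fin 8) F) *ᵥ v) = v := by
    intro g v
    rw [Matrix.mulVec_mulVec, ← Units.val_mul, inv_mul_cancel, Units.val_one, Matrix.one_mulVec]
  obtain ⟨g₁, hg₁, halt⟩ := hN2 x
  have hg₁' := hK hg₁
  have hy := hst g₁ hg₁' x hx
  rcases halt with ⟨h0, h1⟩ | ⟨h2, h3, h5, h6⟩
  · obtain ⟨A, hA2, hA3, hA5, hA6⟩ := hN1 _ hy h0 h1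
    have hA' : phi3 F A ∈ Cfsg.Lie.G2 F := hK (Subgroup.mem_sup_left ⟨A, rfl⟩)
    have hz := hst _ hA' _ hy
    obtain ⟨c, hc⟩ := hT1 _ hz hA2 hA3 hA5 hA6
    have hc' : phi2 F c ∈ Cfsg.Lie.G2 F := hK (Subgroup.mem_sup_right ⟨c, rfl⟩)
    refine ⟨g₁⁻¹ * ((phi3 F A)⁻¹ * phi2 F c),
      mul_mem (inv_mem hg₁') (mul_mem (inv_mem hA') hc'), ?_⟩
    rw [Units.val_mul, Units.val_mul, ← Matrix.mulVec_mulVec, ← Matrix.mulVec_mulVec, hc,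
      hinv, hinv]
  · obtain ⟨c, hc⟩ := hT1 _ hy h2 h3 h5 h6
    have hc' : phi2 F c ∈ Cfsg.Lie.G2 F := hK (Subgroup.mem_sup_right ⟨c, rfl⟩)
    refine ⟨g₁⁻¹ * phi2 F c, mul_mem (inv_mem hg₁') hc', ?_⟩
    rw [Units.val_mul, ← Matrix.mulVec_mulVec, hc, hinv]

theorem inv_val_mul (δ : Fˣ) : ((δ⁻¹ : Fˣ) : F) * (δ : F) = 1 := by
  rw [← Units.val_mul, inv_mul_cancel, Units.val_one]

theorem val_mul_inv (δ : Fˣ) : (δ : F) * ((δ⁻¹ : Fˣ) : F) = 1 := by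
  rw [← Units.val_mul, mul_inv_cancel, Units.val_one]

/-- PIECE SQA -/
theorem g2s_sq_diag {G : Type*} [Group G] (ι : GL (Fin 2) F →* G)
    (φ : Matrix.SpecialLinearGroup (Fin 2) F →* G)
    (hR1 : ∀ h c, ι h * φ c * (ι h)⁻¹ = φ (tw (Matrix.GeneralLinearGroup.det h) c))
    (hR2 : ∀ t : Fˣ, φ (sdiag t) = ι (gdiag t⁻¹ t⁻¹))
    (D : Subgroup (GL (Fin 2) F)) (δ : Fˣ) (hδ : gdiag 1 δ ∈ D) (hw : gweyl F ∈ D) :
    ι (gdiag 1 δ) ^ 2 ∈ ⁅D.map ι ⊔ (D.comap Matrix.SpecialLinearGroup.toGL).map φ,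
      D.map ι ⊔ (D.comap Matrix.SpecialLinearGroup.toGL).map φ⁆ := by
  have h1 := inv_val_mul δ
  have h2 := val_mul_inv δ
  -- 2 × 2 identities
  have hκ : (gdiag 1 δ)⁻¹ = gdiag 1 δ⁻¹ := by
    rw [inv_eq_iff_mul_eq_one]
    apply Units.ext
    rw [Units.val_mul, gdiag_coe, gdiag_coe]
    ext i j
    fin_cases i <;> fin_cases j <;> simp [h2]
  have hκD : gdiag 1 δ⁻¹ ∈ D := hκ ▸ inv_mem hδ
  have ha : gdiag 1 δ ^ 2 = gdiag δ δ * Matrix.SpecialLinearGroup.toGL (sdiag δ⁻¹) := by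
    apply Units.ext
    rw [pow_two, Units.val_mul, Units.val_mul, gdiag_coe, gdiag_coe,
      Matrix.SpecialLinearGroup.coe_GL_coe_matrix, sdiag_coe]
    ext i j
    fin_cases i <;> fin_cases j <;> simp [h2]
  have hb : Matrix.SpecialLinearGroup.toGL (sdiag δ⁻¹) = ⁅gweyl F, gdiag 1 δ⁻¹⁆ := by
    rw [commutatorElement_def, eq_mul_inv_iff_mul_eq, eq_mul_inv_iff_mul_eq]
    apply Units.ext
    rw [Units.val_mul, Units.val_mul, Units.val_mul, gdiag_coe, gweyl_coe,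
      Matrix.SpecialLinearGroup.coe_GL_coe_matrix, sdiag_coe]
    ext i j
    fin_cases i <;> fin_cases j <;> simp [h1]
  have hc : sweyl F * (tw δ⁻¹ (sweyl F))⁻¹ = sdiag δ⁻¹ := by
    rw [mul_inv_eq_iff_eq_mul]
    apply Subtype.ext
    rw [Matrix.SpecialLinearGroup.coe_mul, sdiag_coe, tw_coe, sweyl_coe]
    ext i j
    fin_cases i <;> fin_cases j <;> simp [h1, h2]
  have hd : Matrix.SpecialLinearGroup.toGL (sweyl F) = gweyl F := by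
    apply Units.ext
    rw [Matrix.SpecialLinearGroup.coe_GL_coe_matrix, sweyl_coe, gweyl_coe]
  have he : Matrix.GeneralLinearGroup.det (gdiag 1 δ⁻¹) = δ⁻¹ := by
    apply Units.ext
    rw [Matrix.GeneralLinearGroup.val_det_apply, gdiag_coe, Matrix.det_fin_two]
    simp
  -- membership
  have hm1 : φ (sweyl F) ∈ D.map ι ⊔ (D.comap Matrix.SpecialLinearGroup.toGL).map φ :=
    Subgroup.mem_sup_right (Subgroup.mem_map_of_mem φ (by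
      rw [Subgroup.mem_comap, hd]; exact hw))
  have hm2 : ι (gdiag 1 δ⁻¹) ∈ D.map ι ⊔ (D.comap Matrix.SpecialLinearGroup.toGL).map φ :=
    Subgroup.mem_sup_left (Subgroup.mem_map_of_mem ι hκD)
  have hm3 : ι (gweyl F) ∈ D.map ι ⊔ (D.comap Matrix.SpecialLinearGroup.toGL).map φ :=
    Subgroup.mem_sup_left (Subgroup.mem_map_of_mem ι hw)
  have e1 : ι (gdiag δ δ) = ⁅φ (sweyl F), ι (gdiag 1 δ⁻¹)⁆ := by
    have h3 := hR2 δ⁻¹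
    rw [inv_inv] at h3
    have h4 := hR1 (gdiag 1 δ⁻¹) (sweyl F)
    rw [he] at h4
    rw [← h3, ← hc, map_mul, map_inv, ← h4, commutatorElement_def]
    group
  have e2 : ι (Matrix.SpecialLinearGroup.toGL (sdiag δ⁻¹)) = ⁅ι (gweyl F), ι (gdiag 1 δ⁻¹)⁆ := by
    rw [hb, map_commutatorElement]
  rw [← map_pow, ha, map_mul, e1, e2]
  exact mul_mem (Subgroup.commutator_mem_commutator hm1 hm2)
    (Subgroup.commutator_mem_commutator hm3 hm2)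

end Cfsg.Agent.Helper95.G2SylOwn
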