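import Mathlib
import Cfsg.Agent.Helper95.G2SylDefs

/-!
# Helper95: own pieces of CALL S4632 (IDEM, ONE, STABLE)
-/

set_option autoImplicit false

namespace Cfsg.Agent.Helper95.G2SylOwn

open Matrix Cfsg.Agent.Helper95.G2Syl

variable {F : Type*} [Field F]

/-- PIECE IDEM -/
theorem g2_mem_idem (x : Fin 8 → F) :
    x ∈ idem F ↔ x 0 + x 7 = 1 ∧ x 1 * x 4 + x 2 * x 5 + x 3 * x 6 = x 0 * x 7 := by
  constructor
  · rintro ⟨hxx, hx0, hx1⟩
    rw [zornMul_apply] at hxx
    have e0 : x 0 * x 0 + (x 1 * x 4 + x 2 * x 5 + x 3 * x 6) = x 0 := congrFun hxx 0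
    have e1 : x 0 * x 1 + x 7 * x 1 - (x 5 * x 6 - x 6 * x 5) = x 1 := congrFun hxx 1
    have e2 : x 0 * x 2 + x 7 * x 2 - (x 6 * x 4 - x 4 * x 6) = x 2 := congrFun hxx 2
    have e3 : x 0 * x 3 + x 7 * x 3 - (x 4 * x 5 - x 5 * x 4) = x 3 := congrFun hxx 3
    have e4 : x 0 * x 4 + x 7 * x 4 + (x 2 * x 3 - x 3 * x 2) = x 4 := congrFun hxx 4
    have e5 : x 0 * x 5 + x 7 * x 5 + (x 3 * x 1 - x 1 * x 3) = x 5 := congrFun hxx 5
    have e6 : x 0 * x 6 + x 7 * x 6 + (x 1 * x 2 - x 2 * x 1) = x 6 := congrFun hxx 6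
    have e7 : x 4 * x 1 + x 5 * x 2 + x 6 * x 3 + x 7 * x 7 = x 7 := congrFun hxx 7
    by_cases hs : x 0 + x 7 = 1
    · refine ⟨hs, ?_⟩
      linear_combination e0 - x 0 * hs
    · exfalso
      have hs' : x 0 + x 7 - 1 ≠ 0 := sub_ne_zero.mpr hs
      have h1 : x 1 = 0 :=
        (mul_eq_zero.mp (show (x 0 + x 7 - 1) * x 1 = 0 by linear_combination e1)).resolve_left hs'
      have h2 : x 2 = 0 :=
        (mul_eq_zero.mp (show (x 0 + x 7 - 1) * x 2 = 0 by linear_combination e2)).resolve_left hs'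
      have h3 : x 3 = 0 :=
        (mul_eq_zero.mp (show (x 0 + x 7 - 1) * x 3 = 0 by linear_combination e3)).resolve_left hs'
      have h4 : x 4 = 0 :=
        (mul_eq_zero.mp (show (x 0 + x 7 - 1) * x 4 = 0 by linear_combination e4)).resolve_left hs'
      have h5 : x 5 = 0 :=
        (mul_eq_zero.mp (show (x 0 + x 7 - 1) * x 5 = 0 by linear_combination e5)).resolve_left hs'
      have h6 : x 6 = 0 :=
        (mul_eq_zero.mp (show (x 0 + x 7 - 1) * x 6 = 0 by linear_combination e6)).resolve_left hs'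
      have ha : x 0 * (x 0 - 1) = 0 := by
        rw [h1, h2, h3] at e0
        linear_combination e0
      have hb : x 7 * (x 7 - 1) = 0 := by
        rw [h4, h5, h6] at e7
        linear_combination e7
      rcases mul_eq_zero.mp ha with ha | ha <;> rcases mul_eq_zero.mp hb with hb | hb
      · apply hx0
        funext i
        fin_cases i
        · exact ha
        · exact h1
        · exact h2
        · exact h3
        · exact h4
        · exact h5
        · exact h6
        · exact hb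
      · exact hs (by linear_combination ha + hb)
      · exact hs (by linear_combination ha + hb)
      · apply hx1
        funext i
        fin_cases i
        · exact sub_eq_zero.mp ha
        · exact h1
        · exact h2
        · exact h3
        · exact h4
        · exact h5
        · exact h6
        · exact sub_eq_zero.mp hb
  · rintro ⟨hs, hd⟩
    refine ⟨?_, ?_, ?_⟩
    · rw [zornMul_apply]
      funext i
      fin_cases i
      · show x 0 * x 0 + (x 1 * x 4 + x 2 * x 5 + x 3 * x 6) = x 0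
        linear_combination hd + x 0 * hs
      · show x 0 * x 1 + x 7 * x 1 - (x 5 * x 6 - x 6 * x 5) = x 1
        linear_combination x 1 * hs
      · show x 0 * x 2 + x 7 * x 2 - (x 6 * x 4 - x 4 * x 6) = x 2
        linear_combination x 2 * hs
      · show x 0 * x 3 + x 7 * x 3 - (x 4 * x 5 - x 5 * x 4) = x 3
        linear_combination x 3 * hs
      · show x 0 * x 4 + x 7 * x 4 + (x 2 * x 3 - x 3 * x 2) = x 4
        linear_combination x 4 * hs
      · show x 0 * x 5 + x 7 * x 5 + (x 3 * x 1 - x 1 * x 3) = x 5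
        linear_combination x 5 * hs
      · show x 0 * x 6 + x 7 * x 6 + (x 1 * x 2 - x 2 * x 1) = x 6
        linear_combination x 6 * hs
      · show x 4 * x 1 + x 5 * x 2 + x 6 * x 3 + x 7 * x 7 = x 7
        linear_combination hd + x 7 * hs
    · intro h
      rw [h] at hs
      simp at hs
    · intro h
      rw [h] at hs
      have h1 : (1 : F) + 1 = 1 := hs
      exact one_ne_zero (show (1 : F) = 0 by linear_combination h1)

theorem zornMul_one_left (y : Fin 8 → F) : Cfsg.Lie.zornMul (one8 F) y = y := by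
  rw [zornMul_apply]
  funext i
  fin_cases i <;> simp [one8]

theorem zornMul_one_right (y : Fin 8 → F) : Cfsg.Lie.zornMul y (one8 F) = y := by
  rw [zornMul_apply]
  funext i
  fin_cases i <;> simp [one8]

theorem g2_surj (g : GL (Fin 8) F) (z : Fin 8 → F) :
    z = (g : Matrix (Fin 8) (Fin 8) F) *ᵥ (((g⁻¹ : GL (Fin 8) F) : Matrix (Fin 8) (Fin 8) F) *ᵥ z) := by
  rw [Matrix.mulVec_mulVec, ← Units.val_mul, mul_inv_cancel, Units.val_one, Matrix.one_mulVec]

theorem g2_inj (g : GL (Fin 8) F) (v w : Fin 8 → F)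
    (h : (g : Matrix (Fin 8) (Fin 8) F) *ᵥ v = (g : Matrix (Fin 8) (Fin 8) F) *ᵥ w) : v = w := by
  have h1 := congrArg (fun u => ((g⁻¹ : GL (Fin 8) F) : Matrix (Fin 8) (Fin 8) F) *ᵥ u) h
  simp only [Matrix.mulVec_mulVec, ← Units.val_mul, inv_mul_cancel, Units.val_one,
    Matrix.one_mulVec] at h1
  exact h1

/-- PIECE ONE -/
theorem g2_map_one (g : GL (Fin 8) F) (hg : g ∈ Cfsg.Lie.G2 F) :
    (g : Matrix (Fin 8) (Fin 8) F) *ᵥ one8 F = one8 F := by
  have hg' := (mem_G2_iff g).1 hg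
  have h1 : ∀ z, Cfsg.Lie.zornMul ((g : Matrix (Fin 8) (Fin 8) F) *ᵥ one8 F) z = z := by
    intro z
    obtain ⟨u, rfl⟩ : ∃ u, z = (g : Matrix (Fin 8) (Fin 8) F) *ᵥ u := ⟨_, g2_surj g z⟩
    rw [← hg', zornMul_one_left]
  have h2 := h1 (one8 F)
  rw [zornMul_one_right] at h2
  exact h2

/-- PIECE STABLE -/
theorem g2_idem_stable (g : GL (Fin 8) F) (hg : g ∈ Cfsg.Lie.G2 F) (x : Fin 8 → F)
    (hx : x ∈ idem F) : (g : Matrix (Fin 8) (Fin 8) F) *ᵥ x ∈ idem F := by
  obtain ⟨hxx, hx0, hx1⟩ := hx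
  have hg' := (mem_G2_iff g).1 hg
  refine ⟨?_, ?_, ?_⟩
  · rw [← hg', hxx]
  · intro h
    exact hx0 (g2_inj g _ _ (by rw [h, Matrix.mulVec_zero]))
  · intro h
    exact hx1 (g2_inj g _ _ (by rw [h, g2_map_one g hg]))

end Cfsg.Agent.Helper95.G2SylOwn
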