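import Mathlib
import Cfsg.Agent.Helper95.G2SylDefs

/-!
# Helper95: own pieces of CALL S4632 (ORB, E1)
-/

set_option autoImplicit false

namespace Cfsg.Agent.Helper95.G2SylOwn

open Matrix Cfsg.Agent.Helper95.G2Syl

variable {F : Type*} [Field F]

/-- PIECE ORB -/
theorem g2_card_dvd [Fintype F]
    (hstab : ∀ g : GL (Fin 8) F, g ∈ Cfsg.Lie.G2 F →
      (g : Matrix (Fin 8) (Fin 8) F) *ᵥ e0 F = e0 F →
      ∃ A : Matrix.SpecialLinearGroup (Fin 3) F, g = phi3 F A)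
    (hst : ∀ g : GL (Fin 8) F, g ∈ Cfsg.Lie.G2 F → ∀ x : Fin 8 → F, x ∈ idem F →
      (g : Matrix (Fin 8) (Fin 8) F) *ᵥ x ∈ idem F)
    (he : e0 F ∈ idem F)
    (htr : ∀ x : Fin 8 → F, x ∈ idem F →
      ∃ g : GL (Fin 8) F, g ∈ Cfsg.Lie.G2 F ∧ (g : Matrix (Fin 8) (Fin 8) F) *ᵥ e0 F = x) :
    Nat.card ↥(Cfsg.Lie.G2 F) ∣
      Nat.card (idem F) * Nat.card (Matrix.SpecialLinearGroup (Fin 3) F) := by
  classical
  let _inst : MulAction ↥(Cfsg.Lie.G2 F) (Fin 8 → F) :=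
    { smul := fun g x => ((g : GL (Fin 8) F) : Matrix (Fin 8) (Fin 8) F) *ᵥ x
      one_smul := fun x => Matrix.one_mulVec x
      mul_smul := fun g h x => (Matrix.mulVec_mulVec x
        ((g : GL (Fin 8) F) : Matrix (Fin 8) (Fin 8) F)
        ((h : GL (Fin 8) F) : Matrix (Fin 8) (Fin 8) F)).symm }
  have hsmul : ∀ (g : ↥(Cfsg.Lie.G2 F)) (x : Fin 8 → F),
      g • x = ((g : GL (Fin 8) F) : Matrix (Fin 8) (Fin 8) F) *ᵥ x := fun _ _ => rfl
  have horb : MulAction.orbit ↥(Cfsg.Lie.G2 F) (e0 F) = idem F := by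
    ext x
    constructor
    · rintro ⟨g, rfl⟩
      exact hst g.1 g.2 _ he
    · intro hx
      obtain ⟨g, hg, hgx⟩ := htr x hx
      exact ⟨⟨g, hg⟩, hgx⟩
  have h1 : Nat.card ↥(Cfsg.Lie.G2 F) =
      Nat.card (MulAction.orbit ↥(Cfsg.Lie.G2 F) (e0 F)) *
        Nat.card (MulAction.stabilizer ↥(Cfsg.Lie.G2 F) (e0 F)) := by
    rw [Subgroup.card_eq_card_quotient_mul_card_subgroup
      (MulAction.stabilizer ↥(Cfsg.Lie.G2 F) (e0 F))]
    congr 1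
    exact (Nat.card_congr (MulAction.orbitEquivQuotientStabilizer ↥(Cfsg.Lie.G2 F) (e0 F))).symm
  -- the stabiliser embeds in the range of `phi3`
  let f : ↥(MulAction.stabilizer ↥(Cfsg.Lie.G2 F) (e0 F)) →* GL (Fin 8) F :=
    (Cfsg.Lie.G2 F).subtype.comp (MulAction.stabilizer ↥(Cfsg.Lie.G2 F) (e0 F)).subtype
  have hf : Function.Injective f := by
    intro a b hab
    exact Subtype.ext (Subtype.ext hab)
  have hle : f.range ≤ (phi3 F).range := by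
    rintro _ ⟨⟨g, hg⟩, rfl⟩
    have hg' : g • e0 F = e0 F := hg
    rw [hsmul] at hg'
    obtain ⟨A, hA⟩ := hstab g.1 g.2 hg'
    exact ⟨A, hA.symm⟩
  have h2 : Nat.card (MulAction.stabilizer ↥(Cfsg.Lie.G2 F) (e0 F)) ∣
      Nat.card (Matrix.SpecialLinearGroup (Fin 3) F) := by
    rw [Nat.card_congr (MonoidHom.ofInjective hf).toEquiv]
    exact (Subgroup.card_dvd_of_le hle).trans (Subgroup.card_range_dvd (phi3 F))
  rw [h1, horb]
  exact Nat.mul_dvd_mul (dvd_refl _) h2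

theorem gdiag_mul (x y x' y' : Fˣ) :
    (gdiag x y : GL (Fin 2) F) * gdiag x' y' = gdiag (x * x') (y * y') := by
  apply Units.ext
  rw [Units.val_mul, gdiag_coe, gdiag_coe, gdiag_coe]
  ext i j
  fin_cases i <;> fin_cases j <;> simp

theorem gdiag_one : (gdiag 1 1 : GL (Fin 2) F) = 1 := by
  apply Units.ext
  rw [gdiag_coe]
  ext i j
  fin_cases i <;> fin_cases j <;> simp

theorem gweyl_mul_gdiag (x y : Fˣ) : gweyl F * gdiag x y = gdiag y x * gweyl F := by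
  apply Units.ext
  rw [Units.val_mul, Units.val_mul, gdiag_coe, gdiag_coe, gweyl_coe]
  ext i j
  fin_cases i <;> fin_cases j <;> simp

theorem gweyl_sq : gweyl F * gweyl F = gdiag (-1) (-1) := by
  apply Units.ext
  rw [Units.val_mul, gdiag_coe, gweyl_coe]
  ext i j
  fin_cases i <;> fin_cases j <;> simp

theorem gweyl_pow_four : gweyl F ^ 4 = 1 := by
  have h : gweyl F ^ 4 = (gweyl F * gweyl F) * (gweyl F * gweyl F) := by
    rw [show (4 : ℕ) = 2 + 2 from rfl, pow_add, pow_two]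
  rw [h, gweyl_sq, gdiag_mul]
  simp [gdiag_one]

/-- the diagonal torus as a homomorphism -/
def gdiagHom (F : Type*) [Field F] : Fˣ × Fˣ →* GL (Fin 2) F where
  toFun p := gdiag p.1 p.2
  map_one' := gdiag_one
  map_mul' p p' := (gdiag_mul p.1 p.2 p'.1 p'.2).symm

/-- PIECE E1 -/
theorem g2_exists_D [Finite F] :
    ∃ D : Sylow 2 (GL (Fin 2) F),
      (∀ δ : Fˣ, (∃ n : ℕ, δ ^ 2 ^ n = 1) → gdiag 1 δ ∈ D) ∧ gweyl F ∈ D := by
  classical
  have : Fact (Nat.Prime 2) := ⟨Nat.prime_two⟩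
  -- the 2-elements of `Fˣ`
  let μ : Set Fˣ := {δ | ∃ n : ℕ, δ ^ 2 ^ n = 1}
  -- the torus part
  let T : Subgroup (GL (Fin 2) F) :=
    { carrier := {g | ∃ x ∈ μ, ∃ y ∈ μ, g = gdiag x y}
      one_mem' := ⟨1, ⟨0, by simp⟩, 1, ⟨0, by simp⟩, gdiag_one.symm⟩
      mul_mem' := by
        rintro _ _ ⟨x, ⟨n, hx⟩, y, ⟨m, hy⟩, rfl⟩ ⟨x', ⟨n', hx'⟩, y', ⟨m', hy'⟩, rfl⟩
        refine ⟨x * x', ⟨n + n', ?_⟩, y * y', ⟨m + m', ?_⟩, gdiag_mul x y x' y'⟩
        · rw [mul_pow, pow_add, pow_mul, hx, one_pow, mul_comm (2 ^ n) (2 ^ n'), pow_mul, hx',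
            one_pow, one_mul]
        · rw [mul_pow, pow_add, pow_mul, hy, one_pow, mul_comm (2 ^ m) (2 ^ m'), pow_mul, hy',
            one_pow, one_mul]
      inv_mem' := by
        rintro _ ⟨x, ⟨n, hx⟩, y, ⟨m, hy⟩, rfl⟩
        refine ⟨x⁻¹, ⟨n, by rw [inv_pow, hx, inv_one]⟩, y⁻¹, ⟨m, by rw [inv_pow, hy, inv_one]⟩, ?_⟩
        rw [inv_eq_iff_mul_eq_one, gdiag_mul, mul_inv_cancel, mul_inv_cancel, gdiag_one] }
  have hTp : IsPGroup 2 T := by
    rintro ⟨_, x, ⟨n, hx⟩, y, ⟨m, hy⟩, rfl⟩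
    refine ⟨n + m, Subtype.ext ?_⟩
    have hpow : ∀ k : ℕ, (gdiag x y : GL (Fin 2) F) ^ k = gdiag (x ^ k) (y ^ k) := by
      intro k
      induction k with
      | zero => simp [gdiag_one]
      | succ k ih => rw [pow_succ, ih, gdiag_mul, pow_succ, pow_succ]
    show (gdiag x y : GL (Fin 2) F) ^ 2 ^ (n + m) = 1
    rw [hpow, pow_add, pow_mul, hx, one_pow, mul_comm (2 ^ n) (2 ^ m), pow_mul, hy, one_pow,
      gdiag_one]
  have hWp : IsPGroup 2 (Subgroup.zpowers (gweyl F)) := by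
    rintro ⟨_, k, rfl⟩
    refine ⟨2, Subtype.ext ?_⟩
    show (gweyl F ^ k) ^ 2 ^ 2 = 1
    rw [← zpow_natCast, ← _root_.zpow_mul, mul_comm, _root_.zpow_mul, zpow_natCast]
    norm_num [gweyl_pow_four]
  have hN : Subgroup.zpowers (gweyl F) ≤ Subgroup.normalizer (T : Set (GL (Fin 2) F)) := by
    rw [Subgroup.zpowers_le, Subgroup.mem_normalizer_iff]
    intro t
    constructor
    · rintro ⟨x, hx, y, hy, rfl⟩
      refine ⟨y, hy, x, hx, ?_⟩
      rw [gweyl_mul_gdiag, mul_assoc, mul_inv_cancel, mul_one]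
    · rintro ⟨x, hx, y, hy, h⟩
      refine ⟨y, hy, x, hx, ?_⟩
      have h1 : t = (gweyl F)⁻¹ * gdiag x y * gweyl F := by
        rw [← h]; group
      rw [h1, mul_assoc, ← gweyl_mul_gdiag, ← mul_assoc, inv_mul_cancel, one_mul]
  have hM : IsPGroup 2 ↥(Subgroup.zpowers (gweyl F) ⊔ T) :=
    IsPGroup.to_sup_of_normal_right' hWp hTp hN
  obtain ⟨D, hD⟩ := hM.exists_le_sylow
  refine ⟨D, fun δ hδ => hD (Subgroup.mem_sup_right ⟨1, ⟨0, by simp⟩, δ, hδ, rfl⟩),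
    hD (Subgroup.mem_sup_left (Subgroup.mem_zpowers _))⟩

end Cfsg.Agent.Helper95.G2SylOwn
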