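import Mathlib
import Cfsg.Agent.Helper95.G2SylDefs
import Cfsg.Agent.Helper14.G2SylA
import Cfsg.Agent.Helper14.G2SylT
import Cfsg.Agent.Helper18.G2SylHat
import Cfsg.Agent.Helper18.G2SylPhi2
import Cfsg.Agent.Helper18.G2SylPhi3
import Cfsg.Agent.Helper18.G2SylStab
import Cfsg.Agent.Helper24.G2SCard
import Cfsg.Agent.Helper4.G2SylQSQA
import Cfsg.Agent.Helper4.G2SylSQB
import Cfsg.Agent.Helper42.G2SArith
import Cfsg.Agent.Helper42.G2SCardA
import Cfsg.Agent.Helper42.G2SPG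
import Cfsg.Agent.Helper42.G2SXCard
import Cfsg.Agent.Helper84.G2SPairs
import Cfsg.Agent.Helper84.G2SQsqB
import Cfsg.Agent.Helper93.G2SylCardC
import Cfsg.Agent.Helper95.G2SylOwn
import Cfsg.Agent.Helper95.G2SylOwn2
import Cfsg.Agent.Helper95.G2SylOwn3
import Cfsg.Agent.Helper97.GSylWN
import Cfsg.Agent.Helper37.Sp2C

/-!
# Helper95: Sylow 2-subgroups of `G₂(F)` (Zorn model), `|F|` odd: squares lie in the derived group
(rows S4632)
-/

set_option autoImplicit false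

namespace Cfsg.Agent.Helper95.G2Syl

open Matrix

theorem g2_sylow_sq {F : Type*} [Field F] [Fintype F] (hF : Odd (Fintype.card F))
    (P : Sylow 2 (Cfsg.Lie.G2 F)) :
    ∀ x : (P : Subgroup (Cfsg.Lie.G2 F)), x ^ 2 ∈ commutator (P : Subgroup (Cfsg.Lie.G2 F)) := by
  classical
  haveI : Fact (Nat.Prime 2) := ⟨Nat.prime_two⟩
  have h2 : (2 : F) ≠ 0 := Cfsg.Agent.Helper37.sp2_two_ne_zero hF
  -- the two homomorphisms into `G₂(F)`
  let ι : GL (Fin 2) F →* ↥(Cfsg.Lie.G2 F) := (hat F).codRestrict (Cfsg.Lie.G2 F) Cfsg.Agent.Helper18.G2SylP.g2_hat_mem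
  let φ : Matrix.SpecialLinearGroup (Fin 2) F →* ↥(Cfsg.Lie.G2 F) :=
    (phi2 F).codRestrict (Cfsg.Lie.G2 F) Cfsg.Agent.Helper18.G2SylP.g2_phi2_mem
  have hR1 : ∀ h c, ι h * φ c * (ι h)⁻¹ = φ (tw (Matrix.GeneralLinearGroup.det h) c) :=
    fun h c => Subtype.ext (Cfsg.Agent.Helper18.G2SylP.g2_rel1 h c)
  have hR2 : ∀ t : Fˣ, φ (sdiag t) = ι (gdiag t⁻¹ t⁻¹) := fun t => Subtype.ext (Cfsg.Agent.Helper14.G2SylA.g2_rel2 t)
  have hι : Function.Injective ι := fun a b hab => Cfsg.Agent.Helper14.G2SylA.g2_hat_injective (congrArg Subtype.val hab)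
  have hφ : Function.Injective φ := fun a b hab => Cfsg.Agent.Helper14.G2SylA.g2_phi2_injective (congrArg Subtype.val hab)
  have hint : ∀ h c, ι h = φ c → ∃ t : Fˣ, h = gdiag t t :=
    fun h c hc => Cfsg.Agent.Helper14.G2SylA.g2_int h c (congrArg Subtype.val hc)
  -- the Sylow 2-subgroup of `GL₂(F)`
  obtain ⟨D, hDT, hDw⟩ := Cfsg.Agent.Helper95.G2SylOwn.g2_exists_D (F := F)
  have hDp : IsPGroup 2 (D : Subgroup (GL (Fin 2) F)) := D.isPGroup'
  have hT : ∀ h ∈ (D : Subgroup (GL (Fin 2) F)),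
      gdiag 1 (Matrix.GeneralLinearGroup.det h) ∈ (D : Subgroup (GL (Fin 2) F)) := by
    intro h hh
    apply hDT
    obtain ⟨n, hn⟩ := hDp ⟨h, hh⟩
    refine ⟨n, ?_⟩
    have h3 : h ^ 2 ^ n = 1 := by
      have := congrArg (fun x : (D : Subgroup (GL (Fin 2) F)) => (x : GL (Fin 2) F)) hn
      simpa using this
    rw [← map_pow, h3, map_one]
  have hSp := Cfsg.Agent.Helper42.g2s_isPGroup ι φ hR1 (D : Subgroup (GL (Fin 2) F)) hDp hT
  -- cardinality
  have hA := Cfsg.Agent.Helper42.g2s_card_mul ι φ hι hφ hint (D : Subgroup (GL (Fin 2) F))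
  have hB := Cfsg.Agent.Helper24.g2s_card_scal (D : Subgroup (GL (Fin 2) F)) hDp
  have hC := Cfsg.Agent.Helper93.g2s_card_sylow hF D
  have hDk := Cfsg.Agent.Helper24.g2s_card_ker (D : Subgroup (GL (Fin 2) F)) hDp
  obtain ⟨hQcard, R, hR⟩ := Cfsg.Agent.Helper84.G2SQsqB.g2_sl2_sylow_of_gl2 hF (D : Subgroup (GL (Fin 2) F)) hDp hC hDk
  have hcardS : 2 ^ (2 * padicValNat 2 (Fintype.card F ^ 2 - 1)) ≤
      Nat.card ↥((D : Subgroup (GL (Fin 2) F)).map ι ⊔
        ((D : Subgroup (GL (Fin 2) F)).comap Matrix.SpecialLinearGroup.toGL).map φ) := by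
    have h1 : 2 ^ (padicValNat 2 (Fintype.card F ^ 2 - 1) + padicValNat 2 (Fintype.card F - 1)) *
        2 ^ padicValNat 2 (Fintype.card F ^ 2 - 1) ≤
        Nat.card ↥((D : Subgroup (GL (Fin 2) F)).map ι ⊔
          ((D : Subgroup (GL (Fin 2) F)).comap Matrix.SpecialLinearGroup.toGL).map φ) *
          2 ^ padicValNat 2 (Fintype.card F - 1) :=
      calc 2 ^ (padicValNat 2 (Fintype.card F ^ 2 - 1) + padicValNat 2 (Fintype.card F - 1)) *
            2 ^ padicValNat 2 (Fintype.card F ^ 2 - 1)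
          = Nat.card (D : Subgroup (GL (Fin 2) F)) * 2 ^ padicValNat 2 (Fintype.card F ^ 2 - 1) := by
            rw [← hC]
        _ ≤ Nat.card (D : Subgroup (GL (Fin 2) F)) *
            Nat.card ((D : Subgroup (GL (Fin 2) F)).comap Matrix.SpecialLinearGroup.toGL) :=
            Nat.mul_le_mul_left _ hQcard
        _ ≤ _ := hA
        _ ≤ _ := Nat.mul_le_mul_left _ hB
    have h3 : 2 ^ (2 * padicValNat 2 (Fintype.card F ^ 2 - 1)) *
        2 ^ padicValNat 2 (Fintype.card F - 1) =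
        2 ^ (padicValNat 2 (Fintype.card F ^ 2 - 1) + padicValNat 2 (Fintype.card F - 1)) *
          2 ^ padicValNat 2 (Fintype.card F ^ 2 - 1) := by ring
    exact Nat.le_of_mul_le_mul_right (h3 ▸ h1) (by positivity)
  -- squares
  have hQsq : ∀ c ∈ (D : Subgroup (GL (Fin 2) F)).comap Matrix.SpecialLinearGroup.toGL,
      c ^ 2 ∈ ⁅(D : Subgroup (GL (Fin 2) F)).comap Matrix.SpecialLinearGroup.toGL,
        (D : Subgroup (GL (Fin 2) F)).comap Matrix.SpecialLinearGroup.toGL⁆ := by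
    intro c hc
    rw [← hR] at hc ⊢
    exact Cfsg.Agent.Helper4.g2_sl2_sylow_sq hF R c hc
  have hsq := Cfsg.Agent.Helper4.g2s_sq ι φ (D : Subgroup (GL (Fin 2) F)) hT
    (fun δ hδ => Cfsg.Agent.Helper95.G2SylOwn.g2s_sq_diag ι φ hR1 hR2 (D : Subgroup (GL (Fin 2) F)) δ hδ hDw) hQsq
  -- the order of `G₂(F)`
  have hmem := Cfsg.Agent.Helper95.G2SylOwn.g2_mem_idem (F := F)
  have hX := Cfsg.Agent.Helper42.g2_card_idem hmem Cfsg.Agent.Helper84.G2SPairs.g2_card_pairs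
  have he : e0 F ∈ idem F := (hmem _).2 ⟨by simp [e0], by simp [e0]⟩
  have hK : (phi3 F).range ⊔ (phi2 F).range ≤ Cfsg.Lie.G2 F := by
    apply sup_le
    · rintro _ ⟨A, rfl⟩
      exact Cfsg.Agent.Helper18.G2SylP.g2_phi3_mem A
    · rintro _ ⟨c, rfl⟩
      exact Cfsg.Agent.Helper18.G2SylP.g2_phi2_mem c
  have htr := Cfsg.Agent.Helper95.G2SylOwn.g2_trans hK Cfsg.Agent.Helper95.G2SylOwn.g2_idem_stable Cfsg.Agent.Helper14.G2SylT.g2_trans_H Cfsg.Agent.Helper14.G2SylT.g2_norm1 (Cfsg.Agent.Helper14.G2SylT.g2_norm2 h2)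
  have hdvd := Cfsg.Agent.Helper95.G2SylOwn.g2_card_dvd Cfsg.Agent.Helper18.G2SylP.g2_stab Cfsg.Agent.Helper95.G2SylOwn.g2_idem_stable he htr
  rw [hX] at hdvd
  have hv := Cfsg.Agent.Helper42.g2_v2 hF
  have hpos : (Fintype.card F ^ 6 + Fintype.card F ^ 3) *
      Nat.card (Matrix.SpecialLinearGroup (Fin 3) F) ≠ 0 := by
    have : 0 < Fintype.card F := Fintype.card_pos
    have h4 : 0 < Nat.card (Matrix.SpecialLinearGroup (Fin 3) F) := Nat.card_pos
    positivity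
  have hle : (Nat.card ↥(Cfsg.Lie.G2 F)).factorization 2 ≤
      2 * padicValNat 2 (Fintype.card F ^ 2 - 1) := by
    rw [← hv]
    exact (Nat.factorization_le_iff_dvd Nat.card_pos.ne' hpos).2 hdvd 2
  exact Cfsg.Agent.Helper97.GSylWN.sylow_transfer (MonoidHom.id _) Function.injective_id _ hSp
    (le_trans (Nat.pow_le_pow_right (by norm_num) hle) hcardS) hsq P

end Cfsg.Agent.Helper95.G2Syl
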