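import Mathlib
import Cfsg.Agent.Helper95.OSylDefs
import Cfsg.Agent.Helper37.SpSyl2
import Cfsg.Agent.Helper5.OrthOdd
import Cfsg.Agent.S4623
import Cfsg.Agent.Helper7.OSylK
import Cfsg.Agent.Helper46.OSylSub
import Cfsg.Agent.Helper14.OSylNd
import Cfsg.Agent.Helper19.OSylO2
import Cfsg.Agent.Helper28.OSylO2C
import Cfsg.Agent.Helper14.OSylRel
import Cfsg.Agent.Helper41.OSylPG
import Cfsg.Agent.Helper37.OSylCard
import Cfsg.Agent.Helper14.OSylDet
import Cfsg.Agent.Helper88.OSylSD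
import Cfsg.Agent.Helper28.OSylSW
set_option autoImplicit false

/-!
# Sylow 2-subgroups of orthogonal groups in odd characteristic: the model theorem

For the model form `mQ k c` (`k ≥ 2` planes, `r` lines) whose isometry group has 2-part at most
`|D|^k · |Syl_2(S_k)| · 2^r`, the squares of a Sylow 2-subgroup of `Ω` lie in its derived subgroup.
-/

namespace Cfsg.Agent.Helper95.OSyl
open Matrix Cfsg
universe u
variable {F : Type u} [Field F] {k r : ℕ}

/-- the diagonal reflection of the plane -/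
def rho0GL (F : Type u) [Field F] : GL (Fin 2) F :=
  ⟨!![1, 0; 0, -1], !![1, 0; 0, -1],
    by ext i j; fin_cases i <;> fin_cases j <;> simp [Matrix.mul_apply, Fin.sum_univ_two],
    by ext i j; fin_cases i <;> fin_cases j <;> simp [Matrix.mul_apply, Fin.sum_univ_two]⟩

theorem rho0GL_mem : rho0GL F ∈ O2 F := by
  rw [mem_O2]
  show (!![1, 0; 0, -1] : Matrix (Fin 2) (Fin 2) F)ᵀ * !![1, 0; 0, -1] = 1
  ext i j; fin_cases i <;> fin_cases j <;> simp [Matrix.mul_apply, Fin.sum_univ_two]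

/-- the diagonal reflection of the plane, in `O2` -/
def rho0 (F : Type u) [Field F] : ↥(O2 F) := ⟨rho0GL F, rho0GL_mem⟩

theorem rho0_det : ((rho0 F : GL (Fin 2) F) : Matrix (Fin 2) (Fin 2) F).det = -1 := by
  show (!![1, 0; 0, -1] : Matrix (Fin 2) (Fin 2) F).det = -1
  rw [Matrix.det_fin_two_of]; ring

theorem o2_mul_self (ρ : ↥(O2 F))
    (h : ((ρ : GL (Fin 2) F) : Matrix (Fin 2) (Fin 2) F).det = -1) : ρ * ρ = 1 :=
  Subtype.ext (Cfsg.Agent.Helper19.osyl_o2_sq (ρ : GL (Fin 2) F) ρ.2 h)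

theorem o2_conj_det (ρ ρ' : ↥(O2 F)) :
    (((ρ' * ρ * ρ'⁻¹ : ↥(O2 F)) : GL (Fin 2) F) : Matrix (Fin 2) (Fin 2) F).det =
      ((ρ : GL (Fin 2) F) : Matrix (Fin 2) (Fin 2) F).det := by
  have key : Matrix.GeneralLinearGroup.det ((ρ' * ρ * ρ'⁻¹ : ↥(O2 F)) : GL (Fin 2) F) =
      Matrix.GeneralLinearGroup.det (ρ : GL (Fin 2) F) := by
    rw [Subgroup.coe_mul, Subgroup.coe_mul, Subgroup.coe_inv, map_mul, map_mul, map_inv, mul_comm,
      inv_mul_cancel_left]
  have := congrArg Units.val key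
  rwa [Matrix.GeneralLinearGroup.val_det_apply, Matrix.GeneralLinearGroup.val_det_apply] at this

/-- the generating involutions: reflections in one plane, and sign changes of one line -/
def RR (k : ℕ) (c : Fin r → F) (D : Subgroup ↥(O2 F)) : Set ↥(isometryGroup F ⇑(mQ k c)) :=
  {x | ∃ (i : Fin k) (ρ : ↥(O2 F)), ρ ∈ D ∧
      ((ρ : GL (Fin 2) F) : Matrix (Fin 2) (Fin 2) F).det = -1 ∧ x = Phi k c (Pi.mulSingle i ρ)} ∪
  {x | ∃ l : Fin r, x = Eps k c (Pi.mulSingle l (-1))}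

theorem phi_single_comm (c : Fin r → F) (i j : Fin k) (hij : i ≠ j) (ρ ρ' : ↥(O2 F)) :
    Phi k c (Pi.mulSingle i ρ) * Phi k c (Pi.mulSingle j ρ') =
      Phi k c (Pi.mulSingle j ρ') * Phi k c (Pi.mulSingle i ρ) := by
  rw [← map_mul, ← map_mul, (Pi.mulSingle_commute (f := fun _ : Fin k => ↥(O2 F)) hij ρ ρ').eq]

theorem psi_phi_single (c : Fin r → F) (σ : Equiv.Perm (Fin k)) (i : Fin k) (ρ : ↥(O2 F)) :
    Psi k c σ * Phi k c (Pi.mulSingle i ρ) * (Psi k c σ)⁻¹ = Phi k c (Pi.mulSingle (σ i) ρ) := by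
  rw [Cfsg.Agent.Helper14.osyl_psi_phi]
  congr 1
  funext j
  by_cases h : j = σ i
  · subst h; simp
  · rw [Pi.mulSingle_eq_of_ne h, Pi.mulSingle_eq_of_ne]
    intro h'
    apply h
    rw [← h']
    simp

theorem RR_sq (c : Fin r → F) (D : Subgroup ↥(O2 F)) : ∀ x ∈ RR k c D, x * x = 1 := by
  rintro x (⟨i, ρ, -, hdet, rfl⟩ | ⟨l, rfl⟩)
  · rw [← map_mul, ← Pi.mulSingle_mul, o2_mul_self ρ hdet, Pi.mulSingle_one, map_one]
  · rw [← map_mul, ← Pi.mulSingle_mul]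
    simp

theorem RR_conj (c : Fin r → F) (D : Subgroup ↥(O2 F)) :
    ∀ x ∈ RR k c D, ∀ s ∈ RR k c D, s * x * s⁻¹ ∈ RR k c D := by
  classical
  rintro x hx s hs
  rcases hx with ⟨i, ρ, hρ, hdet, rfl⟩ | ⟨l, rfl⟩
  · rcases hs with ⟨j, ρ', hρ', hdet', rfl⟩ | ⟨l', rfl⟩
    · by_cases hij : i = j
      · subst hij
        refine Or.inl ⟨i, ρ' * ρ * ρ'⁻¹, D.mul_mem (D.mul_mem hρ' hρ) (D.inv_mem hρ'), ?_, ?_⟩
        · rw [o2_conj_det, hdet]
        · rw [← map_inv, ← map_mul, ← map_mul, ← Pi.mulSingle_inv, ← Pi.mulSingle_mul,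
            ← Pi.mulSingle_mul]
      · rw [← phi_single_comm c i j hij, mul_inv_cancel_right]
        exact Or.inl ⟨i, ρ, hρ, hdet, rfl⟩
    · rw [Cfsg.Agent.Helper14.osyl_eps_phi, mul_inv_cancel_right]
      exact Or.inl ⟨i, ρ, hρ, hdet, rfl⟩
  · rcases hs with ⟨j, ρ', hρ', hdet', rfl⟩ | ⟨l', rfl⟩
    · rw [← Cfsg.Agent.Helper14.osyl_eps_phi, mul_inv_cancel_right]
      exact Or.inr ⟨l, rfl⟩
    · rw [← map_mul, mul_comm, map_mul, mul_inv_cancel_right]
      exact Or.inr ⟨l, rfl⟩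

theorem RR_conjT (c : Fin r → F) (D : Subgroup ↥(O2 F)) (σ : Equiv.Perm (Fin k)) :
    ∀ x ∈ RR k c D, Psi k c σ * x * (Psi k c σ)⁻¹ ∈ RR k c D := by
  rintro x (⟨i, ρ, hρ, hdet, rfl⟩ | ⟨l, rfl⟩)
  · rw [psi_phi_single]
    exact Or.inl ⟨σ i, ρ, hρ, hdet, rfl⟩
  · rw [← Cfsg.Agent.Helper14.osyl_eps_psi, mul_inv_cancel_right]
    exact Or.inr ⟨l, rfl⟩

theorem RR_det (c : Fin r → F) (D : Subgroup ↥(O2 F)) : ∀ x ∈ RR k c D,
    (((x : ↥(isometryGroup F ⇑(mQ k c))) : GL (MI k r) F) : Matrix (MI k r) (MI k r) F).det = -1 := by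
  classical
  rintro x (⟨i, ρ, -, hdet, rfl⟩ | ⟨l, rfl⟩)
  · rw [Cfsg.Agent.Helper14.osyl_phi_det, Finset.prod_eq_single i, Pi.mulSingle_eq_same, hdet]
    · intro j _ hj
      rw [Pi.mulSingle_eq_of_ne hj]
      simp
    · intro h; exact absurd (Finset.mem_univ i) h
  · rw [Cfsg.Agent.Helper14.osyl_eps_det, Finset.prod_eq_single l, Pi.mulSingle_eq_same]
    · simp
    · intro j _ hj
      rw [Pi.mulSingle_eq_of_ne hj]
      simp
    · intro h; exact absurd (Finset.mem_univ l) h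

section Fin
variable [Fintype F]

/-- the class of an isometry: whether the first sign character is trivial -/
noncomputable def cl1 (k : ℕ) (c : Fin r → F) (g : ↥(isometryGroup F ⇑(mQ k c))) : Bool :=
  decide (Cfsg.Agent.Helper45.spin ⇑(mQ k c) 1 g = 1)

theorem cl1_conj (c : Fin r → F) (s x : ↥(isometryGroup F ⇑(mQ k c))) :
    cl1 k c (s * x * s⁻¹) = cl1 k c x := by
  unfold cl1
  rw [map_mul, map_mul, map_inv, mul_comm, inv_mul_cancel_left]

theorem RR_slot (hk : 2 ≤ k) (c : Fin r → F) (D : Subgroup ↥(O2 F)) :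
    ∀ x ∈ RR k c D, ∀ s ∈ RR k c D, ∃ s' ∈ RR k c D, cl1 k c s' = cl1 k c s ∧
      s' * x = x * s' ∧ s' * s = s * s' := by
  classical
  rintro x hx s hs
  rcases hs with ⟨j, ρ', hρ', hdet', rfl⟩ | ⟨l', rfl⟩
  · rcases hx with ⟨i, ρ, hρ, hdet, rfl⟩ | ⟨l, rfl⟩
    · by_cases hij : i = j
      · subst hij
        obtain ⟨l, hl⟩ : ∃ l : Fin k, l ≠ i := by
          by_cases h0 : i = ⟨0, by omega⟩
          · exact ⟨⟨1, by omega⟩, by rw [h0]; simp [Fin.ext_iff]⟩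
          · exact ⟨⟨0, by omega⟩, fun h => h0 h.symm⟩
        refine ⟨Phi k c (Pi.mulSingle l ρ'), Or.inl ⟨l, ρ', hρ', hdet', rfl⟩, ?_,
          phi_single_comm c l i hl ρ' ρ, phi_single_comm c l i hl ρ' ρ'⟩
        have h1 := psi_phi_single c (Equiv.swap i l) i ρ'
        rw [Equiv.swap_apply_left] at h1
        rw [← h1, cl1_conj]
      · exact ⟨Phi k c (Pi.mulSingle j ρ'), Or.inl ⟨j, ρ', hρ', hdet', rfl⟩, rfl,
          (phi_single_comm c i j hij ρ ρ').symm, rfl⟩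
    · exact ⟨Phi k c (Pi.mulSingle j ρ'), Or.inl ⟨j, ρ', hρ', hdet', rfl⟩, rfl,
        (Cfsg.Agent.Helper14.osyl_eps_phi c _ _).symm, rfl⟩
  · refine ⟨Eps k c (Pi.mulSingle l' (-1)), Or.inr ⟨l', rfl⟩, rfl, ?_, rfl⟩
    rcases hx with ⟨i, ρ, hρ, hdet, rfl⟩ | ⟨l, rfl⟩
    · exact Cfsg.Agent.Helper14.osyl_eps_phi c _ _
    · rw [← map_mul, mul_comm, map_mul]

theorem S_le_closure (c : Fin r → F) (D : Subgroup ↥(O2 F)) (T₀ : Subgroup (Equiv.Perm (Fin k)))
    (hρ : rho0 F ∈ D) :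
    (Subgroup.pi Set.univ (fun _ : Fin k => D)).map (Phi k c) ⊔ T₀.map (Psi k c) ⊔ (Eps k c).range ≤
      Subgroup.closure (((T₀.map (Psi k c) : Subgroup ↥(isometryGroup F ⇑(mQ k c))) : Set _) ∪ RR k c D) := by
  classical
  refine sup_le (sup_le ?_ ?_) ?_
  · rw [Subgroup.map_le_iff_le_comap, Subgroup.pi_le_iff]
    intro i
    rw [Subgroup.map_le_iff_le_comap]
    have hD := Cfsg.Agent.Helper19.osyl_o2_gen D (rho0 F) hρ rho0_det
    refine hD.le.trans ((Subgroup.closure_le _).mpr ?_)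
    rintro ρ ⟨hρD, hdet⟩
    exact Subgroup.subset_closure (Or.inr (Or.inl ⟨i, ρ, hρD, hdet, rfl⟩))
  · exact fun x hx => Subgroup.subset_closure (Or.inl hx)
  · rw [MonoidHom.range_eq_map, ← Subgroup.pi_top (Set.univ : Set (Fin r)),
      Subgroup.map_le_iff_le_comap, Subgroup.pi_le_iff]
    intro l
    rintro _ ⟨u, -, rfl⟩
    rcases Int.units_eq_one_or u with rfl | rfl
    · rw [map_one]; exact one_mem _
    · exact Subgroup.subset_closure (Or.inr (Or.inr ⟨l, rfl⟩))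

theorem RR_le_S (c : Fin r → F) (D : Subgroup ↥(O2 F)) (T₀ : Subgroup (Equiv.Perm (Fin k))) :
    RR k c D ⊆ ((Subgroup.pi Set.univ (fun _ : Fin k => D)).map (Phi k c) ⊔ T₀.map (Psi k c) ⊔
      (Eps k c).range : Subgroup ↥(isometryGroup F ⇑(mQ k c))) := by
  classical
  rintro x (⟨i, ρ, hρ, hdet, rfl⟩ | ⟨l, rfl⟩)
  · refine (le_sup_left.trans le_sup_left :
      (Subgroup.pi Set.univ (fun _ : Fin k => D)).map (Phi k c) ≤ _) ⟨_, ?_, rfl⟩
    rw [SetLike.mem_coe, Subgroup.mem_pi]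
    intro j _
    by_cases hj : j = i
    · subst hj; rw [Pi.mulSingle_eq_same]; exact hρ
    · rw [Pi.mulSingle_eq_of_ne hj]; exact one_mem _
  · exact (le_sup_right : (Eps k c).range ≤ _) ⟨_, rfl⟩

theorem v2_o2 (hF : Odd (Fintype.card F)) :
    (Nat.card ↥(O2 F)).factorization 2 = (Fintype.card F ^ 2 - 1).factorization 2 := by
  have h1 : 1 < Fintype.card F := Fintype.one_lt_card
  have hodd : ∀ t : ℕ, (2 * t + 1).factorization 2 = 0 := fun t =>
    Nat.factorization_eq_zero_of_not_dvd (by omega)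
  obtain ⟨hs, hns⟩ := Cfsg.Agent.Helper28.osyl_o2_card hF
  by_cases hsq : IsSquare (-1 : F)
  · rw [hs hsq]
    have h4 : Fintype.card F % 4 = 1 := by
      have := FiniteField.isSquare_neg_one_iff.mp hsq
      rcases hF with ⟨t, ht⟩
      omega
    obtain ⟨t, ht⟩ : ∃ t, Fintype.card F = 4 * t + 1 := ⟨Fintype.card F / 4, by omega⟩
    have e : Fintype.card F ^ 2 - 1 = (2 * (Fintype.card F - 1)) * (2 * t + 1) := by
      rw [ht]
      apply Nat.sub_eq_of_eq_add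
      have : 4 * t + 1 - 1 = 4 * t := by omega
      rw [this]
      ring
    have e2 : ((2 * (Fintype.card F - 1)) * (2 * t + 1)).factorization 2 =
        (2 * (Fintype.card F - 1)).factorization 2 := by
      rw [Nat.factorization_mul (by omega) (by omega), Finsupp.add_apply, hodd, add_zero]
    rw [e, e2]
  · rw [hns hsq]
    have h4 : Fintype.card F % 4 = 3 := by
      have := FiniteField.isSquare_neg_one_iff.not.mp hsq
      omega
    obtain ⟨t, ht⟩ : ∃ t, Fintype.card F = 4 * t + 3 := ⟨Fintype.card F / 4, by omega⟩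
    have e : Fintype.card F ^ 2 - 1 = (2 * (Fintype.card F + 1)) * (2 * t + 1) := by
      rw [ht]
      apply Nat.sub_eq_of_eq_add
      ring
    have e2 : ((2 * (Fintype.card F + 1)) * (2 * t + 1)).factorization 2 =
        (2 * (Fintype.card F + 1)).factorization 2 := by
      rw [Nat.factorization_mul (by omega) (by omega), Finsupp.add_apply, hodd, add_zero]
    rw [e, e2]

/-- the model theorem -/
theorem model_sylsq (hF : Odd (Fintype.card F)) (hk : 2 ≤ k) (c : Fin r → F)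
    (hc : ∀ l, c l ≠ 0)
    (hord : (Nat.card ↥(isometryGroup F ⇑(mQ k c))).factorization 2 ≤
      k * (Fintype.card F ^ 2 - 1).factorization 2 + (k.factorial).factorization 2 + r) :
    ∀ (P : Sylow 2 ↥(Omega F ⇑(mQ k c))) (x : ↥(P : Subgroup ↥(Omega F ⇑(mQ k c)))),
      x ^ 2 ∈ commutator ↥(P : Subgroup ↥(Omega F ⇑(mQ k c))) := by
  classical
  haveI : Fact (Nat.Prime 2) := ⟨Nat.prime_two⟩
  have h2 : (2 : F) ≠ 0 := Cfsg.Agent.Helper5.two_ne_zero_of_odd hF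
  have hQ := Cfsg.Agent.Helper14.osyl_mQ_nondeg (k := k) h2 c hc
  have hcard : 2 ≤ Fintype.card (MI k r) := by
    simp only [MI, Fintype.card_sum, Fintype.card_prod, Fintype.card_fin]
    omega
  obtain ⟨ε, hε⟩ := FiniteField.exists_nonsquare (Cfsg.Agent.Helper45.ringChar_ne_two h2)
  have hz : IsPGroup 2 ↥(Subgroup.zpowers (rho0 F)) := by
    have h1 : orderOf (rho0 F) ∣ 2 :=
      orderOf_dvd_of_pow_eq_one (by rw [pow_two]; exact o2_mul_self _ rho0_det)
    rcases (Nat.dvd_prime Nat.prime_two).mp h1 with h | h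
    · exact IsPGroup.of_card (n := 0) (by rw [Nat.card_zpowers, h]; rfl)
    · exact IsPGroup.of_card (n := 1) (by rw [Nat.card_zpowers, h]; rfl)
  obtain ⟨D, hD⟩ := hz.exists_le_sylow
  have hρD : rho0 F ∈ (D : Subgroup ↥(O2 F)) := hD (Subgroup.mem_zpowers _)
  obtain ⟨T₀⟩ : Nonempty (Sylow 2 (Equiv.Perm (Fin k))) := inferInstance
  have hS := Cfsg.Agent.Helper41.osyl_isPGroup (k := k) c (D : Subgroup ↥(O2 F)) (T₀ : Subgroup (Equiv.Perm (Fin k)))
    D.isPGroup' T₀.isPGroup'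
  have hScard := Cfsg.Agent.Helper37.osyl_card_ge (k := k) h2 c (D : Subgroup ↥(O2 F)) (T₀ : Subgroup (Equiv.Perm (Fin k)))
  -- the hypotheses of the reflection core
  have hT : ∀ t ∈ (T₀ : Subgroup (Equiv.Perm (Fin k))).map (Psi k c),
      t ^ 2 ∈ ⁅(T₀ : Subgroup (Equiv.Perm (Fin k))).map (Psi k c),
        (T₀ : Subgroup (Equiv.Perm (Fin k))).map (Psi k c)⁆ := by
    rintro _ ⟨σ, hσ, rfl⟩
    have h1 := (Cfsg.Agent.S4623.result 2 k T₀ default).1
    have h3 := (Cfsg.Agent.Helper37.sq_mem_comm_iff (T₀ : Subgroup (Equiv.Perm (Fin k)))).mp h1 σ hσ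
    rw [← Subgroup.map_commutator, ← map_pow]
    exact Subgroup.mem_map_of_mem _ h3
  have hK := Cfsg.Agent.Helper7.osyl_refl_core ((T₀ : Subgroup (Equiv.Perm (Fin k))).map (Psi k c))
    (RR k c (D : Subgroup ↥(O2 F))) (cl1 k c) (RR_sq c _)
    (fun x hx s hs => ⟨RR_conj c _ x hx s hs, cl1_conj c s x⟩)
    (by
      rintro _ ⟨σ, -, rfl⟩ x hx
      exact ⟨RR_conjT c _ σ x hx, cl1_conj c _ x⟩)
    (RR_slot hk c _) hT
  obtain ⟨hK1, hK2⟩ := hK
  refine Cfsg.Agent.Helper46.osyl_of_subgroup _ _ hS ?_ ?_ (Cfsg.Agent.Helper45.omega_index (mQ k c) h2 hQ hcard)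
    ((Subgroup.card_le_of_le (S_le_closure c _ _ hρD)).trans hK1) ?_ hK2
  · -- N ≤ S
    rw [Subgroup.closure_le]
    rintro x (hx | ⟨a, ha, b, hb, -, rfl⟩)
    · exact Subgroup.mem_sup_left (Subgroup.mem_sup_right hx)
    · exact mul_mem (RR_le_S c _ _ ha) (RR_le_S c _ _ hb)
  · -- N ≤ Ω
    rw [Subgroup.closure_le]
    rintro x (hx | ⟨a, ha, b, hb, hab, rfl⟩)
    · obtain ⟨σ, -, rfl⟩ := hx
      exact Cfsg.Agent.Helper28.osyl_psi_mem_omega h2 c hQ σ
    · show a * b ∈ Omega F ⇑(mQ k c)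
      rw [Cfsg.Agent.Helper45.mem_omega_iff (mQ k c) h2 hQ hcard ε hε]
      have h1 : Cfsg.Agent.Helper45.spin ⇑(mQ k c) 1 (a * b) = 1 := by
        have hab' : (Cfsg.Agent.Helper45.spin ⇑(mQ k c) 1 a = 1) ↔
            (Cfsg.Agent.Helper45.spin ⇑(mQ k c) 1 b = 1) := by
          unfold cl1 at hab
          simpa using hab
        rw [map_mul]
        rcases Int.units_eq_one_or (Cfsg.Agent.Helper45.spin ⇑(mQ k c) 1 a) with h | h
        · rw [h, hab'.mp h]; rfl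
        · rcases Int.units_eq_one_or (Cfsg.Agent.Helper45.spin ⇑(mQ k c) 1 b) with h' | h'
          · rw [hab'.mpr h'] at h
            exact absurd h (by decide)
          · rw [h, h']; rfl
      refine ⟨h1, ?_⟩
      have hdet := Cfsg.Agent.Helper88.osyl_spin_det (mQ k c) h2 hQ hcard ε hε (a * b)
      rw [h1, one_mul, Subgroup.coe_mul, Units.val_mul, Matrix.det_mul, RR_det c _ a ha,
        RR_det c _ b hb] at hdet
      rcases Int.units_eq_one_or (Cfsg.Agent.Helper45.spin ⇑(mQ k c) ε (a * b)) with h | h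
      · exact h
      · rw [h] at hdet
        exfalso
        apply h2
        have : (1 : F) = -1 := by simpa using hdet
        linear_combination this
  · -- the order
    obtain ⟨n, hn⟩ := hS.exists_card_eq
    have hDc : Nat.card ↥(D : Subgroup ↥(O2 F)) = 2 ^ (Fintype.card F ^ 2 - 1).factorization 2 := by
      rw [D.card_eq_multiplicity, v2_o2 hF]
    have hTc : Nat.card ↥(T₀ : Subgroup (Equiv.Perm (Fin k))) = 2 ^ (k.factorial).factorization 2 := by
      rw [T₀.card_eq_multiplicity, Nat.card_perm, Nat.card_fin]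
    rw [hDc, hTc, hn, ← pow_mul, ← pow_add, ← pow_add] at hScard
    have hle := (Nat.pow_le_pow_iff_right (by norm_num : 1 < 2)).mp hScard
    rw [hn, Nat.Prime.factorization_pow Nat.prime_two, Finsupp.single_eq_same]
    calc _ ≤ _ := hord
      _ = _ := by ring
      _ ≤ n := hle

end Fin

end Cfsg.Agent.Helper95.OSyl
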