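import Mathlib
import Cfsg.Agent.Helper95.OSylModel
import Cfsg.Agent.Helper37.OSylTR
import Cfsg.Agent.Helper33.OSylIso
import Cfsg.Agent.Helper30.OSylIso
import Cfsg.Agent.Helper61.OSylAr
import Cfsg.Agent.Helper5.OrthForms
import Cfsg.Agent.Helper5.OrthOdd
import Cfsg.Agent.Helper5.OrthMinus
set_option autoImplicit false

/-!
# Sylow 2-subgroups of `Ω_{2m+1}(q)`, `Ω⁺_{2m}(q)`, `Ω⁻_{2m}(q)`, `q` odd: the three rows
-/

namespace Cfsg.Agent.Helper95.OSyl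
open Matrix Cfsg
universe u
variable {F : Type u} [Field F] [Fintype F]

theorem isSquare_neg_one_pow_iff (hF : Odd (Fintype.card F)) (m : ℕ) :
    IsSquare ((-1 : F) ^ m) ↔ (Fintype.card F % 4 = 1 ∨ Even m) := by
  rcases Nat.even_or_odd m with hm | hm
  · rw [hm.neg_one_pow]
    exact ⟨fun _ => Or.inr hm, fun _ => ⟨1, by ring⟩⟩
  · rw [hm.neg_one_pow, FiniteField.isSquare_neg_one_iff]
    have hne : ¬ Even m := Nat.not_even_iff_odd.mpr hm
    rcases hF with ⟨t, ht⟩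
    constructor
    · intro h
      left
      omega
    · rintro (h | h)
      · omega
      · exact absurd h hne

theorem row_odd (hF : Odd (Fintype.card F)) (m : ℕ) (hm : 3 ≤ m) :
    ∀ (P : Sylow 2 ↥(Omega F (quadFormOdd m F))) (x : ↥(P : Subgroup ↥(Omega F (quadFormOdd m F)))),
      x ^ 2 ∈ commutator ↥(P : Subgroup ↥(Omega F (quadFormOdd m F))) := by
  obtain ⟨P, P', d, h1, h2, hd, hQ⟩ := Cfsg.Agent.Helper33.osyl_iso_odd hF m
  obtain ⟨hcard, htr⟩ := Cfsg.Agent.Helper37.osyl_transfer (quadFormOdd m F)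
    (⇑(mQ m (fun _ : Fin 1 => (1 : F)))) P P' h1 h2 d hd hQ
  apply htr
  apply model_sylsq hF (by omega) _ (fun _ => one_ne_zero)
  rw [← hcard, Cfsg.Agent.Helper5.card_GO_odd hF m,
    Cfsg.Agent.Helper61.osyl_ar_odd _ m hF Fintype.one_lt_card]

theorem row_plus (hF : Odd (Fintype.card F)) (m : ℕ) (hm : 1 ≤ m) (hm' : Even m ∨ 4 ≤ m) :
    ∀ (P : Sylow 2 ↥(Omega F (quadFormPlus m F))) (x : ↥(P : Subgroup ↥(Omega F (quadFormPlus m F)))),
      x ^ 2 ∈ commutator ↥(P : Subgroup ↥(Omega F (quadFormPlus m F))) := by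
  obtain ⟨hp1, hp2⟩ := Cfsg.Agent.Helper30.osyl_iso_plus hF m hm
  have hq1 : 1 < Fintype.card F := Fintype.one_lt_card
  obtain ⟨ha1, ha2⟩ := Cfsg.Agent.Helper61.osyl_ar_plus (Fintype.card F) m hF hq1 hm
  by_cases hsq : IsSquare ((-1 : F) ^ m)
  · obtain ⟨P, P', h1, h2, hQ⟩ := hp1 hsq
    obtain ⟨hcard, htr⟩ := Cfsg.Agent.Helper37.osyl_transfer (quadFormPlus m F)
      (⇑(mQ m (fun _ : Fin 0 => (1 : F)))) P P' h1 h2 1 one_ne_zero
      (fun w => by rw [hQ w, one_mul])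
    apply htr
    have hk : 2 ≤ m := by
      rcases hm' with ⟨t, rfl⟩ | h <;> omega
    apply model_sylsq hF hk _ (fun l => l.elim0)
    rw [← hcard, Cfsg.Agent.Helper5.card_GO_plus m hm,
      ha1 ((isSquare_neg_one_pow_iff hF m).mp hsq)]
    exact le_rfl
  · obtain ⟨δ, P, P', hδ, h1, h2, hQ⟩ := hp2 hsq
    obtain ⟨hcard, htr⟩ := Cfsg.Agent.Helper37.osyl_transfer (quadFormPlus m F)
      (⇑(mQ (m - 1) (![1, δ] : Fin 2 → F))) P P' h1 h2 1 one_ne_zero
      (fun w => by rw [hQ w, one_mul])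
    apply htr
    have hcase : Fintype.card F % 4 = 3 ∧ Odd m := by
      have h := (isSquare_neg_one_pow_iff hF m).not.mp hsq
      push Not at h
      refine ⟨?_, Nat.not_even_iff_odd.mp h.2⟩
      rcases hF with ⟨t, ht⟩
      omega
    have hk : 2 ≤ m - 1 := by
      obtain ⟨t, ht⟩ := hcase.2
      rcases hm' with ⟨s, hs⟩ | h <;> omega
    have hδ0 : δ ≠ 0 := by
      rintro rfl
      exact hδ ⟨0, by ring⟩
    apply model_sylsq hF hk _ (fun l => by fin_cases l <;> simp [hδ0])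
    rw [← hcard, Cfsg.Agent.Helper5.card_GO_plus m hm, ha2 hcase]

theorem row_minus (hF : Odd (Fintype.card F)) (m : ℕ) (hm : 4 ≤ m) (a b : F)
    (hab : ∀ z₁ z₂ : F, z₁ ^ 2 + a * z₁ * z₂ + b * z₂ ^ 2 = 0 → z₁ = 0 ∧ z₂ = 0) :
    ∀ (P : Sylow 2 ↥(Omega F (quadFormMinus (m - 1) F a b)))
      (x : ↥(P : Subgroup ↥(Omega F (quadFormMinus (m - 1) F a b)))),
      x ^ 2 ∈ commutator ↥(P : Subgroup ↥(Omega F (quadFormMinus (m - 1) F a b))) := by
  have hm1 : 1 ≤ m := by omega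
  obtain ⟨hp1, hp2⟩ := Cfsg.Agent.Helper30.osyl_iso_minus hF m hm1 a b hab
  have hq1 : 1 < Fintype.card F := Fintype.one_lt_card
  obtain ⟨ha1, ha2⟩ := Cfsg.Agent.Helper61.osyl_ar_minus (Fintype.card F) m hF hq1 hm1
  by_cases hsq : IsSquare ((-1 : F) ^ m)
  · obtain ⟨δ, P, P', hδ, h1, h2, hQ⟩ := hp2 hsq
    obtain ⟨hcard, htr⟩ := Cfsg.Agent.Helper37.osyl_transfer (quadFormMinus (m - 1) F a b)
      (⇑(mQ (m - 1) (![1, δ] : Fin 2 → F))) P P' h1 h2 1 one_ne_zero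
      (fun w => by rw [hQ w, one_mul])
    apply htr
    have hδ0 : δ ≠ 0 := by
      rintro rfl
      exact hδ ⟨0, by ring⟩
    apply model_sylsq hF (by omega) _ (fun l => by fin_cases l <;> simp [hδ0])
    rw [← hcard, Cfsg.Agent.Helper5.card_GO_minus a b hab m hm1,
      ha2 ((isSquare_neg_one_pow_iff hF m).mp hsq)]
  · obtain ⟨P, P', h1, h2, hQ⟩ := hp1 hsq
    obtain ⟨hcard, htr⟩ := Cfsg.Agent.Helper37.osyl_transfer (quadFormMinus (m - 1) F a b)
      (⇑(mQ m (fun _ : Fin 0 => (1 : F)))) P P' h1 h2 1 one_ne_zero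
      (fun w => by rw [hQ w, one_mul])
    apply htr
    have hcase : Fintype.card F % 4 = 3 ∧ Odd m := by
      have h := (isSquare_neg_one_pow_iff hF m).not.mp hsq
      push Not at h
      refine ⟨?_, Nat.not_even_iff_odd.mp h.2⟩
      rcases hF with ⟨t, ht⟩
      omega
    apply model_sylsq hF (by omega) _ (fun l => l.elim0)
    rw [← hcard, Cfsg.Agent.Helper5.card_GO_minus a b hab m hm1, ha1 hcase]
    exact le_rfl

end Cfsg.Agent.Helper95.OSyl
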