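import Mathlib
import Cfsg.Agent.Helper95.OTSDefs
import Cfsg.Agent.Helper43.OTEXAB
import Cfsg.Agent.Helper47.OTCNTPERP
import Cfsg.Agent.Helper31.OTNF
import Cfsg.Agent.Helper80.OTHYP
import Cfsg.Agent.Helper10.OTSBOUND
import Cfsg.Agent.Helper42.OTSCNTA
import Cfsg.Agent.Helper70.OTSCNTB
import Cfsg.Agent.Helper39.OTSCYC
import Cfsg.Agent.Helper39.OTSFIX
import Cfsg.Agent.Helper10.OTSLAG
import Cfsg.Agent.Helper39.OTSMAX
import Cfsg.Agent.Helper70.OTSMODC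
import Cfsg.Agent.Helper41.OTSODD
import Cfsg.Agent.Helper39.OTSORTHB
import Cfsg.Agent.Helper48.OTSREFPROD
import Cfsg.Agent.Helper70.OTSSINGV
import Cfsg.Agent.Helper88.OTSTWOELT
import Cfsg.Agent.Helper42.OTSXFER

set_option autoImplicit false

/-!
# S5972 (helper95): assembly
-/

namespace Cfsg.Agent.Helper95.OTS

open Module Polynomial
open Cfsg.Agent.Helper13.TIsp Cfsg.Agent.Helper42.SpGroup Cfsg.Agent.Helper42.SpModels
open Cfsg.Agent.Helper90.BG
open Cfsg.Agent.Helper11.TI5955 (ti_sum)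
open Cfsg.Agent.Helper51.TI5955 (b1_arith arith_c ord_dvd ord_pos)
open Cfsg.Agent.Helper58.TI5955 (ti_cw cnt_ar)
open Cfsg.Agent.Helper59.TI5955 (tib_exists_sub)
open Cfsg.Agent.Helper10.OTS (sym_bound)
open Cfsg.Agent.Helper42.OTS (ocnt_a)
open Cfsg.Agent.Helper70.OTS (ocnt_b)
open Cfsg.Agent.Helper39.OTS (sym_cyc)
open Cfsg.Agent.Helper39.OTS (sym_fix)
open Cfsg.Agent.Helper10.OTS (sym_lag)
open Cfsg.Agent.Helper39.OTS (sym_max)
open Cfsg.Agent.Helper70.OTS (omod_c)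
open Cfsg.Agent.Helper41.OTS (sym_odd)
open Cfsg.Agent.Helper39.OTS (sym_orthb)
open Cfsg.Agent.Helper48.OTS (orefprod)
open Cfsg.Agent.Helper70.OTS (osing_card)
open Cfsg.Agent.Helper88.OTS (otwo_elt)
open Cfsg.Agent.Helper42.OTS (oxfer)

section abstract

variable {F : Type*} [Field F] {V : Type*} [AddCommGroup V] [Module F V] [FiniteDimensional F V]
  (B : LinearMap.BilinForm F V)

omit [FiniteDimensional F V] in
theorem ots_pow_mem (T : Module.End F V) (U : Submodule F V) (hU : U.map T ≤ U) (j : ℕ) (v : V)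
    (hv : v ∈ U) : (T ^ j) v ∈ U := by
  induction j with
  | zero => simpa using hv
  | succ j ih =>
    rw [pow_succ', Module.End.mul_apply]
    exact hU (Submodule.mem_map_of_mem ih)

/-- The structure theorem for an isometry of odd prime order of a symmetric space. -/
theorem sym_b1g [Fintype F] (hsym : ∀ u v, B u v = B v u) (h2 : (2 : F) ≠ 0)
    (hnd : ∀ v, (∀ w, B v w = 0) → v = 0)
    (T : Module.End F V) (hT : Preserves B T) (r : ℕ) [Fact r.Prime] (hr2 : 2 < r)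
    (hrF : (r : F) ≠ 0) (hTr : T ^ r = 1) (i : ℕ)
    (hi : i = orderOf ((Fintype.card F : ℕ) : ZMod r)) :
    ∃ u b₀ : ℕ, finrank F V = finrank F (LinearMap.ker (T - 1)) + i * u ∧
      (Odd i → u = 2 * b₀) ∧
      (Even i → u ≤ 2 * b₀ + (r - 1) / i) ∧ 2 * b₀ ≤ u ∧
      ∀ b m₀ : ℕ, b ≤ b₀ → 2 * m₀ + 1 ≤ finrank F (LinearMap.ker (T - 1)) →
        ∃ W : Submodule F V, finrank F W = i * b + m₀ ∧ TI B W ∧ W.map T ≤ W := by
  classical
  have hrpr : r.Prime := Fact.out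
  have hrodd : Odd r := hrpr.odd_of_ne_two (by omega)
  have hdeg : ∀ g : F[X], Irreducible g → g ∣ ∑ j ∈ Finset.range r, (X : F[X]) ^ j →
      g.natDegree = i := fun g hg hdvd => by
    rw [hi]
    exact Cfsg.Agent.Helper46.bgl_irr_factor_degree r hrF g hg hdvd
  have hi0 : 0 < i := by
    obtain ⟨p, hp⟩ := CharP.exists F
    have hpp : p.Prime := by
      rcases CharP.char_is_prime_or_zero F p with h | h
      · exact h
      · exfalso
        subst h
        have : CharZero F := CharP.charP_to_charZero F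
        exact not_finite F
    have : Fact p.Prime := ⟨hpp⟩
    have hrq : ¬ r ∣ Fintype.card F := by
      intro h
      obtain ⟨n, -, hn⟩ := FiniteField.card F p
      rw [hn] at h
      have h3 := (Nat.prime_dvd_prime_iff_eq hrpr hpp).mp (hrpr.dvd_of_dvd_pow h)
      apply hrF
      rw [h3]
      exact CharP.cast_eq_zero F p
    rw [hi]
    exact (ord_pos r _ hrq).1
  obtain ⟨hDT, hcompl, hCD, hDC, hCnd, hDnd⟩ := sym_fix B hsym hnd T hT r hrF hTr
  have hCDbot : LinearMap.ker (T - 1) ⊓ LinearMap.range (T - 1) = ⊥ := hcompl.inf_eq_bot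
  have hfr : finrank F (LinearMap.ker (T - 1)) + finrank F (LinearMap.range (T - 1)) =
      finrank F V := Submodule.finrank_add_eq_of_isCompl hcompl
  have hClag := sym_lag B hsym h2 (LinearMap.ker (T - 1)) hCnd
  obtain ⟨W₀, U, hW₀D, hUD, hW₀ti, hW₀T, hUT, hDdim, hUmax⟩ :=
    sym_max B hsym T hT r hrF hTr (LinearMap.range (T - 1)) hDT hDnd
  have hDk : LinearMap.range (T - 1) ⊓ LinearMap.ker (T - 1) = ⊥ := by
    rw [inf_comm]
    exact hCDbot
  have hW₀k : W₀ ⊓ LinearMap.ker (T - 1) = ⊥ := by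
    rw [eq_bot_iff]
    exact (inf_le_inf_right _ hW₀D).trans (le_of_eq hDk)
  have hUk : U ⊓ LinearMap.ker (T - 1) = ⊥ := by
    rw [eq_bot_iff]
    exact (inf_le_inf_right _ hUD).trans (le_of_eq hDk)
  obtain ⟨u, hu⟩ : i ∣ finrank F (LinearMap.range (T - 1)) := by
    have h1 := cyc_dvd T r i hrF hTr hdeg (LinearMap.range (T - 1)) hDT
    rw [hDk] at h1
    simpa using h1
  obtain ⟨b₀, hb₀⟩ : i ∣ finrank F W₀ := by
    have h1 := cyc_dvd T r i hrF hTr hdeg W₀ hW₀T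
    rw [hW₀k] at h1
    simpa using h1
  have h1 : i * u = 2 * (i * b₀) + finrank F U := by
    rw [← hu, ← hb₀]
    exact hDdim
  have hbu : 2 * b₀ ≤ u := by
    by_contra hlt
    push Not at hlt
    have h2 : i * u < i * (2 * b₀) := Nat.mul_lt_mul_of_pos_left hlt hi0
    have h3 : i * (2 * b₀) = 2 * (i * b₀) := by ring
    omega
  have hUdim : finrank F U = i * (u - 2 * b₀) := by
    rw [Nat.mul_sub]
    have h3 : i * (2 * b₀) = 2 * (i * b₀) := by ring
    omega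
  refine ⟨u, b₀, ?_, ?_, ?_, hbu, ?_⟩
  · rw [← hfr, hu]
  · intro hio
    have hUbot : U = ⊥ := by
      by_contra hne
      obtain ⟨W', hW'U, hW'ti, hW'T, hW'ne⟩ :=
        sym_odd B hsym h2 T hT r hr2 hrF hTr (hi ▸ hio) U hUT hne hUk
      exact hW'ne (hUmax W' hW'U hW'ti hW'T)
    have h2 : finrank F U = 0 := by
      rw [hUbot]
      simp
    rw [hUdim] at h2
    have h3 := (Nat.mul_eq_zero.mp h2).resolve_left (by omega)
    omega
  · intro _
    have hUle : finrank F U ≤ r - 1 := by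
      by_contra hlt
      push Not at hlt
      have hcard : 2 * (Finset.Icc 1 ((r - 1) / 2)).card < finrank F U := by
        rw [Nat.card_Icc]
        omega
      obtain ⟨v, hvU, hv0, hv⟩ := ti_cw B T U (Finset.Icc 1 ((r - 1) / 2)) hcard
      have hsum : ∑ j ∈ Finset.range r, (T ^ j) v = 0 := by
        have h2' : aeval T (∑ j ∈ Finset.range r, (X : F[X]) ^ j) v ∈
            U ⊓ LinearMap.ker (T - 1) := by
          refine ⟨aeval_mem T U hUT _ hvU, ?_⟩
          rw [SetLike.mem_coe, LinearMap.mem_ker, ← Module.End.mul_apply,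
            sub_one_mul_aeval_phi T r hTr, LinearMap.zero_apply]
        rw [hUk, Submodule.mem_bot, aeval_phi, LinearMap.sum_apply] at h2'
        exact h2'
      obtain ⟨h2, h3⟩ := sym_cyc B hsym T hT r hrodd hTr v hsum hv
      have hle : Submodule.span F (Set.range fun j : ℕ => (T ^ j) v) ≤ U := by
        rw [Submodule.span_le]
        rintro _ ⟨j, rfl⟩
        exact ots_pow_mem T U hUT j v hvU
      have h4 := hUmax _ hle h2 h3
      have hv' : v ∈ Submodule.span F (Set.range fun j : ℕ => (T ^ j) v) :=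
        Submodule.subset_span ⟨0, by simp⟩
      rw [h4] at hv'
      exact hv0 ((Submodule.mem_bot F).mp hv')
    rw [hUdim] at hUle
    have h5 : u - 2 * b₀ ≤ (r - 1) / i := by
      rw [Nat.le_div_iff_mul_le hi0, mul_comm]
      exact hUle
    omega
  · intro b m₀ hb hm₀
    have hPW : ∀ v ∈ W₀, aeval T (∑ j ∈ Finset.range r, (X : F[X]) ^ j) v ∈
        (⊥ : Submodule F V) := by
      intro v hv
      have h2 : aeval T (∑ j ∈ Finset.range r, (X : F[X]) ^ j) v ∈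
          W₀ ⊓ LinearMap.ker (T - 1) := by
        refine ⟨aeval_mem T W₀ hW₀T _ hv, ?_⟩
        rw [SetLike.mem_coe, LinearMap.mem_ker, ← Module.End.mul_apply,
          sub_one_mul_aeval_phi T r hTr, LinearMap.zero_apply]
      rw [hW₀k] at h2
      exact h2
    obtain ⟨Wb, -, hWbW₀, hWbT, hWbdim⟩ := chain_exists T ⊥ W₀ bot_le (by simp) hW₀T _
      (phi_ne_zero r hrF) hPW i hdeg b (by
        rw [finrank_bot, zero_add, hb₀]
        exact Nat.mul_le_mul_left i hb)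
    obtain ⟨A, hAC, hAti, hAdim⟩ := hClag m₀ hm₀
    obtain ⟨hti, hdim⟩ := ti_sum B A Wb (LinearMap.ker (T - 1)) (LinearMap.range (T - 1)) hAC
      (hWbW₀.trans hW₀D) hCDbot hCD hDC hAti
      (fun u hu v hv => hW₀ti u (hWbW₀ hu) v (hWbW₀ hv))
    refine ⟨A ⊔ Wb, ?_, hti, ?_⟩
    · rw [hdim, hAdim, hWbdim, finrank_bot]
      ring
    · rw [Submodule.map_sup]
      refine sup_le_sup ?_ hWbT
      rintro _ ⟨a, ha, rfl⟩
      have h6 : T a = a := (mem_ker_sub_one T a).mp (hAC ha)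
      rw [h6]
      exact ha

/-- `sym_lag` also for `k = 0`. -/
theorem sym_lag0 [Fintype F] (hsym : ∀ u v, B u v = B v u) (h2 : (2 : F) ≠ 0)
    (C : Submodule F V) (hC : NondegOn B C) (k : ℕ) (hk : k = 0 ∨ 2 * k + 1 ≤ finrank F C) :
    ∃ A : Submodule F V, A ≤ C ∧ TI B A ∧ finrank F A = k := by
  rcases hk with rfl | hk
  · refine ⟨⊥, bot_le, fun u hu v _ => ?_, by simp⟩
    rw [(Submodule.mem_bot F).mp hu]
    simp
  · exact sym_lag B hsym h2 C hC k hk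

/-- Involutions: the sum of totally isotropic subspaces of the two eigenspaces. -/
theorem sym_inv_sum (hsym : ∀ u v, B u v = B v u) (hnd : ∀ v, (∀ w, B v w = 0) → v = 0)
    (h2 : (2 : F) ≠ 0) (T : Module.End F V) (hT : Preserves B T) (hT2 : T ^ 2 = 1)
    (A₁ A₂ : Submodule F V) (h1 : A₁ ≤ LinearMap.ker (T - 1)) (h2' : A₂ ≤ LinearMap.range (T - 1))
    (ht1 : TI B A₁) (ht2 : TI B A₂) :
    ∃ W : Submodule F V, finrank F W = finrank F A₁ + finrank F A₂ ∧ TI B W ∧ W.map T ≤ W := by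
  have h2F : ((2 : ℕ) : F) ≠ 0 := by exact_mod_cast h2
  obtain ⟨-, hcompl, hCD, hDC, -, -⟩ := sym_fix B hsym hnd T hT 2 h2F hT2
  obtain ⟨hti, hdim⟩ := ti_sum B A₁ A₂ _ _ h1 h2' hcompl.inf_eq_bot hCD hDC ht1 ht2
  refine ⟨A₁ ⊔ A₂, hdim, hti, ?_⟩
  rw [Submodule.map_sup]
  refine sup_le_sup ?_ ?_
  · rintro _ ⟨a, ha, rfl⟩
    rw [(mem_ker_sub_one T a).mp (h1 ha)]
    exact ha
  · rintro _ ⟨a, ha, rfl⟩
    obtain ⟨w, hw⟩ := h2' ha
    have h5 : T (T w) = w := by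
      have := congrArg (fun f : Module.End F V => f w) hT2
      simpa [pow_two, Module.End.mul_apply] using this
    have h6 : T a = -a := by
      rw [← hw]
      simp only [LinearMap.sub_apply, Module.End.one_apply, map_sub, h5]
      abel
    rw [h6]
    exact A₂.neg_mem ha

end abstract

section arith

theorem o_mod_succ (d c' : ℕ) (hc' : 0 < c') :
    (2 * d + 1) % (2 * c') = (2 * d) % (2 * c') + 1 := by
  have h1 : (2 * d) % (2 * c') = 2 * (d % c') := Nat.mul_mod_mul_left 2 d c'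
  have h2 : (2 * d + 1) % (2 * c') = 2 * (d % c') + 1 := by
    have h3 : 2 * d + 1 = (2 * (d % c') + 1) + (2 * c') * (d / c') := by
      have := Nat.div_add_mod d c'
      linarith
    rw [h3, Nat.add_mul_mod_self_left, Nat.mod_eq_of_lt]
    have := Nat.mod_lt d hc'
    omega
  rw [h1, h2]

theorem o_div_succ (d i : ℕ) (hi : Even i) : (2 * d + 1) / i = (2 * d) / i := by
  obtain ⟨k, rfl⟩ := hi
  rw [show k + k = 2 * k by ring, ← Nat.div_div_eq_div_mul, ← Nat.div_div_eq_div_mul]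
  congr 1
  omega

end arith

section concrete

variable {F : Type*} [Field F] [Fintype F]

theorem oEnd_pow_eq_one {d : ℕ} (g : ↥(Cfsg.isometryGroup F (Cfsg.quadFormOdd d F))) (k : ℕ)
    (h : g ^ k = 1) : oEnd g ^ k = 1 := by
  rw [← oEnd_pow, h, oEnd_one]

/-- An element of order `r` with small fixed space (from helper43's `ot_ex_ab`). -/
theorem obad_ab (p : ℕ) [Fact p.Prime] [CharP F p]
    (h2 : (2 : F) ≠ 0) (r : ℕ) [Fact r.Prime] (hr2 : 2 < r)
    (hrp : r ≠ p) (i c : ℕ) (hi : i = orderOf ((Fintype.card F : ℕ) : ZMod r))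
    (hc : c = if Even i then i else 2 * i) (d u e' : ℕ) (hu : 1 ≤ u)
    (hdim : 2 * d = c * u + 2 * e') :
    ∃ g : ↥(Cfsg.isometryGroup F (Cfsg.quadFormOdd d F)), orderOf g = r ∧
      finrank F (LinearMap.ker (oEnd g - 1)) ≤ 2 * e' + 1 := by
  obtain ⟨-, hrq⟩ := ti_char_facts (F := F) p r hrp
  obtain ⟨hi0, -⟩ := ord_pos r (Fintype.card F) hrq
  rw [← hi] at hi0
  have hcpos : 0 < c := by
    rw [hc]
    split_ifs <;> omega
  have hd : 1 ≤ d := by
    by_contra h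
    push Not at h
    have h5 : c * u = 0 := by omega
    rcases Nat.mul_eq_zero.mp h5 with h | h <;> omega
  obtain ⟨x, hxΩ, hxr, hxk⟩ := Cfsg.Agent.Helper43.OT5972.ot_ex_ab p h2 r hr2 hrp i c hi hc d u
    (2 * e' + 1) hd hu (by omega)
  obtain ⟨g, hgΩ, rfl⟩ := Subgroup.mem_map.mp hxΩ
  exact ⟨g, by rw [← hxr]; exact (Subgroup.orderOf_coe g).symm, hxk⟩

/-- Singular vectors orthogonal to a totally singular frame (from helper43's CALL OT piece
`ot_cnt_perp`, helper47 / helper12). -/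
theorem osing_perp (F : Type*) [Field F] [Fintype F] (h2 : (2 : F) ≠ 0) (d : ℕ)
    (_h0 : Nat.card {x : Unit ⊕ (Fin d ⊕ Fin d) → F // Cfsg.quadFormOdd d F x = 0} =
      Fintype.card F ^ (2 * d)) :
    ∀ j, j ≤ d → ∀ v : Fin j → (Unit ⊕ (Fin d ⊕ Fin d) → F), LinearIndependent F v →
      (∀ a, Cfsg.quadFormOdd d F (v a) = 0) → (∀ a b, oB d F (v a) (v b) = 0) →
      Nat.card {x : Unit ⊕ (Fin d ⊕ Fin d) → F //
        Cfsg.quadFormOdd d F x = 0 ∧ ∀ a, oB d F x (v a) = 0} = Fintype.card F ^ (2 * d - j) := by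
  intro j hj v hv hs hp
  rw [← Cfsg.Agent.Helper47.OT5972.ot_cnt_perp F h2 d j hj v hv hs hp]
  apply Nat.card_congr
  exact Equiv.subtypeEquivRight (fun x => and_congr Iff.rfl (forall_congr' fun a => by
    rw [oB_symm]
    rfl))

theorem o_cnt_main (p : ℕ) [Fact p.Prime] [CharP F p] (h2 : (2 : F) ≠ 0) (d m : ℕ) (hm : 1 ≤ m)
    (hmd : m ≤ d) (r : ℕ) [Fact r.Prime]
    (hr : r ∣ Nat.card {W : Submodule F (Unit ⊕ (Fin d ⊕ Fin d) → F) // Module.finrank F ↥W = m ∧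
      (∀ w ∈ W, Cfsg.quadFormOdd d F w = 0)}) :
    r ≠ p ∧ ∃ j, j < m ∧ r ∣ Fintype.card F ^ (2 * (d - j)) - 1 := by
  obtain ⟨n, -, hn⟩ := FiniteField.card F p
  have h := cnt_ar p n (Fintype.card F) d m _ (Fact.out) n.pos hn hm hmd
    ((ocnt_b F d m).symm.trans (ocnt_a F h2 d m hmd (osing_perp F h2 d (osing_card F d))))
  refine ⟨?_, h.2 r Fact.out hr⟩
  rintro rfl
  exact h.1 hr

/-- The obstruction: the fixed part of an invariant totally isotropic subspace. -/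
theorem o_b3 (h2 : (2 : F) ≠ 0) (d : ℕ) (g : ↥(Cfsg.isometryGroup F (Cfsg.quadFormOdd d F)))
    (r : ℕ) [Fact r.Prime] (hrF : (r : F) ≠ 0) (hg : g ^ r = 1)
    (W : Submodule F (Unit ⊕ (Fin d ⊕ Fin d) → F)) (hTI : TI (oB d F) W)
    (hW : W.map (oEnd g) ≤ W) :
    ∃ a, a ≤ finrank F W ∧ orderOf ((Fintype.card F : ℕ) : ZMod r) ∣ finrank F W - a ∧
      2 * a ≤ finrank F (LinearMap.ker (oEnd g - 1)) := by
  have hTr := oEnd_pow_eq_one g r hg
  obtain ⟨-, -, -, -, hCnd, -⟩ := sym_fix (oB d F) (oB_symm d F) (oB_nondeg d F h2) (oEnd g)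
    (oEnd_pres g) r hrF hTr
  refine ⟨finrank F (W ⊓ LinearMap.ker (oEnd g - 1) : Submodule F _),
    Submodule.finrank_mono inf_le_left, ?_, ?_⟩
  · exact cyc_dvd (oEnd g) r _ hrF hTr
      (fun g' hg' hdvd => Cfsg.Agent.Helper46.bgl_irr_factor_degree r hrF g' hg' hdvd) W hW
  · exact sym_bound (oB d F) (oB_symm d F) (LinearMap.ker (oEnd g - 1))
      (W ⊓ LinearMap.ker (oEnd g - 1)) hCnd inf_le_right (fun u hu v hv => hTI u hu.1 v hv.1)

/-- (⟸) for odd `r`. -/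
theorem o_back_odd (p : ℕ) [Fact p.Prime] [CharP F p] (h2 : (2 : F) ≠ 0) (d m : ℕ) (hmd : m ≤ d)
    (r : ℕ) [Fact r.Prime] (hrp : r ≠ p) (hr2 : 2 < r) (i c : ℕ)
    (hi : i = orderOf ((Fintype.card F : ℕ) : ZMod r)) (hc : c = if Even i then i else 2 * i)
    (h1 : 2 * (m % i) < (2 * d + 1) % c)
    (h3 : Odd i ∨ (r - 1) / i + 2 * (m / i) ≤ (2 * d + 1) / i)
    (g : ↥(Cfsg.isometryGroup F (Cfsg.quadFormOdd d F))) (hg : g ^ r = 1) :
    ∃ W : Submodule F (Unit ⊕ (Fin d ⊕ Fin d) → F), finrank F W = m ∧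
      (∀ w ∈ W, Cfsg.quadFormOdd d F w = 0) ∧ W.map (oEnd g) ≤ W := by
  obtain ⟨hrF, hrq⟩ := ti_char_facts (F := F) p r hrp
  obtain ⟨hi0, hir⟩ := ord_pos r (Fintype.card F) hrq
  rw [← hi] at hi0 hir
  have hTr := oEnd_pow_eq_one g r hg
  obtain ⟨u, b₀, hdim, ho, he, hb, hex⟩ := sym_b1g (oB d F) (oB_symm d F) h2 (oB_nondeg d F h2)
    (oEnd g) (oEnd_pres g) r hr2 hrF hTr i hi
  rw [finrank_oV] at hdim
  have hev : Even (i * u) := by
    rcases Nat.even_or_odd i with h | h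
    · exact h.mul_right u
    · rw [ho h]
      exact (even_two_mul b₀).mul_left i
  obtain ⟨k, hk⟩ := hev
  obtain ⟨e', he'⟩ : ∃ e', finrank F (LinearMap.ker (oEnd g - 1)) = 2 * e' + 1 :=
    ⟨(finrank F (LinearMap.ker (oEnd g - 1)) - 1) / 2, by omega⟩
  have hdim' : 2 * d = 2 * e' + i * u := by omega
  obtain ⟨c', hc', hc'0⟩ : ∃ c', c = 2 * c' ∧ 0 < c' := by
    rw [hc]
    split_ifs with hie
    · obtain ⟨k', hk'⟩ := hie
      exact ⟨k', by omega, by omega⟩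
    · exact ⟨i, rfl, hi0⟩
  have hmod : (2 * d + 1) % c = (2 * d) % c + 1 := by
    rw [hc']
    exact o_mod_succ d c' hc'0
  have h1' : 2 * (m % i) ≤ (2 * d) % c := by omega
  have h3' : Odd i ∨ (r - 1) / i + 2 * (m / i) ≤ (2 * d) / i := by
    rcases Nat.even_or_odd i with hie | hio
    · right
      rcases h3 with h | h
      · exact absurd hie (Nat.not_even_iff_odd.mpr h)
      · rwa [o_div_succ d i hie] at h
    · exact Or.inl hio
  obtain ⟨b, m₀, hb', hm₀, hmeq⟩ := b1_arith r i c d m e' u b₀ hr2 hi0 hir hc hdim' ho he hb hmd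
    h1' h3'
  obtain ⟨W, hW1, hW2, hW3⟩ := hex b m₀ hb' (by omega)
  exact ⟨W, by rw [hW1, hmeq], (ots_iff_ti d F h2 W).mpr hW2, hW3⟩

theorem o_sq_aux (δ : F) (s : ℕ) (hs : Even (s + 1)) (h2 : (2 : F) ≠ 0)
    (h : IsSquare ((2 : F)⁻¹ ^ s * (δ * (2 : F)⁻¹))) : IsSquare δ := by
  obtain ⟨t, ht⟩ := hs
  obtain ⟨x, hx⟩ := h
  have hy : ((2 : F)⁻¹) ^ t ≠ 0 := pow_ne_zero _ (inv_ne_zero h2)
  refine ⟨x / (2 : F)⁻¹ ^ t, ?_⟩
  have h5 : (2 : F)⁻¹ ^ s * (δ * (2 : F)⁻¹) = δ * ((2 : F)⁻¹ ^ t * (2 : F)⁻¹ ^ t) := by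
    rw [← pow_add, ← ht, pow_succ]
    ring
  rw [h5] at hx
  rw [div_mul_div_comm, ← hx, mul_div_assoc, div_self (mul_ne_zero hy hy), mul_one]

/-- The `(-1)`-eigenspace of an involution of `Ω` is hyperbolic when `-1` is a square
(via helper43's CALL OT pieces NF (helper31) and HYP (helper80)). -/
theorem o_two_plus (h2 : (2 : F) ≠ 0) (hm1 : IsSquare (-1 : F)) (d : ℕ) (hd : 1 ≤ d)
    (g : ↥(Cfsg.isometryGroup F (Cfsg.quadFormOdd d F)))
    (hgΩ : g ∈ Cfsg.Omega F (Cfsg.quadFormOdd d F)) (hg : g ^ 2 = 1) :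
    ∃ (k : ℕ) (A : Submodule F (Unit ⊕ (Fin d ⊕ Fin d) → F)),
      finrank F (LinearMap.range (oEnd g - 1)) = 2 * k ∧ A ≤ LinearMap.range (oEnd g - 1) ∧
      TI (oB d F) A ∧ finrank F A = k := by
  have hT2 := oEnd_pow_eq_one g 2 hg
  have h2F : ((2 : ℕ) : F) ≠ 0 := by exact_mod_cast h2
  obtain ⟨-, -, -, -, -, hDnd⟩ := sym_fix (oB d F) (oB_symm d F) (oB_nondeg d F h2)
    (oEnd g) (oEnd_pres g) 2 h2F hT2
  rcases Nat.eq_zero_or_pos (finrank F (LinearMap.range (oEnd g - 1))) with h0 | hpos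
  · refine ⟨0, ⊥, by omega, bot_le, fun u hu v _ => ?_, by simp⟩
    rw [(Submodule.mem_bot F).mp hu]
    simp
  · obtain ⟨s, hs⟩ : ∃ s, finrank F (LinearMap.range (oEnd g - 1)) = s + 1 :=
      ⟨finrank F (LinearMap.range (oEnd g - 1)) - 1, by omega⟩
    obtain ⟨b, δ, hδ0, hli, hspan, hbo, hb1, hbl⟩ := Cfsg.Agent.Helper31.OT5972.ot_nf
      (Cfsg.Agent.Helper43.oddQF d F) h2 (LinearMap.range (oEnd g - 1)) hDnd s hs
    have hphs : ∀ j, Cfsg.Agent.Helper43.OT.ph (Cfsg.Agent.Helper43.oddQF d F) (b j) (b j) =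
        2 * Cfsg.quadFormOdd d F (b j) := fun j => Cfsg.Agent.Helper43.OT.ph_self _ _
    have hQl : Cfsg.quadFormOdd d F (b (Fin.last s)) = δ * (2 : F)⁻¹ := by
      have h5 := hphs (Fin.last s)
      rw [hbl] at h5
      rw [h5]
      field_simp
    have hQj : ∀ j, j ≠ Fin.last s → Cfsg.quadFormOdd d F (b j) = (2 : F)⁻¹ := by
      intro j hj
      have h5 := hphs j
      rw [hb1 j hj] at h5
      exact eq_inv_of_mul_eq_one_right h5.symm
    have hQ : ∀ j, Cfsg.quadFormOdd d F (b j) ≠ 0 := by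
      intro j
      by_cases hj : j = Fin.last s
      · rw [hj, hQl]
        exact mul_ne_zero hδ0 (inv_ne_zero h2)
      · rw [hQj j hj]
        exact inv_ne_zero h2
    have hQ' : ∀ v ∈ List.ofFn b, Cfsg.quadFormOdd d F v ≠ 0 := by
      intro v hv
      obtain ⟨j, rfl⟩ := (List.mem_ofFn' b v).mp hv
      exact hQ j
    have hmat := orefprod h2 d g hg (List.ofFn b)
      (by
        intro v hv
        obtain ⟨j, rfl⟩ := (List.mem_ofFn' b v).mp hv
        rw [← hspan]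
        exact Submodule.subset_span ⟨j, rfl⟩)
      (by
        rw [List.pairwise_ofFn]
        intro i j hij
        exact hbo i j (ne_of_lt hij))
      hQ'
      (by
        rw [← hspan]
        congr 1
        ext v
        exact List.mem_ofFn' b v)
    have hcard : 2 ≤ Fintype.card (Unit ⊕ (Fin d ⊕ Fin d)) := by
      simp
      omega
    have hΩ := (Cfsg.Agent.Helper45.mem_omega_prod_refl (Cfsg.Agent.Helper43.oddQF d F) h2
      (Cfsg.Agent.Helper43.PrimeOrdO.oddQF_nondeg h2 d) hcard (List.ofFn b) hQ' g hmat).mp hgΩ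
    obtain ⟨hev, hsq⟩ := hΩ
    rw [List.length_ofFn] at hev
    have hprod : ((List.ofFn b).map (fun v => Cfsg.quadFormOdd d F v)).prod =
        (2 : F)⁻¹ ^ s * (δ * (2 : F)⁻¹) := by
      rw [List.map_ofFn, List.prod_ofFn, Fin.prod_univ_castSucc]
      congr 1
      · rw [Finset.prod_eq_pow_card (b := (2 : F)⁻¹)]
        · simp
        · intro j _
          exact hQj _ (Fin.castSucc_lt_last j).ne
    have hδsq : IsSquare δ := o_sq_aux δ s hev h2 (by rw [← hprod]; exact hsq)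
    have hsodd : Odd s := by
      rcases Nat.even_or_odd s with h | h
      · exact absurd hev (Nat.not_even_iff_odd.mpr h.add_one)
      · exact h
    obtain ⟨A, hA, hAti, hAdim⟩ := Cfsg.Agent.Helper80.OT5972.ot_hyp
      (Cfsg.Agent.Helper43.oddQF d F) h2 s hsodd b hli hbo hb1 (by rw [hbl]; exact hδsq)
      (by rw [hbl]; exact hδ0) hm1
    exact ⟨finrank F A, A, by omega, by rw [← hspan]; exact hA, fun u hu v hv => hAti u hu v hv,
      rfl⟩

/-- (⟸) for `r = 2`. -/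
theorem o_back_two (h2 : (2 : F) ≠ 0) (d m : ℕ) (hd : 1 ≤ d) (hmd : m ≤ d)
    (hm : m < d ∨ Fintype.card F % 4 = 1)
    (g : ↥(Cfsg.isometryGroup F (Cfsg.quadFormOdd d F)))
    (hgΩ : g ∈ Cfsg.Omega F (Cfsg.quadFormOdd d F)) (hg : g ^ 2 = 1) :
    ∃ W : Submodule F (Unit ⊕ (Fin d ⊕ Fin d) → F), finrank F W = m ∧
      (∀ w ∈ W, Cfsg.quadFormOdd d F w = 0) ∧ W.map (oEnd g) ≤ W := by
  have hT2 := oEnd_pow_eq_one g 2 hg
  have h2F : ((2 : ℕ) : F) ≠ 0 := by exact_mod_cast h2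
  obtain ⟨-, hcompl, hCD, hDC, hCnd, hDnd⟩ := sym_fix (oB d F) (oB_symm d F) (oB_nondeg d F h2)
    (oEnd g) (oEnd_pres g) 2 h2F hT2
  have hfr := Submodule.finrank_add_eq_of_isCompl hcompl
  rw [finrank_oV] at hfr
  have key : ∀ (m₁ m₂ : ℕ) (A₂ : Submodule F (Unit ⊕ (Fin d ⊕ Fin d) → F)), m = m₁ + m₂ →
      (m₁ = 0 ∨ 2 * m₁ + 1 ≤ finrank F (LinearMap.ker (oEnd g - 1))) →
      A₂ ≤ LinearMap.range (oEnd g - 1) → TI (oB d F) A₂ → finrank F A₂ = m₂ →
      ∃ W : Submodule F (Unit ⊕ (Fin d ⊕ Fin d) → F), finrank F W = m ∧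
        (∀ w ∈ W, Cfsg.quadFormOdd d F w = 0) ∧ W.map (oEnd g) ≤ W := by
    intro m₁ m₂ A₂ hmm hm₁ hA₂ hA₂ti hA₂dim
    obtain ⟨A₁, hA₁, hA₁ti, hA₁dim⟩ := sym_lag0 (oB d F) (oB_symm d F) h2 _ hCnd m₁ hm₁
    obtain ⟨W, hW1, hW2, hW3⟩ := sym_inv_sum (oB d F) (oB_symm d F) (oB_nondeg d F h2) h2
      (oEnd g) (oEnd_pres g) hT2 A₁ A₂ hA₁ hA₂ hA₁ti hA₂ti
    exact ⟨W, by rw [hW1, hA₁dim, hA₂dim, hmm], (ots_iff_ti d F h2 W).mpr hW2, hW3⟩
  by_cases hmlt : m < d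
  · obtain ⟨A₂, hA₂, hA₂ti, hA₂dim⟩ := sym_lag0 (oB d F) (oB_symm d F) h2 _ hDnd
      (m - min m ((finrank F (LinearMap.ker (oEnd g - 1)) - 1) / 2)) (by omega)
    exact key (min m ((finrank F (LinearMap.ker (oEnd g - 1)) - 1) / 2))
      (m - min m ((finrank F (LinearMap.ker (oEnd g - 1)) - 1) / 2)) A₂ (by omega) (by omega)
      hA₂ hA₂ti hA₂dim
  · have hq1 : Fintype.card F % 4 = 1 := hm.resolve_left hmlt
    have hm1 : IsSquare (-1 : F) := by
      rw [FiniteField.isSquare_neg_one_iff]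
      omega
    obtain ⟨k, A, hk, hA, hAti, hAdim⟩ := o_two_plus h2 hm1 d hd g hgΩ hg
    obtain ⟨A₂, hA₂A, hA₂dim⟩ := tib_exists_sub A (m - min m (d - k)) (by omega)
    exact key (min m (d - k)) (m - min m (d - k)) A₂ (by omega) (by omega) (hA₂A.trans hA)
      (fun u hu v hv => hAti u (hA₂A hu) v (hA₂A hv)) hA₂dim

/-- (⟹) for `r = 2`: the bad involution. -/
theorem o_fwd_two (h2 : (2 : F) ≠ 0) (hq3 : Fintype.card F % 4 = 3) (d : ℕ) (hd : 1 ≤ d) :
    ∃ g : ↥(Cfsg.isometryGroup F (Cfsg.quadFormOdd d F)),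
      g ∈ Cfsg.Omega F (Cfsg.quadFormOdd d F) ∧ orderOf g = 2 ∧
      ∀ W : Submodule F (Unit ⊕ (Fin d ⊕ Fin d) → F), TI (oB d F) W → W.map (oEnd g) ≤ W →
        finrank F W < d := by
  obtain ⟨g, hgΩ, hg2, hrange, hani⟩ := otwo_elt hq3 d hd
  have hT2 := oEnd_pow_eq_one g 2 hg2
  have h2F : ((2 : ℕ) : F) ≠ 0 := by exact_mod_cast h2
  obtain ⟨-, hcompl, -, -, hCnd, -⟩ := sym_fix (oB d F) (oB_symm d F) (oB_nondeg d F h2)
    (oEnd g) (oEnd_pres g) 2 h2F hT2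
  have hfr := Submodule.finrank_add_eq_of_isCompl hcompl
  rw [finrank_oV] at hfr
  have hg1 : g ≠ 1 := by
    rintro rfl
    rw [oEnd_one, sub_self, LinearMap.range_zero, finrank_bot] at hrange
    omega
  refine ⟨g, hgΩ, orderOf_eq_prime hg2 hg1, fun W hTI hW => ?_⟩
  have hWk : W ≤ LinearMap.ker (oEnd g - 1) := by
    intro w hw
    rw [LinearMap.mem_ker]
    have hmem : (oEnd g - 1) w ∈ W := by
      rw [LinearMap.sub_apply, Module.End.one_apply]
      exact W.sub_mem (hW (Submodule.mem_map_of_mem hw)) hw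
    apply hani _ (LinearMap.mem_range_self _ w)
    have h5 := hTI _ hmem _ hmem
    rw [oB_self] at h5
    exact (mul_eq_zero.mp h5).resolve_left h2
  have hb := sym_bound (oB d F) (oB_symm d F) _ W hCnd hWk hTI
  omega

/-- The multiplicity-free bad element. -/
theorem o_bad_c (p : ℕ) [Fact p.Prime] [CharP F p] (h2 : (2 : F) ≠ 0) (r : ℕ) [Fact r.Prime]
    (hr2 : 2 < r) (hrp : r ≠ p) (i : ℕ) (hi : i = orderOf ((Fintype.card F : ℕ) : ZMod r))
    (hie : Even i) (d u e' : ℕ) (hu : 1 ≤ u) (hut : u ≤ (r - 1) / i)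
    (hdim : 2 * d = i * u + 2 * e') :
    ∃ g : ↥(Cfsg.isometryGroup F (Cfsg.quadFormOdd d F)), orderOf g = r ∧
      ∀ W : Submodule F (Unit ⊕ (Fin d ⊕ Fin d) → F), TI (oB d F) W → W.map (oEnd g) ≤ W →
        finrank F W ≤ e' := by
  have hq0 : 0 < Fintype.card F := Fintype.card_pos
  obtain ⟨hrF, hrq⟩ := ti_char_facts (F := F) p r hrp
  obtain ⟨hi0, hir⟩ := ord_pos r (Fintype.card F) hrq
  rw [← hi] at hi0 hir
  obtain ⟨e, he⟩ := hie
  have he1 : 1 ≤ e := by omega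
  have hi2 : i = 2 * e := by omega
  have : NeZero (2 * e) := ⟨by omega⟩
  have hord : orderOf ((Fintype.card F : ℕ) : ZMod r) = 2 * e := by rw [← hi, hi2]
  have hre : r ∣ Fintype.card F ^ e + 1 := ti_dvd_plus r _ e hq0 he1 hord
  obtain ⟨B, T, hsym, hnd, hT, hTr, hT1, hW⟩ := omod_c F p h2 e he1 r hr2 hrF hre hord u e' hu
    (by rw [← hi2]; exact hut)
  have hfr : finrank F ((Fin u → FiniteField.Extension F p (2 * e)) × (Fin (2 * e' + 1) → F))
      = 2 * d + 1 := by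
    rw [Module.finrank_prod, Module.finrank_pi_fintype, Module.finrank_fintype_fun_eq_card, hdim,
      hi2]
    simp [FiniteField.finrank_extension]
    ring
  obtain ⟨g, hg1, hg3⟩ := oxfer h2 d _ B hsym hnd hfr T hT
  have hgr : g ^ r = 1 := (hg1 r).mpr hTr
  have hgne : g ≠ 1 := by
    intro h
    apply hT1
    have h3 := (hg1 1).mp (by rw [pow_one]; exact h)
    rwa [pow_one] at h3
  refine ⟨g, orderOf_eq_prime hgr hgne, fun W' h1 h2' => ?_⟩
  obtain ⟨W, hW1, hW2, hW3⟩ := hg3 W' h1 h2'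
  rw [← hW3]
  exact hW W hW1 hW2

/-- (⟹) -/
theorem o_fwd (p : ℕ) [Fact p.Prime] [CharP F p] (h2 : (2 : F) ≠ 0)
    (hqodd : Fintype.card F % 2 = 1) (d m : ℕ) (hd : 1 ≤ d) (hm : 1 ≤ m)
    (hmd : m ≤ d) (r : ℕ) [Fact r.Prime]
    (hrΩ : r ∣ Nat.card {W : Submodule F (Unit ⊕ (Fin d ⊕ Fin d) → F) // Module.finrank F ↥W = m ∧
      (∀ w ∈ W, Cfsg.quadFormOdd d F w = 0)})
    (i c : ℕ) (hi : i = orderOf ((Fintype.card F : ℕ) : ZMod r))
    (hc : c = if Even i then i else 2 * i)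
    (hL : ∀ g : ↥(Cfsg.isometryGroup F (Cfsg.quadFormOdd d F)),
      g ∈ Cfsg.Omega F (Cfsg.quadFormOdd d F) → orderOf g = r →
      ∃ W : Submodule F (Unit ⊕ (Fin d ⊕ Fin d) → F), finrank F W = m ∧ TI (oB d F) W ∧
        W.map (oEnd g) ≤ W) :
    (r = 2 ∧ (m < d ∨ Fintype.card F % 4 = 1)) ∨
     (r ≠ p ∧ 2 < r ∧ i ≤ m ∧ 2 * (m % i) < (2 * d + 1) % c ∧
      (Odd i ∨ (r - 1) / i + 2 * (m / i) ≤ (2 * d + 1) / i)) := by
  obtain ⟨hrp, j, hjm, hj⟩ := o_cnt_main p h2 d m hm hmd r hrΩ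
  have hrpr : r.Prime := Fact.out
  have hq0 : 0 < Fintype.card F := Fintype.card_pos
  by_cases hr2 : r = 2
  · left
    refine ⟨hr2, ?_⟩
    by_contra hcon
    push Not at hcon
    have hq3 : Fintype.card F % 4 = 3 := by omega
    obtain ⟨g, hgΩ, hg2, hgW⟩ := o_fwd_two h2 hq3 d hd
    obtain ⟨W, hW1, hW2, hW3⟩ := hL g hgΩ (by rw [hg2, hr2])
    have := hgW W hW2 hW3
    omega
  · right
    have hr2' : 2 < r := lt_of_le_of_ne hrpr.two_le (Ne.symm hr2)
    have hrodd : Odd r := hrpr.odd_of_ne_two hr2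
    obtain ⟨hrF, hrq⟩ := ti_char_facts (F := F) p r hrp
    obtain ⟨hi0, hir⟩ := ord_pos r (Fintype.card F) hrq
    rw [← hi] at hi0 hir
    have hij : i ∣ 2 * (d - j) := by
      rw [hi]
      exact (ord_dvd r _ _ hq0).mp hj
    have hdj : 1 ≤ d - j := by omega
    have hcj : c ∣ 2 * (d - j) := by
      rw [hc]
      split_ifs with hie
      · exact hij
      · have hio : Odd i := Nat.not_even_iff_odd.mp hie
        have hcop : Nat.Coprime i 2 := Nat.Coprime.symm (Nat.coprime_two_left.mpr hio)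
        exact Nat.mul_dvd_mul_left 2 (hcop.dvd_of_dvd_mul_left hij)
    have hcpos : 0 < c := by
      rw [hc]
      split_ifs <;> omega
    have hcle : c ≤ 2 * d := (Nat.le_of_dvd (by omega) hcj).trans (by omega)
    obtain ⟨c', hc', hc'0⟩ : ∃ c', c = 2 * c' ∧ 0 < c' := by
      rw [hc]
      split_ifs with hie
      · obtain ⟨k', hk'⟩ := hie
        exact ⟨k', by omega, by omega⟩
      · exact ⟨i, rfl, hi0⟩
    have hmod : (2 * d + 1) % c = (2 * d) % c + 1 := by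
      rw [hc']
      exact o_mod_succ d c' hc'0
    have hcard : 2 ≤ Fintype.card (Unit ⊕ (Fin d ⊕ Fin d)) := by
      simp
      omega
    have key : ∀ g : ↥(Cfsg.isometryGroup F (Cfsg.quadFormOdd d F)), orderOf g = r →
        ∃ W : Submodule F (Unit ⊕ (Fin d ⊕ Fin d) → F), finrank F W = m ∧ TI (oB d F) W ∧
          W.map (oEnd g) ≤ W := by
      intro g hg
      have hgr : g ^ r = 1 := by
        rw [← hg]
        exact pow_orderOf_eq_one g
      exact hL g (Cfsg.Agent.Helper31.c3o_omodd h2 (Cfsg.Agent.Helper43.oddQF d F)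
        (Cfsg.Agent.Helper43.PrimeOrdO.oddQF_nondeg h2 d) hcard g r hrodd hgr) hg
    have key3 : ∀ g : ↥(Cfsg.isometryGroup F (Cfsg.quadFormOdd d F)), orderOf g = r →
        ∃ a, a ≤ m ∧ i ∣ m - a ∧ 2 * a ≤ finrank F (LinearMap.ker (oEnd g - 1)) := by
      intro g hg
      have hgr : g ^ r = 1 := by
        rw [← hg]
        exact pow_orderOf_eq_one g
      obtain ⟨W, hW1, hW2, hW3⟩ := key g hg
      obtain ⟨a, ha1, ha2, ha3⟩ := o_b3 h2 d g r hrF hgr W hW2 hW3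
      rw [hW1] at ha1 ha2
      exact ⟨a, ha1, hi ▸ ha2, ha3⟩
    have hA : i ≤ m := by
      by_contra hlt
      push Not at hlt
      obtain ⟨u₁, hu₁⟩ := hcj
      have hu1 : 1 ≤ u₁ := by
        rcases Nat.eq_zero_or_pos u₁ with h0 | h0
        · rw [h0, mul_zero] at hu₁
          omega
        · exact h0
      obtain ⟨g, hg1, hg3⟩ := obad_ab p h2 r hr2' hrp i c hi hc d u₁ j hu1 (by omega)
      obtain ⟨a, ha1, ha2, ha3⟩ := key3 g hg1
      have h0 : m - a = 0 := Nat.eq_zero_of_dvd_of_lt ha2 (by omega)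
      omega
    have hB : 2 * (m % i) ≤ (2 * d) % c := by
      obtain ⟨e', he'⟩ : ∃ e', (2 * d) % c = 2 * e' := by
        have hceven : 2 ∣ c := ⟨c', hc'⟩
        have h2 : 2 ∣ (2 * d) % c := (Nat.dvd_mod_iff hceven).mpr (dvd_mul_right 2 d)
        obtain ⟨e', he'⟩ := h2
        exact ⟨e', he'⟩
      have hu : 1 ≤ (2 * d) / c := Nat.div_pos hcle hcpos
      obtain ⟨g, hg1, hg3⟩ := obad_ab p h2 r hr2' hrp i c hi hc d ((2 * d) / c) e' hu
        (by rw [← he']; exact (Nat.div_add_mod _ _).symm)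
      obtain ⟨a, ha1, ha2, ha3⟩ := key3 g hg1
      have h4 : m % i ≤ a := by
        obtain ⟨k, hk⟩ := ha2
        have h5 : m = a + i * k := by omega
        rw [h5, Nat.add_mul_mod_self_left]
        exact Nat.mod_le _ _
      omega
    refine ⟨hrp, hr2', hA, by omega, ?_⟩
    rcases Nat.even_or_odd i with hie | hio
    · right
      rw [o_div_succ d i hie]
      have hci : c = i := by rw [hc, if_pos hie]
      have ht : 1 ≤ (r - 1) / i := Nat.div_pos (Nat.le_of_dvd (by omega) hir) hi0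
      have hile : i ≤ 2 * d := hci ▸ hcle
      obtain ⟨u, hu⟩ : ∃ u, u = min ((2 * d) / i) ((r - 1) / i) := ⟨_, rfl⟩
      have hu1 : 1 ≤ u := by
        rw [hu]
        exact le_min (Nat.div_pos hile hi0) ht
      obtain ⟨e', he'⟩ : ∃ e', 2 * d = i * u + 2 * e' := by
        have h1 : i * u ≤ 2 * d := by
          rw [hu]
          exact (Nat.mul_le_mul_left i (min_le_left _ _)).trans (Nat.mul_div_le _ _)
        obtain ⟨k, hk⟩ := hie
        refine ⟨d - k * u, ?_⟩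
        rw [hk] at h1 ⊢
        have h6 : (k + k) * u = 2 * (k * u) := by ring
        rw [h6] at h1 ⊢
        omega
      obtain ⟨g, hg1, hg3⟩ := o_bad_c p h2 r hr2' hrp i hi hie d u e' hu1
        (by rw [hu]; exact min_le_right _ _) he'
      obtain ⟨W, hW1, hW2, hW3⟩ := key g hg1
      have h7 := hg3 W hW2 hW3
      rw [hW1] at h7
      exact arith_c i d m ((r - 1) / i) e' u hi0 hA hu he' h7
    · left
      exact hio

/-- S5972 with `q = Fintype.card F`. -/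
theorem o_main (p : ℕ) [Fact p.Prime] [CharP F p] (hqodd : Odd (Fintype.card F))
    (d m : ℕ) (hd : 1 ≤ d) (hm : 1 ≤ m) (hmd : m ≤ d) (r : ℕ) [Fact r.Prime]
    (hrΩ : r ∣ Nat.card {W : Submodule F (Unit ⊕ (Fin d ⊕ Fin d) → F) // Module.finrank F ↥W = m ∧
      (∀ w ∈ W, Cfsg.quadFormOdd d F w = 0)})
    (i c : ℕ) (hi : i = orderOf ((Fintype.card F : ℕ) : ZMod r))
    (hc : c = if Even i then i else 2 * i) :
    (∀ x : GL (Unit ⊕ (Fin d ⊕ Fin d)) F, x ∈ Cfsg.Geo.omegaGL (Cfsg.quadFormOdd d F) →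
      orderOf x = r →
      ∃ W : Submodule F (Unit ⊕ (Fin d ⊕ Fin d) → F), Module.finrank F ↥W = m ∧
        (∀ w ∈ W, Cfsg.quadFormOdd d F w = 0) ∧
        W.map (Matrix.toLin' (x : Matrix (Unit ⊕ (Fin d ⊕ Fin d)) (Unit ⊕ (Fin d ⊕ Fin d)) F))
          ≤ W) ↔
    ((r = 2 ∧ (m < d ∨ Fintype.card F % 4 = 1)) ∨
     (r ≠ p ∧ 2 < r ∧ i ≤ m ∧ 2 * (m % i) < (2 * d + 1) % c ∧
      (Odd i ∨ (r - 1) / i + 2 * (m / i) ≤ (2 * d + 1) / i))) := by
  have h2 : (2 : F) ≠ 0 := Cfsg.Agent.Helper43.two_ne_zero_of_odd_card rfl hqodd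
  have hq2 : Fintype.card F % 2 = 1 := Nat.odd_iff.mp hqodd
  constructor
  · intro hL
    apply o_fwd p h2 hq2 d m hd hm hmd r hrΩ i c hi hc
    intro g hgΩ hgr
    obtain ⟨W, hW1, hW2, hW3⟩ := hL (g : GL (Unit ⊕ (Fin d ⊕ Fin d)) F)
      (Subgroup.mem_map.mpr ⟨g, hgΩ, rfl⟩) (by rw [← hgr]; exact Subgroup.orderOf_coe g)
    exact ⟨W, hW1, (ots_iff_ti d F h2 W).mp hW2, hW3⟩
  · rintro (⟨hr2, hm'⟩ | ⟨hrp, hr2, hA, hB, hC⟩)
    · intro x hxΩ hx
      obtain ⟨g, hgΩ, rfl⟩ := Subgroup.mem_map.mp hxΩ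
      have hg2 : g ^ 2 = 1 := by
        have h5 : orderOf g = 2 := by
          rw [← hr2, ← hx]
          exact (Subgroup.orderOf_coe g).symm
        rw [← h5]
        exact pow_orderOf_eq_one g
      exact o_back_two h2 d m hd hmd hm' g hgΩ hg2
    · intro x hxΩ hx
      obtain ⟨g, hgΩ, rfl⟩ := Subgroup.mem_map.mp hxΩ
      have hgr : g ^ r = 1 := by
        have h5 : orderOf g = r := by
          rw [← hx]
          exact (Subgroup.orderOf_coe g).symm
        rw [← h5]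
        exact pow_orderOf_eq_one g
      exact o_back_odd p h2 d m hmd r hrp hr2 i c hi hc hB hC g hgr

end concrete

end Cfsg.Agent.Helper95.OTS
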