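import Mathlib

set_option autoImplicit false

namespace Cfsg.Agent.Helper95

section singer

variable (F K : Type*) [Field F] [Field K] [Algebra F K]

/-- Left multiplication by a unit of `K`, as a unit of `End_F(K)`. -/
noncomputable abbrev lunit : Kˣ →* (Module.End F K)ˣ :=
  Units.map ((Algebra.lmul F K : K →ₐ[F] Module.End F K) : K →* Module.End F K)

/-- The Singer group. -/
noncomputable abbrev singer : Subgroup (Module.End F K)ˣ := (lunit F K).range

variable {F K}

lemma lunit_apply (k : Kˣ) (x : K) :
    ((lunit F K k : (Module.End F K)ˣ) : Module.End F K) x = k * x := rfl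

lemma unit_inv_apply (g : (Module.End F K)ˣ) (x : K) :
    ((g⁻¹ : (Module.End F K)ˣ) : Module.End F K) ((g : Module.End F K) x) = x := by
  have h : ((g⁻¹ : (Module.End F K)ˣ) : Module.End F K) * (g : Module.End F K) = 1 := by
    rw [← Units.val_mul, inv_mul_cancel, Units.val_one]
  exact congrArg (fun f : Module.End F K => f x) h

lemma unit_apply_inv (g : (Module.End F K)ˣ) (x : K) :
    (g : Module.End F K) (((g⁻¹ : (Module.End F K)ˣ) : Module.End F K) x) = x := by
  have h : (g : Module.End F K) * ((g⁻¹ : (Module.End F K)ˣ) : Module.End F K) = 1 := by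
    rw [← Units.val_mul, mul_inv_cancel, Units.val_one]
  exact congrArg (fun f : Module.End F K => f x) h

lemma unit_injective (g : (Module.End F K)ˣ) : Function.Injective (g : Module.End F K) := by
  intro x y h
  rw [← unit_inv_apply g x, ← unit_inv_apply g y, h]

lemma lunit_injective : Function.Injective (lunit F K) := by
  intro a b h
  have := congrArg (fun u : (Module.End F K)ˣ => (u : Module.End F K) 1) h
  simp only [lunit_apply, mul_one] at this
  exact Units.ext this

lemma mem_singer_iff (u : (Module.End F K)ˣ) :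
    u ∈ singer F K ↔ ∃ k : Kˣ, ∀ x, (u : Module.End F K) x = k * x := by
  constructor
  · rintro ⟨k, rfl⟩
    exact ⟨k, fun x => rfl⟩
  · rintro ⟨k, hk⟩
    refine ⟨k, Units.ext (LinearMap.ext fun x => ?_)⟩
    rw [hk x]
    rfl

/-- `u` lies in the conjugate `g M g⁻¹` iff `u ∘ g = g ∘ L_k` for some unit `k`. -/
lemma mem_conj_singer_iff (g u : (Module.End F K)ˣ) :
    u ∈ (singer F K).map (MulAut.conj g).toMonoidHom ↔
      ∃ k : Kˣ, ∀ x, (u : Module.End F K) ((g : Module.End F K) x) = (g : Module.End F K) (k * x) := by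
  constructor
  · rintro ⟨m, hm, rfl⟩
    obtain ⟨k, hk⟩ := (mem_singer_iff m).mp hm
    refine ⟨k, fun x => ?_⟩
    show (g : Module.End F K) ((m : Module.End F K) (((g⁻¹ : (Module.End F K)ˣ) : Module.End F K)
      ((g : Module.End F K) x))) = _
    rw [unit_inv_apply, hk]
  · rintro ⟨k, hk⟩
    refine ⟨lunit F K k, ⟨k, rfl⟩, Units.ext (LinearMap.ext fun x => ?_)⟩
    show (g : Module.End F K) ((k : K) * (((g⁻¹ : (Module.End F K)ˣ) : Module.End F K) x)) = _
    rw [← hk, unit_apply_inv]

end singer

end Cfsg.Agent.Helper95
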