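import Mathlib
import Cfsg.Agent.Helper71.SylFifteenE

set_option autoImplicit false
set_option linter.style.haveILetI false

/-!
# `21` is not a Sylow `5`-number, part A (helper95)

Basic facts on a group `Γ` acting on `21` points such that every point `β` has a Sylow
`5`-subgroup fixing exactly `β` and normal in the stabilizer of `β` (`IsPointSylow`, helper71).
-/

namespace Cfsg.Agent.Helper95

open Cfsg.Agent.Helper71

section

variable {Γ : Type*} [Group Γ] {Ω : Type*} [MulAction Γ Ω] [Finite Ω]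

theorem ps21_ncard_porbit [Fact (Nat.Prime 5)] {P : Sylow 5 Γ} {α : Ω}
    (h : IsPointSylow P α) (hΩ : Nat.card Ω = 21) {γ : Ω} (hγ : γ ≠ α) :
    (porbit (P : Subgroup Γ) γ).ncard = 5 := by
  rw [porbit_eq_orbit, ← Nat.card_coe_set_eq]
  obtain ⟨n, hn⟩ := P.isPGroup'.card_orbit γ
  have h0 : n ≠ 0 := by
    rintro rfl
    apply hγ
    apply h.2.1
    intro g hg
    have h1 : Nat.card (MulAction.orbit (↥(P : Subgroup Γ)) γ) = 1 := by simpa using hn
    rw [Nat.card_eq_one_iff_unique] at h1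
    have h2 := h1.1.elim
      ⟨(⟨g, hg⟩ : ↥(P : Subgroup Γ)) • γ, MulAction.mem_orbit _ _⟩
      ⟨γ, MulAction.mem_orbit_self _⟩
    exact congrArg Subtype.val h2
  have h1 : Nat.card (MulAction.orbit (↥(P : Subgroup Γ)) γ) ≤ 21 := by
    rw [← hΩ]; exact Nat.card_le_card_of_injective _ Subtype.val_injective
  have h2 : n < 2 := by
    by_contra hcon
    push Not at hcon
    have : 5 ^ 2 ≤ 5 ^ n := Nat.pow_le_pow_right (by norm_num) hcon
    omega
  interval_cases n
  · exact absurd rfl h0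
  · simpa using hn

omit [Finite Ω] in
theorem ps21_exists_ne (hΩ : Nat.card Ω = 21) (α : Ω) : ∃ β : Ω, β ≠ α := by
  by_contra hcon
  push Not at hcon
  have hs : Subsingleton Ω := ⟨fun a b => (hcon a).trans (hcon b).symm⟩
  have := Nat.card_eq_one_iff_unique.mpr ⟨hs, ⟨α⟩⟩
  omega

omit [Finite Ω] in
theorem ps21_nonempty (hΩ : Nat.card Ω = 21) : Nonempty Ω := by
  by_contra hcon
  rw [not_nonempty_iff] at hcon
  rw [Nat.card_of_isEmpty] at hΩ
  omega

/-- Points different from `α` in pairwise distinct `P`-orbits: at most four. -/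
theorem ps21_card_le_four [Fact (Nat.Prime 5)] {P : Sylow 5 Γ} {α : Ω}
    (h : IsPointSylow P α) (hΩ : Nat.card Ω = 21) (A : Finset Ω) (hA : α ∉ A)
    (hAA : ∀ a ∈ A, ∀ a' ∈ A, a ≠ a' → a' ∉ porbit (P : Subgroup Γ) a) : A.card ≤ 4 := by
  classical
  have : Fintype Ω := Fintype.ofFinite Ω
  have hdisj : ∀ a ∈ A, ∀ a' ∈ A, a ≠ a' →
      Disjoint (porbit (P : Subgroup Γ) a).toFinset (porbit (P : Subgroup Γ) a').toFinset := by
    intro a ha a' ha' hne
    rw [Set.disjoint_toFinset, Set.disjoint_left]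
    intro x hx hx'
    exact hAA a ha a' ha' hne (mem_porbit_trans _ hx (mem_porbit_symm _ hx'))
  have hcard := Finset.card_biUnion hdisj
  have h5 : ∀ a ∈ A, (porbit (P : Subgroup Γ) a).toFinset.card = 5 := fun a ha => by
    rw [← Set.ncard_eq_toFinset_card']
    exact ps21_ncard_porbit h hΩ (fun e => hA (e ▸ ha))
  rw [Finset.sum_congr rfl h5, Finset.sum_const, smul_eq_mul] at hcard
  have hle := Finset.card_le_univ (A.biUnion fun a => (porbit (P : Subgroup Γ) a).toFinset)
  rw [hcard, ← Nat.card_eq_fintype_card, hΩ] at hle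
  omega

/-- Among five points different from `α`, two lie in the same `P`-orbit. -/
theorem ps21_pigeon_set [Fact (Nat.Prime 5)] {P : Sylow 5 Γ} {α : Ω}
    (h : IsPointSylow P α) (hΩ : Nat.card Ω = 21) (A : Set Ω) (hA : α ∉ A)
    (hA5 : 5 ≤ A.ncard) :
    ∃ a ∈ A, ∃ a' ∈ A, a ≠ a' ∧ a' ∈ porbit (P : Subgroup Γ) a := by
  classical
  by_contra hcon
  push Not at hcon
  have : Fintype Ω := Fintype.ofFinite Ω
  have h1 := ps21_card_le_four h hΩ A.toFinset (by simpa using hA)
    (fun a ha a' ha' hne => hcon a (by simpa using ha) a' (by simpa using ha') hne)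
  rw [← Set.ncard_eq_toFinset_card'] at h1
  omega

/-- There are no five points different from `α` in pairwise distinct `P`-orbits. -/
theorem ps21_no_five [Fact (Nat.Prime 5)] {P : Sylow 5 Γ} {α : Ω}
    (h : IsPointSylow P α) (hΩ : Nat.card Ω = 21) (l : List Ω) (hl : l.length = 5)
    (hα : ∀ x ∈ l, x ≠ α)
    (hp : l.Pairwise (fun a b => b ∉ porbit (P : Subgroup Γ) a)) : False := by
  classical
  have hnd : l.Nodup := by
    refine hp.imp ?_
    intro a b hab e
    exact hab (e ▸ mem_porbit_self _ _)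
  haveI hsymm : Std.Symm (fun a b : Ω => b ∉ porbit (P : Subgroup Γ) a) :=
    ⟨fun a b hab hba => hab (mem_porbit_symm _ hba)⟩
  have h1 := ps21_card_le_four h hΩ l.toFinset
    (by intro hmem; exact hα α (List.mem_toFinset.mp hmem) rfl)
    (fun a ha a' ha' hne =>
      hp.forall (List.mem_toFinset.mp ha) (List.mem_toFinset.mp ha') hne)
  rw [List.toFinset_card_of_nodup hnd, hl] at h1
  omega

end

section

variable {Γ : Type*} [Group Γ] [Finite Γ]

omit [Finite Γ] in
/-- Facts about a Sylow subgroup of order `5`. -/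
theorem ps21_sylow_facts [Fact (Nat.Prime 5)] {P : Sylow 5 Γ}
    (hP : Nat.card (P : Subgroup Γ) = 5) :
    (∀ a ∈ (P : Subgroup Γ), ∀ b ∈ (P : Subgroup Γ), a * b = b * a) ∧
      (∀ g ∈ (P : Subgroup Γ), g ^ 5 = 1) := by
  constructor
  · intro a ha b hb
    have hc : IsCyclic ↥(P : Subgroup Γ) := isCyclic_of_prime_card hP
    let _ := IsCyclic.commGroup (α := ↥(P : Subgroup Γ))
    have h2 := mul_comm (⟨a, ha⟩ : ↥(P : Subgroup Γ)) ⟨b, hb⟩
    exact congrArg Subtype.val h2
  · intro g hg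
    have h1 : (⟨g, hg⟩ : ↥(P : Subgroup Γ)) ^ Nat.card (P : Subgroup Γ) = 1 := pow_card_eq_one'
    rw [hP] at h1
    have h2 := congrArg Subtype.val h1
    simpa using h2

/-- A subgroup of prime order is contained in every subgroup meeting it non-trivially. -/
theorem ps21_le_of_mem {p : ℕ} (hp : p.Prime) {P : Subgroup Γ} (hP : Nat.card P = p)
    (H : Subgroup Γ) {x : Γ} (hxP : x ∈ P) (hxH : x ∈ H) (hx1 : x ≠ 1) : P ≤ H := by
  have hdvd : Nat.card ↥(H ⊓ P) ∣ p := hP ▸ Subgroup.card_dvd_of_le inf_le_right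
  rcases (Nat.dvd_prime hp).mp hdvd with h1 | h1
  · exfalso
    have h2 : H ⊓ P = ⊥ := Subgroup.card_eq_one.mp h1
    have h3 : x ∈ H ⊓ P := ⟨hxH, hxP⟩
    rw [h2, Subgroup.mem_bot] at h3
    exact hx1 h3
  · have h2 : H ⊓ P = P := Subgroup.eq_of_le_of_card_ge inf_le_right (by rw [h1, hP])
    rw [← h2]
    exact inf_le_left

/-- The fourth power of an element normalizing a group of order `5` centralizes it. -/
theorem ps21_pow_four_centralizes [Fact (Nat.Prime 5)] {P : Sylow 5 Γ}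
    (hP : Nat.card (P : Subgroup Γ) = 5) {n : Γ}
    (hn : n ∈ Subgroup.normalizer ((P : Subgroup Γ) : Set Γ)) :
    ∀ a ∈ (P : Subgroup Γ), n ^ 4 * a = a * n ^ 4 := by
  have hcyc : IsCyclic ↥(P : Subgroup Γ) := isCyclic_of_prime_card hP
  have hcard : Nat.card (MulAut ↥(P : Subgroup Γ)) = 4 := by
    rw [IsCyclic.card_mulAut, hP]; decide
  have h1 : ((P : Subgroup Γ).normalizerMonoidHom ⟨n, hn⟩) ^ 4 = 1 := by
    rw [← hcard]; exact pow_card_eq_one'
  have h2 : (⟨n, hn⟩ : ↥(Subgroup.normalizer ((P : Subgroup Γ) : Set Γ))) ^ 4 ∈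
      ((P : Subgroup Γ).normalizerMonoidHom).ker := by
    rw [MonoidHom.mem_ker, map_pow]; exact h1
  rw [Subgroup.normalizerMonoidHom_ker, Subgroup.mem_subgroupOf] at h2
  intro a ha
  have h3 := Subgroup.mem_centralizer_iff.mp h2 a ha
  simpa using h3.symm

/-- A Sylow `p`-subgroup has order `p` when `p` divides the group order exactly once. -/
theorem ps21_sylow_card_of_dvd {p : ℕ} [Fact p.Prime] (S : Sylow p Γ)
    (hdvd : p ∣ Nat.card Γ) (hndvd : ¬ p ^ 2 ∣ Nat.card Γ) :
    Nat.card (S : Subgroup Γ) = p := by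
  obtain ⟨n, hn⟩ := IsPGroup.iff_card.mp S.isPGroup'
  have h1 := Subgroup.card_mul_index (S : Subgroup Γ)
  have h2 : ¬ p ∣ (S : Subgroup Γ).index := S.not_dvd_index
  rcases n with _ | _ | n
  · exfalso
    apply h2
    rw [hn, pow_zero, one_mul] at h1
    rw [h1]; exact hdvd
  · simpa using hn
  · exfalso
    apply hndvd
    rw [← h1, hn]
    exact Dvd.dvd.mul_right (pow_dvd_pow p (by omega)) _

/-- In a simple group no proper non-trivial Sylow subgroup is central in its normalizer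
(Burnside's transfer theorem). -/
theorem ps21_not_normalizer_le_centralizer (hsimple : IsSimpleGroup Γ) {q : ℕ} [Fact q.Prime]
    (Q : Sylow q Γ) (hQ1 : Nat.card (Q : Subgroup Γ) ≠ 1)
    (hQ2 : Nat.card (Q : Subgroup Γ) ≠ Nat.card Γ) :
    ¬ (Subgroup.normalizer ((Q : Subgroup Γ) : Set Γ) ≤
      Subgroup.centralizer ((Q : Subgroup Γ) : Set Γ)) := by
  intro hNC
  have hcomp := MonoidHom.ker_transferSylow_isComplement' Q hNC
  have hidx : (MonoidHom.transferSylow Q hNC).ker.index = Nat.card (Q : Subgroup Γ) :=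
    hcomp.symm.index_eq_card
  rcases (MonoidHom.normal_ker (MonoidHom.transferSylow Q hNC)).eq_bot_or_eq_top with e | e
  · rw [e, Subgroup.index_bot] at hidx
    exact hQ2 hidx.symm
  · rw [e, Subgroup.index_top] at hidx
    exact hQ1 hidx.symm

end

/-- The sign of an involution moving exactly ten points is `-1`. -/
theorem ps21_sign_involution {Ω : Type*} [Fintype Ω] [DecidableEq Ω]
    (τ : Equiv.Perm Ω) (hτ2 : τ ^ 2 = 1) (hsupp : τ.support.card = 10) :
    Equiv.Perm.sign τ = -1 := by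
  have hne : τ ≠ 1 := by
    rintro rfl
    simp at hsupp
  have hord : orderOf τ = 2 := orderOf_eq_prime hτ2 hne
  have hprime : (orderOf τ).Prime := by rw [hord]; exact Nat.prime_two
  obtain ⟨n, hn⟩ := Equiv.Perm.cycleType_prime_order hprime
  rw [hord] at hn
  have hsum := Equiv.Perm.sum_cycleType τ
  rw [hn, hsupp] at hsum
  simp only [Multiset.sum_replicate, smul_eq_mul] at hsum
  have hn4 : n = 4 := by omega
  rw [Equiv.Perm.sign_of_cycleType, hn, hn4]
  simp only [Multiset.sum_replicate, Multiset.card_replicate, smul_eq_mul]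
  norm_num

/-- In a simple group of order divisible by `5` acting on a finite set, every element acts as
an even permutation. -/
theorem ps21_even {Γ : Type*} [Group Γ] [Finite Γ] {Ω : Type*} [MulAction Γ Ω] [Fintype Ω]
    [DecidableEq Ω] (hsimple : IsSimpleGroup Γ) (h5 : 5 ∣ Nat.card Γ) (g : Γ) :
    Equiv.Perm.sign (MulAction.toPerm g : Equiv.Perm Ω) = 1 := by
  by_contra hcon
  have hneg : Equiv.Perm.sign (MulAction.toPerm g : Equiv.Perm Ω) = -1 :=
    (Int.units_eq_one_or _).resolve_left hcon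
  have hidx := index_ker_eq_two_of_neg_one
    (Equiv.Perm.sign.comp (MulAction.toPermHom Γ Ω)) g hneg
  rcases (MonoidHom.normal_ker
    (Equiv.Perm.sign.comp (MulAction.toPermHom Γ Ω))).eq_bot_or_eq_top with e | e
  · rw [e, Subgroup.index_bot] at hidx
    rw [hidx] at h5
    omega
  · rw [e, Subgroup.index_top] at hidx
    omega

section

variable {Γ : Type*} [Group Γ] [Finite Γ] {Ω : Type*} [MulAction Γ Ω] [Finite Ω]

omit [Finite Ω] in
/-- A non-identity element of a point-Sylow subgroup of order `5` fixes only its point. -/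
theorem ps21_fix_of_ne_one {P : Sylow 5 Γ} {α : Ω} (h : IsPointSylow P α)
    (hP : Nat.card (P : Subgroup Γ) = 5) {g : Γ} (hg : g ∈ (P : Subgroup Γ)) (hg1 : g ≠ 1)
    {ω : Ω} (hω : g • ω = ω) : ω = α := by
  apply h.2.1
  intro x hx
  exact MulAction.mem_stabilizer_iff.mp (ps21_le_of_mem (by norm_num) hP (MulAction.stabilizer Γ ω) hg
    (MulAction.mem_stabilizer_iff.mpr hω) hg1 hx)

omit [Finite Ω] in
/-- An element of the point stabilizer fixing two points of one `P`-orbit centralizes `P`. -/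
theorem ps21_centralizes_of_fix_two {P : Sylow 5 Γ} {α : Ω}
    (h : IsPointSylow P α) (hP : Nat.card (P : Subgroup Γ) = 5) {g : Γ} (hgα : g • α = α)
    {ω ω' : Ω} (hω : g • ω = ω) (hω' : g • ω' = ω') (hne : ω ≠ ω')
    (hmem : ω' ∈ porbit (P : Subgroup Γ) ω) : ∀ a ∈ (P : Subgroup Γ), g * a = a * g := by
  obtain ⟨x, hx, rfl⟩ := hmem
  have hgN : g ∈ Subgroup.normalizer ((P : Subgroup Γ) : Set Γ) :=
    h.2.2 (MulAction.mem_stabilizer_iff.mpr hgα)
  have hconj : g * x * g⁻¹ ∈ (P : Subgroup Γ) := (Subgroup.mem_normalizer_iff.mp hgN x).mp hx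
  have hωα : ω ≠ α := by
    rintro rfl
    exact hne (h.1 x hx).symm
  have hy : x⁻¹ * (g * x * g⁻¹) = 1 := by
    by_contra hy1
    apply hωα
    apply ps21_fix_of_ne_one h hP (Subgroup.mul_mem _ (Subgroup.inv_mem _ hx) hconj) hy1
    have e1 : g⁻¹ • ω = ω := by rw [inv_smul_eq_iff, hω]
    rw [mul_smul, mul_smul, mul_smul, e1, hω', inv_smul_smul]
  have hcomm : g * x = x * g := by
    have h1 : g * x * g⁻¹ = x := by
      have h2 := congrArg (fun z => x * z) hy
      simpa [mul_assoc] using h2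
    calc g * x = g * x * g⁻¹ * g := by group
      _ = x * g := by rw [h1]
  have hx1 : x ≠ 1 := by
    rintro rfl
    exact hne (one_smul _ _).symm
  intro a ha
  have hle := ps21_le_of_mem (by norm_num) hP (Subgroup.centralizer {g}) hx (by
    rw [Subgroup.mem_centralizer_iff]
    intro y hy
    rw [Set.mem_singleton_iff] at hy
    rw [hy]; exact hcomm) hx1
  exact Subgroup.mem_centralizer_iff.mp (hle ha) g (Set.mem_singleton g)

/-- An element of a point-Sylow subgroup fixing a point fixes its whole orbit (the stabilizer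
has index `5`, hence is normal). -/
theorem ps21_stab_fix_orbit [Fact (Nat.Prime 5)] {P : Sylow 5 Γ} {α : Ω}
    (h : IsPointSylow P α) (hΩ : Nat.card Ω = 21) {δ : Ω} (hδ : δ ≠ α) {g : Γ}
    (hg : g ∈ (P : Subgroup Γ)) (hgδ : g • δ = δ) {ω : Ω}
    (hω : ω ∈ porbit (P : Subgroup Γ) δ) : g • ω = ω := by
  obtain ⟨x, hx, rfl⟩ := hω
  have hidx : (MulAction.stabilizer (↥(P : Subgroup Γ)) δ).index = 5 := by
    rw [MulAction.index_stabilizer, ← porbit_eq_orbit, ps21_ncard_porbit h hΩ hδ]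
  have hcard := Subgroup.card_mul_index (MulAction.stabilizer (↥(P : Subgroup Γ)) δ)
  rw [hidx] at hcard
  obtain ⟨k, hk⟩ := IsPGroup.iff_card.mp P.isPGroup'
  have hk0 : k ≠ 0 := by
    rintro rfl
    rw [pow_zero] at hk
    rw [hk] at hcard
    omega
  have hmf : (Nat.card ↥(P : Subgroup Γ)).minFac = 5 := by
    rw [hk]; exact Nat.Prime.pow_minFac (by norm_num) hk0
  have hnormal : (MulAction.stabilizer (↥(P : Subgroup Γ)) δ).Normal :=
    Subgroup.normal_of_index_eq_minFac_card (hidx.trans hmf.symm)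
  have hmem : (⟨x, hx⟩ : ↥(P : Subgroup Γ))⁻¹ * ⟨g, hg⟩ * (⟨x, hx⟩ : ↥(P : Subgroup Γ))⁻¹⁻¹ ∈
      MulAction.stabilizer (↥(P : Subgroup Γ)) δ :=
    hnormal.conj_mem _ (MulAction.mem_stabilizer_iff.mpr hgδ) _
  rw [MulAction.mem_stabilizer_iff] at hmem
  have hmem' : (x⁻¹ * g * x) • δ = δ := by
    have e : (x⁻¹ * g * x) • δ =
        ((⟨x, hx⟩ : ↥(P : Subgroup Γ))⁻¹ * ⟨g, hg⟩ * (⟨x, hx⟩ : ↥(P : Subgroup Γ))⁻¹⁻¹) • δ := by
      rw [inv_inv]; rfl
    rw [e, hmem]
  calc g • x • δ = x • (x⁻¹ * g * x) • δ := by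
        rw [← mul_smul, ← mul_smul]; congr 1; group
    _ = x • δ := by rw [hmem']

end

end Cfsg.Agent.Helper95
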