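import Mathlib
import Cfsg.Agent.Helper95.Syl21A

set_option autoImplicit false
set_option linter.style.haveILetI false
set_option linter.unusedSectionVars false

/-!
# `21` is not a Sylow `5`-number, part B (helper95)

The Sylow `5`-subgroups have order `5`: otherwise the fixed point sets of the two-point
stabilizers of the Sylow subgroups form a linear space with lines of at least six points,
which is incompatible with four orbits.
-/

namespace Cfsg.Agent.Helper95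

open Cfsg.Agent.Helper71

section

variable {Γ : Type*} [Group Γ] [Finite Γ] {Ω : Type*} [MulAction Γ Ω] [Finite Ω]

/-- The common fixed points of `A ⊓ B`. -/
def ps21_line (Ω : Type*) [MulAction Γ Ω] (A B : Subgroup Γ) : Set Ω :=
  {ε | ∀ g ∈ A, g ∈ B → g • ε = ε}

omit [Finite Γ] [Finite Ω] in
theorem ps21_line_comm (A B : Subgroup Γ) : ps21_line Ω A B = ps21_line Ω B A := by
  ext ε
  exact ⟨fun h g hg hg' => h g hg' hg, fun h g hg hg' => h g hg' hg⟩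

theorem ps21_exists_ne_one_fixing [Fact (Nat.Prime 5)] {P : Sylow 5 Γ} {α : Ω}
    (h : IsPointSylow P α) (hΩ : Nat.card Ω = 21) (k : ℕ) (hk : 2 ≤ k)
    (hP : Nat.card (P : Subgroup Γ) = 5 ^ k)
    {γ : Ω} (hγ : γ ≠ α) : ∃ x ∈ (P : Subgroup Γ), x ≠ 1 ∧ x • γ = γ := by
  have h1 := MulAction.index_stabilizer (↥(P : Subgroup Γ)) γ
  rw [← porbit_eq_orbit, ps21_ncard_porbit h hΩ hγ] at h1
  have h2 := Subgroup.card_mul_index (MulAction.stabilizer (↥(P : Subgroup Γ)) γ)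
  rw [h1, hP] at h2
  have h4 : MulAction.stabilizer (↥(P : Subgroup Γ)) γ ≠ ⊥ := by
    intro e
    rw [e, Subgroup.card_bot] at h2
    have : 5 ^ 2 ≤ 5 ^ k := Nat.pow_le_pow_right (by norm_num) hk
    omega
  obtain ⟨⟨x, hx⟩, hx1⟩ := Subgroup.ne_bot_iff_exists_ne_one.mp h4
  refine ⟨x.1, x.2, ?_, ?_⟩
  · intro e
    apply hx1
    apply Subtype.ext
    apply Subtype.ext
    exact e
  · exact MulAction.mem_stabilizer_iff.mp hx

/-- If every element of `P` fixing `δ` fixes `ε`, then conversely (both stabilizers have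
index `5`). -/
theorem ps21_fix_of_fix_imp [Fact (Nat.Prime 5)] {P : Sylow 5 Γ} {α : Ω}
    (h : IsPointSylow P α) (hΩ : Nat.card Ω = 21) {δ ε : Ω} (hδ : δ ≠ α) (hε : ε ≠ α)
    (himp : ∀ g ∈ (P : Subgroup Γ), g • δ = δ → g • ε = ε) :
    ∀ g ∈ (P : Subgroup Γ), g • ε = ε → g • δ = δ := by
  have hidxδ : (MulAction.stabilizer (↥(P : Subgroup Γ)) δ).index = 5 := by
    rw [MulAction.index_stabilizer, ← porbit_eq_orbit, ps21_ncard_porbit h hΩ hδ]
  have hidxε : (MulAction.stabilizer (↥(P : Subgroup Γ)) ε).index = 5 := by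
    rw [MulAction.index_stabilizer, ← porbit_eq_orbit, ps21_ncard_porbit h hΩ hε]
  have hle : MulAction.stabilizer (↥(P : Subgroup Γ)) δ ≤
      MulAction.stabilizer (↥(P : Subgroup Γ)) ε := by
    intro x hx
    rw [MulAction.mem_stabilizer_iff] at hx ⊢
    exact himp x.1 x.2 hx
  have h1 := Subgroup.relIndex_mul_index hle
  rw [hidxδ, hidxε] at h1
  have h2 : (MulAction.stabilizer (↥(P : Subgroup Γ)) δ).relIndex
      (MulAction.stabilizer (↥(P : Subgroup Γ)) ε) = 1 := by omega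
  have h3 := Subgroup.relIndex_eq_one.mp h2
  intro g hg hgε
  exact MulAction.mem_stabilizer_iff.mp (h3 (MulAction.mem_stabilizer_iff.mpr
    (show (⟨g, hg⟩ : ↥(P : Subgroup Γ)) • ε = ε from hgε)))

/-- The Sylow `5`-subgroups cannot have order `5 ^ k` with `k ≥ 2`. -/
theorem ps21_false_of_card_ge [Fact (Nat.Prime 5)] [FaithfulSMul Γ Ω] (hΩ : Nat.card Ω = 21)
    (hall : ∀ β : Ω, ∃ P : Sylow 5 Γ, IsPointSylow P β) (k : ℕ) (hk : 2 ≤ k)
    (hcard : ∀ Q : Sylow 5 Γ, Nat.card (Q : Subgroup Γ) = 5 ^ k) : False := by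
  choose Pt hPt using hall
  have hM : ∀ γ δ : Ω, ∀ g ∈ (Pt γ : Subgroup Γ), g • δ = δ → g ∈ (Pt δ : Subgroup Γ) := by
    intro γ δ g hg hgδ
    apply (hPt δ).mem_of_pow hgδ (k := k)
    have h1 : (⟨g, hg⟩ : ↥(Pt γ : Subgroup Γ)) ^ Nat.card (Pt γ : Subgroup Γ) = 1 :=
      pow_card_eq_one'
    rw [hcard] at h1
    have h2 := congrArg Subtype.val h1
    simpa using h2
  have hL1 : ∀ γ δ : Ω, γ ∈ ps21_line Ω (Pt γ : Subgroup Γ) (Pt δ : Subgroup Γ) :=
    fun γ δ g hg _ => (hPt γ).1 g hg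
  have hL2 : ∀ γ δ ε : Ω, δ ≠ γ → ε ∈ porbit (Pt γ : Subgroup Γ) δ →
      ε ∈ ps21_line Ω (Pt γ : Subgroup Γ) (Pt δ : Subgroup Γ) := by
    intro γ δ ε hδ hε g hg hg'
    exact ps21_stab_fix_orbit (hPt γ) hΩ hδ hg ((hPt δ).1 g hg') hε
  have hL3 : ∀ γ δ ε : Ω, δ ≠ γ → ε ≠ γ →
      ε ∈ ps21_line Ω (Pt γ : Subgroup Γ) (Pt δ : Subgroup Γ) →
      ps21_line Ω (Pt γ : Subgroup Γ) (Pt ε : Subgroup Γ) =
        ps21_line Ω (Pt γ : Subgroup Γ) (Pt δ : Subgroup Γ) := by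
    intro γ δ ε hδ hε hmem
    have himp : ∀ g ∈ (Pt γ : Subgroup Γ), g • δ = δ → g • ε = ε :=
      fun g hg hgδ => hmem g hg (hM γ δ g hg hgδ)
    have hconv := ps21_fix_of_fix_imp (hPt γ) hΩ hδ hε himp
    ext ζ
    constructor
    · intro hζ g hg hg'
      exact hζ g hg (hM γ ε g hg (hmem g hg hg'))
    · intro hζ g hg hg'
      exact hζ g hg (hM γ δ g hg (hconv g hg ((hPt ε).1 g hg')))
  have hL4 : ∀ γ δ : Ω, δ ≠ γ →
      ∃ ε, ε ∉ ps21_line Ω (Pt γ : Subgroup Γ) (Pt δ : Subgroup Γ) := by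
    intro γ δ hδ
    obtain ⟨x, hx, hx1, hxδ⟩ := ps21_exists_ne_one_fixing (hPt γ) hΩ k hk (hcard _) hδ
    by_contra hcon
    push Not at hcon
    apply hx1
    apply FaithfulSMul.eq_of_smul_eq_smul (α := Ω)
    intro ε
    rw [one_smul]
    exact hcon ε x hx (hM γ δ x hx hxδ)
  obtain ⟨α⟩ := ps21_nonempty hΩ
  obtain ⟨β, hβ⟩ := ps21_exists_ne hΩ α
  obtain ⟨γ', hγ'⟩ := hL4 α β hβ
  have hA : γ' ∉ porbit (Pt α : Subgroup Γ) β := fun hmem => hγ' (hL2 α β γ' hβ hmem)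
  obtain ⟨a, ha, a', ha', hne, hmem⟩ := ps21_pigeon_set (hPt γ') hΩ
    (porbit (Pt α : Subgroup Γ) β) hA (by rw [ps21_ncard_porbit (hPt α) hΩ hβ])
  have haγ : a ≠ γ' := fun e => hA (e ▸ ha)
  have haα : a ≠ α := fun e => (hPt α).not_mem_porbit hβ (e ▸ ha)
  have h1 : a' ∈ ps21_line Ω (Pt a : Subgroup Γ) (Pt γ' : Subgroup Γ) := by
    rw [ps21_line_comm]; exact hL2 γ' a a' haγ hmem
  have h2 := hL3 a γ' a' (Ne.symm haγ) (Ne.symm hne) h1
  have h3 : γ' ∈ ps21_line Ω (Pt a : Subgroup Γ) (Pt a' : Subgroup Γ) := by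
    rw [h2, ps21_line_comm]; exact hL1 γ' a
  have h4 := hL3 α β a hβ haα (hL2 α β a hβ ha)
  have h5 : a' ∈ ps21_line Ω (Pt a : Subgroup Γ) (Pt α : Subgroup Γ) := by
    rw [ps21_line_comm, h4]; exact hL2 α β a' hβ ha'
  have h6 := hL3 a α a' (Ne.symm haα) (Ne.symm hne) h5
  apply hγ'
  rw [← h4, ps21_line_comm, ← h6]
  exact h3

end

end Cfsg.Agent.Helper95
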