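import Mathlib
import Cfsg.Agent.Helper95.Syl21B

set_option autoImplicit false
set_option linter.style.haveILetI false
set_option linter.unusedSectionVars false

/-!
# `21` is not a Sylow `5`-number, part C (helper95)

Fixed points of elements of the centralizer of a Sylow `5`-subgroup of order `5`.
-/

namespace Cfsg.Agent.Helper95

open Cfsg.Agent.Helper71

section

variable {Γ : Type*} [Group Γ] [Finite Γ] {Ω : Type*} [MulAction Γ Ω] [Fintype Ω] [DecidableEq Ω]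

omit [Finite Γ] [Fintype Ω] [DecidableEq Ω] in
theorem ps21_pow_smul_eq {c : Γ} {ξ : Ω} (hξ : c • ξ = ξ) (n : ℕ) : c ^ n • ξ = ξ := by
  induction n with
  | zero => simp
  | succ n ih => rw [pow_succ, mul_smul, hξ, ih]

omit [Finite Γ] [Fintype Ω] [DecidableEq Ω] in
theorem ps21_pow_smul_of_commute {d x : Γ} (hdx : d * x = x * d) {ξ : Ω}
    (hξ : d • ξ = x • ξ) (n : ℕ) : d ^ n • ξ = x ^ n • ξ := by
  induction n with
  | zero => simp
  | succ n ih =>
    have hcm : Commute (d ^ n) x := Commute.pow_left hdx n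
    rw [pow_succ, mul_smul, hξ, ← mul_smul, hcm.eq, mul_smul, ih, ← mul_smul, ← pow_succ']

/-- Two points outside `{α}` and three given distinct orbits lie in the same orbit. -/
theorem ps21_same_orbit [Fact (Nat.Prime 5)] {P : Sylow 5 Γ} {α : Ω}
    (h : IsPointSylow P α) (hΩ : Nat.card Ω = 21)
    {β ω b₃ : Ω} (hβ : β ≠ α) (hωα : ω ≠ α) (hωβ : ω ∉ porbit (P : Subgroup Γ) β)
    (hb₃α : b₃ ≠ α) (hb₃β : b₃ ∉ porbit (P : Subgroup Γ) β)
    (hb₃ω : b₃ ∉ porbit (P : Subgroup Γ) ω)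
    {y y' : Ω} (hy1 : y ≠ α) (hy2 : y ∉ porbit (P : Subgroup Γ) β)
    (hy3 : y ∉ porbit (P : Subgroup Γ) ω) (hy4 : y ∉ porbit (P : Subgroup Γ) b₃)
    (hy1' : y' ≠ α) (hy2' : y' ∉ porbit (P : Subgroup Γ) β)
    (hy3' : y' ∉ porbit (P : Subgroup Γ) ω) (hy4' : y' ∉ porbit (P : Subgroup Γ) b₃) :
    y' ∈ porbit (P : Subgroup Γ) y := by
  by_contra hcon
  refine ps21_no_five h hΩ [β, ω, b₃, y, y'] rfl ?_ ?_
  · intro x hx
    simp only [List.mem_cons, List.not_mem_nil, or_false] at hx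
    rcases hx with rfl | rfl | rfl | rfl | rfl <;> assumption
  · simp only [List.pairwise_cons, List.mem_cons, List.not_mem_nil, or_false, forall_eq_or_imp,
      forall_eq, List.Pairwise.nil, and_true, IsEmpty.forall_iff, implies_true]
    exact ⟨⟨hωβ, hb₃β, hy2, hy2'⟩, ⟨hb₃ω, hy3, hy3'⟩, ⟨hy4, hy4'⟩, hcon⟩

/-- An element of `C(P)` fixing two orbits pointwise and stabilizing a third is trivial. -/
theorem ps21_A1_sub [Fact (Nat.Prime 5)] [FaithfulSMul Γ Ω] {P : Sylow 5 Γ} {α : Ω}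
    (h : IsPointSylow P α) (hΩ : Nat.card Ω = 21) (hP : Nat.card (P : Subgroup Γ) = 5)
    {β ω b₃ : Ω} (hβ : β ≠ α) (hωα : ω ≠ α) (hωβ : ω ∉ porbit (P : Subgroup Γ) β)
    (hb₃α : b₃ ≠ α) (hb₃β : b₃ ∉ porbit (P : Subgroup Γ) β)
    (hb₃ω : b₃ ∉ porbit (P : Subgroup Γ) ω)
    {d : Γ} (hd : ∀ a ∈ (P : Subgroup Γ), d * a = a * d) (hdβ : d • β = β) (hdω : d • ω = ω)
    (hdb : d • b₃ ∈ porbit (P : Subgroup Γ) b₃) : d = 1 := by
  obtain ⟨hcomm, hpow⟩ := ps21_sylow_facts hP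
  have hdα : d • α = α := h.smul_eq_of_centralizes hd
  obtain ⟨x, hx, hxb⟩ := hdb
  have hd5c : ∀ a ∈ (P : Subgroup Γ), d ^ 5 * a = a * d ^ 5 := fun a ha =>
    ((show Commute d a from hd a ha).pow_left 5).eq
  have hd5b : d ^ 5 • b₃ = b₃ := by
    rw [ps21_pow_smul_of_commute (hd x hx) hxb.symm 5, hpow x hx, one_smul]
  have hfix5 : ∀ ξ : Ω, (ξ = α ∨ ξ ∈ porbit (P : Subgroup Γ) β ∨
      ξ ∈ porbit (P : Subgroup Γ) ω ∨ ξ ∈ porbit (P : Subgroup Γ) b₃) → d ^ 5 • ξ = ξ := by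
    rintro ξ (rfl | hξ | hξ | hξ)
    · exact ps21_pow_smul_eq hdα 5
    · exact smul_eq_of_mem_porbit_of_centralizes _ hd5c (ps21_pow_smul_eq hdβ 5) hξ
    · exact smul_eq_of_mem_porbit_of_centralizes _ hd5c (ps21_pow_smul_eq hdω 5) hξ
    · exact smul_eq_of_mem_porbit_of_centralizes _ hd5c hd5b hξ
  have hd25 : d ^ 5 ^ 2 = 1 := by
    apply FaithfulSMul.eq_of_smul_eq_smul (α := Ω)
    intro ξ
    rw [one_smul]
    have e25 : d ^ 5 ^ 2 = (d ^ 5) ^ 5 := by rw [← pow_mul]; norm_num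
    rw [e25]
    by_cases hξ : ξ = α ∨ ξ ∈ porbit (P : Subgroup Γ) β ∨
        ξ ∈ porbit (P : Subgroup Γ) ω ∨ ξ ∈ porbit (P : Subgroup Γ) b₃
    · exact ps21_pow_smul_eq (hfix5 ξ hξ) 5
    · have hout : ¬ (d ^ 5 • ξ = α ∨ d ^ 5 • ξ ∈ porbit (P : Subgroup Γ) β ∨
          d ^ 5 • ξ ∈ porbit (P : Subgroup Γ) ω ∨ d ^ 5 • ξ ∈ porbit (P : Subgroup Γ) b₃) := by
        intro hin
        have e := hfix5 _ hin
        have e2 : d ^ 5 • ξ = ξ := MulAction.injective (d ^ 5) e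
        rw [e2] at hin
        exact hξ hin
      simp only [not_or] at hξ hout
      obtain ⟨hξ1, hξ2, hξ3, hξ4⟩ := hξ
      obtain ⟨ho1, ho2, ho3, ho4⟩ := hout
      obtain ⟨z, hz, hzξ⟩ := ps21_same_orbit h hΩ hβ hωα hωβ hb₃α hb₃β hb₃ω
        hξ1 hξ2 hξ3 hξ4 ho1 ho2 ho3 ho4
      rw [ps21_pow_smul_of_commute (hd5c z hz) hzξ.symm 5, hpow z hz, one_smul]
  have hdP : d ∈ (P : Subgroup Γ) := h.mem_of_pow hdα (k := 2) hd25
  by_contra hd1
  exact hβ (ps21_fix_of_ne_one h hP hdP hd1 hdβ)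

/-- **(A1)** An element of `C(P)` fixing points of two different non-trivial `P`-orbits is
trivial, provided every element of `Γ` acts as an even permutation. -/
theorem ps21_A1 [Fact (Nat.Prime 5)] [FaithfulSMul Γ Ω] {P : Sylow 5 Γ} {α : Ω}
    (h : IsPointSylow P α) (hΩ : Nat.card Ω = 21) (hP : Nat.card (P : Subgroup Γ) = 5)
    (heven : ∀ g : Γ, Equiv.Perm.sign (MulAction.toPerm g : Equiv.Perm Ω) = 1)
    {c : Γ} (hc : ∀ a ∈ (P : Subgroup Γ), c * a = a * c) {β : Ω} (hβ : β ≠ α)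
    (hcβ : c • β = β) {ω : Ω} (hωα : ω ≠ α) (hωβ : ω ∉ porbit (P : Subgroup Γ) β)
    (hcω : c • ω = ω) : c = 1 := by
  have hcα : c • α = α := h.smul_eq_of_centralizes hc
  obtain ⟨F, hFdef⟩ : ∃ F : Set Ω,
      F = insert α (porbit (P : Subgroup Γ) β ∪ porbit (P : Subgroup Γ) ω) := ⟨_, rfl⟩
  have hFfix : ∀ ξ ∈ F, c • ξ = ξ := by
    intro ξ hξ
    rw [hFdef] at hξ
    rcases hξ with rfl | hξ | hξ
    · exact hcα
    · exact smul_eq_of_mem_porbit_of_centralizes _ hc hcβ hξ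
    · exact smul_eq_of_mem_porbit_of_centralizes _ hc hcω hξ
  have hmemF : ∀ ξ, ξ ∉ F →
      ξ ≠ α ∧ ξ ∉ porbit (P : Subgroup Γ) β ∧ ξ ∉ porbit (P : Subgroup Γ) ω := by
    intro ξ hξ
    rw [hFdef] at hξ
    refine ⟨fun e => hξ (Or.inl e), fun e => hξ (Or.inr (Or.inl e)),
      fun e => hξ (Or.inr (Or.inr e))⟩
  have hFcard : F.ncard = 11 := by
    have hdisj : Disjoint (porbit (P : Subgroup Γ) β) (porbit (P : Subgroup Γ) ω) := by
      rw [Set.disjoint_left]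
      intro x hx hx'
      exact hωβ (mem_porbit_trans _ hx (mem_porbit_symm _ hx'))
    have hnot : α ∉ porbit (P : Subgroup Γ) β ∪ porbit (P : Subgroup Γ) ω := by
      rintro (h1 | h1)
      · exact h.not_mem_porbit hβ h1
      · exact h.not_mem_porbit hωα h1
    rw [hFdef, Set.ncard_insert_of_notMem hnot (Set.toFinite _),
      Set.ncard_union_eq hdisj (Set.toFinite _) (Set.toFinite _),
      ps21_ncard_porbit h hΩ hβ, ps21_ncard_porbit h hΩ hωα]
  obtain ⟨b₃, hb₃⟩ : ∃ b₃, b₃ ∉ F := by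
    by_contra hcon
    push Not at hcon
    have huniv : F = Set.univ := Set.eq_univ_of_forall hcon
    rw [huniv, Set.ncard_univ, hΩ] at hFcard
    omega
  obtain ⟨hb₃α, hb₃β, hb₃ω⟩ := hmemF _ hb₃
  by_cases hcase : c • b₃ ∈ porbit (P : Subgroup Γ) b₃
  · exact ps21_A1_sub h hΩ hP hβ hωα hωβ hb₃α hb₃β hb₃ω hc hcβ hcω hcase
  · exfalso
    have hnotF : ∀ ξ, ξ ∉ F → c • ξ ∉ F := by
      intro ξ hξ hin
      have e := hFfix _ hin
      have e2 : c • ξ = ξ := MulAction.injective c e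
      rw [e2] at hin
      exact hξ hin
    have hy : c • b₃ ∉ F := hnotF _ hb₃
    have hcy : c • c • b₃ ∉ F := hnotF _ hy
    obtain ⟨hy1, hy2, hy3⟩ := hmemF _ hy
    have hc2b : c • c • b₃ ∈ porbit (P : Subgroup Γ) b₃ := by
      by_contra hcon
      obtain ⟨hz1, hz2, hz3⟩ := hmemF _ hcy
      obtain ⟨z, hz, hzy⟩ := ps21_same_orbit h hΩ hβ hωα hωβ hb₃α hb₃β hb₃ω
        hy1 hy2 hy3 hcase hz1 hz2 hz3 hcon
      apply hcase
      refine ⟨z, hz, ?_⟩
      have e : c • z • b₃ = c • c • b₃ := by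
        rw [← hzy, ← mul_smul, ← mul_smul, hc z hz]
      exact MulAction.injective c e
    have hc2 : c ^ 2 = 1 := by
      apply ps21_A1_sub h hΩ hP hβ hωα hωβ hb₃α hb₃β hb₃ω (d := c ^ 2)
      · intro a ha; exact ((show Commute c a from hc a ha).pow_left 2).eq
      · exact ps21_pow_smul_eq hcβ 2
      · exact ps21_pow_smul_eq hcω 2
      · rw [pow_two, mul_smul]; exact hc2b
    have hsupp : ∀ ξ, ξ ∉ F → c • ξ ≠ ξ := by
      intro ξ hξ hfix
      obtain ⟨hξ1, hξ2, hξ3⟩ := hmemF _ hξ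
      by_cases hξ4 : ξ ∈ porbit (P : Subgroup Γ) b₃
      · obtain ⟨z, hz, rfl⟩ := hξ4
        apply hcase
        rw [← mul_smul, hc z hz, mul_smul] at hfix
        have e3 := MulAction.injective z hfix
        rw [e3]; exact mem_porbit_self _ _
      · obtain ⟨z, hz, hzy⟩ := ps21_same_orbit h hΩ hβ hωα hωβ hb₃α hb₃β hb₃ω
          hy1 hy2 hy3 hcase hξ1 hξ2 hξ3 hξ4
        apply hξ4
        refine ⟨z, hz, ?_⟩
        have e2 : c • c • b₃ = b₃ := by rw [← mul_smul, ← pow_two, hc2, one_smul]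
        rw [← hfix, ← hzy, ← mul_smul, hc z hz, mul_smul, e2]
    have hsuppcard : (MulAction.toPerm c : Equiv.Perm Ω).support.card = 10 := by
      have e : ((MulAction.toPerm c : Equiv.Perm Ω).support : Set Ω) = Fᶜ := by
        ext ξ
        simp only [Finset.mem_coe, Equiv.Perm.mem_support, MulAction.toPerm_apply,
          Set.mem_compl_iff]
        constructor
        · intro hne hin; exact hne (hFfix ξ hin)
        · intro hnin; exact hsupp ξ hnin
      rw [← Set.ncard_coe_finset, e, Set.ncard_compl, hFcard, hΩ]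
    have hτ2 : (MulAction.toPerm c : Equiv.Perm Ω) ^ 2 = 1 := by
      have e : (MulAction.toPermHom Γ Ω c) ^ 2 = 1 := by rw [← map_pow, hc2, map_one]
      exact e
    have hsign := ps21_sign_involution (MulAction.toPerm c : Equiv.Perm Ω) hτ2 hsuppcard
    rw [heven c] at hsign
    exact absurd hsign (by decide)

/-- **(A2)** An element of `C(P)` of order dividing `4` fixing a point other than `α` is
trivial. -/
theorem ps21_A2 [Fact (Nat.Prime 5)] [FaithfulSMul Γ Ω] {P : Sylow 5 Γ} {α : Ω}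
    (h : IsPointSylow P α) (hΩ : Nat.card Ω = 21) (hP : Nat.card (P : Subgroup Γ) = 5)
    (heven : ∀ g : Γ, Equiv.Perm.sign (MulAction.toPerm g : Equiv.Perm Ω) = 1)
    {c : Γ} (hc : ∀ a ∈ (P : Subgroup Γ), c * a = a * c) {β : Ω} (hβ : β ≠ α)
    (hcβ : c • β = β) (hc4 : c ^ 4 = 1) : c = 1 := by
  by_contra hc1
  have hcα : c • α = α := h.smul_eq_of_centralizes hc
  have hfixset : {ξ : Ω | c • ξ = ξ} = insert α (porbit (P : Subgroup Γ) β) := by
    ext ξ
    constructor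
    · intro hξ
      by_contra hnin
      simp only [Set.mem_insert_iff, not_or] at hnin
      exact hc1 (ps21_A1 h hΩ hP heven hc hβ hcβ hnin.1 hnin.2 hξ)
    · rintro (rfl | hξ)
      · exact hcα
      · exact smul_eq_of_mem_porbit_of_centralizes _ hc hcβ hξ
  have hcard : ({ξ : Ω | c • ξ = ξ} : Set Ω).ncard = 6 := by
    rw [hfixset, Set.ncard_insert_of_notMem (h.not_mem_porbit hβ) (Set.toFinite _),
      ps21_ncard_porbit h hΩ hβ]
  let f : Function.End Ω := fun ξ => c • ξ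
  have hpow : ∀ n : ℕ, f ^ n = fun ξ => c ^ n • ξ := by
    intro n
    induction n with
    | zero =>
      funext ξ
      rw [pow_zero, pow_zero, one_smul]
      rfl
    | succ n ih =>
      rw [pow_succ, ih]
      funext ξ
      show c ^ n • (c • ξ) = _
      rw [← mul_smul, ← pow_succ]
  have hf : f ^ 2 ^ 2 = 1 := by
    rw [hpow]
    funext ξ
    have e4 : c ^ 2 ^ 2 = c ^ 4 := by norm_num
    rw [e4, hc4, one_smul]
    rfl
  have : Fact (Nat.Prime 2) := ⟨Nat.prime_two⟩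
  have h1 := Equiv.Perm.card_fixedPoints_modEq (p := 2) (n := 2) hf
  rw [← Nat.card_eq_fintype_card, ← Nat.card_eq_fintype_card, hΩ] at h1
  have h2 : Nat.card (Function.fixedPoints f) = ({ξ : Ω | c • ξ = ξ} : Set Ω).ncard :=
    Nat.card_coe_set_eq _
  rw [h2, hcard] at h1
  exact absurd h1 (by decide)

end

end Cfsg.Agent.Helper95
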