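import Mathlib
import Cfsg.Agent.Helper95.Syl21C

set_option autoImplicit false
set_option linter.style.haveILetI false
set_option linter.unusedSectionVars false

/-!
# `21` is not a Sylow `5`-number, part D (helper95)

Some centralizer `C(P)` has a regular orbit: otherwise the sets `{γ} ∪ O_γ(δ)` would be the
blocks of a linear space with six points on a line, incompatible with four orbits.
-/

namespace Cfsg.Agent.Helper95

open Cfsg.Agent.Helper71

section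

variable {Γ : Type*} [Group Γ] [Finite Γ] {Ω : Type*} [MulAction Γ Ω] [Fintype Ω] [DecidableEq Ω]

/-- If a non-trivial `k ∈ C(P_γ)` fixes `δ ≠ γ`, then the block `{γ} ∪ O_γ(δ)` is also the
block `{ε} ∪ O_ε(γ)` for each of its points `ε ≠ γ`. -/
theorem ps21_block_eq [Fact (Nat.Prime 5)] [FaithfulSMul Γ Ω] (hΩ : Nat.card Ω = 21)
    (hP5 : ∀ Q : Sylow 5 Γ, Nat.card (Q : Subgroup Γ) = 5)
    (heven : ∀ g : Γ, Equiv.Perm.sign (MulAction.toPerm g : Equiv.Perm Ω) = 1)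
    {Pγ Pε : Sylow 5 Γ} {γ ε δ : Ω} (hγ : IsPointSylow Pγ γ) (hε : IsPointSylow Pε ε)
    (hδ : δ ≠ γ) (hεmem : ε ∈ porbit (Pγ : Subgroup Γ) δ)
    {k : Γ} (hk : ∀ a ∈ (Pγ : Subgroup Γ), k * a = a * k) (hkδ : k • δ = δ) (hk1 : k ≠ 1) :
    insert ε (porbit (Pε : Subgroup Γ) γ) = insert γ (porbit (Pγ : Subgroup Γ) δ) := by
  have hεγ : ε ≠ γ := fun e => hγ.not_mem_porbit hδ (e ▸ hεmem)
  have hkγ : k • γ = γ := hγ.smul_eq_of_centralizes hk
  have hkε : k • ε = ε := smul_eq_of_mem_porbit_of_centralizes _ hk hkδ hεmem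
  have hκ1 : k ^ 4 ≠ 1 := fun e => hk1 (ps21_A2 hγ hΩ (hP5 _) heven hk hδ hkδ e)
  have hκγc : ∀ a ∈ (Pγ : Subgroup Γ), k ^ 4 * a = a * k ^ 4 := fun a ha =>
    ((show Commute k a from hk a ha).pow_left 4).eq
  have hκεc : ∀ a ∈ (Pε : Subgroup Γ), k ^ 4 * a = a * k ^ 4 :=
    ps21_pow_four_centralizes (hP5 _) (hε.2.2 (MulAction.mem_stabilizer_iff.mpr hkε))
  have hκγ : k ^ 4 • γ = γ := ps21_pow_smul_eq hkγ 4
  have hκδ : k ^ 4 • δ = δ := ps21_pow_smul_eq hkδ 4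
  have hκε : k ^ 4 • ε = ε := ps21_pow_smul_eq hkε 4
  have h1 : ∀ ξ, ξ ∈ insert ε (porbit (Pε : Subgroup Γ) γ) ↔ k ^ 4 • ξ = ξ := by
    intro ξ
    constructor
    · intro hξ
      rcases hξ with e | hξ
      · rw [e]; exact hκε
      · exact smul_eq_of_mem_porbit_of_centralizes _ hκεc hκγ hξ
    · intro hξ
      by_contra hnin
      simp only [Set.mem_insert_iff, not_or] at hnin
      exact hκ1 (ps21_A1 hε hΩ (hP5 _) heven hκεc (Ne.symm hεγ) hκγ hnin.1 hnin.2 hξ)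
  have h2 : ∀ ξ, ξ ∈ insert γ (porbit (Pγ : Subgroup Γ) δ) ↔ k ^ 4 • ξ = ξ := by
    intro ξ
    constructor
    · intro hξ
      rcases hξ with e | hξ
      · rw [e]; exact hκγ
      · exact smul_eq_of_mem_porbit_of_centralizes _ hκγc hκδ hξ
    · intro hξ
      by_contra hnin
      simp only [Set.mem_insert_iff, not_or] at hnin
      exact hκ1 (ps21_A1 hγ hΩ (hP5 _) heven hκγc hδ hκδ hnin.1 hnin.2 hξ)
  ext ξ
  rw [h1, h2]

/-- Some point `α` and some `δ ≠ α` such that no non-trivial element of `C(P_α)` fixes `δ`. -/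
theorem ps21_exists_free_pair [Fact (Nat.Prime 5)] [FaithfulSMul Γ Ω] (hΩ : Nat.card Ω = 21)
    (hall : ∀ β : Ω, ∃ P : Sylow 5 Γ, IsPointSylow P β)
    (hP5 : ∀ Q : Sylow 5 Γ, Nat.card (Q : Subgroup Γ) = 5)
    (heven : ∀ g : Γ, Equiv.Perm.sign (MulAction.toPerm g : Equiv.Perm Ω) = 1) :
    ∃ (α : Ω) (P : Sylow 5 Γ) (δ : Ω), IsPointSylow P α ∧ δ ≠ α ∧
      ∀ k : Γ, (∀ a ∈ (P : Subgroup Γ), k * a = a * k) → k • δ = δ → k = 1 := by
  by_contra hcon
  push Not at hcon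
  choose Pt hPt using hall
  have hstar : ∀ γ δ ε : Ω, δ ≠ γ → ε ∈ porbit (Pt γ : Subgroup Γ) δ →
      insert ε (porbit (Pt ε : Subgroup Γ) γ) = insert γ (porbit (Pt γ : Subgroup Γ) δ) := by
    intro γ δ ε hδ hε
    obtain ⟨k, hk, hkδ, hk1⟩ := hcon γ (Pt γ) δ (hPt γ) hδ
    exact ps21_block_eq hΩ hP5 heven (hPt γ) (hPt ε) hδ hε hk hkδ hk1
  obtain ⟨α⟩ := ps21_nonempty hΩ
  obtain ⟨β, hβ⟩ := ps21_exists_ne hΩ α
  obtain ⟨γ', hγ'⟩ : ∃ γ', γ' ∉ insert α (porbit (Pt α : Subgroup Γ) β) := by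
    by_contra hc
    push Not at hc
    have huniv : insert α (porbit (Pt α : Subgroup Γ) β) = Set.univ := Set.eq_univ_of_forall hc
    have hcard : (insert α (porbit (Pt α : Subgroup Γ) β)).ncard ≤ 6 := by
      calc _ ≤ (porbit (Pt α : Subgroup Γ) β).ncard + 1 := Set.ncard_insert_le _ _
        _ = 6 := by rw [ps21_ncard_porbit (hPt α) hΩ hβ]
    rw [huniv, Set.ncard_univ, hΩ] at hcard
    omega
  have hA : γ' ∉ porbit (Pt α : Subgroup Γ) β := fun hmem => hγ' (Set.mem_insert_of_mem _ hmem)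
  obtain ⟨a, ha, a', ha', hne, hmem⟩ := ps21_pigeon_set (hPt γ') hΩ
    (porbit (Pt α : Subgroup Γ) β) hA (by rw [ps21_ncard_porbit (hPt α) hΩ hβ])
  have haγ : a ≠ γ' := fun e => hA (e ▸ ha)
  have haα : a ≠ α := fun e => (hPt α).not_mem_porbit hβ (e ▸ ha)
  have e1 := hstar γ' a a haγ (mem_porbit_self _ _)
  have h1 : a' ∈ insert a (porbit (Pt a : Subgroup Γ) γ') := by
    rw [e1]; exact Set.mem_insert_of_mem _ hmem
  have h2 : a' ∈ porbit (Pt a : Subgroup Γ) γ' := by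
    rcases h1 with e | h1
    · exact absurd e.symm hne
    · exact h1
  have e2 := hstar α β a hβ ha
  have h3 : a' ∈ insert a (porbit (Pt a : Subgroup Γ) α) := by
    rw [e2]; exact Set.mem_insert_of_mem _ ha'
  have h4 : a' ∈ porbit (Pt a : Subgroup Γ) α := by
    rcases h3 with e | h3
    · exact absurd e.symm hne
    · exact h3
  have h5 : γ' ∈ porbit (Pt a : Subgroup Γ) α := mem_porbit_trans _ h4 (mem_porbit_symm _ h2)
  apply hγ'
  rw [← e2]
  exact Set.mem_insert_of_mem _ h5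

/-- Every point `γ` has a point `δ ≠ γ` such that no non-trivial element of `C(P_γ)` fixes
`δ`. -/
theorem ps21_free_all [Fact (Nat.Prime 5)] [FaithfulSMul Γ Ω] [MulAction.IsPretransitive Γ Ω]
    (hΩ : Nat.card Ω = 21)
    (hall : ∀ β : Ω, ∃ P : Sylow 5 Γ, IsPointSylow P β)
    (hP5 : ∀ Q : Sylow 5 Γ, Nat.card (Q : Subgroup Γ) = 5)
    (heven : ∀ g : Γ, Equiv.Perm.sign (MulAction.toPerm g : Equiv.Perm Ω) = 1) :
    ∀ (γ : Ω) (Q : Sylow 5 Γ), IsPointSylow Q γ → ∃ δ : Ω, δ ≠ γ ∧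
      ∀ k : Γ, (∀ a ∈ (Q : Subgroup Γ), k * a = a * k) → k • δ = δ → k = 1 := by
  obtain ⟨α, P, δ₀, hP, hδ₀, hfree⟩ := ps21_exists_free_pair hΩ hall hP5 heven
  intro γ Q hQ
  obtain ⟨t, ht⟩ := MulAction.exists_smul_eq Γ α γ
  refine ⟨t • δ₀, ?_, ?_⟩
  · intro e
    rw [← ht] at e
    exact hδ₀ (MulAction.injective t e)
  · intro k hk hkδ
    have hk' : t⁻¹ * k * t = 1 := by
      apply hfree
      · intro a ha
        have hmem : t * a * t⁻¹ ∈ (Q : Subgroup Γ) := by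
          apply hQ.mem_of_pow (k := 1)
          · rw [mul_smul, mul_smul, ← ht, inv_smul_smul, hP.1 a ha]
          · rw [pow_one, conj_pow, (ps21_sylow_facts (hP5 P)).2 a ha]; group
        have hcm := hk _ hmem
        calc t⁻¹ * k * t * a = t⁻¹ * (k * (t * a * t⁻¹)) * t := by group
          _ = t⁻¹ * ((t * a * t⁻¹) * k) * t := by rw [hcm]
          _ = a * (t⁻¹ * k * t) := by group
      · rw [mul_smul, mul_smul, hkδ, inv_smul_smul]
    calc k = t * (t⁻¹ * k * t) * t⁻¹ := by group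
      _ = 1 := by rw [hk']; group

end

end Cfsg.Agent.Helper95
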