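import Mathlib
import Cfsg.Agent.Helper95.Syl21D

set_option autoImplicit false
set_option linter.style.haveILetI false
set_option linter.unusedSectionVars false

/-!
# `21` is not a Sylow `5`-number, part E (helper95)

Orders of `C(P)` and `N(P)` in the simple case.
-/

namespace Cfsg.Agent.Helper95

open Cfsg.Agent.Helper71

section

variable {Γ : Type*} [Group Γ] [Finite Γ]

theorem ps21_factorization_two (m j : ℕ) (hm : ¬ 2 ∣ m) (hm0 : m ≠ 0) :
    (m * 2 ^ j).factorization 2 = j := by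
  rw [Nat.factorization_mul hm0 (by positivity), Nat.Prime.factorization_pow Nat.prime_two]
  simp [Nat.factorization_eq_zero_of_not_dvd hm]

/-- `|N(S) : C(S)|` divides `p - 1` for a Sylow subgroup of order `p`. -/
theorem ps21_relIndex_dvd {p : ℕ} [Fact p.Prime] (S : Sylow p Γ)
    (hS : Nat.card (S : Subgroup Γ) = p) :
    (Subgroup.centralizer ((S : Subgroup Γ) : Set Γ)).relIndex
      (Subgroup.normalizer ((S : Subgroup Γ) : Set Γ)) ∣ p - 1 := by
  have hcyc : IsCyclic ↥(S : Subgroup Γ) := isCyclic_of_prime_card hS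
  have key := Subgroup.card_dvd_of_injective _
    (QuotientGroup.kerLift_injective (S : Subgroup Γ).normalizerMonoidHom)
  rw [Subgroup.normalizerMonoidHom_ker, ← Subgroup.index, ← Subgroup.relIndex,
    IsCyclic.card_mulAut, hS, Nat.totient_prime Fact.out] at key
  exact key

theorem ps21_card_normalizer (S : Subgroup Γ) :
    Nat.card (Subgroup.centralizer (S : Set Γ)) *
      (Subgroup.centralizer (S : Set Γ)).relIndex (Subgroup.normalizer (S : Set Γ)) =
      Nat.card (Subgroup.normalizer (S : Set Γ)) := by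
  have h := Subgroup.relIndex_mul_relIndex ⊥ (Subgroup.centralizer (S : Set Γ))
    (Subgroup.normalizer (S : Set Γ)) bot_le (Subgroup.centralizer_le_normalizer _)
  rwa [Subgroup.relIndex_bot_left, Subgroup.relIndex_bot_left] at h

/-- If `|C(P)|` is odd, the Sylow `2`-subgroups of the simple group `Γ` are cyclic:
impossible. -/
theorem ps21_false_of_odd_centralizer (hsimple : IsSimpleGroup Γ) [Fact (Nat.Prime 5)]
    (P : Sylow 5 Γ) (hP : Nat.card (P : Subgroup Γ) = 5) (c j : ℕ) (hc : ¬ 2 ∣ c)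
    (hc0 : c ≠ 0) (hj0 : j ≠ 0)
    (hC : Nat.card (Subgroup.centralizer ((P : Subgroup Γ) : Set Γ)) = c)
    (hN : Nat.card (Subgroup.normalizer ((P : Subgroup Γ) : Set Γ)) = c * 2 ^ j)
    (hcard : Nat.card Γ = 21 * c * 2 ^ j) : False := by
  have : Fact (Nat.Prime 2) := ⟨Nat.prime_two⟩
  obtain ⟨TN⟩ : Nonempty (Sylow 2 ↥(Subgroup.normalizer ((P : Subgroup Γ) : Set Γ))) :=
    inferInstance
  have hTN : Nat.card (TN : Subgroup ↥(Subgroup.normalizer ((P : Subgroup Γ) : Set Γ))) =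
      2 ^ j := by
    rw [Sylow.card_eq_multiplicity, hN, ps21_factorization_two c j hc hc0]
  have hcycP : IsCyclic ↥(P : Subgroup Γ) := isCyclic_of_prime_card hP
  have hcycZ : IsCyclic (ZMod (Nat.card ↥(P : Subgroup Γ)))ˣ := by
    rw [hP]
    infer_instance
  have hcycAut : IsCyclic (MulAut ↥(P : Subgroup Γ)) :=
    isCyclic_of_injective (IsCyclic.mulAutMulEquiv ↥(P : Subgroup Γ)).toMonoidHom
      (IsCyclic.mulAutMulEquiv ↥(P : Subgroup Γ)).injective
  have hinj : Function.Injective (((P : Subgroup Γ).normalizerMonoidHom).comp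
      (TN : Subgroup ↥(Subgroup.normalizer ((P : Subgroup Γ) : Set Γ))).subtype) := by
    rw [← MonoidHom.ker_eq_bot_iff, eq_bot_iff]
    intro x hx
    have h1 : (x : ↥(Subgroup.normalizer ((P : Subgroup Γ) : Set Γ))) ∈
        ((P : Subgroup Γ).normalizerMonoidHom).ker := hx
    rw [Subgroup.normalizerMonoidHom_ker, Subgroup.mem_subgroupOf] at h1
    have h3 : ((x : ↥(Subgroup.normalizer ((P : Subgroup Γ) : Set Γ))) : Γ) ^ c = 1 := by
      have h := pow_card_eq_one'
        (x := (⟨_, h1⟩ : ↥(Subgroup.centralizer ((P : Subgroup Γ) : Set Γ))))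
      rw [hC] at h
      have h' := congrArg Subtype.val h
      simpa using h'
    have h4 : x ^ 2 ^ j = 1 := by
      rw [← hTN]
      exact pow_card_eq_one'
    have h5 : ((x : ↥(Subgroup.normalizer ((P : Subgroup Γ) : Set Γ))) : Γ) ^ 2 ^ j = 1 := by
      have h6 := congrArg (fun y : ↥(TN : Subgroup ↥(Subgroup.normalizer
        ((P : Subgroup Γ) : Set Γ))) =>
          ((y : ↥(Subgroup.normalizer ((P : Subgroup Γ) : Set Γ))) : Γ)) h4
      simpa using h6
    have h7 := pow_gcd_eq_one.mpr ⟨h5, h3⟩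
    have h8 : Nat.gcd (2 ^ j) c = 1 :=
      Nat.Coprime.pow_left j ((Nat.Prime.coprime_iff_not_dvd Nat.prime_two).mpr hc)
    rw [h8, pow_one] at h7
    rw [Subgroup.mem_bot]
    apply Subtype.ext
    apply Subtype.ext
    exact h7
  have hcycTN : IsCyclic ↥(TN : Subgroup ↥(Subgroup.normalizer ((P : Subgroup Γ) : Set Γ))) :=
    isCyclic_of_injective _ hinj
  obtain ⟨H, hHdef⟩ : ∃ H : Subgroup Γ, H = (TN : Subgroup ↥(Subgroup.normalizer
      ((P : Subgroup Γ) : Set Γ))).map (Subgroup.normalizer ((P : Subgroup Γ) : Set Γ)).subtype :=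
    ⟨_, rfl⟩
  have hHcard : Nat.card H = 2 ^ j := by
    rw [hHdef, Subgroup.card_map_of_injective (Subgroup.subtype_injective _), hTN]
  have hHcyc : IsCyclic ↥H := by
    rw [hHdef]
    exact isCyclic_of_surjective
      ((TN : Subgroup ↥(Subgroup.normalizer ((P : Subgroup Γ) : Set Γ))).equivMapOfInjective
        (Subgroup.normalizer ((P : Subgroup Γ) : Set Γ)).subtype
        (Subgroup.subtype_injective _)).toMonoidHom
      ((TN : Subgroup ↥(Subgroup.normalizer ((P : Subgroup Γ) : Set Γ))).equivMapOfInjective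
        (Subgroup.normalizer ((P : Subgroup Γ) : Set Γ)).subtype
        (Subgroup.subtype_injective _)).surjective
  have hH2 : IsPGroup 2 ↥H := IsPGroup.of_card hHcard
  obtain ⟨T, hHT⟩ := hH2.exists_le_sylow
  have h21c : ¬ 2 ∣ 21 * c := by
    intro hdvd
    rcases (Nat.Prime.dvd_mul Nat.prime_two).mp hdvd with h2 | h2
    · omega
    · exact hc h2
  have hTcard : Nat.card (T : Subgroup Γ) = 2 ^ j := by
    rw [Sylow.card_eq_multiplicity, hcard,
      ps21_factorization_two (21 * c) j h21c (by positivity)]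
  have hHeq : H = (T : Subgroup Γ) :=
    Subgroup.eq_of_le_of_card_ge hHT (by rw [hTcard, hHcard])
  have hTcyc : IsCyclic ↥(T : Subgroup Γ) := hHeq ▸ hHcyc
  have hmf : (Nat.card Γ).minFac = 2 := by
    rw [Nat.minFac_eq_two_iff, hcard]
    exact Dvd.dvd.mul_left (dvd_pow_self 2 hj0) (21 * c)
  have hNC := IsCyclic.normalizer_le_centralizer hmf hTcyc
  have hpow : 2 ^ 1 ≤ 2 ^ j := Nat.pow_le_pow_right (by norm_num) (Nat.pos_of_ne_zero hj0)
  refine ps21_not_normalizer_le_centralizer hsimple T ?_ ?_ hNC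
  · rw [hTcard]
    omega
  · rw [hTcard, hcard]
    have hc1 : 1 ≤ c := Nat.pos_of_ne_zero hc0
    have h2 : 0 < 2 ^ j := by positivity
    intro e
    have h3 : 21 * 2 ^ j ≤ 21 * c * 2 ^ j := by
      calc 21 * 2 ^ j = 21 * 1 * 2 ^ j := by ring
        _ ≤ 21 * c * 2 ^ j := Nat.mul_le_mul_right _ (Nat.mul_le_mul_left _ hc1)
    omega

end

section

variable {Γ : Type*} [Group Γ] [Finite Γ] {Ω : Type*} [MulAction Γ Ω] [Finite Ω]

/-- If `C(P)` has a regular orbit then `|C(P)| ≤ 20`; moreover `5 ∣ |C(P)|`. -/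
theorem ps21_card_centralizer_le [Fact (Nat.Prime 5)] {P : Sylow 5 Γ} {α : Ω}
    (h : IsPointSylow P α) (hΩ : Nat.card Ω = 21)
    (hP : Nat.card (P : Subgroup Γ) = 5) {δ : Ω} (hδ : δ ≠ α)
    (hfree : ∀ k : Γ, (∀ a ∈ (P : Subgroup Γ), k * a = a * k) → k • δ = δ → k = 1) :
    Nat.card (Subgroup.centralizer ((P : Subgroup Γ) : Set Γ)) ≤ 20 ∧
      5 ∣ Nat.card (Subgroup.centralizer ((P : Subgroup Γ) : Set Γ)) := by
  have hmemC : ∀ x : ↥(Subgroup.centralizer ((P : Subgroup Γ) : Set Γ)),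
      ∀ a ∈ (P : Subgroup Γ), (x : Γ) * a = a * x :=
    fun x a ha => ((Subgroup.mem_centralizer_iff.mp x.2) a ha).symm
  constructor
  · have hinj : Function.Injective
        (fun x : ↥(Subgroup.centralizer ((P : Subgroup Γ) : Set Γ)) => (x : Γ) • δ) := by
      intro x y hxy
      have e : (x : Γ) • δ = (y : Γ) • δ := hxy
      have h1 : (y : Γ)⁻¹ * (x : Γ) = 1 := by
        apply hfree
        · intro a ha
          have hx := hmemC x a ha
          have hy := hmemC y a ha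
          calc (y : Γ)⁻¹ * (x : Γ) * a = (y : Γ)⁻¹ * (a * x) := by rw [mul_assoc, hx]
            _ = (y : Γ)⁻¹ * (a * y) * ((y : Γ)⁻¹ * x) := by group
            _ = (y : Γ)⁻¹ * (y * a) * ((y : Γ)⁻¹ * x) := by rw [hy]
            _ = a * ((y : Γ)⁻¹ * x) := by group
        · rw [mul_smul, e, inv_smul_smul]
      apply Subtype.ext
      calc (x : Γ) = y * ((y : Γ)⁻¹ * x) := by group
        _ = y := by rw [h1, mul_one]
    have hsub : Set.range
        (fun x : ↥(Subgroup.centralizer ((P : Subgroup Γ) : Set Γ)) => (x : Γ) • δ) ⊆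
        ({α} : Set Ω)ᶜ := by
      rintro _ ⟨x, rfl⟩ e
      have e' : (x : Γ) • δ = α := e
      have hx := h.smul_eq_of_centralizes (hmemC x)
      exact hδ (MulAction.injective (x : Γ) (e'.trans hx.symm))
    have h1 := Set.ncard_le_ncard hsub (Set.toFinite _)
    rw [Set.ncard_range_of_injective hinj, Set.ncard_compl, Set.ncard_singleton, hΩ] at h1
    exact h1
  · have hle : (P : Subgroup Γ) ≤ Subgroup.centralizer ((P : Subgroup Γ) : Set Γ) := by
      intro x hx
      rw [Subgroup.mem_centralizer_iff]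
      intro a ha
      exact (ps21_sylow_facts hP).1 a ha x hx
    have h1 := Subgroup.card_dvd_of_le hle
    rwa [hP] at h1

/-- The orders of `C(P)` and of the point stabilizer in the simple case. -/
theorem ps21_point_orders (hsimple : IsSimpleGroup Γ) [Fact (Nat.Prime 5)]
    [MulAction.IsPretransitive Γ Ω] {P : Sylow 5 Γ} {α : Ω}
    (h : IsPointSylow P α) (hΩ : Nat.card Ω = 21)
    (hP : Nat.card (P : Subgroup Γ) = 5) {δ : Ω} (hδ : δ ≠ α)
    (hfree : ∀ k : Γ, (∀ a ∈ (P : Subgroup Γ), k * a = a * k) → k • δ = δ → k = 1) :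
    ∃ e c : ℕ, (e = 2 ∨ e = 4) ∧ (c = 10 ∨ c = 20) ∧
      Nat.card (Subgroup.centralizer ((P : Subgroup Γ) : Set Γ)) = c ∧
      Nat.card (MulAction.stabilizer Γ α) = c * e ∧ Nat.card Γ = 21 * (c * e) := by
  obtain ⟨hle, hdvd⟩ := ps21_card_centralizer_le h hΩ hP hδ hfree
  have hstab : MulAction.stabilizer Γ α = Subgroup.normalizer ((P : Subgroup Γ) : Set Γ) :=
    le_antisymm h.2.2 h.normalizer_le
  have hidx : (MulAction.stabilizer Γ α).index = 21 := by
    rw [MulAction.index_stabilizer, MulAction.orbit_eq_univ, Set.ncard_univ, hΩ]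
  have hcardΓ := Subgroup.card_mul_index (MulAction.stabilizer Γ α)
  rw [hidx] at hcardΓ
  have hN := ps21_card_normalizer (P : Subgroup Γ)
  have he4 := ps21_relIndex_dvd P hP
  obtain ⟨e, hedef⟩ : ∃ e, e = (Subgroup.centralizer ((P : Subgroup Γ) : Set Γ)).relIndex
      (Subgroup.normalizer ((P : Subgroup Γ) : Set Γ)) := ⟨_, rfl⟩
  obtain ⟨c, hcdef⟩ : ∃ c, c = Nat.card (Subgroup.centralizer ((P : Subgroup Γ) : Set Γ)) :=
    ⟨_, rfl⟩
  rw [← hedef] at he4
  rw [← hedef, ← hcdef] at hN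
  rw [← hcdef] at hle hdvd
  have hN' : Nat.card (MulAction.stabilizer Γ α) = c * e := by rw [hstab]; exact hN.symm
  rw [hN'] at hcardΓ
  have hc0 : c ≠ 0 := by
    rw [hcdef]
    exact Nat.card_pos.ne'
  have he1 : e ≠ 1 := by
    intro e1
    rw [hedef] at e1
    refine ps21_not_normalizer_le_centralizer hsimple P ?_ ?_ (Subgroup.relIndex_eq_one.mp e1)
    · rw [hP]; norm_num
    · rw [hP, ← hcardΓ]
      omega
  have key : ∀ d ∈ Nat.divisors 4, d = 1 ∨ d = 2 ∨ d = 4 := by decide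
  have he : e = 1 ∨ e = 2 ∨ e = 4 := key e (Nat.mem_divisors.mpr ⟨he4, by norm_num⟩)
  obtain ⟨m, hm⟩ := hdvd
  have hm4 : m = 1 ∨ m = 2 ∨ m = 3 ∨ m = 4 := by omega
  have hodd : ∀ j : ℕ, j ≠ 0 → e = 2 ^ j → ¬ 2 ∣ c → False := by
    intro j hj0 hej hc2
    refine ps21_false_of_odd_centralizer hsimple P hP c j hc2 hc0 hj0 hcdef.symm ?_ ?_
    · rw [← hstab, hN', hej]
    · rw [← hcardΓ, hej]; ring
  have hceven : 2 ∣ c := by
    by_contra hc2
    rcases he with e1 | e2 | e4
    · exact he1 e1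
    · exact hodd 1 (by norm_num) (by rw [e2]; norm_num) hc2
    · exact hodd 2 (by norm_num) (by rw [e4]; norm_num) hc2
  refine ⟨e, c, ?_, ?_, hcdef.symm, hN', ?_⟩
  · rcases he with e1 | e2 | e4
    · exact absurd e1 he1
    · exact Or.inl e2
    · exact Or.inr e4
  · omega
  · rw [← hcardΓ]; ring

end

section

variable {Γ : Type*} [Group Γ] [Finite Γ] {Ω : Type*} [MulAction Γ Ω] [Fintype Ω] [DecidableEq Ω]

/-- When `|C(P)|` divides `20`, `C(P)` acts semiregularly off `α`. -/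
theorem ps21_centralizer_free [Fact (Nat.Prime 5)] [FaithfulSMul Γ Ω] {P : Sylow 5 Γ} {α : Ω}
    (h : IsPointSylow P α) (hΩ : Nat.card Ω = 21) (hP : Nat.card (P : Subgroup Γ) = 5)
    (heven : ∀ g : Γ, Equiv.Perm.sign (MulAction.toPerm g : Equiv.Perm Ω) = 1)
    (hC : Nat.card (Subgroup.centralizer ((P : Subgroup Γ) : Set Γ)) ∣ 20)
    {c : Γ} (hc : ∀ a ∈ (P : Subgroup Γ), c * a = a * c) {β : Ω} (hβ : β ≠ α)
    (hcβ : c • β = β) : c = 1 := by
  have hcC : c ∈ Subgroup.centralizer ((P : Subgroup Γ) : Set Γ) := by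
    rw [Subgroup.mem_centralizer_iff]
    intro a ha
    exact (hc a ha).symm
  have h20 : c ^ 20 = 1 := by
    have h1 := pow_card_eq_one'
      (x := (⟨c, hcC⟩ : ↥(Subgroup.centralizer ((P : Subgroup Γ) : Set Γ))))
    obtain ⟨m, hm⟩ := hC
    have h2 : (⟨c, hcC⟩ : ↥(Subgroup.centralizer ((P : Subgroup Γ) : Set Γ))) ^ 20 = 1 := by
      rw [hm, pow_mul, h1, one_pow]
    have h3 := congrArg Subtype.val h2
    simpa using h3
  have h5 : c ^ 5 = 1 := by
    refine ps21_A2 h hΩ hP heven (c := c ^ 5) ?_ hβ (ps21_pow_smul_eq hcβ 5) ?_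
    · intro a ha
      exact ((show Commute c a from hc a ha).pow_left 5).eq
    · rw [← pow_mul]
      exact h20
  have hcP : c ∈ (P : Subgroup Γ) :=
    h.mem_of_pow (h.smul_eq_of_centralizes hc) (k := 1) (by rw [pow_one]; exact h5)
  by_contra hc1
  exact hβ (ps21_fix_of_ne_one h hP hcP hc1 hcβ)

/-- When `C(P)` acts semiregularly off `α`, an element fixing `α` and at least five further
points is trivial. -/
theorem ps21_fix_six [Fact (Nat.Prime 5)] {P : Sylow 5 Γ} {α : Ω}
    (h : IsPointSylow P α) (hΩ : Nat.card Ω = 21) (hP : Nat.card (P : Subgroup Γ) = 5)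
    (hCfree : ∀ c : Γ, (∀ a ∈ (P : Subgroup Γ), c * a = a * c) →
      ∀ β : Ω, β ≠ α → c • β = β → c = 1)
    {g : Γ} (hgα : g • α = α) (A : Set Ω) (hA : 6 ≤ A.ncard) (hfix : ∀ x ∈ A, g • x = x) :
    g = 1 := by
  have h5 : 5 ≤ (A \ {α}).ncard := by
    have h1 : A ⊆ insert α (A \ {α}) := by
      intro x hx
      by_cases e : x = α
      · exact Or.inl e
      · exact Or.inr ⟨hx, e⟩
    have h2 := Set.ncard_le_ncard h1 (Set.toFinite _)
    have h3 := Set.ncard_insert_le α (A \ {α})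
    omega
  obtain ⟨a, ha, a', ha', hne, hmem⟩ := ps21_pigeon_set h hΩ (A \ {α}) (by simp) h5
  have hcen := ps21_centralizes_of_fix_two h hP hgα (hfix a ha.1) (hfix a' ha'.1) hne hmem
  exact hCfree g hcen a (fun e => ha.2 e) (hfix a ha.1)

end

end Cfsg.Agent.Helper95
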