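import Mathlib
import Cfsg.Agent.Helper95.Syl21E

set_option autoImplicit false
set_option linter.style.haveILetI false
set_option linter.unusedSectionVars false

/-!
# `21` is not a Sylow `5`-number, part F (helper95)

The fixed-point count that excludes order `1680`.
-/

namespace Cfsg.Agent.Helper95

open Cfsg.Agent.Helper71

/-- A group of order `1680` on `21` points with point stabilizers of order `80`, two-point
stabilizers of order `4`, no element with exactly two fixed points, and at least `441`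
fixed-point-free elements does not exist. -/
theorem ps21_count {Γ : Type*} [Group Γ] [Fintype Γ] [DecidableEq Γ] {Ω : Type*}
    [MulAction Γ Ω] [Fintype Ω] [DecidableEq Ω]
    (hΩ : Fintype.card Ω = 21) (hΓ : Fintype.card Γ = 1680)
    (hstab : ∀ ω : Ω, (Finset.univ.filter (fun g : Γ => g • ω = ω)).card = 80)
    (htwo : ∀ ω ω' : Ω, ω ≠ ω' →
      (Finset.univ.filter (fun g : Γ => g • ω = ω ∧ g • ω' = ω')).card = 4)
    (hpar : ∀ g : Γ, (Finset.univ.filter (fun ω : Ω => g • ω = ω)).card ≠ 2)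
    (X : Finset Γ) (hX : 441 ≤ X.card) (hX1 : (1 : Γ) ∉ X)
    (hXfree : ∀ g ∈ X, ∀ ω : Ω, g • ω ≠ ω) : False := by
  obtain ⟨F, hF⟩ : ∃ F : Γ → ℕ,
      ∀ g, F g = (Finset.univ.filter (fun ω : Ω => g • ω = ω)).card := ⟨_, fun _ => rfl⟩
  have hS1 : ∑ g : Γ, F g = 1680 := by
    have h := Finset.sum_card_bipartiteAbove_eq_sum_card_bipartiteBelow
      (s := (Finset.univ : Finset Γ)) (t := (Finset.univ : Finset Ω)) (r := fun g ω => g • ω = ω)
    simp only [Finset.bipartiteAbove, Finset.bipartiteBelow] at h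
    calc ∑ g : Γ, F g = ∑ g : Γ, (Finset.univ.filter (fun ω : Ω => g • ω = ω)).card :=
          Finset.sum_congr rfl (fun g _ => hF g)
      _ = ∑ ω : Ω, (Finset.univ.filter (fun g : Γ => g • ω = ω)).card := h
      _ = ∑ ω : Ω, 80 := Finset.sum_congr rfl (fun ω _ => hstab ω)
      _ = 1680 := by rw [Finset.sum_const, Finset.card_univ, hΩ]; rfl
  have hS2 : ∑ g : Γ, F g ^ 2 = 3360 := by
    have h := Finset.sum_card_bipartiteAbove_eq_sum_card_bipartiteBelow
      (s := (Finset.univ : Finset Γ)) (t := (Finset.univ : Finset (Ω × Ω)))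
      (r := fun g p => g • p.1 = p.1 ∧ g • p.2 = p.2)
    simp only [Finset.bipartiteAbove, Finset.bipartiteBelow] at h
    have hsq : ∀ g : Γ, F g ^ 2 =
        (Finset.univ.filter (fun p : Ω × Ω => g • p.1 = p.1 ∧ g • p.2 = p.2)).card := by
      intro g
      rw [← Finset.univ_product_univ,
        Finset.filter_product (fun ω : Ω => g • ω = ω) (fun ω : Ω => g • ω = ω),
        Finset.card_product, pow_two, hF]
    have hpair : ∀ p : Ω × Ω,
        (Finset.univ.filter (fun g : Γ => g • p.1 = p.1 ∧ g • p.2 = p.2)).card =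
          4 + (if p.2 = p.1 then 76 else 0) := by
      rintro ⟨ω, ω'⟩
      by_cases e : ω' = ω
      · subst e
        simp only [and_self, if_true]
        rw [hstab]
      · simp only [if_neg e]
        rw [htwo ω ω' (Ne.symm e)]
    calc ∑ g : Γ, F g ^ 2
        = ∑ g : Γ, (Finset.univ.filter
            (fun p : Ω × Ω => g • p.1 = p.1 ∧ g • p.2 = p.2)).card :=
          Finset.sum_congr rfl (fun g _ => hsq g)
      _ = ∑ p : Ω × Ω, (Finset.univ.filter
            (fun g : Γ => g • p.1 = p.1 ∧ g • p.2 = p.2)).card := h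
      _ = ∑ p : Ω × Ω, (4 + (if p.2 = p.1 then 76 else 0)) :=
          Finset.sum_congr rfl (fun p _ => hpair p)
      _ = 3360 := by
        rw [Fintype.sum_prod_type]
        simp only [Finset.sum_add_distrib, Finset.sum_const, Finset.card_univ,
          Finset.sum_ite_eq', Finset.mem_univ, if_true, hΩ]
        rfl
  have hnonneg : ∀ g : Γ, 0 ≤ ((F g : ℤ) - 1) * ((F g : ℤ) - 3) := by
    intro g
    have h2 : F g ≠ 2 := by rw [hF]; exact hpar g
    rcases Nat.lt_or_ge (F g) 3 with hlt | hge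
    · have h01 : F g = 0 ∨ F g = 1 := by omega
      rcases h01 with e | e <;> rw [e] <;> norm_num
    · have h3 : (3 : ℤ) ≤ (F g : ℤ) := by exact_mod_cast hge
      apply mul_nonneg <;> linarith
  have htotal : ∑ g : Γ, ((F g : ℤ) - 1) * ((F g : ℤ) - 3) = 1680 := by
    have e : ∀ g : Γ, ((F g : ℤ) - 1) * ((F g : ℤ) - 3) =
        ((F g ^ 2 : ℕ) : ℤ) - 4 * (F g : ℤ) + 3 := by
      intro g; push_cast; ring
    rw [Finset.sum_congr rfl (fun g _ => e g), Finset.sum_add_distrib, Finset.sum_sub_distrib,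
      ← Finset.mul_sum, ← Nat.cast_sum, ← Nat.cast_sum, hS1, hS2, Finset.sum_const,
      Finset.card_univ, hΓ]
    norm_num
  have hF1 : F 1 = 21 := by
    rw [hF]
    simp [hΩ]
  have hFX : ∀ g ∈ X, F g = 0 := by
    intro g hg
    rw [hF, Finset.card_eq_zero, Finset.filter_eq_empty_iff]
    intro ω _
    exact hXfree g hg ω
  have hlower : ∑ g ∈ insert 1 X, ((F g : ℤ) - 1) * ((F g : ℤ) - 3) ≤
      ∑ g : Γ, ((F g : ℤ) - 1) * ((F g : ℤ) - 3) :=
    Finset.sum_le_sum_of_subset_of_nonneg (Finset.subset_univ _) (fun g _ _ => hnonneg g)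
  have hXsum : ∑ g ∈ X, ((F g : ℤ) - 1) * ((F g : ℤ) - 3) = 3 * (X.card : ℤ) := by
    rw [Finset.sum_congr rfl (fun g hg =>
      show ((F g : ℤ) - 1) * ((F g : ℤ) - 3) = 3 by rw [hFX g hg]; norm_num),
      Finset.sum_const, nsmul_eq_mul]
    ring
  rw [Finset.sum_insert hX1, hF1, htotal, hXsum] at hlower
  have hX' : (441 : ℤ) ≤ (X.card : ℤ) := by exact_mod_cast hX
  norm_num at hlower
  linarith

end Cfsg.Agent.Helper95
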