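import Mathlib
import Cfsg.Agent.Helper95.Syl21F

set_option autoImplicit false
set_option linter.style.haveILetI false
set_option linter.unusedSectionVars false

/-!
# `21` is not a Sylow `5`-number, part G (helper95)

Sylow `7`-subgroups, two-point stabilizers, and the final contradiction for simple groups.
-/

namespace Cfsg.Agent.Helper95

open Cfsg.Agent.Helper71

section

variable {Γ : Type*} [Group Γ] [Finite Γ] {Ω : Type*} [MulAction Γ Ω] [Finite Ω]

/-- The Sylow `7`-normalizer in the simple case. -/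
theorem ps21_sylow_seven (hsimple : IsSimpleGroup Γ) [Fact (Nat.Prime 7)]
    (hΩ : Nat.card Ω = 21) (S : Sylow 7 Γ) (hS : Nat.card (S : Subgroup Γ) = 7)
    (hΓ7 : 7 ≠ Nat.card Γ)
    (hstab7 : ∀ (ω : Ω) (g : Γ), g • ω = ω → g ^ 7 = 1 → g = 1)
    (hfix6 : ∀ (g : Γ) (A : Set Ω), 6 ≤ A.ncard → (∀ x ∈ A, g • x = x) → g = 1) :
    ∃ e' c' : ℕ, (e' = 2 ∨ e' = 3 ∨ e' = 6) ∧ (c' = 7 ∨ c' = 21) ∧
      Nat.card Γ = Nat.card (Sylow 7 Γ) * (c' * e') := by
  have hS7 : ∀ s ∈ (S : Subgroup Γ), s ^ 7 = 1 := by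
    intro s hs
    have h1 : (⟨s, hs⟩ : ↥(S : Subgroup Γ)) ^ Nat.card (S : Subgroup Γ) = 1 := pow_card_eq_one'
    rw [hS] at h1
    have h2 := congrArg Subtype.val h1
    simpa using h2
  have horb : ∀ ω : Ω, (porbit (S : Subgroup Γ) ω).ncard = 7 := by
    intro ω
    have hbot : MulAction.stabilizer (↥(S : Subgroup Γ)) ω = ⊥ := by
      rw [eq_bot_iff]
      intro x hx
      rw [MulAction.mem_stabilizer_iff] at hx
      rw [Subgroup.mem_bot]
      apply Subtype.ext
      exact hstab7 ω x.1 hx (hS7 x.1 x.2)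
    have h1 := MulAction.index_stabilizer (↥(S : Subgroup Γ)) ω
    rw [hbot, Subgroup.index_bot, hS] at h1
    rw [porbit_eq_orbit]
    exact h1.symm
  have hCfree : ∀ c : Γ, c ∈ Subgroup.centralizer ((S : Subgroup Γ) : Set Γ) →
      ∀ ω : Ω, c • ω = ω → c = 1 := by
    intro c hc ω hcω
    apply hfix6 c (porbit (S : Subgroup Γ) ω) (by rw [horb]; norm_num)
    intro x hx
    exact smul_eq_of_mem_porbit_of_centralizes _
      (fun a ha => ((Subgroup.mem_centralizer_iff.mp hc) a ha).symm) hcω hx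
  have hdvd21 : Nat.card (Subgroup.centralizer ((S : Subgroup Γ) : Set Γ)) ∣ 21 := by
    have hstab : ∀ b : Ω,
        MulAction.stabilizer (↥(Subgroup.centralizer ((S : Subgroup Γ) : Set Γ))) b = ⊥ := by
      intro b
      rw [eq_bot_iff]
      intro x hx
      rw [MulAction.mem_stabilizer_iff] at hx
      rw [Subgroup.mem_bot]
      apply Subtype.ext
      exact hCfree x.1 x.2 b hx
    have e := Nat.card_congr (MulAction.selfEquivOrbitsQuotientProd hstab)
    rw [Nat.card_prod, hΩ] at e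
    exact Dvd.intro_left _ e.symm
  have h7dvd : 7 ∣ Nat.card (Subgroup.centralizer ((S : Subgroup Γ) : Set Γ)) := by
    have hle : (S : Subgroup Γ) ≤ Subgroup.centralizer ((S : Subgroup Γ) : Set Γ) := by
      intro x hx
      rw [Subgroup.mem_centralizer_iff]
      intro a ha
      have hc : IsCyclic ↥(S : Subgroup Γ) := isCyclic_of_prime_card hS
      let _ := IsCyclic.commGroup (α := ↥(S : Subgroup Γ))
      have h2 := mul_comm (⟨a, ha⟩ : ↥(S : Subgroup Γ)) ⟨x, hx⟩
      exact congrArg Subtype.val h2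
    have h1 := Subgroup.card_dvd_of_le hle
    rwa [hS] at h1
  have he6 := ps21_relIndex_dvd S hS
  have hN := ps21_card_normalizer (S : Subgroup Γ)
  have he1 : (Subgroup.centralizer ((S : Subgroup Γ) : Set Γ)).relIndex
      (Subgroup.normalizer ((S : Subgroup Γ) : Set Γ)) ≠ 1 := by
    intro e1
    exact ps21_not_normalizer_le_centralizer hsimple S (by rw [hS]; norm_num)
      (by rw [hS]; exact hΓ7) (Subgroup.relIndex_eq_one.mp e1)
  have hn7 : Nat.card (Sylow 7 Γ) =
      (Subgroup.normalizer ((S : Subgroup Γ) : Set Γ)).index :=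
    Sylow.card_eq_index_normalizer S
  have hcardΓ := Subgroup.card_mul_index (Subgroup.normalizer ((S : Subgroup Γ) : Set Γ))
  obtain ⟨e, hedef⟩ : ∃ e, e = (Subgroup.centralizer ((S : Subgroup Γ) : Set Γ)).relIndex
      (Subgroup.normalizer ((S : Subgroup Γ) : Set Γ)) := ⟨_, rfl⟩
  obtain ⟨c, hcdef⟩ : ∃ c, c = Nat.card (Subgroup.centralizer ((S : Subgroup Γ) : Set Γ)) :=
    ⟨_, rfl⟩
  rw [← hedef] at he6 he1
  rw [← hedef, ← hcdef] at hN
  rw [← hcdef] at hdvd21 h7dvd
  have key6 : ∀ d ∈ Nat.divisors 6, d = 1 ∨ d = 2 ∨ d = 3 ∨ d = 6 := by decide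
  have key21 : ∀ d ∈ Nat.divisors 21, 7 ∣ d → d = 7 ∨ d = 21 := by decide
  refine ⟨e, c, ?_, ?_, ?_⟩
  · rcases key6 e (Nat.mem_divisors.mpr ⟨he6, by norm_num⟩) with h | h | h | h
    · exact absurd h he1
    · exact Or.inl h
    · exact Or.inr (Or.inl h)
    · exact Or.inr (Or.inr h)
  · exact key21 c (Nat.mem_divisors.mpr ⟨hdvd21, by norm_num⟩) h7dvd
  · rw [hn7, hN, ← hcardΓ, mul_comm]

/-- Injectivity of the orbit map of `C(P)` at a point with trivial stabilizer. -/
theorem ps21_centralizer_smul_injective {P : Sylow 5 Γ} {δ : Ω}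
    (hfree : ∀ k : Γ, (∀ a ∈ (P : Subgroup Γ), k * a = a * k) → k • δ = δ → k = 1) :
    Function.Injective
      (fun x : ↥(Subgroup.centralizer ((P : Subgroup Γ) : Set Γ)) => (x : Γ) • δ) := by
  have hmemC : ∀ x : ↥(Subgroup.centralizer ((P : Subgroup Γ) : Set Γ)),
      ∀ a ∈ (P : Subgroup Γ), (x : Γ) * a = a * x :=
    fun x a ha => ((Subgroup.mem_centralizer_iff.mp x.2) a ha).symm
  intro x y hxy
  have e : (x : Γ) • δ = (y : Γ) • δ := hxy
  have h1 : (y : Γ)⁻¹ * (x : Γ) = 1 := by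
    apply hfree
    · intro a ha
      have hx := hmemC x a ha
      have hy := hmemC y a ha
      calc (y : Γ)⁻¹ * (x : Γ) * a = (y : Γ)⁻¹ * (a * x) := by rw [mul_assoc, hx]
        _ = (y : Γ)⁻¹ * (a * y) * ((y : Γ)⁻¹ * x) := by group
        _ = (y : Γ)⁻¹ * (y * a) * ((y : Γ)⁻¹ * x) := by rw [hy]
        _ = a * ((y : Γ)⁻¹ * x) := by group
    · rw [mul_smul, e, inv_smul_smul]
  apply Subtype.ext
  calc (x : Γ) = y * ((y : Γ)⁻¹ * x) := by group
    _ = y := by rw [h1, mul_one]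

/-- Two-point stabilizers have order `4` when `|C(P)| = 20` and `|N(P)| = 80`. -/
theorem ps21_two_point {P : Sylow 5 Γ} {α : Ω} (h : IsPointSylow P α) (hΩ : Nat.card Ω = 21)
    (hC : Nat.card (Subgroup.centralizer ((P : Subgroup Γ) : Set Γ)) = 20)
    (hCfree : ∀ c : Γ, (∀ a ∈ (P : Subgroup Γ), c * a = a * c) →
      ∀ β : Ω, β ≠ α → c • β = β → c = 1)
    (hstab : Nat.card (MulAction.stabilizer Γ α) = 80) {δ : Ω} (hδ : δ ≠ α) :
    Nat.card ↥(MulAction.stabilizer Γ α ⊓ MulAction.stabilizer Γ δ) = 4 := by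
  have hmemC : ∀ x : ↥(Subgroup.centralizer ((P : Subgroup Γ) : Set Γ)),
      ∀ a ∈ (P : Subgroup Γ), (x : Γ) * a = a * x :=
    fun x a ha => ((Subgroup.mem_centralizer_iff.mp x.2) a ha).symm
  have horb : (MulAction.orbit ↥(MulAction.stabilizer Γ α) δ).ncard = 20 := by
    apply le_antisymm
    · have hsub : MulAction.orbit ↥(MulAction.stabilizer Γ α) δ ⊆ ({α} : Set Ω)ᶜ := by
        rintro _ ⟨x, rfl⟩ e
        have e' : (x : Γ) • δ = α := e
        have hx : (x : Γ) • α = α := MulAction.mem_stabilizer_iff.mp x.2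
        exact hδ (MulAction.injective (x : Γ) (e'.trans hx.symm))
      have h1 := Set.ncard_le_ncard hsub (Set.toFinite _)
      rwa [Set.ncard_compl, Set.ncard_singleton, hΩ] at h1
    · have hinj := ps21_centralizer_smul_injective (P := P) (δ := δ)
        (fun k hk hkδ => hCfree k hk δ hδ hkδ)
      have hsub : Set.range
          (fun x : ↥(Subgroup.centralizer ((P : Subgroup Γ) : Set Γ)) => (x : Γ) • δ) ⊆
          MulAction.orbit ↥(MulAction.stabilizer Γ α) δ := by
        rintro _ ⟨x, rfl⟩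
        exact ⟨⟨(x : Γ), MulAction.mem_stabilizer_iff.mpr
          (h.smul_eq_of_centralizes (hmemC x))⟩, rfl⟩
      have h1 := Set.ncard_le_ncard hsub (Set.toFinite _)
      rwa [Set.ncard_range_of_injective hinj, hC] at h1
  have hidx : (MulAction.stabilizer ↥(MulAction.stabilizer Γ α) δ).index = 20 := by
    rw [MulAction.index_stabilizer, horb]
  have hcard := Subgroup.card_mul_index (MulAction.stabilizer ↥(MulAction.stabilizer Γ α) δ)
  rw [hidx, hstab] at hcard
  have h4 : Nat.card (MulAction.stabilizer ↥(MulAction.stabilizer Γ α) δ) = 4 := by omega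
  have hmap : (MulAction.stabilizer ↥(MulAction.stabilizer Γ α) δ).map
      (MulAction.stabilizer Γ α).subtype =
      MulAction.stabilizer Γ α ⊓ MulAction.stabilizer Γ δ := by
    ext x
    constructor
    · rintro ⟨y, hy, rfl⟩
      exact ⟨y.2, MulAction.mem_stabilizer_iff.mpr (MulAction.mem_stabilizer_iff.mp hy)⟩
    · rintro ⟨hx1, hx2⟩
      exact ⟨⟨x, hx1⟩, MulAction.mem_stabilizer_iff.mpr (MulAction.mem_stabilizer_iff.mp hx2),
        rfl⟩
  rw [← hmap, Subgroup.card_map_of_injective (Subgroup.subtype_injective _), h4]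

/-- An element of order dividing `4` has an odd number of fixed points on `21` points. -/
theorem ps21_fixed_parity (hΩ : Nat.card Ω = 21) {g : Γ} (hg4 : g ^ 4 = 1) :
    ({ξ : Ω | g • ξ = ξ} : Set Ω).ncard % 2 = 1 := by
  classical
  have : Fintype Ω := Fintype.ofFinite Ω
  let f : Function.End Ω := fun ξ => g • ξ
  have hpow : ∀ n : ℕ, f ^ n = fun ξ => g ^ n • ξ := by
    intro n
    induction n with
    | zero =>
      funext ξ
      rw [pow_zero, pow_zero, one_smul]
      rfl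
    | succ n ih =>
      rw [pow_succ, ih]
      funext ξ
      show g ^ n • (g • ξ) = _
      rw [← mul_smul, ← pow_succ]
  have hf : f ^ 2 ^ 2 = 1 := by
    rw [hpow]
    funext ξ
    have e4 : g ^ 2 ^ 2 = g ^ 4 := by norm_num
    rw [e4, hg4, one_smul]
    rfl
  have : Fact (Nat.Prime 2) := ⟨Nat.prime_two⟩
  have h1 := Equiv.Perm.card_fixedPoints_modEq (p := 2) (n := 2) hf
  rw [← Nat.card_eq_fintype_card, ← Nat.card_eq_fintype_card, hΩ] at h1
  have h2 : Nat.card (Function.fixedPoints f) = ({ξ : Ω | g • ξ = ξ} : Set Ω).ncard :=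
    Nat.card_coe_set_eq _
  rw [h2] at h1
  unfold Nat.ModEq at h1
  omega

end

/-- The non-identity elements of the Sylow `7`-subgroups, when these have order `7`. -/
theorem ps21_card_seven_elements {Γ : Type*} [Group Γ] [Fintype Γ] [DecidableEq Γ]
    [Fact (Nat.Prime 7)] (hS : ∀ S : Sylow 7 Γ, Nat.card (S : Subgroup Γ) = 7) (n : ℕ)
    (hn : Nat.card (Sylow 7 Γ) = n) :
    ∃ X : Finset Γ, X.card = 6 * n ∧ (1 : Γ) ∉ X ∧ ∀ g ∈ X, g ^ 7 = 1 := by
  classical
  have : Fintype (Sylow 7 Γ) := Fintype.ofFinite _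
  obtain ⟨B, hB⟩ : ∃ B : Sylow 7 Γ → Finset Γ, ∀ S,
      B S = (Finset.univ.filter (fun g : Γ => g ∈ (S : Subgroup Γ))).erase 1 := ⟨_, fun _ => rfl⟩
  have hBcard : ∀ S, (B S).card = 6 := by
    intro S
    have h7 : (Finset.univ.filter (fun g : Γ => g ∈ (S : Subgroup Γ))).card = 7 := by
      have e : Nat.card ↥(S : Subgroup Γ) =
          (Finset.univ.filter (fun g : Γ => g ∈ (S : Subgroup Γ))).card := by
        rw [Nat.card_eq_fintype_card, Fintype.card_subtype]
      rw [← e, hS S]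
    rw [hB, Finset.card_erase_of_mem (by simp), h7]
  have hdisj : ∀ S ∈ (Finset.univ : Finset (Sylow 7 Γ)),
      ∀ S' ∈ (Finset.univ : Finset (Sylow 7 Γ)), S ≠ S' → Disjoint (B S) (B S') := by
    intro S _ S' _ hne
    rw [Finset.disjoint_left]
    intro g hg hg'
    rw [hB] at hg hg'
    simp only [Finset.mem_erase, Finset.mem_filter, Finset.mem_univ, true_and] at hg hg'
    apply hne
    have hle : (S : Subgroup Γ) ≤ S' :=
      ps21_le_of_mem (by norm_num) (hS S) (S' : Subgroup Γ) hg.2 hg'.2 hg.1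
    exact (Sylow.ext (S.is_maximal' S'.isPGroup' hle)).symm
  refine ⟨Finset.univ.biUnion B, ?_, ?_, ?_⟩
  · rw [Finset.card_biUnion hdisj, Finset.sum_congr rfl (fun S _ => hBcard S), Finset.sum_const,
      Finset.card_univ, ← Nat.card_eq_fintype_card, hn, smul_eq_mul, mul_comm]
  · intro h1
    rw [Finset.mem_biUnion] at h1
    obtain ⟨S, _, h1S⟩ := h1
    rw [hB] at h1S
    simp at h1S
  · intro g hg
    rw [Finset.mem_biUnion] at hg
    obtain ⟨S, _, hgS⟩ := hg
    rw [hB] at hgS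
    simp only [Finset.mem_erase, Finset.mem_filter, Finset.mem_univ, true_and] at hgS
    have h1 : (⟨g, hgS.2⟩ : ↥(S : Subgroup Γ)) ^ Nat.card (S : Subgroup Γ) = 1 :=
      pow_card_eq_one'
    rw [hS S] at h1
    have h2 := congrArg Subtype.val h1
    simpa using h2

end Cfsg.Agent.Helper95
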