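import Mathlib
import Cfsg.Agent.Helper95.Syl21G

set_option autoImplicit false
set_option linter.style.haveILetI false
set_option linter.unusedSectionVars false

/-!
# `21` is not a Sylow `5`-number, part H (helper95)

Assembly: no finite simple group has exactly `21` Sylow `5`-subgroups.
-/

namespace Cfsg.Agent.Helper95

open Cfsg.Agent.Helper71

/-- Main permutation-group statement: a simple group acting faithfully and transitively on
`21` points such that every point `β` has a Sylow `5`-subgroup fixing exactly `β` and normal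
in the stabilizer of `β` does not exist. -/
theorem ps21_false {Γ : Type*} [Group Γ] [Finite Γ] {Ω : Type*} [MulAction Γ Ω] [Fintype Ω]
    [DecidableEq Ω] [Fact (Nat.Prime 5)] [FaithfulSMul Γ Ω] [MulAction.IsPretransitive Γ Ω]
    (hsimple : IsSimpleGroup Γ) (hΩ : Nat.card Ω = 21)
    (hall : ∀ β : Ω, ∃ P : Sylow 5 Γ, IsPointSylow P β) : False := by
  obtain ⟨α⟩ := ps21_nonempty hΩ
  obtain ⟨P, hP⟩ := hall α
  obtain ⟨β₁, hβ₁⟩ := ps21_exists_ne hΩ α
  obtain ⟨k, hk⟩ : ∃ k, k = (Nat.card Γ).factorization 5 := ⟨_, rfl⟩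
  have hcardall : ∀ Q : Sylow 5 Γ, Nat.card (Q : Subgroup Γ) = 5 ^ k := fun Q => by
    rw [hk]; exact Sylow.card_eq_multiplicity Q
  have hk0 : k ≠ 0 := by
    intro e
    have h1 : Nat.card (P : Subgroup Γ) = 1 := by rw [hcardall P, e, pow_zero]
    have h2 : (P : Subgroup Γ) = ⊥ := Subgroup.card_eq_one.mp h1
    apply hβ₁
    apply hP.2.1
    intro g hg
    rw [h2, Subgroup.mem_bot] at hg
    rw [hg, one_smul]
  have hk1 : k = 1 := by
    by_contra hne
    exact ps21_false_of_card_ge hΩ hall k (by omega) hcardall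
  have hP5 : ∀ Q : Sylow 5 Γ, Nat.card (Q : Subgroup Γ) = 5 := fun Q => by
    rw [hcardall Q, hk1, pow_one]
  have h5dvd : 5 ∣ Nat.card Γ := by
    rw [← hP5 P]
    exact Subgroup.card_subgroup_dvd_card _
  have heven : ∀ g : Γ, Equiv.Perm.sign (MulAction.toPerm g : Equiv.Perm Ω) = 1 :=
    fun g => ps21_even hsimple h5dvd g
  have hfree := ps21_free_all hΩ hall hP5 heven
  choose Pt hPt using hall
  have hord : ∀ γ : Ω, ∃ e c : ℕ, (e = 2 ∨ e = 4) ∧ (c = 10 ∨ c = 20) ∧
      Nat.card (Subgroup.centralizer ((Pt γ : Subgroup Γ) : Set Γ)) = c ∧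
      Nat.card (MulAction.stabilizer Γ γ) = c * e ∧ Nat.card Γ = 21 * (c * e) := by
    intro γ
    obtain ⟨δ, hδ, hfr⟩ := hfree γ (Pt γ) (hPt γ)
    exact ps21_point_orders hsimple (hPt γ) hΩ (hP5 _) hδ hfr
  have hCfree : ∀ γ : Ω, ∀ c : Γ, (∀ a ∈ (Pt γ : Subgroup Γ), c * a = a * c) →
      ∀ β : Ω, β ≠ γ → c • β = β → c = 1 := by
    intro γ c hc β hβ hcβ
    obtain ⟨e, c', he, hc', hC, -, -⟩ := hord γ
    refine ps21_centralizer_free (hPt γ) hΩ (hP5 _) heven ?_ hc hβ hcβ
    rw [hC]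
    rcases hc' with rfl | rfl <;> norm_num
  have hfix6 : ∀ (g : Γ) (A : Set Ω), 6 ≤ A.ncard → (∀ x ∈ A, g • x = x) → g = 1 := by
    intro g A hA hfix
    have hne : A.Nonempty := by
      by_contra hcon
      rw [Set.not_nonempty_iff_eq_empty] at hcon
      rw [hcon, Set.ncard_empty] at hA
      omega
    obtain ⟨ω, hω⟩ := hne
    exact ps21_fix_six (hPt ω) hΩ (hP5 _) (hCfree ω) (hfix ω hω) A hA hfix
  obtain ⟨e, c, he, hc, hC, hstabα, hΓ⟩ := hord α
  have : Fact (Nat.Prime 7) := ⟨by norm_num⟩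
  obtain ⟨S⟩ : Nonempty (Sylow 7 Γ) := inferInstance
  have hS : ∀ S : Sylow 7 Γ, Nat.card (S : Subgroup Γ) = 7 := by
    intro S
    apply ps21_sylow_card_of_dvd S
    · rw [hΓ]
      exact Dvd.dvd.mul_right (by norm_num) _
    · rw [hΓ]
      rcases he with rfl | rfl <;> rcases hc with rfl | rfl <;> norm_num
  have hstab7 : ∀ (ω : Ω) (g : Γ), g • ω = ω → g ^ 7 = 1 → g = 1 := by
    intro ω g hgω hg7
    obtain ⟨e', c', he', hc', -, hst, -⟩ := hord ω
    have h1 := pow_card_eq_one'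
      (x := (⟨g, MulAction.mem_stabilizer_iff.mpr hgω⟩ : ↥(MulAction.stabilizer Γ ω)))
    rw [hst] at h1
    have h2 : g ^ (c' * e') = 1 := by
      have h1' := congrArg Subtype.val h1
      simpa using h1'
    have h3 := pow_gcd_eq_one.mpr ⟨h2, hg7⟩
    have h4 : Nat.gcd (c' * e') 7 = 1 := by
      rcases he' with rfl | rfl <;> rcases hc' with rfl | rfl <;> decide
    rwa [h4, pow_one] at h3
  have hΓne7 : 7 ≠ Nat.card Γ := by
    rw [hΓ]
    omega
  obtain ⟨e7, c7, he7, hc7, hΓ7⟩ := ps21_sylow_seven hsimple hΩ S (hS S) hΓne7 hstab7 hfix6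
  have hmod := card_sylow_modEq_one 7 Γ
  obtain ⟨n7, hn7⟩ : ∃ n, n = Nat.card (Sylow 7 Γ) := ⟨_, rfl⟩
  rw [← hn7] at hΓ7 hmod
  have harith : e = 4 ∧ c = 20 ∧ n7 = 120 := by
    rw [hΓ] at hΓ7
    unfold Nat.ModEq at hmod
    rcases he with rfl | rfl <;> rcases hc with rfl | rfl <;>
      rcases he7 with rfl | rfl | rfl <;> rcases hc7 with rfl | rfl <;> omega
  obtain ⟨he4, hc20, hn120⟩ := harith
  rw [he4, hc20] at hΓ
  have hΓ1680 : Nat.card Γ = 1680 := by rw [hΓ]
  have hord' : ∀ γ : Ω, Nat.card (Subgroup.centralizer ((Pt γ : Subgroup Γ) : Set Γ)) = 20 ∧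
      Nat.card (MulAction.stabilizer Γ γ) = 80 := by
    intro γ
    obtain ⟨e', c', he', hc', hC', hst', hΓ'⟩ := hord γ
    rw [hΓ1680] at hΓ'
    have h1 : c' = 20 ∧ e' = 4 := by
      rcases he' with rfl | rfl <;> rcases hc' with rfl | rfl <;> omega
    obtain ⟨rfl, rfl⟩ := h1
    exact ⟨hC', hst'⟩
  haveI : Fintype Γ := Fintype.ofFinite Γ
  haveI : DecidableEq Γ := Classical.decEq Γ
  have htwo : ∀ ω ω' : Ω, ω ≠ ω' →
      Nat.card ↥(MulAction.stabilizer Γ ω ⊓ MulAction.stabilizer Γ ω') = 4 := fun ω ω' hne =>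
    ps21_two_point (hPt ω) hΩ (hord' ω).1 (hCfree ω) (hord' ω).2 (Ne.symm hne)
  have hcount1 : ∀ ω : Ω, (Finset.univ.filter (fun g : Γ => g • ω = ω)).card = 80 := by
    intro ω
    have e : Nat.card ↥(MulAction.stabilizer Γ ω) =
        (Finset.univ.filter (fun g : Γ => g ∈ MulAction.stabilizer Γ ω)).card := by
      rw [Nat.card_eq_fintype_card, Fintype.card_subtype]
    rw [← (hord' ω).2, e]
    congr 1
  have hcount2 : ∀ ω ω' : Ω, ω ≠ ω' →
      (Finset.univ.filter (fun g : Γ => g • ω = ω ∧ g • ω' = ω')).card = 4 := by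
    intro ω ω' hne
    classical
    have e : Nat.card ↥(MulAction.stabilizer Γ ω ⊓ MulAction.stabilizer Γ ω') =
        (Finset.univ.filter
          (fun g : Γ => g ∈ MulAction.stabilizer Γ ω ⊓ MulAction.stabilizer Γ ω')).card := by
      rw [Nat.card_eq_fintype_card, Fintype.card_subtype]
    rw [← htwo ω ω' hne, e]
    congr 1
    ext g
    simp only [Finset.mem_filter, Finset.mem_univ, true_and, Subgroup.mem_inf,
      MulAction.mem_stabilizer_iff]
  have hpar : ∀ g : Γ, (Finset.univ.filter (fun ω : Ω => g • ω = ω)).card ≠ 2 := by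
    intro g h2
    obtain ⟨x, y, hxy, hfilt⟩ := Finset.card_eq_two.mp h2
    have hx : g • x = x := by
      have hmem : x ∈ Finset.univ.filter (fun ω : Ω => g • ω = ω) := by rw [hfilt]; simp
      simpa using hmem
    have hy : g • y = y := by
      have hmem : y ∈ Finset.univ.filter (fun ω : Ω => g • ω = ω) := by rw [hfilt]; simp
      simpa using hmem
    have hg4 : g ^ 4 = 1 := by
      have h1 := pow_card_eq_one'
        (x := (⟨g, ⟨MulAction.mem_stabilizer_iff.mpr hx, MulAction.mem_stabilizer_iff.mpr hy⟩⟩ :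
          ↥(MulAction.stabilizer Γ x ⊓ MulAction.stabilizer Γ y)))
      rw [htwo x y hxy] at h1
      have h1' := congrArg Subtype.val h1
      simpa using h1'
    have hodd := ps21_fixed_parity hΩ hg4 (Ω := Ω)
    have e : ({ξ : Ω | g • ξ = ξ} : Set Ω).ncard =
        (Finset.univ.filter (fun ω : Ω => g • ω = ω)).card := by
      rw [Set.ncard_eq_toFinset_card', Set.toFinset_ofPred]
    rw [e, h2] at hodd
    omega
  obtain ⟨X, hXcard, hX1, hX7⟩ := ps21_card_seven_elements hS n7 hn7.symm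
  refine ps21_count (by rw [← Nat.card_eq_fintype_card]; exact hΩ)
    (by rw [← Nat.card_eq_fintype_card]; exact hΓ1680) hcount1 hcount2 hpar X
    (by rw [hXcard, hn120]; norm_num) hX1 ?_
  intro g hg ω hgω
  have hg1 := hstab7 ω g hgω (hX7 g hg)
  exact hX1 (hg1 ▸ hg)

/-- No finite simple group has exactly `21` Sylow `5`-subgroups. -/
theorem ps21_simple {S : Type*} [Group S] [Finite S] (hsimple : IsSimpleGroup S)
    [Fact (Nat.Prime 5)] : Nat.card (Sylow 5 S) ≠ 21 := by
  classical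
  intro h21
  have : Fintype (Sylow 5 S) := Fintype.ofFinite _
  have hfaith : FaithfulSMul S (Sylow 5 S) := by
    rcases (MonoidHom.normal_ker (MulAction.toPermHom S (Sylow 5 S))).eq_bot_or_eq_top with
      e | e
    · refine ⟨fun {g₁ g₂} hg => ?_⟩
      have h1 : MulAction.toPermHom S (Sylow 5 S) g₁ = MulAction.toPermHom S (Sylow 5 S) g₂ :=
        Equiv.ext hg
      exact (MonoidHom.ker_eq_bot_iff _).mp e h1
    · exfalso
      obtain ⟨α⟩ := ps21_nonempty h21
      obtain ⟨β, hβ⟩ := ps21_exists_ne h21 α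
      obtain ⟨g, hg⟩ := MulAction.exists_smul_eq S α β
      have hgk : g ∈ (MulAction.toPermHom S (Sylow 5 S)).ker := by rw [e]; exact Subgroup.mem_top g
      rw [MonoidHom.mem_ker] at hgk
      have h1 : MulAction.toPermHom S (Sylow 5 S) g α = α := by rw [hgk]; rfl
      exact hβ (hg.symm.trans h1)
  have hall : ∀ β : Sylow 5 S, ∃ P : Sylow 5 S, IsPointSylow P β := by
    intro Q
    refine ⟨Q, ?_, ?_, ?_⟩
    · intro g hg
      exact Sylow.smul_eq_iff_mem_normalizer.mpr (Subgroup.le_normalizer hg)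
    · intro R hR
      have h1 : (Q : Subgroup S) ≤ Subgroup.normalizer ((R : Subgroup S) : Set S) := by
        intro g hg
        exact Sylow.smul_eq_iff_mem_normalizer.mp (hR g hg)
      have h2 := Q.isPGroup'.inf_normalizer_sylow R
      have h3 : (Q : Subgroup S) ≤ R := by
        intro g hg
        have h4 : g ∈ (Q : Subgroup S) ⊓ (R : Subgroup S) := by
          rw [← h2]; exact ⟨hg, h1 hg⟩
        exact h4.2
      exact Sylow.ext (Q.is_maximal' R.isPGroup' h3)
    · intro g hg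
      rw [MulAction.mem_stabilizer_iff] at hg
      exact Sylow.smul_eq_iff_mem_normalizer.mp hg
  exact ps21_false hsimple h21 hall

end Cfsg.Agent.Helper95
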