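import Mathlib
import Cfsg.Agent.Helper95.Syl21H

set_option autoImplicit false
set_option linter.style.haveILetI false
set_option linter.unusedSectionVars false

/-!
# `22` is not a Sylow `3`-number, part A (helper95)

Generic tools: the restricted fixed-point congruence, and the basic facts about point-Sylow
subgroups of order `3`.
-/

namespace Cfsg.Agent.Helper95

open Cfsg.Agent.Helper71

section

variable {Γ : Type*} [Group Γ] {Ω : Type*} [MulAction Γ Ω] [Finite Ω]

/-- Restricted fixed-point congruence: if `g` has order a power of the prime `q` and maps the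
set `A` into itself, then `|A| ≡ |A ∩ Fix g|` modulo `q`. -/
theorem ps22_restrict_modEq {q n : ℕ} [Fact q.Prime] {g : Γ} (hg : g ^ q ^ n = 1) (A : Set Ω)
    (hA : ∀ ξ ∈ A, g • ξ ∈ A) :
    A.ncard % q = (A ∩ {ξ : Ω | g • ξ = ξ}).ncard % q := by
  classical
  have : Fintype Ω := Fintype.ofFinite Ω
  let f : Function.End ↥A := fun ξ => ⟨g • ξ.1, hA ξ.1 ξ.2⟩
  have hpow : ∀ k : ℕ, ∀ ξ : ↥A, ((f ^ k) ξ : Ω) = g ^ k • (ξ : Ω) := by
    intro k
    induction k with
    | zero =>
      intro ξ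
      rw [pow_zero, pow_zero, one_smul]
      rfl
    | succ k ih =>
      intro ξ
      rw [pow_succ]
      show ((f ^ k) (f ξ) : Ω) = _
      rw [ih (f ξ)]
      show g ^ k • (g • (ξ : Ω)) = _
      rw [← mul_smul, ← pow_succ]
  have hf : f ^ q ^ n = 1 := by
    funext ξ
    apply Subtype.ext
    rw [hpow, hg, one_smul]
    rfl
  have h1 := Equiv.Perm.card_fixedPoints_modEq (p := q) (n := n) hf
  rw [← Nat.card_eq_fintype_card, ← Nat.card_eq_fintype_card] at h1
  have h2 : Nat.card ↥A = A.ncard := Nat.card_coe_set_eq _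
  have h3 : Nat.card (Function.fixedPoints f) = (A ∩ {ξ : Ω | g • ξ = ξ}).ncard := by
    rw [Nat.card_coe_set_eq, ← Set.ncard_image_of_injective _ Subtype.val_injective]
    congr 1
    ext ξ
    constructor
    · rintro ⟨η, hη, rfl⟩
      refine ⟨η.2, ?_⟩
      have := congrArg Subtype.val hη
      exact this
    · rintro ⟨hξA, hξ⟩
      refine ⟨⟨ξ, hξA⟩, ?_, rfl⟩
      apply Subtype.ext
      exact hξ
  rw [h2, h3] at h1
  exact h1

end

section

variable {Γ : Type*} [Group Γ] [Finite Γ] {Ω : Type*} [MulAction Γ Ω] [Finite Ω]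

omit [Finite Ω] in
/-- A non-identity element of a point-Sylow subgroup of prime order fixes only its point. -/
theorem ps22_fix_of_ne_one {p : ℕ} [Fact p.Prime] {P : Sylow p Γ} {α : Ω}
    (h : IsPointSylow P α) (hP : Nat.card (P : Subgroup Γ) = p) {g : Γ}
    (hg : g ∈ (P : Subgroup Γ)) (hg1 : g ≠ 1) {ω : Ω} (hω : g • ω = ω) : ω = α := by
  apply h.2.1
  intro x hx
  exact MulAction.mem_stabilizer_iff.mp
    (ps21_le_of_mem (Fact.out : p.Prime) hP (MulAction.stabilizer Γ ω) hg
      (MulAction.mem_stabilizer_iff.mpr hω) hg1 hx)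

omit [Finite Γ] in
/-- A subgroup of order `3` has a generator. -/
theorem ps22_exists_gen {P : Subgroup Γ} (hP : Nat.card P = 3) :
    ∃ x ∈ P, x ≠ 1 ∧ x ^ 3 ^ 1 = 1 := by
  have hne : P ≠ ⊥ := by
    intro e
    rw [e, Subgroup.card_bot] at hP
    omega
  obtain ⟨x, hx, hx1⟩ : ∃ x ∈ P, x ≠ 1 := by
    by_contra hcon
    push Not at hcon
    apply hne
    rw [Subgroup.eq_bot_iff_forall]
    exact hcon
  refine ⟨x, hx, hx1, ?_⟩
  have h1 : (⟨x, hx⟩ : ↥P) ^ Nat.card P = 1 := pow_card_eq_one'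
  rw [hP] at h1
  have h2 := congrArg Subtype.val h1
  simpa using h2

/-- The square of an element normalizing a group of order `3` centralizes it. -/
theorem ps22_sq_centralizes [Fact (Nat.Prime 3)] {P : Sylow 3 Γ}
    (hP : Nat.card (P : Subgroup Γ) = 3) {n : Γ}
    (hn : n ∈ Subgroup.normalizer ((P : Subgroup Γ) : Set Γ)) :
    ∀ a ∈ (P : Subgroup Γ), n ^ 2 * a = a * n ^ 2 := by
  have hcyc : IsCyclic ↥(P : Subgroup Γ) := isCyclic_of_prime_card hP
  have hcard : Nat.card (MulAut ↥(P : Subgroup Γ)) = 2 := by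
    rw [IsCyclic.card_mulAut, hP]; decide
  have h1 : ((P : Subgroup Γ).normalizerMonoidHom ⟨n, hn⟩) ^ 2 = 1 := by
    rw [← hcard]; exact pow_card_eq_one'
  have h2 : (⟨n, hn⟩ : ↥(Subgroup.normalizer ((P : Subgroup Γ) : Set Γ))) ^ 2 ∈
      ((P : Subgroup Γ).normalizerMonoidHom).ker := by
    rw [MonoidHom.mem_ker, map_pow]; exact h1
  rw [Subgroup.normalizerMonoidHom_ker, Subgroup.mem_subgroupOf] at h2
  intro a ha
  have h3 := Subgroup.mem_centralizer_iff.mp h2 a ha
  simpa using h3.symm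

omit [Finite Γ] in
/-- Powers of an element commuting with `a` commute with `a`. -/
theorem ps22_pow_comm {c a : Γ} (h : c * a = a * c) (k : ℕ) : c ^ k * a = a * c ^ k := by
  have h1 : Commute c a := h
  exact (h1.pow_left k).eq

/-- An element of odd order fixing the point of a point-Sylow subgroup of order `3`
centralizes it. -/
theorem ps22_odd_centralizes [Fact (Nat.Prime 3)] {P : Sylow 3 Γ} {α : Ω}
    (h : IsPointSylow P α) (hP : Nat.card (P : Subgroup Γ) = 3) {g : Γ} (hg : g • α = α)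
    {k : ℕ} (hk : g ^ (2 * k + 1) = 1) :
    ∀ a ∈ (P : Subgroup Γ), g * a = a * g := by
  have hn : g ∈ Subgroup.normalizer ((P : Subgroup Γ) : Set Γ) :=
    h.2.2 (MulAction.mem_stabilizer_iff.mpr hg)
  have h2 := ps22_sq_centralizes hP hn
  have e : g = (g ^ 2) ^ (k + 1) := by
    rw [← pow_mul]
    have : 2 * (k + 1) = (2 * k + 1) + 1 := by ring
    rw [this, pow_succ, hk, one_mul]
  intro a ha
  have h3 := ps22_pow_comm (h2 a ha) (k + 1)
  rw [← e] at h3
  exact h3

/-- The fixed-point set of an element centralizing a point-Sylow subgroup of order `3` has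
`1` modulo `3` elements. -/
theorem ps22_fix_centralizer_mod [Fact (Nat.Prime 3)] {P : Sylow 3 Γ} {α : Ω}
    (h : IsPointSylow P α) (hP : Nat.card (P : Subgroup Γ) = 3) {c : Γ}
    (hc : ∀ a ∈ (P : Subgroup Γ), c * a = a * c) :
    ({ξ : Ω | c • ξ = ξ} : Set Ω).ncard % 3 = 1 := by
  obtain ⟨x, hx, hx1, hx3⟩ := ps22_exists_gen hP
  have h1 := ps22_restrict_modEq (q := 3) (n := 1) hx3 ({ξ : Ω | c • ξ = ξ} : Set Ω) (by
    intro ξ hξ
    show c • x • ξ = x • ξ
    rw [← mul_smul, hc x hx, mul_smul]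
    congr 1)
  have h2 : ({ξ : Ω | c • ξ = ξ} ∩ {ξ : Ω | x • ξ = ξ} : Set Ω) = {α} := by
    ext ξ
    constructor
    · rintro ⟨-, hξ⟩
      exact ps22_fix_of_ne_one h hP hx hx1 hξ
    · rintro rfl
      exact ⟨h.smul_eq_of_centralizes hc, h.1 x hx⟩
  rw [h2, Set.ncard_singleton] at h1
  exact h1

end

/-- In a simple group of order divisible by `3` acting on a finite set, every element acts as
an even permutation. -/
theorem ps22_even {Γ : Type*} [Group Γ] [Finite Γ] {Ω : Type*} [MulAction Γ Ω] [Fintype Ω]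
    [DecidableEq Ω] (hsimple : IsSimpleGroup Γ) (h3 : 3 ∣ Nat.card Γ) (g : Γ) :
    Equiv.Perm.sign (MulAction.toPerm g : Equiv.Perm Ω) = 1 := by
  by_contra hcon
  have hneg : Equiv.Perm.sign (MulAction.toPerm g : Equiv.Perm Ω) = -1 :=
    (Int.units_eq_one_or _).resolve_left hcon
  have hidx := index_ker_eq_two_of_neg_one
    (Equiv.Perm.sign.comp (MulAction.toPermHom Γ Ω)) g hneg
  rcases (MonoidHom.normal_ker
    (Equiv.Perm.sign.comp (MulAction.toPermHom Γ Ω))).eq_bot_or_eq_top with e | e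
  · rw [e, Subgroup.index_bot] at hidx
    rw [hidx] at h3
    omega
  · rw [e, Subgroup.index_top] at hidx
    omega

end Cfsg.Agent.Helper95
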