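import Mathlib
import Cfsg.Agent.Helper95.Syl22A

set_option autoImplicit false
set_option linter.style.haveILetI false
set_option linter.unusedSectionVars false

/-!
# `22` is not a Sylow `3`-number, part B (helper95)

Point-Sylow subgroups of order `3` on `22` points: the centralizer of an element which
centralizes the point-Sylow subgroups of all its fixed points is transitive on the fixed
points; consequently `5` does not divide the group order.
-/

namespace Cfsg.Agent.Helper95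

open Cfsg.Agent.Helper71

section

variable {Γ : Type*} [Group Γ] [Finite Γ] {Ω : Type*} [MulAction Γ Ω] [Finite Ω]

/-- If `g` centralizes the point-Sylow subgroup (of order `3`) of each of its fixed points,
then the centralizer of `g` is transitive on the fixed points of `g`; in particular their
number divides the order of the centralizer. -/
theorem ps22_fix_dvd_centralizer [Fact (Nat.Prime 3)] (Pt : Ω → Sylow 3 Γ)
    (hPt : ∀ γ, IsPointSylow (Pt γ) γ)
    (hP3 : ∀ γ, Nat.card (Pt γ : Subgroup Γ) = 3) {g : Γ} {γ : Ω} (hγ : g • γ = γ)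
    (hcent : ∀ δ : Ω, g • δ = δ → ∀ a ∈ (Pt δ : Subgroup Γ), g * a = a * g) :
    ({ξ : Ω | g • ξ = ξ} : Set Ω).ncard ∣ Nat.card (Subgroup.centralizer ({g} : Set Γ)) := by
  have hmem : ∀ c : Γ, c ∈ Subgroup.centralizer ({g} : Set Γ) ↔ g * c = c * g := by
    intro c
    rw [Subgroup.mem_centralizer_iff]
    simp
  have hinv : ∀ x : Γ, x ∈ Subgroup.centralizer ({g} : Set Γ) →
      ∀ ξ ∈ MulAction.orbit ↥(Subgroup.centralizer ({g} : Set Γ)) γ,
        x • ξ ∈ MulAction.orbit ↥(Subgroup.centralizer ({g} : Set Γ)) γ := by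
    rintro x hx _ ⟨c, rfl⟩
    exact ⟨⟨x, hx⟩ * c, mul_smul _ _ _⟩
  have hX : MulAction.orbit ↥(Subgroup.centralizer ({g} : Set Γ)) γ = {ξ : Ω | g • ξ = ξ} := by
    apply Set.Subset.antisymm
    · rintro _ ⟨c, rfl⟩
      show g • ((c : Γ) • γ) = (c : Γ) • γ
      rw [← mul_smul, (hmem c).mp c.2, mul_smul, hγ]
    · intro δ hδ
      by_contra hnot
      obtain ⟨x, hx, hx1, hx3⟩ := ps22_exists_gen (hP3 δ)
      have hxC : x ∈ Subgroup.centralizer ({g} : Set Γ) := (hmem x).mpr (hcent δ hδ x hx)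
      have h1 := ps22_restrict_modEq (q := 3) (n := 1) hx3
        (MulAction.orbit ↥(Subgroup.centralizer ({g} : Set Γ)) γ) (hinv x hxC)
      have h2 : (MulAction.orbit ↥(Subgroup.centralizer ({g} : Set Γ)) γ ∩
          {ξ : Ω | x • ξ = ξ}) = ∅ := by
        ext ξ
        constructor
        · rintro ⟨hξ1, hξ2⟩
          have e := ps22_fix_of_ne_one (hPt δ) (hP3 δ) hx hx1 hξ2
          exact hnot (e ▸ hξ1)
        · intro h
          exact absurd h (Set.notMem_empty _)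
      rw [h2, Set.ncard_empty] at h1
      obtain ⟨y, hy, hy1, hy3⟩ := ps22_exists_gen (hP3 γ)
      have hyC : y ∈ Subgroup.centralizer ({g} : Set Γ) := (hmem y).mpr (hcent γ hγ y hy)
      have h3 := ps22_restrict_modEq (q := 3) (n := 1) hy3
        (MulAction.orbit ↥(Subgroup.centralizer ({g} : Set Γ)) γ) (hinv y hyC)
      have h4 : (MulAction.orbit ↥(Subgroup.centralizer ({g} : Set Γ)) γ ∩
          {ξ : Ω | y • ξ = ξ}) = {γ} := by
        ext ξ
        constructor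
        · rintro ⟨-, hξ2⟩
          exact ps22_fix_of_ne_one (hPt γ) (hP3 γ) hy hy1 hξ2
        · rintro rfl
          exact ⟨MulAction.mem_orbit_self _, (hPt ξ).1 y hy⟩
      rw [h4, Set.ncard_singleton] at h3
      omega
  rw [← hX, ← MulAction.index_stabilizer]
  exact Subgroup.index_dvd_card _

/-- An element acting trivially is the identity; so a non-identity element has at most `21`
fixed points among `22`. -/
theorem ps22_fix_lt [FaithfulSMul Γ Ω] (hΩ : Nat.card Ω = 22) {g : Γ} (hg1 : g ≠ 1) :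
    ({ξ : Ω | g • ξ = ξ} : Set Ω).ncard ≤ 21 := by
  have hle : ({ξ : Ω | g • ξ = ξ} : Set Ω).ncard ≤ 22 := by
    rw [← hΩ, ← Set.ncard_univ]
    exact Set.ncard_le_ncard (Set.subset_univ _) (Set.toFinite _)
  have hne : ({ξ : Ω | g • ξ = ξ} : Set Ω).ncard ≠ 22 := by
    intro e
    have h1 : ({ξ : Ω | g • ξ = ξ} : Set Ω) = Set.univ := by
      rw [Set.eq_univ_iff_ncard, e, hΩ]
    apply hg1
    apply FaithfulSMul.eq_of_smul_eq_smul (α := Ω)
    intro ξ
    rw [one_smul]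
    have h2 : ξ ∈ ({ξ : Ω | g • ξ = ξ} : Set Ω) := h1 ▸ Set.mem_univ ξ
    exact h2
  omega

/-- The number of fixed points of an element of prime-power order, modulo the prime. -/
theorem ps22_fix_mod (hΩ : Nat.card Ω = 22) {q n : ℕ} [Fact q.Prime] {g : Γ}
    (hg : g ^ q ^ n = 1) : ({ξ : Ω | g • ξ = ξ} : Set Ω).ncard % q = 22 % q := by
  have h1 := ps22_restrict_modEq (q := q) (n := n) hg (Set.univ : Set Ω)
    (fun _ _ => Set.mem_univ _)
  rw [Set.ncard_univ, hΩ, Set.univ_inter] at h1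
  exact h1.symm

/-- With point-Sylow `3`-subgroups of order `3` on `22` points, `5` does not divide the group
order. -/
theorem ps22_no_five [Fact (Nat.Prime 3)] [FaithfulSMul Γ Ω] (hΩ : Nat.card Ω = 22)
    (Pt : Ω → Sylow 3 Γ) (hPt : ∀ γ, IsPointSylow (Pt γ) γ)
    (hP3 : ∀ γ, Nat.card (Pt γ : Subgroup Γ) = 3) : ¬ 5 ∣ Nat.card Γ := by
  intro h5
  have : Fact (Nat.Prime 5) := ⟨by norm_num⟩
  have : Fact (Nat.Prime 7) := ⟨by norm_num⟩
  obtain ⟨g, hg⟩ := exists_prime_orderOf_dvd_card' (G := Γ) 5 h5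
  have hg5 : g ^ 5 ^ 1 = 1 := by rw [pow_one, ← hg]; exact pow_orderOf_eq_one g
  have hg1 : g ≠ 1 := by
    rintro rfl
    rw [orderOf_one] at hg
    omega
  have h1 := ps22_fix_mod hΩ hg5
  have hcent : ∀ δ : Ω, g • δ = δ → ∀ a ∈ (Pt δ : Subgroup Γ), g * a = a * g := by
    intro δ hδ
    exact ps22_odd_centralizes (hPt δ) (hP3 δ) hδ (k := 2) (by simpa using hg5)
  have hBne : ({ξ : Ω | g • ξ = ξ} : Set Ω).Nonempty := by
    rw [← Set.ncard_pos]
    omega
  obtain ⟨γ, hγ⟩ := hBne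
  have h2 := ps22_fix_centralizer_mod (hPt γ) (hP3 γ) (hcent γ hγ)
  have hle := ps22_fix_lt hΩ hg1
  have hB7 : ({ξ : Ω | g • ξ = ξ} : Set Ω).ncard = 7 := by omega
  have hdvd := ps22_fix_dvd_centralizer Pt hPt hP3 hγ hcent
  rw [hB7] at hdvd
  obtain ⟨z, hz⟩ := exists_prime_orderOf_dvd_card'
    (G := ↥(Subgroup.centralizer ({g} : Set Γ))) 7 hdvd
  have hz7' : z ^ 7 = 1 := by rw [← hz]; exact pow_orderOf_eq_one z
  have hz7 : (z : Γ) ^ 7 ^ 1 = 1 := by
    have := congrArg Subtype.val hz7'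
    simpa using this
  have hz1 : (z : Γ) ≠ 1 := by
    intro e
    have e' : z = 1 := Subtype.ext e
    rw [e', orderOf_one] at hz
    omega
  have hzg : g * (z : Γ) = (z : Γ) * g := by
    have := Subgroup.mem_centralizer_iff.mp z.2 g (Set.mem_singleton g)
    exact this
  have h3 := ps22_fix_mod hΩ hz7
  have hFne : ({ξ : Ω | (z : Γ) • ξ = ξ} : Set Ω).Nonempty := by
    rw [← Set.ncard_pos]
    omega
  obtain ⟨δ₀, hδ₀⟩ := hFne
  have hzc : ∀ a ∈ (Pt δ₀ : Subgroup Γ), (z : Γ) * a = a * (z : Γ) :=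
    ps22_odd_centralizes (hPt δ₀) (hP3 δ₀) hδ₀ (k := 3) (by simpa using hz7)
  have h4 := ps22_fix_centralizer_mod (hPt δ₀) (hP3 δ₀) hzc
  have hle2 := ps22_fix_lt hΩ hz1
  have hF1 : ({ξ : Ω | (z : Γ) • ξ = ξ} : Set Ω).ncard = 1 := by omega
  obtain ⟨δ₁, hδ₁⟩ := Set.ncard_eq_one.mp hF1
  have hδ₀mem : δ₀ ∈ ({ξ : Ω | (z : Γ) • ξ = ξ} : Set Ω) := hδ₀
  rw [hδ₁, Set.mem_singleton_iff] at hδ₀mem
  have hFix : ∀ ξ : Ω, (z : Γ) • ξ = ξ → ξ = δ₀ := by
    intro ξ hξ
    have h : ξ ∈ ({ξ : Ω | (z : Γ) • ξ = ξ} : Set Ω) := hξ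
    rw [hδ₁, Set.mem_singleton_iff] at h
    rw [h, hδ₀mem]
  have hgδ₀ : g • δ₀ = δ₀ := by
    apply hFix
    rw [← mul_smul, ← hzg, mul_smul, hδ₀]
  have h5 := ps22_restrict_modEq (q := 7) (n := 1) hz7 ({ξ : Ω | g • ξ = ξ} : Set Ω) (by
    intro ξ hξ
    show g • (z : Γ) • ξ = (z : Γ) • ξ
    rw [← mul_smul, hzg, mul_smul]
    congr 1)
  have h6 : ({ξ : Ω | g • ξ = ξ} ∩ {ξ : Ω | (z : Γ) • ξ = ξ} : Set Ω) = {δ₀} := by
    ext ξ
    constructor
    · rintro ⟨-, hξ⟩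
      exact hFix ξ hξ
    · rintro rfl
      exact ⟨hgδ₀, hδ₀⟩
  rw [h6, Set.ncard_singleton, hB7] at h5
  omega

end

end Cfsg.Agent.Helper95
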