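import Mathlib
import Cfsg.Agent.Helper95.Syl22B

set_option autoImplicit false
set_option linter.style.haveILetI false
set_option linter.unusedSectionVars false

/-!
# `22` is not a Sylow `3`-number, part C (helper95)

Point-Sylow subgroups of order `3` on `22` points, all elements acting as even permutations:
no involution centralizes a point-Sylow subgroup.
-/

namespace Cfsg.Agent.Helper95

open Cfsg.Agent.Helper71

/-- The sign of an involution which is a product of an odd number of transpositions. -/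
theorem ps22_sign_involution {Ω : Type*} [Fintype Ω] [DecidableEq Ω]
    (τ : Equiv.Perm Ω) (hτ2 : τ ^ 2 = 1) (n : ℕ) (hn : Odd n)
    (hsupp : τ.support.card = 2 * n) : Equiv.Perm.sign τ = -1 := by
  have hn0 : n ≠ 0 := by
    rintro rfl
    exact absurd hn (by decide)
  have hne : τ ≠ 1 := by
    rintro rfl
    simp at hsupp
    exact hn0 hsupp
  have hord : orderOf τ = 2 := orderOf_eq_prime hτ2 hne
  have hprime : (orderOf τ).Prime := by rw [hord]; exact Nat.prime_two
  obtain ⟨m, hm⟩ := Equiv.Perm.cycleType_prime_order hprime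
  rw [hord] at hm
  have hsum := Equiv.Perm.sum_cycleType τ
  rw [hm, hsupp] at hsum
  simp only [Multiset.sum_replicate, smul_eq_mul] at hsum
  have hmn : m + 1 = n := by omega
  rw [Equiv.Perm.sign_of_cycleType, hm, hmn]
  simp only [Multiset.sum_replicate, Multiset.card_replicate, smul_eq_mul]
  have h3 : Odd (n * 2 + n) := by
    obtain ⟨j, hj⟩ := hn
    exact ⟨3 * j + 1, by omega⟩
  exact h3.neg_one_pow

section

variable {Γ : Type*} [Group Γ] [Finite Γ] {Ω : Type*} [MulAction Γ Ω] [Fintype Ω] [DecidableEq Ω]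

/-- No involution centralizes a point-Sylow subgroup of order `3` on `22` points when all
elements act as even permutations. -/
theorem ps22_no_involution [Fact (Nat.Prime 3)] [FaithfulSMul Γ Ω] (hΩ : Nat.card Ω = 22)
    (Pt : Ω → Sylow 3 Γ) (hPt : ∀ γ, IsPointSylow (Pt γ) γ)
    (hP3 : ∀ γ, Nat.card (Pt γ : Subgroup Γ) = 3)
    (heven : ∀ g : Γ, Equiv.Perm.sign (MulAction.toPerm g : Equiv.Perm Ω) = 1)
    {γ : Ω} {t : Γ} (ht2 : t ^ 2 = 1)
    (htc : ∀ a ∈ (Pt γ : Subgroup Γ), t * a = a * t) : t = 1 := by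
  by_contra ht1
  have : Fact (Nat.Prime 2) := ⟨Nat.prime_two⟩
  have ht2' : t ^ 2 ^ 1 = 1 := by simpa using ht2
  have h1 := ps22_fix_centralizer_mod (hPt γ) (hP3 γ) htc
  have h2 := ps22_fix_mod hΩ ht2'
  have hle := ps22_fix_lt hΩ ht1
  have hsupp : (MulAction.toPerm t : Equiv.Perm Ω).support.card =
      22 - ({ξ : Ω | t • ξ = ξ} : Set Ω).ncard := by
    have e : ((MulAction.toPerm t : Equiv.Perm Ω).support : Set Ω) =
        ({ξ : Ω | t • ξ = ξ} : Set Ω)ᶜ := by
      ext ξ
      simp only [Finset.mem_coe, Equiv.Perm.mem_support, MulAction.toPerm_apply,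
        Set.mem_compl_iff, Set.mem_ofPred_eq]
    rw [← Set.ncard_coe_finset, e, Set.ncard_compl, hΩ]
  have hτ2 : (MulAction.toPerm t : Equiv.Perm Ω) ^ 2 = 1 := by
    have e : (MulAction.toPermHom Γ Ω t) ^ 2 = 1 := by rw [← map_pow, ht2, map_one]
    exact e
  have hF10 : ({ξ : Ω | t • ξ = ξ} : Set Ω).ncard = 10 := by
    by_contra hne
    have hcases : ({ξ : Ω | t • ξ = ξ} : Set Ω).ncard = 4 ∨
        ({ξ : Ω | t • ξ = ξ} : Set Ω).ncard = 16 := by omega
    have hsign : Equiv.Perm.sign (MulAction.toPerm t : Equiv.Perm Ω) = -1 := by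
      rcases hcases with e | e
      · exact ps22_sign_involution _ hτ2 9 (by decide) (by rw [hsupp, e])
      · exact ps22_sign_involution _ hτ2 3 (by decide) (by rw [hsupp, e])
    rw [heven t] at hsign
    exact absurd hsign (by decide)
  have hcent : ∀ δ : Ω, t • δ = δ → ∀ a ∈ (Pt δ : Subgroup Γ), t * a = a * t := by
    intro δ hδ
    by_contra hnot
    push Not at hnot
    have hnorm : t ∈ Subgroup.normalizer ((Pt δ : Subgroup Γ) : Set Γ) :=
      (hPt δ).2.2 (MulAction.mem_stabilizer_iff.mpr hδ)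
    have key : ∀ ξ : Ω, t • ξ = ξ → ξ ≠ δ → ∀ y ∈ (Pt δ : Subgroup Γ),
        t • (y • ξ) = y • ξ → y = 1 := by
      intro ξ hξ hξδ y hy hyξ
      by_contra hy1
      have hconj : t * y * t⁻¹ ∈ (Pt δ : Subgroup Γ) :=
        (Subgroup.mem_normalizer_iff.mp hnorm y).mp hy
      have hfix : (y⁻¹ * (t * y * t⁻¹)) • ξ = ξ := by
        have e1 : t⁻¹ • ξ = ξ := by rw [inv_smul_eq_iff, hξ]
        rw [mul_smul, mul_smul, mul_smul, e1, hyξ, inv_smul_smul]
      have h1 : y⁻¹ * (t * y * t⁻¹) = 1 := by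
        by_contra hne
        exact hξδ (ps22_fix_of_ne_one (hPt δ) (hP3 δ)
          (Subgroup.mul_mem _ (Subgroup.inv_mem _ hy) hconj) hne hfix)
      have hcomm : t * y = y * t := by
        have e2 : t * y * t⁻¹ = y := by
          calc t * y * t⁻¹ = y * (y⁻¹ * (t * y * t⁻¹)) := by group
            _ = y := by rw [h1, mul_one]
        calc t * y = t * y * t⁻¹ * t := by group
          _ = y * t := by rw [e2]
      have hle2 := ps21_le_of_mem (by norm_num : Nat.Prime 3) (hP3 δ)
        (Subgroup.centralizer ({t} : Set Γ)) hy (by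
          rw [Subgroup.mem_centralizer_iff]
          intro h hh
          rw [Set.mem_singleton_iff] at hh
          rw [hh]
          exact hcomm) hy1
      obtain ⟨a, ha, hne⟩ := hnot
      apply hne
      exact Subgroup.mem_centralizer_iff.mp (hle2 ha) t (Set.mem_singleton t)
    have hinj : Function.Injective
        (fun p : ↥(({ξ : Ω | t • ξ = ξ} : Set Ω) \ {δ}) × ↥(Pt δ : Subgroup Γ) =>
          (p.2 : Γ) • (p.1 : Ω)) := by
      rintro ⟨⟨ξ, hξ⟩, ⟨y, hy⟩⟩ ⟨⟨ξ', hξ'⟩, ⟨y', hy'⟩⟩ e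
      have e' : y • ξ = y' • ξ' := e
      have e2 : (y'⁻¹ * y) • ξ = ξ' := by rw [mul_smul, e', inv_smul_smul]
      have h1 : y'⁻¹ * y = 1 := key ξ hξ.1 (fun e => hξ.2 e) (y'⁻¹ * y)
        (Subgroup.mul_mem _ (Subgroup.inv_mem _ hy') hy) (by rw [e2]; exact hξ'.1)
      have hyy : y = y' := by
        calc y = y' * (y'⁻¹ * y) := by group
          _ = y' := by rw [h1, mul_one]
      subst hyy
      have e3 : ξ = ξ' := MulAction.injective y e'
      subst e3
      rfl
    have hcard := Nat.card_le_card_of_injective _ hinj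
    have hδF : δ ∈ ({ξ : Ω | t • ξ = ξ} : Set Ω) := hδ
    rw [Nat.card_prod, Nat.card_coe_set_eq, Set.ncard_sdiff_singleton_of_mem hδF, hF10, hP3 δ,
      hΩ] at hcard
    omega
  have hdvd := ps22_fix_dvd_centralizer Pt hPt hP3 (g := t) (γ := γ)
    ((hPt γ).smul_eq_of_centralizes htc) hcent
  rw [hF10] at hdvd
  have h5 : 5 ∣ Nat.card Γ :=
    (dvd_trans ⟨2, rfl⟩ hdvd).trans (Subgroup.card_subgroup_dvd_card _)
  exact ps22_no_five hΩ Pt hPt hP3 h5

end

end Cfsg.Agent.Helper95
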