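import Mathlib
import Cfsg.Agent.Helper95.Syl22C

set_option autoImplicit false
set_option linter.style.haveILetI false
set_option linter.unusedSectionVars false

/-!
# `22` is not a Sylow `3`-number, part D (helper95)

Point-Sylow subgroups of order `3` on `22` points in a simple group: the centralizer of a
point-Sylow subgroup acts freely off its point, the group order is one of `66, 132, 462, 924`,
and no simple group has such an order.
-/

namespace Cfsg.Agent.Helper95

open Cfsg.Agent.Helper71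

section

variable {Γ : Type*} [Group Γ] [Finite Γ] {Ω : Type*} [MulAction Γ Ω] [Fintype Ω] [DecidableEq Ω]

/-- The centralizer of a point-Sylow subgroup of order `3` acts freely off its point. -/
theorem ps22_centralizer_free [Fact (Nat.Prime 3)] [FaithfulSMul Γ Ω] (hΩ : Nat.card Ω = 22)
    (Pt : Ω → Sylow 3 Γ) (hPt : ∀ γ, IsPointSylow (Pt γ) γ)
    (hP3 : ∀ γ, Nat.card (Pt γ : Subgroup Γ) = 3)
    (heven : ∀ g : Γ, Equiv.Perm.sign (MulAction.toPerm g : Equiv.Perm Ω) = 1)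
    {α : Ω} {c : Γ} (hc : ∀ a ∈ (Pt α : Subgroup Γ), c * a = a * c) {β : Ω} (hβ : β ≠ α)
    (hcβ : c • β = β) : c = 1 := by
  by_contra hc1
  have hord : orderOf c ≠ 1 := by rwa [Ne, orderOf_eq_one_iff]
  obtain ⟨q, hq, hqdvd⟩ := Nat.exists_prime_and_dvd hord
  obtain ⟨m, hm⟩ := hqdvd
  have hc'q : (c ^ m) ^ q ^ 1 = 1 := by
    rw [pow_one, ← pow_mul, mul_comm, ← hm, pow_orderOf_eq_one]
  have hc'1 : c ^ m ≠ 1 := by
    intro e
    have h1 : orderOf c ∣ m := orderOf_dvd_of_pow_eq_one e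
    have hpos : 0 < orderOf c := orderOf_pos c
    rw [hm] at h1 hpos
    have hm0 : 0 < m := by
      rcases Nat.eq_zero_or_pos m with h0 | h0
      · rw [h0, mul_zero] at hpos
        exact absurd hpos (lt_irrefl 0)
      · exact h0
    have h2 := Nat.le_of_dvd hm0 h1
    have hq2 := hq.two_le
    nlinarith
  have hc'c : ∀ a ∈ (Pt α : Subgroup Γ), c ^ m * a = a * c ^ m :=
    fun a ha => ps22_pow_comm (hc a ha) m
  have hc'α : c ^ m • α = α := (hPt α).smul_eq_of_centralizes hc'c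
  have hc'β : c ^ m • β = β := ps21_pow_smul_eq hcβ m
  haveI : Fact q.Prime := ⟨hq⟩
  have h1 := ps22_fix_centralizer_mod (hPt α) (hP3 α) hc'c
  have h2 := ps22_fix_mod hΩ hc'q
  have hle := ps22_fix_lt hΩ hc'1
  have hge : 2 ≤ ({ξ : Ω | c ^ m • ξ = ξ} : Set Ω).ncard := by
    have hsub : ({β, α} : Set Ω) ⊆ {ξ : Ω | c ^ m • ξ = ξ} := by
      rintro ξ (rfl | rfl)
      · exact hc'β
      · exact hc'α
    have h3 := Set.ncard_le_ncard hsub (Set.toFinite _)
    rwa [Set.ncard_pair hβ] at h3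
  by_cases hq3 : q = 3
  · subst hq3
    have hmem : c ^ m ∈ (Pt α : Subgroup Γ) := (hPt α).mem_of_pow hc'α (k := 1) hc'q
    exact hβ (ps22_fix_of_ne_one (hPt α) (hP3 α) hmem hc'1 hc'β)
  by_cases hq2 : q = 2
  · subst hq2
    exact hc'1 (ps22_no_involution hΩ Pt hPt hP3 heven (γ := α) (by simpa using hc'q) hc'c)
  by_cases hq5 : q = 5
  · subst hq5
    apply ps22_no_five hΩ Pt hPt hP3
    have h5 : orderOf (c ^ m) = 5 := orderOf_eq_prime (by simpa using hc'q) hc'1
    rw [← h5]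
    exact orderOf_dvd_natCard (c ^ m)
  obtain ⟨N, hN⟩ : ∃ N, N = ({ξ : Ω | c ^ m • ξ = ξ} : Set Ω).ncard := ⟨_, rfl⟩
  rw [← hN] at h1 h2 hle hge
  have hdvd : q ∣ 22 - N := (Nat.modEq_iff_dvd' (by omega)).mp h2
  have hdvd180 : q ∣ 2 ^ 2 * 3 ^ 2 * 5 := by
    have hcases : N = 4 ∨ N = 7 ∨ N = 10 ∨ N = 13 ∨ N = 16 ∨ N = 19 := by omega
    rcases hcases with e | e | e | e | e | e <;> rw [e] at hdvd
    · exact hdvd.trans (by norm_num)
    · exact hdvd.trans (by norm_num)
    · exact hdvd.trans (by norm_num)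
    · exact hdvd.trans (by norm_num)
    · exact hdvd.trans (by norm_num)
    · exact hdvd.trans (by norm_num)
  rcases (Nat.Prime.dvd_mul hq).mp hdvd180 with h | h
  · rcases (Nat.Prime.dvd_mul hq).mp h with h | h
    · exact hq2 ((Nat.prime_dvd_prime_iff_eq hq Nat.prime_two).mp (hq.dvd_of_dvd_pow h))
    · exact hq3 ((Nat.prime_dvd_prime_iff_eq hq Nat.prime_three).mp (hq.dvd_of_dvd_pow h))
  · exact hq5 ((Nat.prime_dvd_prime_iff_eq hq (by norm_num)).mp h)

omit [Finite Γ] [Fintype Ω] [DecidableEq Ω] in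
theorem ps22_exists_ne (hΩ : Nat.card Ω = 22) (α : Ω) : ∃ β : Ω, β ≠ α := by
  by_contra hcon
  push Not at hcon
  have hs : Subsingleton Ω := ⟨fun a b => (hcon a).trans (hcon b).symm⟩
  have := Nat.card_eq_one_iff_unique.mpr ⟨hs, ⟨α⟩⟩
  omega

omit [Finite Γ] [Fintype Ω] [DecidableEq Ω] in
theorem ps22_nonempty (hΩ : Nat.card Ω = 22) : Nonempty Ω := by
  by_contra hcon
  rw [not_nonempty_iff] at hcon
  rw [Nat.card_of_isEmpty] at hΩ
  omega

/-- The possible group orders. -/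
theorem ps22_orders [Fact (Nat.Prime 3)] [FaithfulSMul Γ Ω] [MulAction.IsPretransitive Γ Ω]
    (hΩ : Nat.card Ω = 22)
    (Pt : Ω → Sylow 3 Γ) (hPt : ∀ γ, IsPointSylow (Pt γ) γ)
    (hP3 : ∀ γ, Nat.card (Pt γ : Subgroup Γ) = 3)
    (heven : ∀ g : Γ, Equiv.Perm.sign (MulAction.toPerm g : Equiv.Perm Ω) = 1) :
    Nat.card Γ = 66 ∨ Nat.card Γ = 132 ∨ Nat.card Γ = 462 ∨ Nat.card Γ = 924 := by
  obtain ⟨α⟩ := ps22_nonempty hΩ
  obtain ⟨β, hβ⟩ := ps22_exists_ne hΩ α
  have hmemC : ∀ x : ↥(Subgroup.centralizer ((Pt α : Subgroup Γ) : Set Γ)),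
      ∀ a ∈ (Pt α : Subgroup Γ), (x : Γ) * a = a * x :=
    fun x a ha => ((Subgroup.mem_centralizer_iff.mp x.2) a ha).symm
  -- `|C| ≤ 21`
  have hC21 : Nat.card (Subgroup.centralizer ((Pt α : Subgroup Γ) : Set Γ)) ≤ 21 := by
    have hinj : Function.Injective
        (fun x : ↥(Subgroup.centralizer ((Pt α : Subgroup Γ) : Set Γ)) => (x : Γ) • β) := by
      intro x y hxy
      have e : (x : Γ) • β = (y : Γ) • β := hxy
      have h1 : (y : Γ)⁻¹ * (x : Γ) = 1 := by
        apply ps22_centralizer_free hΩ Pt hPt hP3 heven (α := α) (β := β) _ hβ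
        · rw [mul_smul, e, inv_smul_smul]
        · intro a ha
          have hx := hmemC x a ha
          have hy := hmemC y a ha
          calc (y : Γ)⁻¹ * (x : Γ) * a = (y : Γ)⁻¹ * (a * x) := by rw [mul_assoc, hx]
            _ = (y : Γ)⁻¹ * (a * y) * ((y : Γ)⁻¹ * x) := by group
            _ = (y : Γ)⁻¹ * (y * a) * ((y : Γ)⁻¹ * x) := by rw [hy]
            _ = a * ((y : Γ)⁻¹ * x) := by group
      apply Subtype.ext
      calc (x : Γ) = y * ((y : Γ)⁻¹ * x) := by group
        _ = y := by rw [h1, mul_one]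
    have hsub : Set.range
        (fun x : ↥(Subgroup.centralizer ((Pt α : Subgroup Γ) : Set Γ)) => (x : Γ) • β) ⊆
        ({α} : Set Ω)ᶜ := by
      rintro _ ⟨x, rfl⟩ e
      have e' : (x : Γ) • β = α := e
      have hx : (x : Γ) • α = α := (hPt α).smul_eq_of_centralizes (hmemC x)
      exact hβ (MulAction.injective (x : Γ) (e'.trans hx.symm))
    have h1 := Set.ncard_le_ncard hsub (Set.toFinite _)
    rwa [Set.ncard_range_of_injective hinj, Set.ncard_compl, Set.ncard_singleton, hΩ] at h1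
  -- `3 ∣ |C|`
  have h3dvd : 3 ∣ Nat.card (Subgroup.centralizer ((Pt α : Subgroup Γ) : Set Γ)) := by
    have hle : (Pt α : Subgroup Γ) ≤ Subgroup.centralizer ((Pt α : Subgroup Γ) : Set Γ) := by
      intro x hx
      rw [Subgroup.mem_centralizer_iff]
      intro a ha
      have hc : IsCyclic ↥(Pt α : Subgroup Γ) := isCyclic_of_prime_card (hP3 α)
      let _ := IsCyclic.commGroup (α := ↥(Pt α : Subgroup Γ))
      have h2 := mul_comm (⟨a, ha⟩ : ↥(Pt α : Subgroup Γ)) ⟨x, hx⟩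
      exact congrArg Subtype.val h2
    have h1 := Subgroup.card_dvd_of_le hle
    rwa [hP3 α] at h1
  -- `2 ∤ |C|`
  have h2ndvd : ¬ 2 ∣ Nat.card (Subgroup.centralizer ((Pt α : Subgroup Γ) : Set Γ)) := by
    intro h2
    have : Fact (Nat.Prime 2) := ⟨Nat.prime_two⟩
    obtain ⟨t, ht⟩ := exists_prime_orderOf_dvd_card'
      (G := ↥(Subgroup.centralizer ((Pt α : Subgroup Γ) : Set Γ))) 2 h2
    have ht2' : t ^ 2 = 1 := by rw [← ht]; exact pow_orderOf_eq_one t
    have ht2 : (t : Γ) ^ 2 = 1 := by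
      have := congrArg Subtype.val ht2'
      simpa using this
    have ht1 : (t : Γ) = 1 := ps22_no_involution hΩ Pt hPt hP3 heven (γ := α) ht2 (hmemC t)
    have e' : t = 1 := Subtype.ext ht1
    rw [e', orderOf_one] at ht
    omega
  -- `5 ∤ |C|`
  have h5ndvd : ¬ 5 ∣ Nat.card (Subgroup.centralizer ((Pt α : Subgroup Γ) : Set Γ)) := by
    intro h5
    exact ps22_no_five hΩ Pt hPt hP3 (h5.trans (Subgroup.card_subgroup_dvd_card _))
  -- `9 ∤ |C|`
  have h9ndvd : ¬ 9 ∣ Nat.card (Subgroup.centralizer ((Pt α : Subgroup Γ) : Set Γ)) := by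
    intro h9
    have h9' : 9 ∣ Nat.card Γ := h9.trans (Subgroup.card_subgroup_dvd_card _)
    have h1 := Subgroup.card_mul_index (Pt α : Subgroup Γ)
    have h2 : ¬ 3 ∣ (Pt α : Subgroup Γ).index := (Pt α).not_dvd_index
    rw [hP3 α] at h1
    rw [← h1] at h9'
    omega
  have he2 := ps21_relIndex_dvd (Pt α) (hP3 α)
  have hN := ps21_card_normalizer (Pt α : Subgroup Γ)
  have hstab : MulAction.stabilizer Γ α = Subgroup.normalizer ((Pt α : Subgroup Γ) : Set Γ) :=
    le_antisymm (hPt α).2.2 (hPt α).normalizer_le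
  have hidx : (MulAction.stabilizer Γ α).index = 22 := by
    rw [MulAction.index_stabilizer_of_transitive, hΩ]
  have hcardΓ := Subgroup.card_mul_index (MulAction.stabilizer Γ α)
  rw [hidx, hstab, ← hN] at hcardΓ
  obtain ⟨e, hedef⟩ : ∃ e, e = (Subgroup.centralizer ((Pt α : Subgroup Γ) : Set Γ)).relIndex
      (Subgroup.normalizer ((Pt α : Subgroup Γ) : Set Γ)) := ⟨_, rfl⟩
  obtain ⟨c, hcdef⟩ : ∃ c, c = Nat.card (Subgroup.centralizer ((Pt α : Subgroup Γ) : Set Γ)) :=
    ⟨_, rfl⟩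
  rw [← hedef] at he2
  rw [← hedef, ← hcdef] at hcardΓ
  rw [← hcdef] at hC21 h3dvd h2ndvd h5ndvd h9ndvd
  have he : e = 1 ∨ e = 2 := by
    have h1 : e ∣ 2 := he2
    have h2 : e ≤ 2 := Nat.le_of_dvd (by norm_num) h1
    have h3 : e ≠ 0 := by
      rintro rfl
      simp at h1
    omega
  have hc : c = 3 ∨ c = 21 := by
    interval_cases c <;> omega
  rcases he with rfl | rfl <;> rcases hc with rfl | rfl <;> omega

end

/-- No simple group has order `66`, `132`, `462` or `924`. -/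
theorem ps22_not_simple_order {Γ : Type*} [Group Γ] [Finite Γ] (hsimple : IsSimpleGroup Γ)
    (hcard : Nat.card Γ = 66 ∨ Nat.card Γ = 132 ∨ Nat.card Γ = 462 ∨ Nat.card Γ = 924) :
    False := by
  have : Fact (Nat.Prime 11) := ⟨by norm_num⟩
  obtain ⟨S⟩ : Nonempty (Sylow 11 Γ) := inferInstance
  have hS : Nat.card (S : Subgroup Γ) = 11 := by
    apply ps21_sylow_card_of_dvd S
    · rcases hcard with h | h | h | h <;> rw [h] <;> norm_num
    · rcases hcard with h | h | h | h <;> rw [h] <;> norm_num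
  have h11dvd : 11 ∣ Nat.card (Subgroup.centralizer ((S : Subgroup Γ) : Set Γ)) := by
    have hle : (S : Subgroup Γ) ≤ Subgroup.centralizer ((S : Subgroup Γ) : Set Γ) := by
      intro x hx
      rw [Subgroup.mem_centralizer_iff]
      intro a ha
      have hc : IsCyclic ↥(S : Subgroup Γ) := isCyclic_of_prime_card hS
      let _ := IsCyclic.commGroup (α := ↥(S : Subgroup Γ))
      have h2 := mul_comm (⟨a, ha⟩ : ↥(S : Subgroup Γ)) ⟨x, hx⟩
      exact congrArg Subtype.val h2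
    have h1 := Subgroup.card_dvd_of_le hle
    rwa [hS] at h1
  have he10 := ps21_relIndex_dvd S hS
  have hN := ps21_card_normalizer (S : Subgroup Γ)
  have hS1 : Nat.card (S : Subgroup Γ) ≠ 1 := by rw [hS]; norm_num
  have hSΓ : Nat.card (S : Subgroup Γ) ≠ Nat.card Γ := by
    rw [hS]
    rcases hcard with h | h | h | h <;> rw [h] <;> norm_num
  have he1 : (Subgroup.centralizer ((S : Subgroup Γ) : Set Γ)).relIndex
      (Subgroup.normalizer ((S : Subgroup Γ) : Set Γ)) ≠ 1 := by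
    intro e1
    exact ps21_not_normalizer_le_centralizer hsimple S hS1 hSΓ (Subgroup.relIndex_eq_one.mp e1)
  have hn : Nat.card (Sylow 11 Γ) =
      (Subgroup.normalizer ((S : Subgroup Γ) : Set Γ)).index :=
    Sylow.card_eq_index_normalizer S
  have hmod : Nat.card (Sylow 11 Γ) ≡ 1 [MOD 11] := card_sylow_modEq_one 11 Γ
  have hn1 : (Subgroup.normalizer ((S : Subgroup Γ) : Set Γ)).index ≠ 1 := by
    intro e1
    have htop : Subgroup.normalizer ((S : Subgroup Γ) : Set Γ) = ⊤ := Subgroup.index_eq_one.mp e1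
    have hnormal : (S : Subgroup Γ).Normal := Subgroup.normalizer_eq_top_iff.mp htop
    rcases hnormal.eq_bot_or_eq_top with e | e
    · rw [e, Subgroup.card_bot] at hS1
      exact hS1 rfl
    · rw [e, Subgroup.card_top] at hSΓ
      exact hSΓ rfl
  have hcardΓ := Subgroup.card_mul_index (Subgroup.normalizer ((S : Subgroup Γ) : Set Γ))
  rw [hn] at hmod
  rw [← hN] at hcardΓ
  obtain ⟨e, hedef⟩ : ∃ e, e = (Subgroup.centralizer ((S : Subgroup Γ) : Set Γ)).relIndex
      (Subgroup.normalizer ((S : Subgroup Γ) : Set Γ)) := ⟨_, rfl⟩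
  obtain ⟨n, hndef⟩ : ∃ n, n = (Subgroup.normalizer ((S : Subgroup Γ) : Set Γ)).index :=
    ⟨_, rfl⟩
  rw [← hedef] at he10 he1
  rw [← hedef, ← hndef] at hcardΓ
  rw [← hndef] at hmod hn1
  obtain ⟨k, hk⟩ := h11dvd
  rw [hk] at hcardΓ
  have hmod' : n % 11 = 1 := hmod
  have key6 : ∀ d ∈ Nat.divisors 6, d % 11 = 1 → d = 1 := by decide
  have key12 : ∀ d ∈ Nat.divisors 12, d % 11 = 1 → d = 1 ∨ d = 12 := by decide
  have key42 : ∀ d ∈ Nat.divisors 42, d % 11 = 1 → d = 1 := by decide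
  have key84 : ∀ d ∈ Nat.divisors 84, d % 11 = 1 → d = 1 ∨ d = 12 := by decide
  have key10 : ∀ d ∈ Nat.divisors 10, d = 1 ∨ d = 2 ∨ d = 5 ∨ d = 10 := by decide
  have he : e = 2 ∨ e = 5 ∨ e = 10 := by
    rcases key10 e (Nat.mem_divisors.mpr ⟨he10, by norm_num⟩) with h | h | h | h
    · exact absurd h he1
    · exact Or.inl h
    · exact Or.inr (Or.inl h)
    · exact Or.inr (Or.inr h)
  rcases hcard with h | h | h | h
  · rw [h] at hcardΓ
    have h6 : k * e * n = 6 := by
      have : 11 * (k * e * n) = 66 := by rw [← hcardΓ]; ring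
      omega
    exact hn1 (key6 n (Nat.mem_divisors.mpr ⟨Dvd.intro_left _ h6, by norm_num⟩) hmod')
  · rw [h] at hcardΓ
    have h12 : k * e * n = 12 := by
      have : 11 * (k * e * n) = 132 := by rw [← hcardΓ]; ring
      omega
    rcases key12 n (Nat.mem_divisors.mpr ⟨Dvd.intro_left _ h12, by norm_num⟩) hmod' with e1 | e1
    · exact hn1 e1
    · rw [e1] at h12
      have h1 : k * e = 1 := by omega
      have h2 : e ∣ 1 := Dvd.intro_left _ h1
      have h3 : e = 1 := Nat.dvd_one.mp h2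
      exact he1 h3
  · rw [h] at hcardΓ
    have h42 : k * e * n = 42 := by
      have : 11 * (k * e * n) = 462 := by rw [← hcardΓ]; ring
      omega
    exact hn1 (key42 n (Nat.mem_divisors.mpr ⟨Dvd.intro_left _ h42, by norm_num⟩) hmod')
  · rw [h] at hcardΓ
    have h84 : k * e * n = 84 := by
      have : 11 * (k * e * n) = 924 := by rw [← hcardΓ]; ring
      omega
    rcases key84 n (Nat.mem_divisors.mpr ⟨Dvd.intro_left _ h84, by norm_num⟩) hmod' with e1 | e1
    · exact hn1 e1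
    · rw [e1] at h84
      have h1 : k * e = 7 := by omega
      rcases he with rfl | rfl | rfl <;> omega

/-- **Part I.** A simple group acting faithfully and transitively on `22` points with
point-Sylow `3`-subgroups of order `3` does not exist. -/
theorem ps22_false_of_card_three {Γ : Type*} [Group Γ] [Finite Γ] {Ω : Type*} [MulAction Γ Ω]
    [Fintype Ω] [DecidableEq Ω] [Fact (Nat.Prime 3)] [FaithfulSMul Γ Ω]
    [MulAction.IsPretransitive Γ Ω] (hsimple : IsSimpleGroup Γ) (hΩ : Nat.card Ω = 22)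
    (Pt : Ω → Sylow 3 Γ) (hPt : ∀ γ, IsPointSylow (Pt γ) γ)
    (hP3 : ∀ γ, Nat.card (Pt γ : Subgroup Γ) = 3) : False := by
  obtain ⟨α⟩ := ps22_nonempty hΩ
  have h3dvd : 3 ∣ Nat.card Γ := by
    rw [← hP3 α]
    exact Subgroup.card_subgroup_dvd_card _
  have heven : ∀ g : Γ, Equiv.Perm.sign (MulAction.toPerm g : Equiv.Perm Ω) = 1 :=
    fun g => ps22_even hsimple h3dvd g
  exact ps22_not_simple_order hsimple (ps22_orders hΩ Pt hPt hP3 heven)

end Cfsg.Agent.Helper95
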