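import Mathlib
import Cfsg.Agent.Helper95.Syl22D

set_option autoImplicit false
set_option linter.style.haveILetI false
set_option linter.unusedSectionVars false

/-!
# `22` is not a Sylow `3`-number, part E (helper95)

Point-Sylow `3`-subgroups of order at least `9` on `22` points: adjacency (orbits of
length `3`), lines (fixed points of the intersection of two adjacent point-Sylow subgroups)
and their basic properties.
-/

namespace Cfsg.Agent.Helper95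

open Cfsg.Agent.Helper71

section

variable {Γ : Type*} [Group Γ] [Finite Γ] {Ω : Type*} [MulAction Γ Ω] [Finite Ω]

omit [Finite Γ] [Finite Ω] in
/-- An element of a Sylow subgroup fixing a point lies in the point-Sylow subgroup of that
point. -/
theorem ps22_mem_of_fix {p : ℕ} [Fact p.Prime] {P Q : Sylow p Γ} {δ : Ω}
    (hQ : IsPointSylow Q δ) {x : Γ} (hx : x ∈ (P : Subgroup Γ)) (hxδ : x • δ = δ) :
    x ∈ (Q : Subgroup Γ) := by
  obtain ⟨k, hk⟩ := P.isPGroup' ⟨x, hx⟩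
  have hk' : x ^ p ^ k = 1 := by
    have := congrArg Subtype.val hk
    simpa using this
  exact hQ.mem_of_pow hxδ hk'

omit [Finite Γ] [Finite Ω] in
/-- Conjugation carries point-Sylow subgroups to point-Sylow subgroups. -/
theorem ps22_conj_mem {p : ℕ} [Fact p.Prime] {P Q : Sylow p Γ} {γ β : Ω} {g : Γ}
    (hP : IsPointSylow P γ) (hQ : IsPointSylow Q β) (hβ : g • γ = β) {x : Γ}
    (hx : x ∈ (P : Subgroup Γ)) : g * x * g⁻¹ ∈ (Q : Subgroup Γ) := by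
  obtain ⟨k, hk⟩ := P.isPGroup' ⟨x, hx⟩
  have hk' : x ^ p ^ k = 1 := by
    have := congrArg Subtype.val hk
    simpa using this
  apply hQ.mem_of_pow (k := k)
  · rw [← hβ, mul_smul, mul_smul, inv_smul_smul, hP.1 x hx]
  · rw [conj_pow, hk', mul_one, mul_inv_cancel]

/-- Orbit-stabilizer for a Sylow subgroup and a point with a point-Sylow subgroup. -/
theorem ps22_orbit_stab {p : ℕ} [Fact p.Prime] {P Q : Sylow p Γ} {δ : Ω}
    (hQ : IsPointSylow Q δ) :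
    (porbit (P : Subgroup Γ) δ).ncard * Nat.card ↥((P : Subgroup Γ) ⊓ (Q : Subgroup Γ)) =
      Nat.card (P : Subgroup Γ) := by
  have hmap : (MulAction.stabilizer ↥(P : Subgroup Γ) δ).map (P : Subgroup Γ).subtype =
      (P : Subgroup Γ) ⊓ (Q : Subgroup Γ) := by
    ext x
    constructor
    · rintro ⟨y, hy, rfl⟩
      exact ⟨y.2, ps22_mem_of_fix hQ y.2 (MulAction.mem_stabilizer_iff.mp hy)⟩
    · rintro ⟨hx1, hx2⟩
      exact ⟨⟨x, hx1⟩, MulAction.mem_stabilizer_iff.mpr (hQ.1 x hx2), rfl⟩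
  have h1 := Subgroup.card_mul_index (MulAction.stabilizer ↥(P : Subgroup Γ) δ)
  rw [MulAction.index_stabilizer, ← porbit_eq_orbit] at h1
  rw [← hmap, Subgroup.card_map_of_injective (Subgroup.subtype_injective _), mul_comm]
  exact h1

/-- Non-trivial orbits of a point-Sylow `3`-subgroup on `22` points have length `3` or `9`. -/
theorem ps22_orbit_three_or_nine [Fact (Nat.Prime 3)] {P : Sylow 3 Γ} {γ δ : Ω}
    (hP : IsPointSylow P γ) (hΩ : Nat.card Ω = 22) (hδ : δ ≠ γ) :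
    (porbit (P : Subgroup Γ) δ).ncard = 3 ∨ (porbit (P : Subgroup Γ) δ).ncard = 9 := by
  rw [porbit_eq_orbit, ← Nat.card_coe_set_eq]
  obtain ⟨n, hn⟩ := P.isPGroup'.card_orbit δ
  have h0 : n ≠ 0 := by
    rintro rfl
    apply hδ
    apply hP.2.1
    intro g hg
    have h1 : Nat.card (MulAction.orbit (↥(P : Subgroup Γ)) δ) = 1 := by simpa using hn
    rw [Nat.card_eq_one_iff_unique] at h1
    have h2 := h1.1.elim
      ⟨(⟨g, hg⟩ : ↥(P : Subgroup Γ)) • δ, MulAction.mem_orbit _ _⟩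
      ⟨δ, MulAction.mem_orbit_self _⟩
    exact congrArg Subtype.val h2
  have h1 : Nat.card (MulAction.orbit (↥(P : Subgroup Γ)) δ) ≤ 22 := by
    rw [← hΩ]; exact Nat.card_le_card_of_injective _ Subtype.val_injective
  have h2 : n < 3 := by
    by_contra hcon
    push Not at hcon
    have : 3 ^ 3 ≤ 3 ^ n := Nat.pow_le_pow_right (by norm_num) hcon
    omega
  interval_cases n
  · exact absurd rfl h0
  · left; simpa using hn
  · right; simpa using hn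

/-- Adjacency: the orbit of `δ` under the point-Sylow subgroup of `γ` has length `3`. -/
def ps22_adj (Pt : Ω → Sylow 3 Γ) (γ δ : Ω) : Prop :=
  δ ≠ γ ∧ (porbit (Pt γ : Subgroup Γ) δ).ncard = 3

/-- The line through two points: the fixed points of the intersection of their point-Sylow
subgroups. -/
def ps22_line (Pt : Ω → Sylow 3 Γ) (γ δ : Ω) : Set Ω :=
  {ε | ∀ g ∈ (Pt γ : Subgroup Γ), g ∈ (Pt δ : Subgroup Γ) → g • ε = ε}

omit [Finite Γ] [Finite Ω] in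
theorem ps22_line_comm (Pt : Ω → Sylow 3 Γ) (γ δ : Ω) :
    ps22_line Pt γ δ = ps22_line Pt δ γ := by
  ext ε
  exact ⟨fun h g hg1 hg2 => h g hg2 hg1, fun h g hg1 hg2 => h g hg2 hg1⟩

omit [Finite Γ] [Finite Ω] in
theorem ps22_mem_line (Pt : Ω → Sylow 3 Γ) (hPt : ∀ γ, IsPointSylow (Pt γ) γ) (γ δ : Ω) :
    γ ∈ ps22_line Pt γ δ ∧ δ ∈ ps22_line Pt γ δ :=
  ⟨fun g hg _ => (hPt γ).1 g hg, fun g _ hg => (hPt δ).1 g hg⟩

omit [Finite Γ] [Finite Ω] in
theorem ps22_line_eq_of_inf_eq (Pt : Ω → Sylow 3 Γ) {γ δ ε : Ω}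
    (h : (Pt γ : Subgroup Γ) ⊓ (Pt ε : Subgroup Γ) = (Pt γ : Subgroup Γ) ⊓ (Pt δ : Subgroup Γ)) :
    ps22_line Pt γ ε = ps22_line Pt γ δ := by
  ext ζ
  constructor
  · intro hζ g hg1 hg2
    have h1 : g ∈ (Pt γ : Subgroup Γ) ⊓ (Pt ε : Subgroup Γ) := by rw [h]; exact ⟨hg1, hg2⟩
    exact hζ g h1.1 h1.2
  · intro hζ g hg1 hg2
    have h1 : g ∈ (Pt γ : Subgroup Γ) ⊓ (Pt δ : Subgroup Γ) := by rw [← h]; exact ⟨hg1, hg2⟩
    exact hζ g h1.1 h1.2

variable [Fact (Nat.Prime 3)]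

/-- Adjacency is symmetric. -/
theorem ps22_adj_symm (Pt : Ω → Sylow 3 Γ) (hPt : ∀ γ, IsPointSylow (Pt γ) γ) {a : ℕ}
    (hcard : ∀ γ, Nat.card (Pt γ : Subgroup Γ) = 3 ^ a) {γ δ : Ω} (h : ps22_adj Pt γ δ) :
    ps22_adj Pt δ γ := by
  refine ⟨fun e => h.1 e.symm, ?_⟩
  have h1 := ps22_orbit_stab (P := Pt γ) (hPt δ)
  have h2 := ps22_orbit_stab (P := Pt δ) (hPt γ)
  rw [hcard] at h1 h2
  rw [inf_comm] at h2
  rw [h.2] at h1
  have hpos : 0 < Nat.card ↥((Pt γ : Subgroup Γ) ⊓ (Pt δ : Subgroup Γ)) := Nat.card_pos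
  exact Nat.eq_of_mul_eq_mul_right hpos (h2.trans h1.symm)

/-- The intersection of two adjacent point-Sylow subgroups has index `3`. -/
theorem ps22_inf_card (Pt : Ω → Sylow 3 Γ) (hPt : ∀ γ, IsPointSylow (Pt γ) γ) {a : ℕ}
    (hcard : ∀ γ, Nat.card (Pt γ : Subgroup Γ) = 3 ^ a) {γ δ : Ω} (h : ps22_adj Pt γ δ) :
    3 * Nat.card ↥((Pt γ : Subgroup Γ) ⊓ (Pt δ : Subgroup Γ)) = 3 ^ a := by
  have h1 := ps22_orbit_stab (P := Pt γ) (hPt δ)
  rw [hcard, h.2] at h1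
  exact h1

/-- The stabilizer of `δ` in the point-Sylow subgroup of an adjacent point `γ` fixes the whole
orbit of `δ` (it is normal, being of index `3`). -/
theorem ps22_stab_fix_orbit (Pt : Ω → Sylow 3 Γ) {a : ℕ} (ha : a ≠ 0)
    (hcard : ∀ γ, Nat.card (Pt γ : Subgroup Γ) = 3 ^ a) {γ δ : Ω} (h : ps22_adj Pt γ δ)
    {d : Γ} (hd : d ∈ (Pt γ : Subgroup Γ)) (hdδ : d • δ = δ) {ε : Ω}
    (hε : ε ∈ porbit (Pt γ : Subgroup Γ) δ) : d • ε = ε := by
  have hidx : (MulAction.stabilizer ↥(Pt γ : Subgroup Γ) δ).index =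
      (Nat.card ↥(Pt γ : Subgroup Γ)).minFac := by
    rw [MulAction.index_stabilizer, ← porbit_eq_orbit, h.2, hcard,
      Nat.Prime.pow_minFac Nat.prime_three ha]
  have hnormal := Subgroup.normal_of_index_eq_minFac_card hidx
  obtain ⟨x, hx, rfl⟩ := hε
  have h1 : (⟨x, hx⟩ : ↥(Pt γ : Subgroup Γ))⁻¹ * ⟨d, hd⟩ *
      ((⟨x, hx⟩ : ↥(Pt γ : Subgroup Γ))⁻¹)⁻¹ ∈ MulAction.stabilizer ↥(Pt γ : Subgroup Γ) δ :=
    hnormal.conj_mem _ (MulAction.mem_stabilizer_iff.mpr hdδ) _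
  have h2 : (x⁻¹ * d * x) • δ = δ := by
    have h3 := MulAction.mem_stabilizer_iff.mp h1
    rw [inv_inv] at h3
    exact h3
  calc d • x • δ = x • (x⁻¹ * d * x) • δ := by
        rw [← mul_smul, ← mul_smul]; congr 1; group
    _ = x • δ := by rw [h2]

/-- A point of a line other than the base point is adjacent to the base point and defines the
same intersection. -/
theorem ps22_line_point (hΩ : Nat.card Ω = 22) (Pt : Ω → Sylow 3 Γ)
    (hPt : ∀ γ, IsPointSylow (Pt γ) γ) {a : ℕ}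
    (hcard : ∀ γ, Nat.card (Pt γ : Subgroup Γ) = 3 ^ a) {γ δ ε : Ω} (h : ps22_adj Pt γ δ)
    (hε : ε ∈ ps22_line Pt γ δ) (hεγ : ε ≠ γ) :
    ps22_adj Pt γ ε ∧
      (Pt γ : Subgroup Γ) ⊓ (Pt ε : Subgroup Γ) = (Pt γ : Subgroup Γ) ⊓ (Pt δ : Subgroup Γ) := by
  have hle : (Pt γ : Subgroup Γ) ⊓ (Pt δ : Subgroup Γ) ≤
      (Pt γ : Subgroup Γ) ⊓ (Pt ε : Subgroup Γ) := by
    intro g hg
    exact ⟨hg.1, ps22_mem_of_fix (hPt ε) hg.1 (hε g hg.1 hg.2)⟩
  have h1 := ps22_inf_card Pt hPt hcard h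
  have h2 := ps22_orbit_stab (P := Pt γ) (hPt ε)
  rw [hcard] at h2
  have h3 := Subgroup.card_le_of_le hle
  have hpos : 0 < Nat.card ↥((Pt γ : Subgroup Γ) ⊓ (Pt δ : Subgroup Γ)) := Nat.card_pos
  rcases ps22_orbit_three_or_nine (hPt γ) hΩ hεγ with e | e
  · refine ⟨⟨hεγ, e⟩, ?_⟩
    rw [e] at h2
    exact (Subgroup.eq_of_le_of_card_ge hle (by omega)).symm
  · exfalso
    rw [e] at h2
    omega

/-- The orbit of `δ` under the point-Sylow subgroup of an adjacent point lies on the line. -/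
theorem ps22_orbit_sub_line (Pt : Ω → Sylow 3 Γ) (hPt : ∀ γ, IsPointSylow (Pt γ) γ) {a : ℕ}
    (ha : a ≠ 0) (hcard : ∀ γ, Nat.card (Pt γ : Subgroup Γ) = 3 ^ a) {γ δ : Ω}
    (h : ps22_adj Pt γ δ) : porbit (Pt γ : Subgroup Γ) δ ⊆ ps22_line Pt γ δ := by
  intro ε hε g hg1 hg2
  exact ps22_stab_fix_orbit Pt ha hcard h hg1 ((hPt δ).1 g hg2) hε

/-- Lines have at least four points. -/
theorem ps22_line_ge (Pt : Ω → Sylow 3 Γ) (hPt : ∀ γ, IsPointSylow (Pt γ) γ) {a : ℕ}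
    (ha : a ≠ 0) (hcard : ∀ γ, Nat.card (Pt γ : Subgroup Γ) = 3 ^ a) {γ δ : Ω}
    (h : ps22_adj Pt γ δ) : 4 ≤ (ps22_line Pt γ δ).ncard := by
  have hsub : insert γ (porbit (Pt γ : Subgroup Γ) δ) ⊆ ps22_line Pt γ δ := by
    intro ε hε
    rcases hε with rfl | hε
    · exact (ps22_mem_line Pt hPt _ δ).1
    · exact ps22_orbit_sub_line Pt hPt ha hcard h hε
  have h1 := Set.ncard_le_ncard hsub (Set.toFinite _)
  rwa [Set.ncard_insert_of_notMem ((hPt γ).not_mem_porbit h.1) (Set.toFinite _), h.2] at h1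

/-- Lines are proper subsets: the action is faithful and the intersection is not trivial. -/
theorem ps22_line_le [FaithfulSMul Γ Ω] (hΩ : Nat.card Ω = 22) (Pt : Ω → Sylow 3 Γ)
    (hPt : ∀ γ, IsPointSylow (Pt γ) γ) {a : ℕ} (ha : 2 ≤ a)
    (hcard : ∀ γ, Nat.card (Pt γ : Subgroup Γ) = 3 ^ a) {γ δ : Ω} (h : ps22_adj Pt γ δ) :
    (ps22_line Pt γ δ).ncard ≤ 21 := by
  have h1 := ps22_inf_card Pt hPt hcard h
  have hne : (Pt γ : Subgroup Γ) ⊓ (Pt δ : Subgroup Γ) ≠ ⊥ := by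
    intro e
    rw [e, Subgroup.card_bot] at h1
    have h2 : 3 ^ 2 ≤ 3 ^ a := Nat.pow_le_pow_right (by norm_num) ha
    omega
  obtain ⟨d, hd, hd1⟩ : ∃ d ∈ (Pt γ : Subgroup Γ) ⊓ (Pt δ : Subgroup Γ), d ≠ 1 := by
    by_contra hcon
    push Not at hcon
    apply hne
    rw [Subgroup.eq_bot_iff_forall]
    exact hcon
  have hle : (ps22_line Pt γ δ).ncard ≤ 22 := by
    rw [← hΩ, ← Set.ncard_univ]
    exact Set.ncard_le_ncard (Set.subset_univ _) (Set.toFinite _)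
  have hne22 : (ps22_line Pt γ δ).ncard ≠ 22 := by
    intro e
    have h2 : ps22_line Pt γ δ = Set.univ := by
      rw [Set.eq_univ_iff_ncard, e, hΩ]
    apply hd1
    apply FaithfulSMul.eq_of_smul_eq_smul (α := Ω)
    intro ξ
    rw [one_smul]
    have h3 : ξ ∈ ps22_line Pt γ δ := h2 ▸ Set.mem_univ ξ
    exact h3 d hd.1 hd.2
  omega

/-- Lines have `1` modulo `3` points. -/
theorem ps22_line_mod (hΩ : Nat.card Ω = 22) (Pt : Ω → Sylow 3 Γ)
    (hPt : ∀ γ, IsPointSylow (Pt γ) γ) {a : ℕ} (ha : a ≠ 0)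
    (hcard : ∀ γ, Nat.card (Pt γ : Subgroup Γ) = 3 ^ a) {γ δ : Ω} (h : ps22_adj Pt γ δ) :
    (ps22_line Pt γ δ).ncard % 3 = 1 := by
  have h1 := ps22_inf_card Pt hPt hcard h
  -- an element of `Pt γ` outside the intersection
  obtain ⟨x, hx, hxD⟩ : ∃ x ∈ (Pt γ : Subgroup Γ), x ∉ (Pt δ : Subgroup Γ) := by
    by_contra hcon
    push Not at hcon
    have hle : (Pt γ : Subgroup Γ) ≤ (Pt γ : Subgroup Γ) ⊓ (Pt δ : Subgroup Γ) :=
      fun g hg => ⟨hg, hcon g hg⟩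
    have h2 := Subgroup.card_le_of_le hle
    rw [hcard] at h2
    have hpos : 0 < Nat.card ↥((Pt γ : Subgroup Γ) ⊓ (Pt δ : Subgroup Γ)) := Nat.card_pos
    omega
  obtain ⟨k, hk⟩ := (Pt γ).isPGroup' ⟨x, hx⟩
  have hk' : x ^ 3 ^ k = 1 := by
    have := congrArg Subtype.val hk
    simpa using this
  have hinv : ∀ ξ ∈ ps22_line Pt γ δ, x • ξ ∈ ps22_line Pt γ δ := by
    intro ξ hξ
    by_cases hξγ : ξ = γ
    · rw [hξγ, (hPt γ).1 x hx]
      exact (ps22_mem_line Pt hPt γ δ).1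
    · obtain ⟨hadj, hinf⟩ := ps22_line_point hΩ Pt hPt hcard h hξ hξγ
      rw [← ps22_line_eq_of_inf_eq Pt hinf]
      exact ps22_orbit_sub_line Pt hPt ha hcard hadj ⟨x, hx, rfl⟩
  have h2 := ps22_restrict_modEq (q := 3) (n := k) hk' (ps22_line Pt γ δ) hinv
  have h3 : (ps22_line Pt γ δ ∩ {ξ : Ω | x • ξ = ξ}) = {γ} := by
    ext ξ
    constructor
    · rintro ⟨hξ, hxξ⟩
      by_contra hξγ
      obtain ⟨-, hinf⟩ := ps22_line_point hΩ Pt hPt hcard h hξ hξγ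
      have h4 : x ∈ (Pt γ : Subgroup Γ) ⊓ (Pt ξ : Subgroup Γ) :=
        ⟨hx, ps22_mem_of_fix (hPt ξ) hx hxξ⟩
      rw [hinf] at h4
      exact hxD h4.2
    · rintro rfl
      exact ⟨(ps22_mem_line Pt hPt _ δ).1, (hPt _).1 x hx⟩
  rw [h3, Set.ncard_singleton] at h2
  exact h2

end

end Cfsg.Agent.Helper95
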