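import Mathlib
import Cfsg.Agent.Helper95.Syl22E
import Cfsg.Agent.Helper25.Ps22Count
import Cfsg.Agent.Lead.Ps22Geom

set_option autoImplicit false
set_option linter.style.haveILetI false
set_option linter.unusedSectionVars false

/-!
# `22` is not a Sylow `3`-number, part F (helper95)

Invariance of adjacency and lines, valencies, the transitivity property of the geometry, and
the assembly: no finite simple group has exactly `22` Sylow `3`-subgroups.

The two purely combinatorial steps are `Cfsg.Agent.Helper25.ps22_geom_count` (helper25) and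
`Cfsg.Agent.Lead.ps22_geom_false` (lead).
-/

namespace Cfsg.Agent.Helper95

open Cfsg.Agent.Helper71

section

variable {Γ : Type*} [Group Γ] [Finite Γ] {Ω : Type*} [MulAction Γ Ω] [Finite Ω]

omit [Finite Γ] [Finite Ω] in
theorem ps22_porbit_eq {P : Subgroup Γ} {x y : Ω} (h : y ∈ porbit P x) :
    porbit P y = porbit P x := by
  ext z
  exact ⟨fun hz => mem_porbit_trans P h hz,
    fun hz => mem_porbit_trans P (mem_porbit_symm P h) hz⟩

variable [Fact (Nat.Prime 3)]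

omit [Finite Γ] [Finite Ω] in
/-- Orbits of point-Sylow subgroups are permuted by the group. -/
theorem ps22_porbit_smul (Pt : Ω → Sylow 3 Γ) (hPt : ∀ γ, IsPointSylow (Pt γ) γ) (g : Γ)
    (γ δ : Ω) :
    porbit (Pt (g • γ) : Subgroup Γ) (g • δ) =
      (fun ω => g • ω) '' porbit (Pt γ : Subgroup Γ) δ := by
  ext ω
  constructor
  · rintro ⟨x, hx, rfl⟩
    refine ⟨(g⁻¹ * x * g) • δ, ⟨g⁻¹ * x * g, ?_, rfl⟩, ?_⟩
    · have h1 := ps22_conj_mem (g := g⁻¹) (hPt (g • γ)) (hPt γ) (inv_smul_smul g γ) hx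
      rwa [inv_inv] at h1
    · show g • (g⁻¹ * x * g) • δ = x • g • δ
      rw [← mul_smul, ← mul_smul]
      congr 1
      group
  · rintro ⟨_, ⟨y, hy, rfl⟩, rfl⟩
    refine ⟨g * y * g⁻¹, ps22_conj_mem (hPt γ) (hPt (g • γ)) rfl hy, ?_⟩
    show (g * y * g⁻¹) • g • δ = g • y • δ
    rw [← mul_smul, ← mul_smul]
    congr 1
    group

omit [Finite Γ] [Finite Ω] in
/-- Adjacency is invariant. -/
theorem ps22_adj_smul (Pt : Ω → Sylow 3 Γ) (hPt : ∀ γ, IsPointSylow (Pt γ) γ) (g : Γ)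
    {γ δ : Ω} (h : ps22_adj Pt γ δ) : ps22_adj Pt (g • γ) (g • δ) := by
  refine ⟨fun e => h.1 (MulAction.injective g e), ?_⟩
  rw [ps22_porbit_smul Pt hPt, Set.ncard_image_of_injective _ (MulAction.injective g), h.2]

omit [Finite Γ] [Finite Ω] in
/-- Lines are permuted by the group. -/
theorem ps22_line_smul (Pt : Ω → Sylow 3 Γ) (hPt : ∀ γ, IsPointSylow (Pt γ) γ) (g : Γ)
    (γ δ : Ω) :
    ps22_line Pt (g • γ) (g • δ) = (fun ω => g • ω) '' ps22_line Pt γ δ := by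
  ext ε
  constructor
  · intro hε
    refine ⟨g⁻¹ • ε, ?_, smul_inv_smul g ε⟩
    intro y hy1 hy2
    have h1 := hε (g * y * g⁻¹) (ps22_conj_mem (hPt γ) (hPt (g • γ)) rfl hy1)
      (ps22_conj_mem (hPt δ) (hPt (g • δ)) rfl hy2)
    calc y • g⁻¹ • ε = g⁻¹ • (g * y * g⁻¹) • ε := by
          rw [← mul_smul, ← mul_smul]; congr 1; group
      _ = g⁻¹ • ε := by rw [h1]
  · rintro ⟨ζ, hζ, rfl⟩
    intro x hx1 hx2
    have hy1 : g⁻¹ * x * g ∈ (Pt γ : Subgroup Γ) := by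
      have h1 := ps22_conj_mem (g := g⁻¹) (hPt (g • γ)) (hPt γ) (inv_smul_smul g γ) hx1
      rwa [inv_inv] at h1
    have hy2 : g⁻¹ * x * g ∈ (Pt δ : Subgroup Γ) := by
      have h1 := ps22_conj_mem (g := g⁻¹) (hPt (g • δ)) (hPt δ) (inv_smul_smul g δ) hx2
      rwa [inv_inv] at h1
    have h1 := hζ _ hy1 hy2
    show x • g • ζ = g • ζ
    calc x • g • ζ = g • (g⁻¹ * x * g) • ζ := by
          rw [← mul_smul, ← mul_smul]; congr 1; group
      _ = g • ζ := by rw [h1]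

/-- The valency is `3`, `12` or `21`. -/
theorem ps22_deg (hΩ : Nat.card Ω = 22) (Pt : Ω → Sylow 3 Γ)
    (hPt : ∀ γ, IsPointSylow (Pt γ) γ) (γ : Ω) :
    {δ | ps22_adj Pt γ δ}.ncard = 3 ∨ {δ | ps22_adj Pt γ δ}.ncard = 12 ∨
      {δ | ps22_adj Pt γ δ}.ncard = 21 := by
  classical
  have : Fintype Ω := Fintype.ofFinite Ω
  have hunion : {δ | ps22_adj Pt γ δ} ∪
      {δ : Ω | δ ≠ γ ∧ (porbit (Pt γ : Subgroup Γ) δ).ncard = 9} = ({γ} : Set Ω)ᶜ := by
    ext δ
    constructor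
    · rintro (h | h)
      · exact h.1
      · exact h.1
    · intro hδ
      have hδ' : δ ≠ γ := hδ
      rcases ps22_orbit_three_or_nine (hPt γ) hΩ hδ' with e | e
      · exact Or.inl ⟨hδ', e⟩
      · exact Or.inr ⟨hδ', e⟩
  have hdisj : Disjoint {δ | ps22_adj Pt γ δ}
      {δ : Ω | δ ≠ γ ∧ (porbit (Pt γ : Subgroup Γ) δ).ncard = 9} := by
    rw [Set.disjoint_left]
    rintro δ h1 h2
    have e1 : (porbit (Pt γ : Subgroup Γ) δ).ncard = 3 := h1.2
    have e2 : (porbit (Pt γ : Subgroup Γ) δ).ncard = 9 := h2.2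
    omega
  have hsum := Set.ncard_union_eq hdisj (Set.toFinite _) (Set.toFinite _)
  rw [hunion, Set.ncard_compl, Set.ncard_singleton, hΩ] at hsum
  have h9 : 9 ∣ ({δ : Ω | δ ≠ γ ∧ (porbit (Pt γ : Subgroup Γ) δ).ncard = 9} : Set Ω).ncard := by
    rw [Set.ncard_eq_toFinset_card']
    apply Cfsg.Agent.Helper25.ps22_dvd_card_of_fibers _
      (fun δ => porbit (Pt γ : Subgroup Γ) δ) 9
    intro x hx
    rw [Set.mem_toFinset] at hx
    have hset : ((Finset.filter (fun y => porbit (Pt γ : Subgroup Γ) y =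
        porbit (Pt γ : Subgroup Γ) x)
        ({δ : Ω | δ ≠ γ ∧ (porbit (Pt γ : Subgroup Γ) δ).ncard = 9} : Set Ω).toFinset :
        Finset Ω) : Set Ω) = porbit (Pt γ : Subgroup Γ) x := by
      ext y
      simp only [Finset.coe_filter, Set.mem_toFinset]
      constructor
      · rintro ⟨-, hy⟩
        rw [← hy]
        exact mem_porbit_self _ _
      · intro hy
        have heq := ps22_porbit_eq hy
        refine ⟨⟨?_, ?_⟩, heq⟩
        · rintro rfl
          exact (hPt y).not_mem_porbit hx.1 hy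
        · rw [heq]
          exact hx.2
    rw [← Set.ncard_coe_finset, hset]
    exact hx.2
  omega

/-- The transitivity property of the geometry, when all lines have four points. -/
theorem ps22_G2 (Pt : Ω → Sylow 3 Γ) (hPt : ∀ γ, IsPointSylow (Pt γ) γ) {a : ℕ}
    (ha : a ≠ 0) (hcard : ∀ γ, Nat.card (Pt γ : Subgroup Γ) = 3 ^ a)
    (hfour : ∀ γ δ, ps22_adj Pt γ δ → (ps22_line Pt γ δ).ncard = 4)
    {γ δ ε ζ : Ω} (h1 : ps22_adj Pt γ δ) (h2 : ps22_adj Pt γ ε) (h3 : ε ∉ ps22_line Pt γ δ)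
    (h4 : ζ ∈ ps22_line Pt γ δ) (h5 : ps22_adj Pt ζ ε) :
    ∀ ε' ∈ ps22_line Pt γ ε, ε' ≠ γ → ps22_adj Pt ζ ε' := by
  intro ε' hε' hε'γ
  have hline : insert γ (porbit (Pt γ : Subgroup Γ) ε) = ps22_line Pt γ ε := by
    apply Set.eq_of_subset_of_ncard_le _ _ (Set.toFinite _)
    · intro ξ hξ
      rcases hξ with rfl | hξ
      · exact (ps22_mem_line Pt hPt _ ε).1
      · exact ps22_orbit_sub_line Pt hPt ha hcard h2 hξ
    · rw [hfour γ ε h2,
        Set.ncard_insert_of_notMem ((hPt γ).not_mem_porbit h2.1) (Set.toFinite _), h2.2]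
  rw [← hline] at hε'
  have hε'O : ε' ∈ porbit (Pt γ : Subgroup Γ) ε := hε'.resolve_left hε'γ
  have hDsub : porbit ((Pt γ : Subgroup Γ) ⊓ (Pt δ : Subgroup Γ)) ε ⊆
      porbit (Pt γ : Subgroup Γ) ε := by
    rintro _ ⟨d, hd, rfl⟩
    exact ⟨d, hd.1, rfl⟩
  have hDp : IsPGroup 3 ↥((Pt γ : Subgroup Γ) ⊓ (Pt δ : Subgroup Γ)) :=
    (Pt γ).isPGroup'.to_le inf_le_left
  obtain ⟨n, hn⟩ := hDp.card_orbit ε
  have hn0 : n ≠ 0 := by
    rintro rfl
    apply h3
    intro g hg1 hg2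
    have h1' : Nat.card (MulAction.orbit ↥((Pt γ : Subgroup Γ) ⊓ (Pt δ : Subgroup Γ)) ε) = 1 := by
      simpa using hn
    rw [Nat.card_eq_one_iff_unique] at h1'
    have h2' := h1'.1.elim
      ⟨(⟨g, ⟨hg1, hg2⟩⟩ : ↥((Pt γ : Subgroup Γ) ⊓ (Pt δ : Subgroup Γ))) • ε,
        MulAction.mem_orbit _ _⟩
      ⟨ε, MulAction.mem_orbit_self _⟩
    exact congrArg Subtype.val h2'
  have hDcard : 3 ≤ (porbit ((Pt γ : Subgroup Γ) ⊓ (Pt δ : Subgroup Γ)) ε).ncard := by
    rw [porbit_eq_orbit, ← Nat.card_coe_set_eq, hn]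
    calc 3 = 3 ^ 1 := by norm_num
      _ ≤ 3 ^ n := Nat.pow_le_pow_right (by norm_num) (by omega)
  have hDeq : porbit ((Pt γ : Subgroup Γ) ⊓ (Pt δ : Subgroup Γ)) ε =
      porbit (Pt γ : Subgroup Γ) ε :=
    Set.eq_of_subset_of_ncard_le hDsub (by rw [h2.2]; exact hDcard) (Set.toFinite _)
  rw [← hDeq] at hε'O
  obtain ⟨d, hd, rfl⟩ := hε'O
  have hdζ : d • ζ = ζ := h4 d hd.1 hd.2
  have h6 := ps22_adj_smul Pt hPt d h5
  rwa [hdζ] at h6

/-- **Part II.** Point-Sylow `3`-subgroups of order at least `9` on `22` points do not exist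
(faithful transitive action). -/
theorem ps22_false_of_card_ge [FaithfulSMul Γ Ω] [MulAction.IsPretransitive Γ Ω]
    (hΩ : Nat.card Ω = 22) (Pt : Ω → Sylow 3 Γ) (hPt : ∀ γ, IsPointSylow (Pt γ) γ) {a : ℕ}
    (ha : 2 ≤ a) (hcard : ∀ γ, Nat.card (Pt γ : Subgroup Γ) = 3 ^ a) : False := by
  have ha0 : a ≠ 0 := by omega
  have hsymm : ∀ γ δ, ps22_adj Pt γ δ → ps22_adj Pt δ γ :=
    fun γ δ h => ps22_adj_symm Pt hPt hcard h
  have hirr : ∀ γ, ¬ ps22_adj Pt γ γ := fun γ h => h.1 rfl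
  have hmem : ∀ γ δ, ps22_adj Pt γ δ → γ ∈ ps22_line Pt γ δ ∧ δ ∈ ps22_line Pt γ δ :=
    fun γ δ _ => ps22_mem_line Pt hPt γ δ
  have hcomm : ∀ γ δ, ps22_adj Pt γ δ → ps22_line Pt γ δ = ps22_line Pt δ γ :=
    fun γ δ _ => ps22_line_comm Pt γ δ
  have hline : ∀ γ δ ε, ps22_adj Pt γ δ → ε ∈ ps22_line Pt γ δ → ε ≠ γ →
      ps22_adj Pt γ ε ∧ ps22_line Pt γ ε = ps22_line Pt γ δ := by
    intro γ δ ε h hε hεγ
    obtain ⟨h1, h2⟩ := ps22_line_point hΩ Pt hPt hcard h hε hεγ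
    exact ⟨h1, ps22_line_eq_of_inf_eq Pt h2⟩
  obtain ⟨hdeg, hfour⟩ := Cfsg.Agent.Helper25.ps22_geom_count (Γ := Γ) hΩ (ps22_adj Pt)
    (ps22_line Pt) hsymm hirr hmem hcomm hline
    (fun γ δ h => ps22_line_mod hΩ Pt hPt ha0 hcard h)
    (fun γ δ h => ps22_line_ge Pt hPt ha0 hcard h)
    (fun γ δ h => ps22_line_le hΩ Pt hPt ha hcard h)
    (fun g γ δ h => ps22_adj_smul Pt hPt g h)
    (fun g γ δ _ => ps22_line_smul Pt hPt g γ δ)
    (fun γ => ps22_deg hΩ Pt hPt γ)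
  exact Cfsg.Agent.Lead.ps22_geom_false hΩ (ps22_adj Pt) (ps22_line Pt) hsymm hirr hmem hcomm
    hline hfour hdeg
    (fun γ δ ε ζ h1 h2 h3 h4 h5 => ps22_G2 Pt hPt ha0 hcard hfour h1 h2 h3 h4 h5)

end

/-- Main permutation-group statement: a simple group acting faithfully and transitively on
`22` points such that every point `β` has a Sylow `3`-subgroup fixing exactly `β` and normal
in the stabilizer of `β` does not exist. -/
theorem ps22_false {Γ : Type*} [Group Γ] [Finite Γ] {Ω : Type*} [MulAction Γ Ω] [Fintype Ω]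
    [DecidableEq Ω] [Fact (Nat.Prime 3)] [FaithfulSMul Γ Ω] [MulAction.IsPretransitive Γ Ω]
    (hsimple : IsSimpleGroup Γ) (hΩ : Nat.card Ω = 22)
    (hall : ∀ β : Ω, ∃ P : Sylow 3 Γ, IsPointSylow P β) : False := by
  obtain ⟨α⟩ := ps22_nonempty hΩ
  obtain ⟨β₁, hβ₁⟩ := ps22_exists_ne hΩ α
  choose Pt hPt using hall
  obtain ⟨k, hk⟩ : ∃ k, k = (Nat.card Γ).factorization 3 := ⟨_, rfl⟩
  have hcardall : ∀ γ : Ω, Nat.card (Pt γ : Subgroup Γ) = 3 ^ k := fun γ => by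
    rw [hk]; exact Sylow.card_eq_multiplicity (Pt γ)
  have hk0 : k ≠ 0 := by
    intro e
    have h1 : Nat.card (Pt α : Subgroup Γ) = 1 := by rw [hcardall α, e, pow_zero]
    have h2 : (Pt α : Subgroup Γ) = ⊥ := Subgroup.card_eq_one.mp h1
    apply hβ₁
    apply (hPt α).2.1
    intro g hg
    rw [h2, Subgroup.mem_bot] at hg
    rw [hg, one_smul]
  by_cases hk1 : k = 1
  · exact ps22_false_of_card_three hsimple hΩ Pt hPt
      (fun γ => by rw [hcardall γ, hk1, pow_one])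
  · exact ps22_false_of_card_ge hΩ Pt hPt (a := k) (by omega) hcardall

/-- No finite simple group has exactly `22` Sylow `3`-subgroups. -/
theorem ps22_simple {S : Type*} [Group S] [Finite S] (hsimple : IsSimpleGroup S)
    [Fact (Nat.Prime 3)] : Nat.card (Sylow 3 S) ≠ 22 := by
  classical
  intro h22
  have : Fintype (Sylow 3 S) := Fintype.ofFinite _
  have hfaith : FaithfulSMul S (Sylow 3 S) := by
    rcases (MonoidHom.normal_ker (MulAction.toPermHom S (Sylow 3 S))).eq_bot_or_eq_top with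
      e | e
    · refine ⟨fun {g₁ g₂} hg => ?_⟩
      have h1 : MulAction.toPermHom S (Sylow 3 S) g₁ = MulAction.toPermHom S (Sylow 3 S) g₂ :=
        Equiv.ext hg
      exact (MonoidHom.ker_eq_bot_iff _).mp e h1
    · exfalso
      obtain ⟨α⟩ := ps22_nonempty h22
      obtain ⟨β, hβ⟩ := ps22_exists_ne h22 α
      obtain ⟨g, hg⟩ := MulAction.exists_smul_eq S α β
      have hgk : g ∈ (MulAction.toPermHom S (Sylow 3 S)).ker := by rw [e]; exact Subgroup.mem_top g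
      rw [MonoidHom.mem_ker] at hgk
      have h1 : MulAction.toPermHom S (Sylow 3 S) g α = α := by rw [hgk]; rfl
      exact hβ (hg.symm.trans h1)
  have hall : ∀ β : Sylow 3 S, ∃ P : Sylow 3 S, IsPointSylow P β := by
    intro Q
    refine ⟨Q, ?_, ?_, ?_⟩
    · intro g hg
      exact Sylow.smul_eq_iff_mem_normalizer.mpr (Subgroup.le_normalizer hg)
    · intro R hR
      have h1 : (Q : Subgroup S) ≤ Subgroup.normalizer ((R : Subgroup S) : Set S) := by
        intro g hg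
        exact Sylow.smul_eq_iff_mem_normalizer.mp (hR g hg)
      have h2 := Q.isPGroup'.inf_normalizer_sylow R
      have h3 : (Q : Subgroup S) ≤ R := by
        intro g hg
        have h4 : g ∈ (Q : Subgroup S) ⊓ (R : Subgroup S) := by
          rw [← h2]; exact ⟨hg, h1 hg⟩
        exact h4.2
      exact Sylow.ext (Q.is_maximal' R.isPGroup' h3)
    · intro g hg
      rw [MulAction.mem_stabilizer_iff] at hg
      exact Sylow.smul_eq_iff_mem_normalizer.mp hg
  exact ps22_false hsimple h22 hall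

end Cfsg.Agent.Helper95
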