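import Mathlib
import Cfsg.Agent.Helper71.SylFifteenE

set_option autoImplicit false

/-!
# `35` is not a Sylow `17`-number, part A (helper95)

Port of helper71's argument for `n₇ ≠ 15` (`Helper71/SylFifteen*`) to the prime `17` and
degree `35 = 1 + 17 + 17`.
-/

namespace Cfsg.Agent.Helper95

open Cfsg.Agent.Helper71

section

variable {Γ : Type*} [Group Γ] {Ω : Type*} [MulAction Γ Ω] [Finite Ω]

theorem ps35_ncard_porbit [Fact (Nat.Prime 17)] {P : Sylow 17 Γ} {α : Ω}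
    (h : IsPointSylow P α) (hΩ : Nat.card Ω = 35) {γ : Ω} (hγ : γ ≠ α) :
    (porbit (P : Subgroup Γ) γ).ncard = 17 := by
  rw [porbit_eq_orbit, ← Nat.card_coe_set_eq]
  obtain ⟨n, hn⟩ := P.isPGroup'.card_orbit γ
  have h0 : n ≠ 0 := by
    rintro rfl
    apply hγ
    apply h.2.1
    intro g hg
    have h1 : Nat.card (MulAction.orbit (↥(P : Subgroup Γ)) γ) = 1 := by simpa using hn
    rw [Nat.card_eq_one_iff_unique] at h1
    have h2 := h1.1.elim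
      ⟨(⟨g, hg⟩ : ↥(P : Subgroup Γ)) • γ, MulAction.mem_orbit _ _⟩
      ⟨γ, MulAction.mem_orbit_self _⟩
    exact congrArg Subtype.val h2
  have h1 : Nat.card (MulAction.orbit (↥(P : Subgroup Γ)) γ) ≤ 35 := by
    rw [← hΩ]; exact Nat.card_le_card_of_injective _ Subtype.val_injective
  have h2 : n < 2 := by
    by_contra hcon
    push Not at hcon
    have : 17 ^ 2 ≤ 17 ^ n := Nat.pow_le_pow_right (by norm_num) hcon
    omega
  interval_cases n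
  · exact absurd rfl h0
  · simpa using hn

/-- The orbit decomposition `Ω = {α} ⊔ O₁ ⊔ O₂`. -/
theorem ps35_exists_decomp [Fact (Nat.Prime 17)] {P : Sylow 17 Γ} {α : Ω}
    (h : IsPointSylow P α) (hΩ : Nat.card Ω = 35) {β₁ : Ω} (hβ₁ : β₁ ≠ α) :
    ∃ β₂ : Ω, β₂ ≠ α ∧ β₂ ∉ porbit (P : Subgroup Γ) β₁ ∧
      ∀ ω : Ω, ω = α ∨ ω ∈ porbit (P : Subgroup Γ) β₁ ∨ ω ∈ porbit (P : Subgroup Γ) β₂ := by
  have hc1 := ps35_ncard_porbit h hΩ hβ₁
  have hex : ∃ β₂, β₂ ∉ ({α} ∪ porbit (P : Subgroup Γ) β₁ : Set Ω) := by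
    by_contra hcon
    push Not at hcon
    have huniv : ({α} ∪ porbit (P : Subgroup Γ) β₁ : Set Ω) = Set.univ :=
      Set.eq_univ_of_forall hcon
    have h1 : ({α} ∪ porbit (P : Subgroup Γ) β₁ : Set Ω).ncard ≤ 1 + 17 := by
      calc _ ≤ ({α} : Set Ω).ncard + (porbit (P : Subgroup Γ) β₁).ncard :=
            Set.ncard_union_le _ _
        _ = 1 + 17 := by rw [Set.ncard_singleton, hc1]
    rw [huniv, Set.ncard_univ, hΩ] at h1
    omega
  obtain ⟨β₂, hβ₂⟩ := hex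
  have hβ₂α : β₂ ≠ α := fun e => hβ₂ (Or.inl e)
  have hβ₂1 : β₂ ∉ porbit (P : Subgroup Γ) β₁ := fun e => hβ₂ (Or.inr e)
  refine ⟨β₂, hβ₂α, hβ₂1, ?_⟩
  have hc2 := ps35_ncard_porbit h hΩ hβ₂α
  have hdisj : Disjoint (porbit (P : Subgroup Γ) β₁) (porbit (P : Subgroup Γ) β₂) := by
    rw [Set.disjoint_left]
    intro ω h1 h2
    exact hβ₂1 (mem_porbit_trans _ h1 (mem_porbit_symm _ h2))
  have hdisj2 : Disjoint ({α} : Set Ω)
      (porbit (P : Subgroup Γ) β₁ ∪ porbit (P : Subgroup Γ) β₂) := by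
    rw [Set.disjoint_singleton_left]
    rintro (h1 | h1)
    · exact h.not_mem_porbit hβ₁ h1
    · exact h.not_mem_porbit hβ₂α h1
  have hcard : ({α} ∪ (porbit (P : Subgroup Γ) β₁ ∪ porbit (P : Subgroup Γ) β₂) :
      Set Ω).ncard = 35 := by
    rw [Set.ncard_union_eq hdisj2 (Set.toFinite _) (Set.toFinite _),
      Set.ncard_union_eq hdisj (Set.toFinite _) (Set.toFinite _), Set.ncard_singleton, hc1, hc2]
  have huniv : ({α} ∪ (porbit (P : Subgroup Γ) β₁ ∪ porbit (P : Subgroup Γ) β₂) : Set Ω) =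
      Set.univ := by
    rw [Set.eq_univ_iff_ncard, hcard, hΩ]
  intro ω
  have hω := Set.mem_univ ω
  rw [← huniv] at hω
  simpa using hω

theorem ps35_exists_ne_one_fixing [Fact (Nat.Prime 17)] {P : Sylow 17 Γ} {α : Ω}
    (h : IsPointSylow P α) (hΩ : Nat.card Ω = 35) (hP : Nat.card (P : Subgroup Γ) = 289)
    {γ : Ω} (hγ : γ ≠ α) : ∃ x ∈ (P : Subgroup Γ), x ≠ 1 ∧ x • γ = γ := by
  have h1 := MulAction.index_stabilizer (↥(P : Subgroup Γ)) γ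
  rw [← porbit_eq_orbit, ps35_ncard_porbit h hΩ hγ] at h1
  have h2 := Subgroup.card_mul_index (MulAction.stabilizer (↥(P : Subgroup Γ)) γ)
  rw [h1, hP] at h2
  have h3 : Nat.card (MulAction.stabilizer (↥(P : Subgroup Γ)) γ) = 17 := by omega
  have h4 : MulAction.stabilizer (↥(P : Subgroup Γ)) γ ≠ ⊥ := by
    intro e
    rw [e, Subgroup.card_bot] at h3
    omega
  obtain ⟨⟨x, hx⟩, hx1⟩ := Subgroup.ne_bot_iff_exists_ne_one.mp h4
  refine ⟨x.1, x.2, ?_, ?_⟩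
  · intro e
    apply hx1
    apply Subtype.ext
    apply Subtype.ext
    exact e
  · exact MulAction.mem_stabilizer_iff.mp hx

omit [Finite Ω] in
theorem ps35_exists_ne (hΩ : Nat.card Ω = 35) (α : Ω) : ∃ β : Ω, β ≠ α := by
  by_contra hcon
  push Not at hcon
  have hs : Subsingleton Ω := ⟨fun a b => (hcon a).trans (hcon b).symm⟩
  have := Nat.card_eq_one_iff_unique.mpr ⟨hs, ⟨α⟩⟩
  omega

/-- Sylow `17`-subgroups of order `289` are impossible. -/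
theorem ps35_false_of_card_289 [Fact (Nat.Prime 17)] [FaithfulSMul Γ Ω] (hΩ : Nat.card Ω = 35)
    (hall : ∀ β : Ω, ∃ P : Sylow 17 Γ, IsPointSylow P β)
    (hcard : ∀ P : Sylow 17 Γ, Nat.card (P : Subgroup Γ) = 289) : False := by
  have hne : Nonempty Ω := by
    by_contra hcon
    rw [not_nonempty_iff] at hcon
    rw [Nat.card_of_isEmpty] at hΩ
    omega
  obtain ⟨α⟩ := hne
  obtain ⟨P, hP⟩ := hall α
  obtain ⟨β₁, hβ₁⟩ := ps35_exists_ne hΩ α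
  obtain ⟨β₂, hβ₂α, hβ₂1, hdec⟩ := ps35_exists_decomp hP hΩ hβ₁
  have hcomm : ∀ (Q : Sylow 17 Γ), ∀ a ∈ (Q : Subgroup Γ), ∀ b ∈ (Q : Subgroup Γ),
      a * b = b * a := by
    intro Q a ha b hb
    have h1 : IsMulCommutative ↥(Q : Subgroup Γ) :=
      IsPGroup.isMulCommutative_of_card_eq_prime_sq (p := 17) (by rw [hcard Q]; norm_num)
    have h2 := mul_comm' (⟨a, ha⟩ : ↥(Q : Subgroup Γ)) ⟨b, hb⟩
    exact congrArg Subtype.val h2
  have hpow : ∀ (S : Sylow 17 Γ), ∀ g ∈ (S : Subgroup Γ), g ^ 17 ^ 2 = 1 := by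
    intro S g hg
    have h1 : (⟨g, hg⟩ : ↥(S : Subgroup Γ)) ^ Nat.card (S : Subgroup Γ) = 1 := pow_card_eq_one'
    rw [hcard S] at h1
    have h2 := congrArg Subtype.val h1
    simpa using h2
  obtain ⟨x, hxP, hx1, hxβ₁⟩ := ps35_exists_ne_one_fixing hP hΩ (hcard P) hβ₁
  obtain ⟨y, hyP, hy1, hyβ₂⟩ := ps35_exists_ne_one_fixing hP hΩ (hcard P) hβ₂α
  have hH4 : ∀ g ∈ (P : Subgroup Γ), g • β₁ = β₁ → g • β₂ = β₂ → g = 1 := by
    intro g hg h1 h2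
    apply FaithfulSMul.eq_of_smul_eq_smul (α := Ω)
    intro ω
    rw [one_smul]
    rcases hdec ω with rfl | hω | hω
    · exact hP.1 g hg
    · exact smul_eq_of_mem_porbit_of_comm _ (hcomm P) hg h1 hω
    · exact smul_eq_of_mem_porbit_of_comm _ (hcomm P) hg h2 hω
  have hxy : ∀ ω : Ω, x • ω = ω → y • ω = ω → ω = α := by
    intro ω hxω hyω
    rcases hdec ω with rfl | hω | hω
    · rfl
    · exfalso
      have h1 : y • β₁ = β₁ :=
        smul_eq_of_mem_porbit_of_comm _ (hcomm P) hyP hyω (mem_porbit_symm _ hω)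
      exact hy1 (hH4 y hyP h1 hyβ₂)
    · exfalso
      have h1 : x • β₂ = β₂ :=
        smul_eq_of_mem_porbit_of_comm _ (hcomm P) hxP hxω (mem_porbit_symm _ hω)
      exact hx1 (hH4 x hxP hxβ₁ h1)
  obtain ⟨Q, hQ⟩ := hall β₁
  obtain ⟨R, hR⟩ := hall β₂
  have hxQ : x ∈ (Q : Subgroup Γ) := hQ.mem_of_pow hxβ₁ (hpow P x hxP)
  have hyR : y ∈ (R : Subgroup Γ) := hR.mem_of_pow hyβ₂ (hpow P y hyP)
  have hβ₂β₁ : β₂ ≠ β₁ := fun e => hβ₂1 (e ▸ mem_porbit_self _ _)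
  obtain ⟨y', hy'Q, hy'1, hy'β₂⟩ := ps35_exists_ne_one_fixing hQ hΩ (hcard Q) hβ₂β₁
  have hy'R : y' ∈ (R : Subgroup Γ) := hR.mem_of_pow hy'β₂ (hpow Q y' hy'Q)
  have h1 : x • y' • α = y' • α := by
    rw [← mul_smul, hcomm Q x hxQ y' hy'Q, mul_smul, hP.1 x hxP]
  have h2 : y • y' • α = y' • α := by
    rw [← mul_smul, hcomm R y hyR y' hy'R, mul_smul, hP.1 y hyP]
  have h3 : y' • α = α := hxy _ h1 h2
  have hy'P : y' ∈ (P : Subgroup Γ) := hP.mem_of_pow h3 (hpow Q y' hy'Q)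
  exact hy'1 (hH4 y' hy'P (hQ.1 y' hy'Q) hy'β₂)

end

end Cfsg.Agent.Helper95
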