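import Mathlib
import Cfsg.Agent.Helper95.Syl35A

set_option autoImplicit false

/-!
# `35` is not a Sylow `17`-number, part B (helper95; port of helper71's `SylFifteenB/C`)
-/

namespace Cfsg.Agent.Helper95

open Cfsg.Agent.Helper71

section

variable {Γ : Type*} [Group Γ] {Ω : Type*} [MulAction Γ Ω] [Finite Ω]

/-- Facts about a Sylow subgroup of order `17`. -/
theorem ps35_sylow_facts [Fact (Nat.Prime 17)] {P : Sylow 17 Γ}
    (hP : Nat.card (P : Subgroup Γ) = 17) :
    (∀ a ∈ (P : Subgroup Γ), ∀ b ∈ (P : Subgroup Γ), a * b = b * a) ∧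
      (∀ g ∈ (P : Subgroup Γ), g ^ 17 = 1) := by
  constructor
  · intro a ha b hb
    have hc : IsCyclic ↥(P : Subgroup Γ) := isCyclic_of_prime_card hP
    let _ := IsCyclic.commGroup (α := ↥(P : Subgroup Γ))
    have h2 := mul_comm (⟨a, ha⟩ : ↥(P : Subgroup Γ)) ⟨b, hb⟩
    exact congrArg Subtype.val h2
  · intro g hg
    have h1 : (⟨g, hg⟩ : ↥(P : Subgroup Γ)) ^ Nat.card (P : Subgroup Γ) = 1 := pow_card_eq_one'
    rw [hP] at h1
    have h2 := congrArg Subtype.val h1
    simpa using h2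

/-- An element centralizing `P` (of order `17`) which maps some point `β ≠ α` into its own
`P`-orbit lies in `P`. -/
theorem ps35_mem_of_centralizes [Fact (Nat.Prime 17)] [FaithfulSMul Γ Ω] {P : Sylow 17 Γ}
    {α : Ω} (h : IsPointSylow P α) (hΩ : Nat.card Ω = 35) (hP : Nat.card (P : Subgroup Γ) = 17)
    {c : Γ} (hc : ∀ a ∈ (P : Subgroup Γ), c * a = a * c) {β : Ω} (hβ : β ≠ α)
    (hcβ : c • β ∈ porbit (P : Subgroup Γ) β) : c ∈ (P : Subgroup Γ) := by
  obtain ⟨β₂, hβ₂α, hβ₂1, hdec⟩ := ps35_exists_decomp h hΩ hβ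
  obtain ⟨hcomm, hpow⟩ := ps35_sylow_facts hP
  obtain ⟨k, hk, hkβ⟩ := hcβ
  -- `c' = k⁻¹ * c` fixes `β`
  obtain ⟨c', hc'def⟩ : ∃ c', c' = k⁻¹ * c := ⟨_, rfl⟩
  have hc' : ∀ a ∈ (P : Subgroup Γ), c' * a = a * c' := by
    intro a ha
    rw [hc'def, mul_assoc, hc a ha, ← mul_assoc, ← mul_assoc,
      hcomm k⁻¹ (Subgroup.inv_mem _ hk) a ha]
  have hc'β : c' • β = β := by rw [hc'def, mul_smul, ← hkβ, inv_smul_smul]
  have hc'α : c' • α = α := h.smul_eq_of_centralizes hc'
  have hc'O₁ : ∀ ω ∈ porbit (P : Subgroup Γ) β, c' • ω = ω := fun ω hω =>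
    smul_eq_of_mem_porbit_of_centralizes _ hc' hc'β hω
  have hc'β₂ : c' • β₂ ∈ porbit (P : Subgroup Γ) β₂ := by
    rcases hdec (c' • β₂) with e | e | e
    · exfalso
      apply hβ₂α
      exact MulAction.injective c' (e.trans hc'α.symm)
    · exfalso
      apply hβ₂1
      have e2 : c' • β₂ = β₂ := MulAction.injective c' (hc'O₁ _ e)
      rw [e2] at e
      exact e
    · exact e
  obtain ⟨k₂, hk₂, hk₂β⟩ := hc'β₂
  obtain ⟨d, hddef⟩ : ∃ d, d = k₂⁻¹ * c' := ⟨_, rfl⟩
  have hd : ∀ a ∈ (P : Subgroup Γ), d * a = a * d := by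
    intro a ha
    rw [hddef, mul_assoc, hc' a ha, ← mul_assoc, ← mul_assoc,
      hcomm k₂⁻¹ (Subgroup.inv_mem _ hk₂) a ha]
  have hdβ₂ : d • β₂ = β₂ := by rw [hddef, mul_smul, ← hk₂β, inv_smul_smul]
  have hdα : d • α = α := h.smul_eq_of_centralizes hd
  have hdO₂ : ∀ ω ∈ porbit (P : Subgroup Γ) β₂, d • ω = ω := fun ω hω =>
    smul_eq_of_mem_porbit_of_centralizes _ hd hdβ₂ hω
  have hdβ1 : d • β = k₂⁻¹ • β := by rw [hddef, mul_smul, hc'β]
  have hd17 : d ^ 17 = 1 := by
    apply FaithfulSMul.eq_of_smul_eq_smul (α := Ω)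
    intro ω
    rw [one_smul]
    have hpowfix : ∀ (n : ℕ) (ξ : Ω), d • ξ = ξ → d ^ n • ξ = ξ := by
      intro n ξ hξ
      induction n with
      | zero => simp
      | succ n ih => rw [pow_succ, mul_smul, hξ, ih]
    rcases hdec ω with rfl | hω | hω
    · exact hpowfix 17 _ hdα
    · have hd17c : ∀ a ∈ (P : Subgroup Γ), d ^ 17 * a = a * d ^ 17 := by
        intro a ha
        have hcm : Commute d a := hd a ha
        exact (hcm.pow_left 17).eq
      have hdβ : ∀ n : ℕ, d ^ n • β = (k₂⁻¹) ^ n • β := by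
        intro n
        induction n with
        | zero => simp
        | succ n ih =>
          have hcm : Commute (d ^ n) k₂⁻¹ :=
            Commute.pow_left (hd k₂⁻¹ (Subgroup.inv_mem _ hk₂)) n
          rw [pow_succ, mul_smul, hdβ1, ← mul_smul, hcm.eq, mul_smul, ih, ← mul_smul,
            ← pow_succ']
      have h17 : d ^ 17 • β = β := by rw [hdβ 17, inv_pow, hpow k₂ hk₂, inv_one, one_smul]
      exact smul_eq_of_mem_porbit_of_centralizes _ hd17c h17 hω
    · exact hpowfix 17 _ (hdO₂ ω hω)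
  have hdP : d ∈ (P : Subgroup Γ) := h.mem_of_pow hdα (k := 1) (by simpa using hd17)
  have e : c = k * (k₂ * d) := by rw [hddef, hc'def]; group
  rw [e]
  exact Subgroup.mul_mem _ hk (Subgroup.mul_mem _ hk₂ hdP)

end

/-- The sign of an involution with exactly one fixed point on `35` points is `-1`. -/
theorem ps35_sign_involution {Ω : Type*} [Fintype Ω] [DecidableEq Ω]
    (hΩ : Fintype.card Ω = 35) (τ : Equiv.Perm Ω) (hτ2 : τ ^ 2 = 1) (α : Ω)
    (hfix : ∀ ω : Ω, τ ω = ω ↔ ω = α) : Equiv.Perm.sign τ = -1 := by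
  have hne : τ ≠ 1 := by
    intro e
    have hcard : Fintype.card Ω ≤ 1 := by
      rw [Fintype.card_le_one_iff]
      intro a b
      have ha := (hfix a).mp (by rw [e]; rfl)
      have hb := (hfix b).mp (by rw [e]; rfl)
      rw [ha, hb]
    omega
  have hord : orderOf τ = 2 := orderOf_eq_prime hτ2 hne
  have hprime : (orderOf τ).Prime := by rw [hord]; exact Nat.prime_two
  obtain ⟨n, hn⟩ := Equiv.Perm.cycleType_prime_order hprime
  rw [hord] at hn
  have hsupp : τ.support = Finset.univ.erase α := by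
    ext ω
    rw [Equiv.Perm.mem_support, Finset.mem_erase]
    simp [hfix ω]
  have hsum := Equiv.Perm.sum_cycleType τ
  rw [hn, hsupp, Finset.card_erase_of_mem (Finset.mem_univ α), Finset.card_univ, hΩ] at hsum
  simp only [Multiset.sum_replicate, smul_eq_mul] at hsum
  have hn16 : n = 16 := by omega
  rw [Equiv.Perm.sign_of_cycleType, hn, hn16]
  simp only [Multiset.sum_replicate, Multiset.card_replicate, smul_eq_mul]
  norm_num

/-- If the centralizer of `P` is not contained in `P`, the group has a normal subgroup of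
index `2` (an involution with exactly one fixed point is an odd permutation). -/
theorem ps35_exists_index_two_of_centralizer {Γ : Type*} [Group Γ] {Ω : Type*}
    [MulAction Γ Ω] [Fintype Ω] [DecidableEq Ω] [Fact (Nat.Prime 17)] [FaithfulSMul Γ Ω]
    {P : Sylow 17 Γ} {α : Ω} (h : IsPointSylow P α) (hΩ : Nat.card Ω = 35)
    (hP : Nat.card (P : Subgroup Γ) = 17) {c : Γ}
    (hc : ∀ a ∈ (P : Subgroup Γ), c * a = a * c) (hcP : c ∉ (P : Subgroup Γ)) :
    ∃ L : Subgroup Γ, L.Normal ∧ L.index = 2 := by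
  obtain ⟨hcomm, hpow⟩ := ps35_sylow_facts hP
  obtain ⟨β₁, hβ₁⟩ := ps35_exists_ne hΩ α
  obtain ⟨β₂, hβ₂α, hβ₂1, hdec⟩ := ps35_exists_decomp h hΩ hβ₁
  have hcα : c • α = α := h.smul_eq_of_centralizes hc
  have h1 : c • β₁ ∈ porbit (P : Subgroup Γ) β₂ := by
    rcases hdec (c • β₁) with e | e | e
    · exact absurd (MulAction.injective c (e.trans hcα.symm)) hβ₁
    · exact absurd (ps35_mem_of_centralizes h hΩ hP hc hβ₁ e) hcP
    · exact e
  have h2 : c • β₂ ∈ porbit (P : Subgroup Γ) β₁ := by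
    rcases hdec (c • β₂) with e | e | e
    · exact absurd (MulAction.injective c (e.trans hcα.symm)) hβ₂α
    · exact e
    · exact absurd (ps35_mem_of_centralizes h hΩ hP hc hβ₂α e) hcP
  have hc2 : ∀ a ∈ (P : Subgroup Γ), c ^ 2 * a = a * c ^ 2 := fun a ha =>
    ((show Commute c a from hc a ha).pow_left 2).eq
  have hc2P : c ^ 2 ∈ (P : Subgroup Γ) := by
    apply ps35_mem_of_centralizes h hΩ hP hc2 hβ₁
    obtain ⟨k, hk, hkβ⟩ := h1
    rw [pow_two, mul_smul, ← hkβ, ← mul_smul, hc k hk, mul_smul]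
    exact smul_mem_porbit _ hk h2
  have ht : ∀ a ∈ (P : Subgroup Γ), c ^ 17 * a = a * c ^ 17 := fun a ha =>
    ((show Commute c a from hc a ha).pow_left 17).eq
  have htP : c ^ 17 ∉ (P : Subgroup Γ) := by
    intro hmem
    apply hcP
    have e : c = c ^ 17 * ((c ^ 2) ^ 8)⁻¹ := by group
    rw [e]
    exact Subgroup.mul_mem _ hmem (Subgroup.inv_mem _ (Subgroup.pow_mem _ hc2P 8))
  have ht2 : (c ^ 17) ^ 2 = 1 := by
    rw [← pow_mul, show 17 * 2 = 2 * 17 from rfl, pow_mul, hpow _ hc2P]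
  have htfix : ∀ ω : Ω, c ^ 17 • ω = ω ↔ ω = α := by
    intro ω
    constructor
    · intro hω
      by_contra hne
      apply htP
      apply ps35_mem_of_centralizes h hΩ hP ht hne
      rw [hω]; exact mem_porbit_self _ _
    · rintro rfl
      exact h.smul_eq_of_centralizes ht
  have hft : (Equiv.Perm.sign.comp (MulAction.toPermHom Γ Ω)) (c ^ 17) = -1 := by
    show Equiv.Perm.sign (MulAction.toPermHom Γ Ω (c ^ 17)) = -1
    refine ps35_sign_involution (by rw [← Nat.card_eq_fintype_card]; exact hΩ) _ ?_ α ?_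
    · rw [← map_pow, ht2, map_one]
    · intro ω
      exact htfix ω
  exact ⟨(Equiv.Perm.sign.comp (MulAction.toPermHom Γ Ω)).ker, MonoidHom.normal_ker _,
    index_ker_eq_two_of_neg_one _ _ hft⟩

/-- If `P` of order `17` is self-centralizing, then `|N(P)| = 17e` with `e ∣ 16`. -/
theorem ps35_card_normalizer {Γ : Type*} [Group Γ] [Finite Γ] [Fact (Nat.Prime 17)]
    {P : Sylow 17 Γ} (hP : Nat.card (P : Subgroup Γ) = 17)
    (hC : ∀ c : Γ, (∀ a ∈ (P : Subgroup Γ), c * a = a * c) → c ∈ (P : Subgroup Γ)) :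
    ∃ e : ℕ, e ∣ 16 ∧ Nat.card (Subgroup.normalizer ((P : Subgroup Γ) : Set Γ)) = 17 * e := by
  have hcyc : IsCyclic ↥(P : Subgroup Γ) := isCyclic_of_prime_card hP
  have key := Subgroup.card_dvd_of_injective _
    (QuotientGroup.kerLift_injective (P : Subgroup Γ).normalizerMonoidHom)
  rw [Subgroup.normalizerMonoidHom_ker, ← Subgroup.index, ← Subgroup.relIndex,
    IsCyclic.card_mulAut, hP] at key
  have hcent : Subgroup.centralizer ((P : Subgroup Γ) : Set Γ) = P := by
    apply le_antisymm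
    · intro c hc
      apply hC
      intro a ha
      exact ((Subgroup.mem_centralizer_iff.mp hc) a ha).symm
    · intro a ha
      rw [Subgroup.mem_centralizer_iff]
      intro b hb
      exact (ps35_sylow_facts hP).1 b hb a ha
  rw [hcent] at key
  refine ⟨(P : Subgroup Γ).relIndex (Subgroup.normalizer ((P : Subgroup Γ) : Set Γ)), ?_, ?_⟩
  · have htot : Nat.totient 17 = 16 := by decide
    rwa [htot] at key
  · have h1 := Subgroup.relIndex_mul_relIndex ⊥ (P : Subgroup Γ)
      (Subgroup.normalizer ((P : Subgroup Γ) : Set Γ)) bot_le Subgroup.le_normalizer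
    simp only [Subgroup.relIndex_bot_left] at h1
    rw [← h1, hP]

end Cfsg.Agent.Helper95
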