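import Mathlib
import Cfsg.Agent.Helper95.Syl35B

set_option autoImplicit false
set_option linter.style.haveILetI false

/-!
# `35` is not a Sylow `17`-number, part C (helper95)
-/

namespace Cfsg.Agent.Helper95

open Cfsg.Agent.Helper71

theorem ps35_factorization_two (m j : ℕ) (hm : ¬ 2 ∣ m) (hm0 : m ≠ 0) :
    (m * 2 ^ j).factorization 2 = j := by
  rw [Nat.factorization_mul hm0 (by positivity), Nat.Prime.factorization_pow Nat.prime_two]
  simp [Nat.factorization_eq_zero_of_not_dvd hm]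

/-- A group of order `595` has no self-centralizing Sylow `17`-subgroup. -/
theorem ps35_false_595 {Γ : Type*} [Group Γ] [Finite Γ] [Fact (Nat.Prime 17)] (P : Sylow 17 Γ)
    (hP : Nat.card (P : Subgroup Γ) = 17)
    (hC : ∀ c : Γ, (∀ a ∈ (P : Subgroup Γ), c * a = a * c) → c ∈ (P : Subgroup Γ))
    (hcard : Nat.card Γ = 595) : False := by
  have : Fact (Nat.Prime 5) := ⟨by norm_num⟩
  obtain ⟨S⟩ : Nonempty (Sylow 5 Γ) := inferInstance
  have hS : Nat.card (S : Subgroup Γ) = 5 := by
    obtain ⟨n, hn⟩ := IsPGroup.iff_card.mp S.isPGroup'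
    have h1 := Subgroup.card_mul_index (S : Subgroup Γ)
    have h2 : ¬ 5 ∣ (S : Subgroup Γ).index := S.not_dvd_index
    rw [hn, hcard] at h1
    rcases n with _ | _ | n
    · exfalso
      apply h2
      simp only [pow_zero, one_mul] at h1
      rw [h1]
      norm_num
    · simpa using hn
    · exfalso
      have h3 : 25 ∣ 595 := by
        rw [← h1]
        exact Dvd.dvd.mul_right (pow_dvd_pow 5 (show 2 ≤ n + 1 + 1 by omega)) _
      omega
  have hidx : (S : Subgroup Γ).index = 119 := by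
    have h1 := Subgroup.card_mul_index (S : Subgroup Γ)
    rw [hS, hcard] at h1
    omega
  have hn5 : Nat.card (Sylow 5 Γ) = 1 := by
    have h1 : Nat.card (Sylow 5 Γ) ∣ 119 := hidx ▸ Sylow.card_dvd_index S
    have h2 : Nat.card (Sylow 5 Γ) ≡ 1 [MOD 5] := card_sylow_modEq_one 5 Γ
    have key : ∀ d ∈ Nat.divisors 119, d ≡ 1 [MOD 5] → d = 1 := by decide
    exact key _ (Nat.mem_divisors.mpr ⟨h1, by norm_num⟩) h2
  have hNtop : Subgroup.normalizer ((S : Subgroup Γ) : Set Γ) = ⊤ := by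
    have h1 := Sylow.card_eq_index_normalizer S
    rw [hn5] at h1
    exact Subgroup.index_eq_one.mp h1.symm
  have hcyc : IsCyclic ↥(S : Subgroup Γ) := isCyclic_of_prime_card hS
  have key := Subgroup.card_dvd_of_injective _
    (QuotientGroup.kerLift_injective (S : Subgroup Γ).normalizerMonoidHom)
  rw [Subgroup.normalizerMonoidHom_ker, ← Subgroup.index, ← Subgroup.relIndex,
    IsCyclic.card_mulAut, hS] at key
  have htot : Nat.totient 5 = 4 := by decide
  rw [htot] at key
  have h3 : (Subgroup.centralizer ((S : Subgroup Γ) : Set Γ)).relIndex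
      (Subgroup.normalizer ((S : Subgroup Γ) : Set Γ)) ∣ 595 := by
    rw [← hcard]
    exact (Subgroup.relIndex_dvd_card _ _).trans (Subgroup.card_subgroup_dvd_card _)
  have h4 : (Subgroup.centralizer ((S : Subgroup Γ) : Set Γ)).relIndex
      (Subgroup.normalizer ((S : Subgroup Γ) : Set Γ)) = 1 := by
    have h5 := Nat.dvd_gcd key h3
    have h6 : Nat.gcd 4 595 = 1 := by decide
    rw [h6] at h5
    exact Nat.dvd_one.mp h5
  have hNC : Subgroup.normalizer ((S : Subgroup Γ) : Set Γ) ≤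
      Subgroup.centralizer ((S : Subgroup Γ) : Set Γ) := Subgroup.relIndex_eq_one.mp h4
  have hSP : (S : Subgroup Γ) ≤ P := by
    intro s hs
    apply hC
    intro a ha
    have ha' : a ∈ Subgroup.centralizer ((S : Subgroup Γ) : Set Γ) := by
      apply hNC
      rw [hNtop]
      exact Subgroup.mem_top a
    exact (Subgroup.mem_centralizer_iff.mp ha') s hs
  have h7 := Subgroup.card_dvd_of_le hSP
  rw [hS, hP] at h7
  omega

/-- Self-centralizing `P` of order `17` with `|N(P)| = 17e`, `e ∣ 16`, `e ≠ 1`, `|Γ| = 595e`: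
the Sylow `2`-subgroups are cyclic, so there is a normal `2`-complement. -/
theorem ps35_exists_normal_of_even {Γ : Type*} [Group Γ] [Finite Γ] [Fact (Nat.Prime 17)]
    (P : Sylow 17 Γ) (hP : Nat.card (P : Subgroup Γ) = 17)
    (hC : ∀ c : Γ, (∀ a ∈ (P : Subgroup Γ), c * a = a * c) → c ∈ (P : Subgroup Γ))
    (e : ℕ) (he : e ∣ 16) (he1 : e ≠ 1)
    (hN : Nat.card (Subgroup.normalizer ((P : Subgroup Γ) : Set Γ)) = 17 * e)
    (hcard : Nat.card Γ = 595 * e) :
    ∃ L : Subgroup Γ, L.Normal ∧ L.index ≠ 1 ∧ (L.index).Coprime 17 := by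
  have : Fact (Nat.Prime 2) := ⟨Nat.prime_two⟩
  obtain ⟨j, hj4, rfl⟩ : ∃ j ≤ 4, e = 2 ^ j :=
    (Nat.dvd_prime_pow Nat.prime_two).mp (he : e ∣ 2 ^ 4)
  have hj0 : j ≠ 0 := by
    rintro rfl
    exact he1 rfl
  obtain ⟨TN⟩ : Nonempty (Sylow 2 ↥(Subgroup.normalizer ((P : Subgroup Γ) : Set Γ))) :=
    inferInstance
  have hTN : Nat.card (TN : Subgroup ↥(Subgroup.normalizer ((P : Subgroup Γ) : Set Γ))) =
      2 ^ j := by
    rw [Sylow.card_eq_multiplicity, hN, ps35_factorization_two 17 j (by norm_num) (by norm_num)]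
  -- `TN` is cyclic
  have hcycP : IsCyclic ↥(P : Subgroup Γ) := isCyclic_of_prime_card hP
  have hcycZ : IsCyclic (ZMod (Nat.card ↥(P : Subgroup Γ)))ˣ := by
    rw [hP]
    infer_instance
  have hcycAut : IsCyclic (MulAut ↥(P : Subgroup Γ)) :=
    isCyclic_of_injective (IsCyclic.mulAutMulEquiv ↥(P : Subgroup Γ)).toMonoidHom
      (IsCyclic.mulAutMulEquiv ↥(P : Subgroup Γ)).injective
  have hinj : Function.Injective (((P : Subgroup Γ).normalizerMonoidHom).comp
      (TN : Subgroup ↥(Subgroup.normalizer ((P : Subgroup Γ) : Set Γ))).subtype) := by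
    rw [← MonoidHom.ker_eq_bot_iff, eq_bot_iff]
    intro x hx
    have h1 : (x : ↥(Subgroup.normalizer ((P : Subgroup Γ) : Set Γ))) ∈
        ((P : Subgroup Γ).normalizerMonoidHom).ker := hx
    rw [Subgroup.normalizerMonoidHom_ker, Subgroup.mem_subgroupOf] at h1
    have h2 : ((x : ↥(Subgroup.normalizer ((P : Subgroup Γ) : Set Γ))) : Γ) ∈
        (P : Subgroup Γ) :=
      hC _ (fun a ha => (Subgroup.mem_centralizer_iff.mp h1) a ha |>.symm)
    have h3 : ((x : ↥(Subgroup.normalizer ((P : Subgroup Γ) : Set Γ))) : Γ) ^ 17 = 1 :=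
      (ps35_sylow_facts hP).2 _ h2
    have h4 : x ^ 2 ^ j = 1 := by
      rw [← hTN]
      exact pow_card_eq_one'
    have h5 : ((x : ↥(Subgroup.normalizer ((P : Subgroup Γ) : Set Γ))) : Γ) ^ 2 ^ j = 1 := by
      have h6 := congrArg (fun y : ↥(TN : Subgroup ↥(Subgroup.normalizer
        ((P : Subgroup Γ) : Set Γ))) =>
          ((y : ↥(Subgroup.normalizer ((P : Subgroup Γ) : Set Γ))) : Γ)) h4
      simpa using h6
    have h7 := pow_gcd_eq_one.mpr ⟨h5, h3⟩
    have h8 : Nat.gcd (2 ^ j) 17 = 1 := Nat.Coprime.pow_left j (by norm_num)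
    rw [h8, pow_one] at h7
    rw [Subgroup.mem_bot]
    apply Subtype.ext
    apply Subtype.ext
    exact h7
  have hcycTN : IsCyclic ↥(TN : Subgroup ↥(Subgroup.normalizer ((P : Subgroup Γ) : Set Γ))) :=
    isCyclic_of_injective _ hinj
  -- transport to a Sylow `2`-subgroup of `Γ`
  obtain ⟨H, hHdef⟩ : ∃ H : Subgroup Γ, H = (TN : Subgroup ↥(Subgroup.normalizer
      ((P : Subgroup Γ) : Set Γ))).map (Subgroup.normalizer ((P : Subgroup Γ) : Set Γ)).subtype :=
    ⟨_, rfl⟩
  have hHcard : Nat.card H = 2 ^ j := by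
    rw [hHdef, Subgroup.card_map_of_injective (Subgroup.subtype_injective _), hTN]
  have hHcyc : IsCyclic ↥H := by
    rw [hHdef]
    exact isCyclic_of_surjective
      ((TN : Subgroup ↥(Subgroup.normalizer ((P : Subgroup Γ) : Set Γ))).equivMapOfInjective
        (Subgroup.normalizer ((P : Subgroup Γ) : Set Γ)).subtype
        (Subgroup.subtype_injective _)).toMonoidHom
      ((TN : Subgroup ↥(Subgroup.normalizer ((P : Subgroup Γ) : Set Γ))).equivMapOfInjective
        (Subgroup.normalizer ((P : Subgroup Γ) : Set Γ)).subtype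
        (Subgroup.subtype_injective _)).surjective
  have hH2 : IsPGroup 2 ↥H := IsPGroup.of_card hHcard
  obtain ⟨T, hHT⟩ := hH2.exists_le_sylow
  have hTcard : Nat.card (T : Subgroup Γ) = 2 ^ j := by
    rw [Sylow.card_eq_multiplicity, hcard,
      ps35_factorization_two 595 j (by norm_num) (by norm_num)]
  have hHeq : H = (T : Subgroup Γ) :=
    Subgroup.eq_of_le_of_card_ge hHT (by rw [hTcard, hHcard])
  have hTcyc : IsCyclic ↥(T : Subgroup Γ) := hHeq ▸ hHcyc
  have hmf : (Nat.card Γ).minFac = 2 := by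
    rw [Nat.minFac_eq_two_iff, hcard]
    exact Dvd.dvd.mul_left (dvd_pow_self 2 hj0) 595
  have hNC := IsCyclic.normalizer_le_centralizer hmf hTcyc
  have hcomp := MonoidHom.ker_transferSylow_isComplement' T hNC
  refine ⟨(MonoidHom.transferSylow T hNC).ker, MonoidHom.normal_ker _, ?_, ?_⟩
  · rw [hcomp.symm.index_eq_card, hTcard]
    intro h1
    have h2 : 2 ^ 1 ≤ 2 ^ j := Nat.pow_le_pow_right (by norm_num) (Nat.pos_of_ne_zero hj0)
    omega
  · rw [hcomp.symm.index_eq_card, hTcard]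
    exact Nat.Coprime.pow_left j (by norm_num)

/-- The self-centralizing case. -/
theorem ps35_exists_normal_of_centralizer_le {Γ : Type*} [Group Γ] [Finite Γ]
    {Ω : Type*} [MulAction Γ Ω] [Finite Ω] [Fact (Nat.Prime 17)] [MulAction.IsPretransitive Γ Ω]
    {P : Sylow 17 Γ} {α : Ω} (h : IsPointSylow P α) (hΩ : Nat.card Ω = 35)
    (hP : Nat.card (P : Subgroup Γ) = 17)
    (hC : ∀ c : Γ, (∀ a ∈ (P : Subgroup Γ), c * a = a * c) → c ∈ (P : Subgroup Γ)) :
    ∃ L : Subgroup Γ, L.Normal ∧ L.index ≠ 1 ∧ (L.index).Coprime 17 := by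
  obtain ⟨e, he16, heN⟩ := ps35_card_normalizer hP hC
  have hstab : MulAction.stabilizer Γ α = Subgroup.normalizer ((P : Subgroup Γ) : Set Γ) :=
    le_antisymm h.2.2 h.normalizer_le
  have hidx : (Subgroup.normalizer ((P : Subgroup Γ) : Set Γ)).index = 35 := by
    rw [← hstab, MulAction.index_stabilizer, MulAction.orbit_eq_univ, Set.ncard_univ, hΩ]
  have hcard : Nat.card Γ = 595 * e := by
    have h1 := Subgroup.card_mul_index (Subgroup.normalizer ((P : Subgroup Γ) : Set Γ))
    rw [hidx, heN] at h1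
    omega
  by_cases he1 : e = 1
  · subst he1
    exact (ps35_false_595 P hP hC (by rw [hcard])).elim
  · exact ps35_exists_normal_of_even P hP hC e he16 he1 heN hcard

/-- Main permutation-group lemma: a transitive group on `35` points in which every point `β`
has a Sylow `17`-subgroup fixing exactly `β` and normal in the stabilizer of `β` has a proper
normal subgroup of index prime to `17`. -/
theorem ps35_exists_normal_of_pointSylow {Γ : Type*} [Group Γ] [Finite Γ] {Ω : Type*}
    [MulAction Γ Ω] [Fintype Ω] [DecidableEq Ω] [Fact (Nat.Prime 17)] [FaithfulSMul Γ Ω]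
    [MulAction.IsPretransitive Γ Ω] (hΩ : Nat.card Ω = 35)
    (hall : ∀ β : Ω, ∃ P : Sylow 17 Γ, IsPointSylow P β) :
    ∃ L : Subgroup Γ, L.Normal ∧ L.index ≠ 1 ∧ (L.index).Coprime 17 := by
  have hne : Nonempty Ω := by
    by_contra hcon
    rw [not_nonempty_iff] at hcon
    rw [Nat.card_of_isEmpty] at hΩ
    omega
  obtain ⟨α⟩ := hne
  obtain ⟨P, hP⟩ := hall α
  obtain ⟨β₁, hβ₁⟩ := ps35_exists_ne hΩ α
  obtain ⟨k, hk⟩ : ∃ k, k = (Nat.card Γ).factorization 17 := ⟨_, rfl⟩
  have hcardall : ∀ Q : Sylow 17 Γ, Nat.card (Q : Subgroup Γ) = 17 ^ k := fun Q => by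
    rw [hk]; exact Sylow.card_eq_multiplicity Q
  have hk0 : k ≠ 0 := by
    intro e
    have h1 : Nat.card (P : Subgroup Γ) = 1 := by rw [hcardall P, e, pow_zero]
    have h2 : (P : Subgroup Γ) = ⊥ := Subgroup.card_eq_one.mp h1
    apply hβ₁
    apply hP.2.1
    intro g hg
    rw [h2, Subgroup.mem_bot] at hg
    rw [hg, one_smul]
  have hk2 : k ≤ 2 := by
    by_contra hcon
    push Not at hcon
    have h1 : 17 ^ 3 ∣ Nat.card Γ := by
      calc 17 ^ 3 ∣ 17 ^ k := pow_dvd_pow 17 hcon
        _ = Nat.card (P : Subgroup Γ) := (hcardall P).symm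
        _ ∣ Nat.card Γ := Subgroup.card_subgroup_dvd_card _
    have h2 : Nat.card Γ ∣ Nat.card (Equiv.Perm Ω) :=
      Subgroup.card_dvd_of_injective (MulAction.toPermHom Γ Ω) MulAction.toPerm_injective
    rw [Nat.card_perm, hΩ] at h2
    have h3 : 17 ^ 3 ∣ Nat.factorial 35 := h1.trans h2
    revert h3
    decide
  have hk12 : k = 1 ∨ k = 2 := by omega
  rcases hk12 with hk1 | hk2'
  · have hP17 : Nat.card (P : Subgroup Γ) = 17 := by rw [hcardall P, hk1, pow_one]
    by_cases hC : ∀ c : Γ, (∀ a ∈ (P : Subgroup Γ), c * a = a * c) → c ∈ (P : Subgroup Γ)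
    · exact ps35_exists_normal_of_centralizer_le hP hΩ hP17 hC
    · push Not at hC
      obtain ⟨c, hc, hcP⟩ := hC
      obtain ⟨L, hLn, hL2⟩ := ps35_exists_index_two_of_centralizer hP hΩ hP17 hc hcP
      exact ⟨L, hLn, by rw [hL2]; norm_num, by rw [hL2]; norm_num⟩
  · exfalso
    exact ps35_false_of_card_289 hΩ hall (fun Q => by rw [hcardall Q, hk2']; norm_num)

/-- A finite group with exactly `35` Sylow `17`-subgroups has a proper normal subgroup of index
prime to `17`. -/
theorem exists_normal_coprime_of_card_sylow_35 {G : Type*} [Group G] [Finite G]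
    [Fact (Nat.Prime 17)] (h35 : Nat.card (Sylow 17 G) = 35) :
    ∃ K : Subgroup G, K.Normal ∧ K.index ≠ 1 ∧ (K.index).Coprime 17 := by
  classical
  have : Fintype (Sylow 17 G) := Fintype.ofFinite _
  have key : ∀ (Γ : Subgroup (Equiv.Perm (Sylow 17 G))) (φ' : G →* Γ),
      Function.Surjective φ' → (∀ (g : G) (ω : Sylow 17 G), φ' g • ω = g • ω) →
      ∃ K : Subgroup G, K.Normal ∧ K.index ≠ 1 ∧ (K.index).Coprime 17 := by
    intro Γ φ' hφ' hsmul
    have : MulAction.IsPretransitive Γ (Sylow 17 G) := ⟨fun a b => by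
      obtain ⟨g, hg⟩ := MulAction.exists_smul_eq G a b
      exact ⟨φ' g, by rw [hsmul, hg]⟩⟩
    have hall : ∀ β : Sylow 17 G, ∃ P : Sylow 17 Γ, IsPointSylow P β := by
      intro Q
      refine ⟨Sylow.mapSurjective hφ' Q, ?_, ?_, ?_⟩
      · intro γ hγ
        rw [Sylow.coe_mapSurjective] at hγ
        obtain ⟨g, hg, rfl⟩ := hγ
        rw [hsmul]
        exact Sylow.smul_eq_iff_mem_normalizer.mpr (Subgroup.le_normalizer hg)
      · intro R hR
        have h1 : (Q : Subgroup G) ≤ Subgroup.normalizer ((R : Subgroup G) : Set G) := by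
          intro g hg
          refine Sylow.smul_eq_iff_mem_normalizer.mp ?_
          rw [← hsmul]
          apply hR
          rw [Sylow.coe_mapSurjective]
          exact Subgroup.mem_map_of_mem _ hg
        have h2 := Q.isPGroup'.inf_normalizer_sylow R
        have h3 : (Q : Subgroup G) ≤ R := by
          intro g hg
          have h4 : g ∈ (Q : Subgroup G) ⊓ (R : Subgroup G) := by
            rw [← h2]; exact ⟨hg, h1 hg⟩
          exact h4.2
        exact Sylow.ext (Q.is_maximal' R.isPGroup' h3)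
      · intro γ hγ
        obtain ⟨g, rfl⟩ := hφ' γ
        rw [MulAction.mem_stabilizer_iff, hsmul] at hγ
        have hγ' := Sylow.smul_eq_iff_mem_normalizer.mp hγ
        rw [Sylow.coe_mapSurjective]
        exact Subgroup.le_normalizer_map _ (Subgroup.mem_map_of_mem _ hγ')
    obtain ⟨L, hLn, hLidx, hLco⟩ := ps35_exists_normal_of_pointSylow h35 hall
    refine ⟨L.comap φ', hLn.comap φ', ?_, ?_⟩
    · rw [Subgroup.index_comap_of_surjective L hφ']; exact hLidx
    · rw [Subgroup.index_comap_of_surjective L hφ']; exact hLco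
  exact key _ (MulAction.toPermHom G (Sylow 17 G)).rangeRestrict
    (MonoidHom.rangeRestrict_surjective _) (fun g ω => rfl)

end Cfsg.Agent.Helper95
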