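import Cfsg.Agent.Helper95.AltOn

/-!
# A Sylow 3-subgroup of `Perm (Fin n)` inside `H` gives `⌊n/3⌋` disjoint 3-cycles of `H`
-/

set_option autoImplicit false
set_option linter.unusedSectionVars false

namespace Cfsg.Agent.Helper95

open Equiv Equiv.Perm

/-- The standard 3-cycles `(3i, 3i+1, 3i+2)`. -/
def stdTriples (n : ℕ) : Set (Perm (Fin n)) :=
  {g | ∃ a b c : Fin n, a.val % 3 = 0 ∧ b.val = a.val + 1 ∧ c.val = a.val + 2 ∧ g = cyc3 a b c}

theorem stdTriples_commute {n : ℕ} {g h : Perm (Fin n)} (hg : g ∈ stdTriples n)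
    (hh : h ∈ stdTriples n) : Commute g h := by
  obtain ⟨a, b, c, ha, hb, hc, rfl⟩ := hg
  obtain ⟨a', b', c', ha', hb', hc', rfl⟩ := hh
  by_cases e : a = a'
  · subst e
    have e1 : b = b' := Fin.ext (by omega)
    have e2 : c = c' := Fin.ext (by omega)
    subst e1 e2
    exact Commute.refl _
  · apply Disjoint.commute
    intro p
    have hne : a.val ≠ a'.val := fun h => e (Fin.ext h)
    by_cases hp : p = a ∨ p = b ∨ p = c
    · right
      apply cyc3_apply_of_ne
      · intro h
        have := congrArg Fin.val h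
        rcases hp with rfl | rfl | rfl <;> omega
      · intro h
        have := congrArg Fin.val h
        rcases hp with rfl | rfl | rfl <;> omega
      · intro h
        have := congrArg Fin.val h
        rcases hp with rfl | rfl | rfl <;> omega
    · left
      push Not at hp
      exact cyc3_apply_of_ne hp.1 hp.2.1 hp.2.2

theorem stdTriples_pow_three {n : ℕ} {g : Perm (Fin n)} (hg : g ∈ stdTriples n) : g ^ 3 = 1 := by
  obtain ⟨a, b, c, ha, hb, hc, rfl⟩ := hg
  have h3 : (cyc3 a b c).IsThreeCycle := by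
    apply isThreeCycle_cyc3
    · intro h; have := congrArg Fin.val h; omega
    · intro h; have := congrArg Fin.val h; omega
    · intro h; have := congrArg Fin.val h; omega
  rw [← h3.orderOf]
  exact pow_orderOf_eq_one _

theorem closure_stdTriples_commute {n : ℕ} {x y : Perm (Fin n)}
    (hx : x ∈ Subgroup.closure (stdTriples n)) (hy : y ∈ Subgroup.closure (stdTriples n)) :
    Commute x y := by
  have stepa : ∀ y ∈ Subgroup.closure (stdTriples n), ∀ s ∈ stdTriples n, Commute y s := by
    intro y hy s hs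
    induction hy using Subgroup.closure_induction with
    | mem t ht => exact stdTriples_commute ht hs
    | one => exact Commute.one_left _
    | mul a b _ _ ha hb => exact ha.mul_left hb
    | inv a _ ha => exact ha.inv_left
  induction hx using Subgroup.closure_induction with
  | mem t ht => exact (stepa y hy t ht).symm
  | one => exact Commute.one_left _
  | mul a b _ _ ha hb => exact ha.mul_left hb
  | inv a _ ha => exact ha.inv_left

theorem closure_stdTriples_pow_three {n : ℕ} {g : Perm (Fin n)}
    (hg : g ∈ Subgroup.closure (stdTriples n)) : g ^ 3 = 1 := by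
  induction hg using Subgroup.closure_induction with
  | mem t ht => exact stdTriples_pow_three ht
  | one => exact one_pow _
  | mul a b ha hb iha ihb =>
    rw [(closure_stdTriples_commute ha hb).mul_pow, iha, ihb, one_mul]
  | inv a _ ha => rw [inv_pow, ha, inv_one]

theorem closure_stdTriples_isPGroup (n : ℕ) :
    IsPGroup 3 (Subgroup.closure (stdTriples n)) := by
  intro g
  refine ⟨1, ?_⟩
  apply Subtype.ext
  simpa using closure_stdTriples_pow_three g.2

/-- If `H` contains a Sylow 3-subgroup of `Perm (Fin n)` then, up to a relabelling `π`, every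
point `π x` with `x < 3⌊n/3⌋` lies on a 3-cycle of `H`. -/
theorem exists_threeCycles_of_sylow (n : ℕ) (H : Subgroup (Perm (Fin n)))
    (hS : ∃ P : Sylow 3 (Perm (Fin n)), (P : Subgroup (Perm (Fin n))) ≤ H) :
    ∃ π : Perm (Fin n), ∀ x : Fin n, x.val < 3 * (n / 3) → ∃ y z, Has3 H (π x) y z := by
  obtain ⟨P, hPH⟩ := hS
  obtain ⟨Q, hQ⟩ := (closure_stdTriples_isPGroup n).exists_le_sylow
  obtain ⟨g, hg⟩ := MulAction.exists_smul_eq (Perm (Fin n)) P Q
  have hstd : ∀ s ∈ stdTriples n, g⁻¹ * s * g⁻¹⁻¹ ∈ H := by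
    intro s hs
    have h1 : s ∈ (Q : Subgroup (Perm (Fin n))) := hQ (Subgroup.subset_closure hs)
    rw [← hg, Sylow.coe_subgroup_smul, Subgroup.mem_pointwise_smul_iff_inv_smul_mem] at h1
    apply hPH
    simpa [MulAut.smul_def] using h1
  refine ⟨g⁻¹, fun x hx => ?_⟩
  have hi : x.val / 3 < n / 3 := by omega
  have h3 : 3 * (n / 3) ≤ n := Nat.mul_div_le n 3
  set a : Fin n := ⟨3 * (x.val / 3), by omega⟩ with ha
  set b : Fin n := ⟨3 * (x.val / 3) + 1, by omega⟩ with hb
  set c : Fin n := ⟨3 * (x.val / 3) + 2, by omega⟩ with hc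
  have hab : a ≠ b := by intro h; have := congrArg Fin.val h; simp [ha, hb] at this
  have hac : a ≠ c := by intro h; have := congrArg Fin.val h; simp [ha, hc] at this
  have hbc : b ≠ c := by intro h; have := congrArg Fin.val h; simp [hb, hc] at this
  have hmem : cyc3 a b c ∈ stdTriples n := ⟨a, b, c, by simp [ha], by simp [ha, hb], by simp [ha, hc], rfl⟩
  have hH := hstd _ hmem
  rw [conj_cyc3] at hH
  have hhas : Has3 H (g⁻¹ a) (g⁻¹ b) (g⁻¹ c) :=
    ⟨fun e => hab (g⁻¹.injective e), fun e => hac (g⁻¹.injective e),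
      fun e => hbc (g⁻¹.injective e), hH⟩
  have hx3 : x.val % 3 = 0 ∨ x.val % 3 = 1 ∨ x.val % 3 = 2 := by omega
  rcases hx3 with h | h | h
  · have : x = a := Fin.ext (by simp [ha]; omega)
    rw [this]
    exact ⟨_, _, hhas⟩
  · have : x = b := Fin.ext (by simp [hb]; omega)
    rw [this]
    exact ⟨_, _, hhas.rot⟩
  · have : x = c := Fin.ext (by simp [hc]; omega)
    rw [this]
    exact ⟨_, _, hhas.rot.rot⟩

end Cfsg.Agent.Helper95
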