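/-
Helper library of seat helper95: the Thompson–Wielandt setting for a primitive permutation group:
the index bound `|G_a : A₂| ∣ d! ((d-1)!)^d` (Wielandt) and the `TWPair` of two point stabilisers.
-/
import Cfsg.Agent.Helper95.TWConj

set_option autoImplicit false

namespace Cfsg.Agent.Helper95

open Cfsg Subgroup MulAction

section TWPerm

variable {G Ω : Type*} [Group G] [MulAction G Ω]

/-- If `K` stabilises each of the sets `T i` and every element of `K` fixing all of them pointwise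
lies in `F`, then `|K : K ∩ F|` divides `∏ |T i|!`. -/
theorem tw_relIndex_dvd_prod_factorial [Finite Ω] {ι : Type*} [Fintype ι] (K F : Subgroup G)
    (T : ι → Set Ω) (hT : ∀ i, ∀ k ∈ K, ∀ t ∈ T i, k • t ∈ T i)
    (hF : ∀ k ∈ K, (∀ i, ∀ t ∈ T i, k • t = t) → k ∈ F) :
    F.relIndex K ∣ ∏ i, (Nat.card (T i)).factorial := by
  let S : ι → SubMulAction ↥K Ω := fun i =>
    { carrier := T i
      smul_mem' := fun k t ht => hT i k k.2 t ht }
  let Φ : ↥K →* (∀ i, Equiv.Perm ↥(S i)) :=
    MonoidHom.pi (fun i => MulAction.toPermHom ↥K ↥(S i))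
  have hker : Φ.ker ≤ F.subgroupOf K := by
    intro k hk
    rw [MonoidHom.mem_ker] at hk
    rw [mem_subgroupOf]
    apply hF k k.2
    intro i t ht
    have h1 := congrFun hk i
    have h2 := congrArg (fun σ : Equiv.Perm ↥(S i) => ((σ ⟨t, ht⟩ : ↥(S i)) : Ω)) h1
    simpa [Φ, Subgroup.smul_def] using h2
  have e : ∀ i, Nat.card (Equiv.Perm ↥(S i)) = (Nat.card (T i)).factorial := fun i =>
    Nat.card_perm
  calc F.relIndex K = (F.subgroupOf K).index := rfl
    _ ∣ Φ.ker.index := Subgroup.index_dvd_of_le hker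
    _ = Nat.card Φ.range := Subgroup.index_ker Φ
    _ ∣ Nat.card (∀ i, Equiv.Perm ↥(S i)) := Subgroup.card_subgroup_dvd_card _
    _ = ∏ i, Nat.card (Equiv.Perm ↥(S i)) := Nat.card_pi
    _ = ∏ i, (Nat.card (T i)).factorial := Finset.prod_congr rfl (fun i _ => e i)

theorem tw_card_orbit_eq_relIndex (a b : Ω) :
    Nat.card (orbit (stabilizer G a) b) = (stabilizer G b).relIndex (stabilizer G a) := by
  have h1 := MulAction.index_stabilizer (stabilizer G a) b
  have h2 : stabilizer (stabilizer G a) b = (stabilizer G b).subgroupOf (stabilizer G a) := by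
    ext k
    simp [mem_subgroupOf, mem_stabilizer_iff, Subgroup.smul_def]
  rw [Nat.card_coe_set_eq, ← h1, h2]
  rfl

theorem tw_relIndex_comm [Finite G] {H K : Subgroup G} (h : Nat.card H = Nat.card K) :
    H.relIndex K = K.relIndex H := by
  have e1 : Nat.card ↥(H ⊓ K) * H.relIndex K = Nat.card K := by
    rw [← inf_relIndex_right, relIndex,
      ← Nat.card_congr (subgroupOfEquivOfLe (inf_le_right : H ⊓ K ≤ K)).toEquiv]
    exact card_mul_index _
  have e2 : Nat.card ↥(H ⊓ K) * K.relIndex H = Nat.card H := by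
    rw [← inf_relIndex_left, relIndex,
      ← Nat.card_congr (subgroupOfEquivOfLe (inf_le_left : H ⊓ K ≤ H)).toEquiv]
    exact card_mul_index _
  have hpos : 0 < Nat.card ↥(H ⊓ K) := Nat.card_pos
  have : Nat.card ↥(H ⊓ K) * H.relIndex K = Nat.card ↥(H ⊓ K) * K.relIndex H := by
    rw [e1, e2, h]
  exact Nat.eq_of_mul_eq_mul_left hpos this

theorem tw_card_stabilizer_eq [Finite G] [IsPretransitive G Ω] (a c : Ω) :
    Nat.card (stabilizer G a) = Nat.card (stabilizer G c) := by
  obtain ⟨g, rfl⟩ := exists_smul_eq G a c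
  rw [stabilizer_smul_eq_stabilizer_map_conj]
  exact (card_map_of_injective (MulAut.conj g).injective).symm

/-- Wielandt's index bound. -/
theorem tw_index_bound [Finite G] [Finite Ω] [IsPretransitive G Ω] (a b : Ω)
    (A₁ B₁ A₂ : Subgroup G) (ha1 : TWCore (stabilizer G a) (stabilizer G b) A₁)
    (hb1 : TWCore (stabilizer G b) (stabilizer G a) B₁) (ha2 : TWCore (stabilizer G a) B₁ A₂) :
    A₂.relIndex (stabilizer G a) ∣ (Nat.card (orbit (stabilizer G a) b)).factorial *
      ((Nat.card (orbit (stabilizer G a) b) - 1).factorial) ^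
        (Nat.card (orbit (stabilizer G a) b)) := by
  classical
  set Δ := orbit (stabilizer G a) b with hΔ
  set d := Nat.card Δ with hd
  have hA₁fix : ∀ k ∈ A₁, ∀ c ∈ Δ, k • c = c := by
    rintro k hk c ⟨h, rfl⟩
    have h1 : (h : G)⁻¹ * k * (h : G) ∈ A₁ := tw_conj_mem' ha1.norm h.2 hk
    have h2 : ((h : G)⁻¹ * k * (h : G)) • b = b := mem_stabilizer_iff.mp (ha1.le' h1)
    show k • ((h : G) • b) = (h : G) • b
    calc k • ((h : G) • b) = (h : G) • (((h : G)⁻¹ * k * (h : G)) • b) := by simp [mul_smul]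
      _ = (h : G) • b := by rw [h2]
  have step1 : A₁.relIndex (stabilizer G a) ∣ d.factorial := by
    have := tw_relIndex_dvd_prod_factorial (ι := Unit) (stabilizer G a) A₁ (fun _ => Δ) ?_ ?_
    · rw [Fintype.prod_unique] at this
      exact this
    · rintro _ k hk t ⟨h, rfl⟩
      exact ⟨⟨k, hk⟩ * h, by simp [mul_smul, Subgroup.smul_def]⟩
    · intro k hk hfix
      apply ha1.max k hk
      intro h hh
      rw [mem_stabilizer_iff]
      have hc : h⁻¹ • b ∈ Δ := ⟨⟨h⁻¹, inv_mem hh⟩, rfl⟩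
      have := hfix () _ hc
      calc (h * k * h⁻¹) • b = h • (k • (h⁻¹ • b)) := by simp [mul_smul]
        _ = h • (h⁻¹ • b) := by rw [this]
        _ = b := by simp
  have hcard : ∀ c ∈ Δ, Nat.card (orbit (stabilizer G c) a) = d := by
    intro c hc
    rw [tw_card_orbit_eq_relIndex, tw_relIndex_comm (tw_card_stabilizer_eq a c),
      ← tw_card_orbit_eq_relIndex, orbit_eq_iff.mpr hc]
  have step2 : A₂.relIndex A₁ ∣ ((d - 1).factorial) ^ d := by
    let _ : Fintype ↥Δ := Fintype.ofFinite _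
    have := tw_relIndex_dvd_prod_factorial (ι := ↥Δ) A₁ A₂
      (fun c => orbit (stabilizer G (c : Ω)) a \ {a}) ?_ ?_
    · have e : ∀ c : ↥Δ, Nat.card ↥(orbit (stabilizer G (c : Ω)) a \ {a}) = d - 1 := by
        intro c
        rw [Nat.card_coe_set_eq, Set.ncard_sdiff_singleton_of_mem (mem_orbit_self a),
          ← Nat.card_coe_set_eq, hcard c c.2]
      simp only [e] at this
      rwa [Finset.prod_const, Finset.card_univ, ← Nat.card_eq_fintype_card] at this
    · intro c k hk t ht
      have hkc : k ∈ stabilizer G (c : Ω) := mem_stabilizer_iff.mpr (hA₁fix k hk c c.2)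
      have hka : k • a = a := mem_stabilizer_iff.mp (ha1.le hk)
      refine ⟨?_, ?_⟩
      · obtain ⟨h, rfl⟩ := ht.1
        exact ⟨⟨k, hkc⟩ * h, by simp [mul_smul, Subgroup.smul_def]⟩
      · intro hkt
        apply ht.2
        have hkt' : k • t = a := hkt
        have : k • t = k • a := by rw [hka]; exact hkt'
        exact MulAction.injective k this
    · intro k hk hfix
      apply ha2.max k (ha1.le hk)
      intro h hh
      have hyA : h * k * h⁻¹ ∈ A₁ := tw_conj_mem ha1.norm hh hk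
      apply hb1.max _ (ha1.le' hyA)
      intro m hm
      rw [mem_stabilizer_iff]
      have hc : h⁻¹ • b ∈ Δ := ⟨⟨h⁻¹, inv_mem hh⟩, rfl⟩
      have hmb : m⁻¹ • b = b := by
        rw [inv_smul_eq_iff]; exact (mem_stabilizer_iff.mp hm).symm
      have hha : h • a = a := mem_stabilizer_iff.mp hh
      have he_orb : h⁻¹ • m⁻¹ • a ∈ orbit (stabilizer G (h⁻¹ • b)) a := by
        refine ⟨⟨h⁻¹ * m⁻¹ * h, ?_⟩, ?_⟩
        · rw [mem_stabilizer_iff]
          simp [mul_smul, hmb]
        · show (h⁻¹ * m⁻¹ * h) • a = h⁻¹ • m⁻¹ • a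
          simp [mul_smul, hha]
      have hke : k • (h⁻¹ • m⁻¹ • a) = h⁻¹ • m⁻¹ • a := by
        by_cases hea : h⁻¹ • m⁻¹ • a = a
        · rw [hea]; exact mem_stabilizer_iff.mp (ha1.le hk)
        · exact hfix ⟨_, hc⟩ _ ⟨he_orb, hea⟩
      calc (m * (h * k * h⁻¹) * m⁻¹) • a = m • h • k • (h⁻¹ • m⁻¹ • a) := by simp [mul_smul]
        _ = m • h • (h⁻¹ • m⁻¹ • a) := by rw [hke]
        _ = a := by simp
  have hA₂A₁ : A₂ ≤ A₁ := ha1.le_of ha2.le (ha2.le'.trans hb1.le) ha2.norm
  have := Nat.mul_dvd_mul step2 step1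
  rw [Subgroup.relIndex_mul_relIndex A₂ A₁ _ hA₂A₁ ha1.le] at this
  rwa [mul_comm] at this

/-- Two point stabilisers of a faithful primitive group form a `TWPair`. -/
theorem twPair_of_preprimitive [Finite G] [FaithfulSMul G Ω] (hprim : IsPreprimitive G Ω)
    (a b : Ω) (h2 : 2 ≤ Nat.card (orbit (stabilizer G a) b)) (A₁ B₁ A₂ B₂ : Subgroup G)
    (hA₁ : A₁ = ((stabilizer G a ⊓ stabilizer G b).subgroupOf (stabilizer G a)).normalCore.map
      (stabilizer G a).subtype)
    (hB₁ : B₁ = ((stabilizer G a ⊓ stabilizer G b).subgroupOf (stabilizer G b)).normalCore.map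
      (stabilizer G b).subtype)
    (hA₂ : A₂ = ((A₁ ⊓ B₁).subgroupOf (stabilizer G a)).normalCore.map (stabilizer G a).subtype)
    (hB₂ : B₂ = ((A₁ ⊓ B₁).subgroupOf (stabilizer G b)).normalCore.map (stabilizer G b).subtype) :
    TWPair (stabilizer G a) (stabilizer G b) A₁ B₁ A₂ B₂ := by
  have := hprim.toIsPretransitive
  have hne : stabilizer G a ≠ stabilizer G b := by
    intro e
    have h1 : orbit (stabilizer G a) b = {b} := by
      ext c
      constructor
      · rintro ⟨h, rfl⟩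
        have hb : (h : G) ∈ stabilizer G b := e ▸ h.2
        exact mem_stabilizer_iff.mp hb
      · rintro rfl
        exact mem_orbit_self _
    rw [h1] at h2
    simp at h2
  have hab : a ≠ b := fun e => hne (by rw [e])
  have : Nontrivial Ω := ⟨⟨a, b, hab⟩⟩
  obtain ⟨g, hg⟩ := exists_smul_eq G a b
  have hconj : stabilizer G b = (stabilizer G a).map (MulAut.conj g).toMonoidHom := by
    rw [← hg, stabilizer_smul_eq_stabilizer_map_conj]
  have hmax : IsCoatom (stabilizer G a) := (isCoatom_stabilizer_iff_preprimitive G a).mpr hprim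
  have hcore : (stabilizer G a).normalCore = ⊥ := by
    rw [eq_bot_iff]
    intro x hx
    rw [mem_bot]
    apply FaithfulSMul.eq_of_smul_eq_smul (α := Ω)
    intro c
    obtain ⟨k, rfl⟩ := exists_smul_eq G a c
    have h1 : k⁻¹ * x * k⁻¹⁻¹ ∈ stabilizer G a := hx k⁻¹
    have h2 : (k⁻¹ * x * k) • a = a := by simpa using mem_stabilizer_iff.mp h1
    calc x • k • a = k • (k⁻¹ * x * k) • a := by simp [mul_smul]
      _ = k • a := by rw [h2]
      _ = (1 : G) • k • a := by simp
  exact twPair_of_conj _ _ hmax g hconj hne hcore A₁ B₁ A₂ B₂ hA₁ hB₁ hA₂ hB₂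

/-- Summary for the Wielandt-type statements. -/
theorem tw_perm_main [Finite G] [Finite Ω] [FaithfulSMul G Ω] (hprim : IsPreprimitive G Ω)
    (a b : Ω) (d : ℕ) (hd : Nat.card (orbit (stabilizer G a) b) = d) (h2 : 2 ≤ d) :
    ∃ A₁ B₁ A₂ B₂ : Subgroup G, TWPair (stabilizer G a) (stabilizer G b) A₁ B₁ A₂ B₂ ∧
      (A₂ = ⊥ ∨ B₂ = ⊥ → Nat.card (stabilizer G a) ∣ d.factorial * ((d - 1).factorial) ^ d) ∧
      A₂.relIndex (stabilizer G a) ∣ d.factorial * ((d - 1).factorial) ^ d := by
  have := hprim.toIsPretransitive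
  refine ⟨_, _, _, _, twPair_of_preprimitive hprim a b (hd ▸ h2) _ _ _ _ rfl rfl rfl rfl, ?_, ?_⟩
  · have hpair := twPair_of_preprimitive hprim a b (hd ▸ h2) _ _ _ _ rfl rfl rfl rfl
    rintro (hA | hB)
    · have h := tw_index_bound a b _ _ _ hpair.a1 hpair.b1 hpair.a2
      rw [hA, relIndex_bot_left, hd] at h
      exact h
    · have h := tw_index_bound b a _ _ _ hpair.b1 hpair.a1 hpair.b2
      have hd' : Nat.card (orbit (stabilizer G b) a) = d := by
        rw [tw_card_orbit_eq_relIndex, tw_relIndex_comm (tw_card_stabilizer_eq a b),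
          ← tw_card_orbit_eq_relIndex, hd]
      rw [hB, relIndex_bot_left, hd', ← tw_card_stabilizer_eq a b] at h
      exact h
  · have hpair := twPair_of_preprimitive hprim a b (hd ▸ h2) _ _ _ _ rfl rfl rfl rfl
    have h := tw_index_bound a b _ _ _ hpair.a1 hpair.b1 hpair.a2
    rw [hd] at h
    exact h

end TWPerm

end Cfsg.Agent.Helper95
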