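/-
Helper library of seat helper95: in a `TWPair`, if `O_r(M₁ ∩ M₂)` fixes the whole suborbit
(lies in `A₁`) then it is trivial.
-/
import Cfsg.Agent.Helper95.TWPerm

set_option autoImplicit false

namespace Cfsg.Agent.Helper95

open Cfsg Subgroup

section TWFit

variable {G : Type*} [Group G]

/-- `O_p(A)` is normalised by every subgroup normalising `A`. -/
theorem le_normalizer_pcG_of_normal {p : ℕ} {A M : Subgroup G}
    (hMA : M ≤ normalizer (A : Set G)) : M ≤ normalizer ((pcG p A : Subgroup G) : Set G) := by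
  apply tw_le_normalizer_of_conj
  intro m hm x hx
  have hZ : (pcG p A).map (MulAut.conj m).toMonoidHom ≤ pcG p A := by
    apply le_pcG_of_normal ((pcG_isPGroup p A).map _)
    · rintro _ ⟨y, hy, rfl⟩
      have := tw_conj_mem hMA hm (pcG_le p A hy)
      simpa using this
    · apply tw_le_normalizer_of_conj
      rintro a ha _ ⟨y, hy, rfl⟩
      have ha' : m⁻¹ * a * m ∈ A := tw_conj_mem' hMA hm ha
      have hy' : (m⁻¹ * a * m) * y * (m⁻¹ * a * m)⁻¹ ∈ pcG p A :=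
        tw_conj_mem (le_normalizer_pcG p A) ha' hy
      refine ⟨_, hy', ?_⟩
      simp only [MulEquiv.coe_toMonoidHom, MulAut.conj_apply]
      group
  exact hZ ⟨x, hx, by simp⟩

variable {M₁ M₂ A₁ B₁ A₂ B₂ : Subgroup G}

theorem TWPair.pcG_inf_eq_bot [Finite G] {r : ℕ} [Fact r.Prime]
    (h : TWPair M₁ M₂ A₁ B₁ A₂ B₂) (hY : pcG r (M₁ ⊓ M₂) ≤ A₁) : pcG r (M₁ ⊓ M₂) = ⊥ := by
  by_contra hne
  have hYp := pcG_isPGroup r (M₁ ⊓ M₂)
  have hYD := pcG_le r (M₁ ⊓ M₂)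
  have hDN := le_normalizer_pcG r (M₁ ⊓ M₂)
  have hA₁D : A₁ ≤ M₁ ⊓ M₂ := le_inf h.a1.le h.a1.le'
  have e : pcG r (M₁ ⊓ M₂) = pcG r A₁ := by
    apply le_antisymm
    · exact le_pcG_of_normal hYp hY (hA₁D.trans hDN)
    · exact le_pcG_of_chain (pcG_isPGroup r A₁) (pcG_le r A₁) hA₁D (le_normalizer_pcG r A₁)
        (inf_le_left.trans h.a1.norm)
  have hM₁N : M₁ ≤ normalizer ((pcG r (M₁ ⊓ M₂) : Subgroup G) : Set G) := by
    rw [e]; exact le_normalizer_pcG_of_normal h.a1.norm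
  have hN := h.n1 _ hne (hYD.trans inf_le_left) hM₁N
  have hR₂ : pcG r M₂ ⊓ M₁ ≤ pcG r (M₁ ⊓ M₂) := by
    apply le_pcG_of_normal ((pcG_isPGroup r M₂).to_le inf_le_left)
    · exact le_inf inf_le_right (inf_le_left.trans (pcG_le r M₂))
    · exact tw_le_normalizer_inf (inf_le_right.trans (le_normalizer_pcG r M₂))
        (inf_le_left.trans le_normalizer)
  have hle : pcG r M₂ ≤ pcG r (M₁ ⊓ M₂) :=
    le_of_inf_normalizer_le (pcG_isPGroup r M₂) hYp
      ((hYD.trans inf_le_right).trans (le_normalizer_pcG r M₂))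
      (fun x hx => hR₂ (Subgroup.mem_inf.mpr ⟨(Subgroup.mem_inf.mp hx).1,
        hN (Subgroup.mem_inf.mp hx).2⟩))
  have hY₁ : pcG r (M₁ ⊓ M₂) ≤ pcG r M₁ := le_pcG_of_normal hYp (hYD.trans inf_le_left) hM₁N
  have heq : pcG r M₂ = pcG r M₁ := eq_of_le_of_card_ge (hle.trans hY₁) (h.cq r).le
  have hbot : pcG r M₁ = ⊥ := by
    refine h.key (pcG_le r M₁) (le_normalizer_pcG r M₁) ?_
    rw [← heq]
    exact le_normalizer_pcG r M₂
  rw [hbot] at hY₁
  exact hne (eq_bot_iff.mpr hY₁)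

end TWFit

end Cfsg.Agent.Helper95
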